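import Mathlib
import Cfsg.Prelude.Def_Solvable
import Cfsg.Agent.Lib.H1.Solv
import Cfsg.Agent.Lib.H13.Coprime
import Cfsg.Agent.Lib.H2.GenCent
import Cfsg.Agent.Lib.H3.UniqueSub

/-!
Finite groups all of whose Sylow subgroups are abelian and which have a subgroup of odd order and
`2`-power index are solvable (given the odd order theorem).
-/

set_option autoImplicit false

open Subgroup

universe u

namespace H72.HallAbel

/-- all `p`-subgroups are abelian -/
def AG (G : Type*) [Group G] : Prop :=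
  ∀ p : ℕ, p.Prime → ∀ Q : Subgroup G, IsPGroup p Q → ∀ x ∈ Q, ∀ y ∈ Q, x * y = y * x

theorem AG.subgroup {G : Type*} [Group G] (h : AG G) (H : Subgroup G) : AG H := by
  intro p hp Q hQ x hx y hy
  have := h p hp (Q.map H.subtype) (hQ.map _) x (mem_map_of_mem _ hx) y (mem_map_of_mem _ hy)
  exact Subtype.ext this

theorem AG.of_surjective {G K : Type*} [Group G] [Finite G] [Group K] (h : AG G) (f : G →* K)
    (hf : Function.Surjective f) : AG K := by
  intro p hp Q hQ x hx y hy
  haveI := Fact.mk hp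
  obtain ⟨S, hS⟩ := hQ.exists_le_sylow
  obtain ⟨P, hP⟩ := Sylow.mapSurjective_surjective hf p S
  have hx' : x ∈ (S : Subgroup K) := hS hx
  have hy' : y ∈ (S : Subgroup K) := hS hy
  rw [← hP, Sylow.coe_mapSurjective] at hx' hy'
  obtain ⟨a, ha, rfl⟩ := hx'
  obtain ⟨b, hb, rfl⟩ := hy'
  rw [← map_mul, h p hp P P.2 a ha b hb, map_mul]

theorem AG.of_sylow {G : Type*} [Group G]
    (hA : ∀ (p : ℕ) [Fact p.Prime] (P : Sylow p G), IsMulCommutative (P : Subgroup G)) : AG G := by
  intro p hp Q hQ x hx y hy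
  haveI := Fact.mk hp
  obtain ⟨S, hS⟩ := hQ.exists_le_sylow
  haveI := hA p S
  have := (hA p S).is_comm.comm ⟨x, hS hx⟩ ⟨y, hS hy⟩
  exact congrArg Subtype.val this

/-- the induction hypothesis -/
def IH (n : ℕ) : Prop := ∀ (K : Type u) [Group K] [Finite K], Nat.card K < n → AG K →
  ∀ H : Subgroup K, Odd (Nat.card H) → (∃ c, H.index = 2 ^ c) → Group.IsSolvable K

section basic

variable {G : Type u} [Group G] [Finite G]

theorem factor {H T : Subgroup G} (hc : Nat.card H * Nat.card T = Nat.card G)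
    (hco : (Nat.card H).Coprime (Nat.card T)) :
    (∀ g : G, ∃ h ∈ H, ∃ t ∈ T, g = h * t) ∧ (∀ x ∈ H, x ∈ T → x = 1) := by
  have h1 : IsComplement' H T := isComplement'_of_coprime hc hco
  constructor
  · intro g
    obtain ⟨⟨h, t⟩, hht, -⟩ := h1.existsUnique g
    exact ⟨h, h.2, t, t.2, hht.symm⟩
  · intro x hx hxT
    have := h1.disjoint
    rw [disjoint_iff] at this
    have h2 : x ∈ H ⊓ T := ⟨hx, hxT⟩
    rwa [this, mem_bot] at h2

theorem isComplement_sub {H T : Subgroup G} (hd : ∀ x ∈ H, x ∈ T → x = 1) (Y : Subgroup G)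
    (hY : ∀ y ∈ Y, ∃ h ∈ H, ∃ t ∈ T, h ∈ Y ∧ t ∈ Y ∧ y = h * t) :
    IsComplement' (H.subgroupOf Y) (T.subgroupOf Y) := by
  apply isComplement'_of_disjoint_and_mul_eq_univ
  · rw [disjoint_iff, eq_bot_iff]
    rintro x ⟨h1, h2⟩
    rw [mem_bot]
    exact Subtype.ext (hd x h1 h2)
  · rw [Set.eq_univ_iff_forall]
    rintro ⟨y, hy⟩
    obtain ⟨h, hh, t, ht, hhY, htY, hyht⟩ := hY y hy
    exact ⟨⟨h, hhY⟩, hh, ⟨t, htY⟩, ht, Subtype.ext hyht.symm⟩

theorem solvable_sub (hIH : IH.{u} (Nat.card G)) (hAG : AG G) {H T : Subgroup G} (hT : IsPGroup 2 T)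
    (hHo : Odd (Nat.card H))
    (hd : ∀ x ∈ H, x ∈ T → x = 1) (Y : Subgroup G) (hYt : Y ≠ ⊤)
    (hY : ∀ y ∈ Y, ∃ h ∈ H, ∃ t ∈ T, h ∈ Y ∧ t ∈ Y ∧ y = h * t) : Group.IsSolvable Y := by
  have h1 := isComplement_sub hd Y hY
  have hlt : Nat.card Y < Nat.card G := by
    refine lt_of_le_of_ne (Subgroup.card_le_card_group Y) ?_
    intro h
    exact hYt (Subgroup.eq_top_of_card_eq Y h)
  refine hIH Y hlt (hAG.subgroup Y) (H.subgroupOf Y) ?_ ?_
  · have h2 : Nat.card (H.subgroupOf Y) ∣ Nat.card H := by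
      have e : Nat.card (H.subgroupOf Y) = Nat.card ((H.subgroupOf Y).map Y.subtype) :=
        Nat.card_congr (Subgroup.equivMapOfInjective _ Y.subtype Y.subtype_injective).toEquiv
      rw [e]
      apply Subgroup.card_dvd_of_le
      rintro _ ⟨x, hx, rfl⟩
      exact hx
    exact hHo.of_dvd_nat h2
  · have h2 : (H.subgroupOf Y).index = Nat.card (T.subgroupOf Y) := h1.symm.index_eq_card
    have h3 : IsPGroup 2 (T.subgroupOf Y) := hT.comap_of_injective _ Y.subtype_injective
    haveI : Fact (Nat.Prime 2) := ⟨Nat.prime_two⟩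
    obtain ⟨c, hc⟩ := IsPGroup.iff_card.mp h3
    exact ⟨c, h2.trans hc⟩

end basic


section invbound

variable {G : Type u} [Group G] [Finite G]

/-- number of inverted elements -/
theorem ncard_inverted_le (X : Subgroup G) (hX : Odd (Nat.card X)) (u : G)
    (hXu : ∀ x ∈ X, u * x * u⁻¹ ∈ X) :
    {x : G | x ∈ X ∧ u * x * u⁻¹ = x⁻¹}.ncard ≤ (centralizer ({u} : Set G)).relIndex X := by
  classical
  set C := (centralizer ({u} : Set G)).subgroupOf X with hC
  let f : X → G := fun x => (x : G) * (u * (x : G)⁻¹ * u⁻¹)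
  have hf : ∀ a b : X, (QuotientGroup.leftRel C) a b → f a = f b := by
    intro a b hab
    rw [QuotientGroup.leftRel_apply] at hab
    have h1 : (a : G)⁻¹ * b ∈ centralizer ({u} : Set G) := hab
    rw [mem_centralizer_singleton_iff] at h1
    show (a : G) * (u * (a : G)⁻¹ * u⁻¹) = (b : G) * (u * (b : G)⁻¹ * u⁻¹)
    have h2 : (b : G) = a * ((a : G)⁻¹ * b) := by group
    set c := (a : G)⁻¹ * b with hc
    rw [h2]
    have h3 : (a : G) * c * (u * ((a : G) * c)⁻¹ * u⁻¹) = a * (c * u) * c⁻¹ * (a : G)⁻¹ * u⁻¹ := by group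
    rw [h3, h1]
    group
  let q : X ⧸ C → G := Quotient.lift f hf
  have h1 : {x : G | x ∈ X ∧ u * x * u⁻¹ = x⁻¹} ⊆ q '' Set.univ := by
    rintro j ⟨hj, hju⟩
    have ho : Odd (orderOf j) := by
      have : orderOf j ∣ Nat.card X := by
        rw [← Nat.card_zpowers]
        exact Subgroup.card_dvd_of_le (by rwa [zpowers_le])
      exact hX.of_dvd_nat this
    obtain ⟨m, hm⟩ := ho
    set y := j ^ (m + 1) with hy
    have hyy : y * y = j := by
      rw [hy, ← pow_add, show m + 1 + (m + 1) = 2 * m + 1 + 1 by ring, pow_succ, ← hm,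
        pow_orderOf_eq_one, one_mul]
    have hyX : y ∈ X := X.pow_mem hj _
    refine ⟨QuotientGroup.mk ⟨y, hyX⟩, Set.mem_univ _, ?_⟩
    show y * (u * y⁻¹ * u⁻¹) = j
    have h2 : u * y⁻¹ * u⁻¹ = y := by
      have h3 : u * y * u⁻¹ = y⁻¹ := by
        rw [hy]
        have := map_pow (MulAut.conj u) j (m + 1)
        simp only [MulAut.conj_apply] at this
        rw [this, hju, inv_pow]
      have : u * y⁻¹ * u⁻¹ = (u * y * u⁻¹)⁻¹ := by group
      rw [this, h3, inv_inv]
    rw [h2, hyy]
  calc {x : G | x ∈ X ∧ u * x * u⁻¹ = x⁻¹}.ncard ≤ (q '' Set.univ).ncard :=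
        Set.ncard_le_ncard h1 (Set.toFinite _)
    _ ≤ (Set.univ : Set (X ⧸ C)).ncard := Set.ncard_image_le (Set.toFinite _)
    _ = Nat.card (X ⧸ C) := Set.ncard_univ _

theorem inv_bound (X : Subgroup G) (hX : Odd (Nat.card X)) (u : G) (huu : u * u = 1)
    (hXu : ∀ x ∈ X, u * x * u⁻¹ ∈ X)
    (hab : ∀ p : ℕ, p.Prime → ∀ Q : Subgroup G, IsPGroup p Q → ∀ x ∈ Q, ∀ y ∈ Q, x * y = y * x)
    (M : ℕ) (hM : M ≠ 0)
    (hD : ∀ p : ℕ, p.Prime → p ≠ 2 → ∀ D : Subgroup G, D ≤ X → IsPGroup p D →
      (∀ x ∈ D, u * x * u⁻¹ = x⁻¹) → Nat.card D ∣ M) :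
    {x : G | x ∈ X ∧ u * x * u⁻¹ = x⁻¹}.ncard ≤ M := by
  classical
  have : Fact (Nat.Prime 2) := ⟨Nat.prime_two⟩
  refine (ncard_inverted_le X hX u hXu).trans ?_
  set k := (centralizer ({u} : Set G)).relIndex X with hk
  have hkX : Nat.card (X ⊓ centralizer ({u} : Set G) : Subgroup G) * k = Nat.card X := by
    have h1 := Subgroup.card_mul_index ((centralizer ({u} : Set G)).subgroupOf X)
    have e : Nat.card ((centralizer ({u} : Set G)).subgroupOf X) =
        Nat.card (X ⊓ centralizer ({u} : Set G) : Subgroup G) := by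
      rw [← Subgroup.inf_subgroupOf_left (centralizer ({u} : Set G)) X]
      exact H13.Coprime.card_subgroupOf inf_le_left
    rw [e] at h1
    exact h1
  have hk0 : k ≠ 0 := by
    intro h
    rw [h, mul_zero] at hkX
    exact Nat.card_pos.ne' hkX.symm
  apply Nat.le_of_dvd (Nat.pos_of_ne_zero hM)
  rw [← Nat.factorization_prime_le_iff_dvd hk0 hM]
  intro p hp
  haveI := Fact.mk hp
  by_cases hp2 : p = 2
  · rw [Nat.factorization_eq_zero_of_not_dvd]
    · exact Nat.zero_le _
    · intro h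
      rw [hp2] at h
      have h1 : 2 ∣ Nat.card X := h.trans ⟨_, by rw [← hkX, mul_comm]⟩
      rw [← even_iff_two_dvd, ← Nat.not_odd_iff_even] at h1
      exact h1 hX
  have hUp : IsPGroup 2 (zpowers u) := by
    rintro ⟨x, n, rfl⟩
    refine ⟨1, Subtype.ext ?_⟩
    show (u ^ n) ^ 2 ^ 1 = 1
    rw [pow_one, ← zpow_natCast, ← zpow_mul, mul_comm, zpow_mul]
    have : u ^ ((2 : ℕ) : ℤ) = 1 := by rw [zpow_natCast, pow_two, huu]
    rw [this, one_zpow]
  have huinv : u⁻¹ = u := inv_eq_of_mul_eq_one_left huu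
  have hUn : zpowers u ≤ normalizer (X : Set G) := by
    rw [zpowers_le, mem_normalizer_iff]
    intro x
    constructor
    · exact hXu x
    · intro hx
      have := hXu _ hx
      have e : u * (u * x * u⁻¹) * u⁻¹ = (u * u) * x * (u * u)⁻¹ := by group
      rw [e, huu] at this
      simpa using this
  obtain ⟨R, hR⟩ := H13.Coprime.exists_invariant_sylow hUp
    (Nat.coprime_two_right.mpr hX) hUn p
  set R' : Subgroup G := (R : Subgroup X).map X.subtype with hR'
  have hRX : R' ≤ X := by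
    rintro _ ⟨x, -, rfl⟩
    exact x.2
  have hRp : IsPGroup p R' := R.2.map _
  have hRu : ∀ x ∈ R', u * x * u⁻¹ ∈ R' := by
    intro x hx
    exact (mem_normalizer_iff.mp (hR (mem_zpowers u)) x).mp hx
  have hRc : ∀ x ∈ R', ∀ y ∈ R', x * y = y * x := hab p hp R' hRp
  have hRcard : Nat.card R' = p ^ (Nat.card X).factorization p := by
    rw [← Sylow.card_eq_multiplicity R]
    exact Nat.card_congr (Subgroup.equivMapOfInjective (R : Subgroup X) X.subtype
      (Subgroup.subtype_injective _)).toEquiv.symm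
  let φ : R' →* G :=
    { toFun := fun x => (x : G) * (u * (x : G)⁻¹ * u⁻¹)
      map_one' := by simp
      map_mul' := by
        intro x y
        have h1 : u * (x : G)⁻¹ * u⁻¹ ∈ R' := hRu _ (R'.inv_mem x.2)
        have h2 : u * (y : G)⁻¹ * u⁻¹ ∈ R' := hRu _ (R'.inv_mem y.2)
        have h3 := hRc _ (R'.mul_mem y.2 h2) _ h1
        calc ((x * y : R') : G) * (u * ((x * y : R') : G)⁻¹ * u⁻¹)
            = x * ((y * (u * (y : G)⁻¹ * u⁻¹)) * (u * (x : G)⁻¹ * u⁻¹)) := by
              rw [Subgroup.coe_mul]; group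
          _ = x * ((u * (x : G)⁻¹ * u⁻¹) * (y * (u * (y : G)⁻¹ * u⁻¹))) := by rw [h3]
          _ = (x : G) * (u * (x : G)⁻¹ * u⁻¹) * (y * (u * (y : G)⁻¹ * u⁻¹)) := by group }
  have hrange : φ.range ≤ R' := by
    rintro _ ⟨x, rfl⟩
    exact R'.mul_mem x.2 (hRu _ (R'.inv_mem x.2))
  have hrinv : ∀ x ∈ φ.range, u * x * u⁻¹ = x⁻¹ := by
    rintro _ ⟨x, rfl⟩
    show u * ((x : G) * (u * (x : G)⁻¹ * u⁻¹)) * u⁻¹ = ((x : G) * (u * (x : G)⁻¹ * u⁻¹))⁻¹
    have e1 : u * ((x : G) * (u * (x : G)⁻¹ * u⁻¹)) * u⁻¹ = (u * x * u⁻¹) * ((u * u) * (x : G)⁻¹ * (u * u)⁻¹) := by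
      group
    have e2 : ((x : G) * (u * (x : G)⁻¹ * u⁻¹))⁻¹ = (u * x * u⁻¹) * (x : G)⁻¹ := by group
    rw [e1, e2, huu]
    simp
  have h1 : Nat.card φ.range ∣ M := hD p hp hp2 φ.range (hrange.trans hRX) (hRp.to_le hrange) hrinv
  have h2 : Nat.card φ.ker ∣ Nat.card (X ⊓ centralizer ({u} : Set G) : Subgroup G) := by
    have e : Nat.card φ.ker = Nat.card (φ.ker.map R'.subtype) :=
      Nat.card_congr (Subgroup.equivMapOfInjective _ R'.subtype R'.subtype_injective).toEquiv
    rw [e]
    apply Subgroup.card_dvd_of_le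
    rintro _ ⟨x, hx, rfl⟩
    refine Subgroup.mem_inf.mpr ⟨hRX x.2, ?_⟩
    have h3 : (x : G) * (u * (x : G)⁻¹ * u⁻¹) = 1 := hx
    rw [mem_centralizer_singleton_iff]
    have h4 : (x : G) * u = ((x : G) * (u * (x : G)⁻¹ * u⁻¹)) * (u * x) := by group
    show (x : G) * u = u * x
    rw [h4, h3, one_mul]
  have h3 : Nat.card φ.ker * Nat.card φ.range = Nat.card R' := by
    rw [← Subgroup.index_ker, Subgroup.card_mul_index]
  have h4 : (Nat.card X).factorization p = (Nat.card φ.ker).factorization p +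
      (Nat.card φ.range).factorization p := by
    have h5 : (Nat.card φ.ker * Nat.card φ.range).factorization p = (Nat.card R').factorization p := by
      rw [h3]
    rw [Nat.factorization_mul Nat.card_pos.ne' Nat.card_pos.ne', Finsupp.add_apply, hRcard,
      Nat.Prime.factorization_pow hp] at h5
    simp only [Finsupp.single_eq_same] at h5
    exact h5.symm
  have h5 : (Nat.card X).factorization p =
      (Nat.card (X ⊓ centralizer ({u} : Set G) : Subgroup G)).factorization p + k.factorization p := by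
    rw [← hkX, Nat.factorization_mul Nat.card_pos.ne' hk0, Finsupp.add_apply]
  have h6 : (Nat.card φ.ker).factorization p ≤
      (Nat.card (X ⊓ centralizer ({u} : Set G) : Subgroup G)).factorization p :=
    (Nat.factorization_prime_le_iff_dvd Nat.card_pos.ne' Nat.card_pos.ne').mpr h2 p hp
  have h7 : (Nat.card φ.range).factorization p ≤ M.factorization p :=
    (Nat.factorization_prime_le_iff_dvd Nat.card_pos.ne' hM).mpr h1 p hp
  omega

end invbound

/-- the situation of a minimal counterexample, a simple group -/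
structure Sim (G : Type u) [Group G] [Finite G] (T : Sylow 2 G) (H : Subgroup G) : Prop where
  ag : AG G
  ih : IH.{u} (Nat.card G)
  simple : IsSimpleGroup G
  nonsolv : ¬ Group.IsSolvable G
  odd : Odd (Nat.card H)
  idx : ∃ c, H.index = 2 ^ c

namespace Sim

variable {G : Type u} [Group G] [Finite G] {T : Sylow 2 G} {H : Subgroup G}

theorem comm (S : Sim G T H) {x y : G} (hx : x ∈ T) (hy : y ∈ T) : x * y = y * x :=
  S.ag 2 Nat.prime_two T T.2 x hx y hy

theorem cop (S : Sim G T H) : (Nat.card H).Coprime (Nat.card T) := by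
  have : Fact (Nat.Prime 2) := ⟨Nat.prime_two⟩
  obtain ⟨k, hk⟩ := IsPGroup.iff_card.mp T.2
  have hk' : Nat.card T = 2 ^ k := hk
  rw [hk']
  exact Nat.Coprime.pow_right k (Nat.coprime_two_right.mpr S.odd)

theorem card_mul (S : Sim G T H) : Nat.card H * Nat.card T = Nat.card G := by
  have : Fact (Nat.Prime 2) := ⟨Nat.prime_two⟩
  obtain ⟨c, hc⟩ := S.idx
  have h1 : Nat.card H * H.index = Nat.card G := Subgroup.card_mul_index H
  have h2 : Nat.card T = 2 ^ (Nat.card G).factorization 2 := Sylow.card_eq_multiplicity T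
  have h3 : (Nat.card G).factorization 2 = c := by
    rw [← h1, hc, Nat.factorization_mul Nat.card_pos.ne' (by positivity), Finsupp.add_apply,
      Nat.factorization_eq_zero_of_not_dvd (by rw [← even_iff_two_dvd, Nat.not_even_iff_odd]; exact S.odd)]
    rw [Nat.Prime.factorization_pow Nat.prime_two]
    simp
  rw [h2, h3, ← hc, h1]

theorem exists_fac (S : Sim G T H) (g : G) : ∃ h ∈ H, ∃ t ∈ T, g = h * t :=
  (factor S.card_mul S.cop).1 g

theorem disj (S : Sim G T H) {x : G} (hx : x ∈ H) (hxT : x ∈ T) : x = 1 :=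
  (factor S.card_mul S.cop).2 x hx hxT

theorem ne_top (S : Sim G T H) : H ≠ ⊤ ∨ Odd (Nat.card G) := by
  by_cases h : H = ⊤
  · right
    have := S.odd
    rwa [h, Subgroup.card_top] at this
  · left; exact h

theorem normalCore_eq (S : Sim G T H) (hH : H ≠ ⊤) : H.normalCore = ⊥ := by
  haveI := S.simple
  rcases (inferInstance : (H.normalCore).Normal).eq_bot_or_eq_top with h | h
  · exact h
  · exact absurd (top_le_iff.mp (h ▸ H.normalCore_le)) hH

theorem core_eq_bot (S : Sim G T H) (hH : H ≠ ⊤) (X : Subgroup G) (hTX : (T : Subgroup G) ≤ X)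
    (L : Subgroup X) [hL : L.Normal] (hLo : Odd (Nat.card L)) : L = ⊥ := by
  have : Fact (Nat.Prime 2) := ⟨Nat.prime_two⟩
  have h1 : IsComplement' (H.subgroupOf X) ((T : Subgroup G).subgroupOf X) := by
    apply isComplement_sub (fun x hx hxT => S.disj hx hxT)
    intro y hy
    obtain ⟨h, hh, t, ht, rfl⟩ := S.exists_fac y
    have : h ∈ X := by
      have := X.mul_mem hy (X.inv_mem (hTX ht))
      simpa using this
    exact ⟨h, hh, t, ht, this, hTX ht, rfl⟩
  have h2 : Nat.card (H.subgroupOf X) * Nat.card ((T : Subgroup G).subgroupOf X) = Nat.card X :=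
    h1.card_mul_card
  have hodd : Odd (Nat.card (H.subgroupOf X)) := by
    have h2 : Nat.card (H.subgroupOf X) ∣ Nat.card H := by
      have e : Nat.card (H.subgroupOf X) = Nat.card ((H.subgroupOf X).map X.subtype) :=
        Nat.card_congr (Subgroup.equivMapOfInjective _ X.subtype X.subtype_injective).toEquiv
      rw [e]
      apply Subgroup.card_dvd_of_le
      rintro _ ⟨x, hx, rfl⟩
      exact hx
    exact S.odd.of_dvd_nat h2
  have h3 : Odd (Nat.card (H.subgroupOf X ⊔ L : Subgroup X)) :=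
    (hodd.mul hLo).of_dvd_nat (H1.Cores.card_sup_dvd_mul (H.subgroupOf X) L)
  have h4 : Nat.card (H.subgroupOf X ⊔ L : Subgroup X) ∣ Nat.card (H.subgroupOf X) := by
    have h5 : Nat.card (H.subgroupOf X ⊔ L : Subgroup X) ∣ Nat.card X := Subgroup.card_subgroup_dvd_card _
    rw [← h2] at h5
    refine Nat.Coprime.dvd_of_dvd_mul_right ?_ h5
    have h6 : IsPGroup 2 ((T : Subgroup G).subgroupOf X) := T.2.comap_of_injective _ X.subtype_injective
    obtain ⟨k, hk⟩ := IsPGroup.iff_card.mp h6
    rw [hk]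
    exact Nat.Coprime.pow_right k (Nat.coprime_two_right.mpr h3)
  have h5 : H.subgroupOf X ⊔ L = H.subgroupOf X := by
    apply (Subgroup.eq_of_le_of_card_ge le_sup_left _).symm
    exact Nat.le_of_dvd Nat.card_pos h4
  have h6 : L ≤ H.subgroupOf X := by
    rw [← h5]; exact le_sup_right
  have h7 : L.map X.subtype ≤ H.normalCore := by
    rintro _ ⟨x, hx, rfl⟩ b
    obtain ⟨h, hh, t, ht, rfl⟩ := S.exists_fac b
    have h8 : (⟨t, hTX ht⟩ : X) * x * (⟨t, hTX ht⟩ : X)⁻¹ ∈ L := hL.conj_mem x hx _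
    have h9 : t * (x : G) * t⁻¹ ∈ H := h6 h8
    have h10 : h * t * (x : G) * (h * t)⁻¹ = h * (t * x * t⁻¹) * h⁻¹ := by group
    show h * t * (x : G) * (h * t)⁻¹ ∈ H
    rw [h10]
    exact H.mul_mem (H.mul_mem hh h9) (H.inv_mem hh)
  rw [S.normalCore_eq hH, le_bot_iff] at h7
  rw [eq_bot_iff]
  intro x hx
  have : (x : G) ∈ L.map X.subtype := mem_map_of_mem _ hx
  rw [h7, mem_bot] at this
  rw [mem_bot]
  exact Subtype.ext this

theorem solv (S : Sim G T H) (Y : Subgroup G) (hYt : Y ≠ ⊤)
    (hY : ∀ y ∈ Y, ∃ h ∈ H, ∃ t ∈ T, h ∈ Y ∧ t ∈ Y ∧ y = h * t) : Group.IsSolvable Y :=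
  solvable_sub S.ih S.ag T.2 S.odd (fun _ hx hxT => S.disj hx hxT) Y hYt hY

theorem le_norm (S : Sim G T H) (hH : H ≠ ⊤) (X : Subgroup G) (hTX : (T : Subgroup G) ≤ X)
    (hX : X ≠ ⊤) : X ≤ normalizer ((T : Subgroup G) : Set G) := by
  have : Fact (Nat.Prime 2) := ⟨Nat.prime_two⟩
  have hs : Group.IsSolvable X := by
    apply S.solv X hX
    intro y hy
    obtain ⟨h, hh, t, ht, rfl⟩ := S.exists_fac y
    have : h ∈ X := by
      have := X.mul_mem hy (X.inv_mem (hTX ht))
      simpa using this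
    exact ⟨h, hh, t, ht, this, hTX ht, rfl⟩
  have hc : Cfsg.pPrimeCore 2 X = ⊥ := by
    haveI : (Cfsg.pPrimeCore 2 X).Normal := inferInstance
    apply S.core_eq_bot hH X hTX
    exact Nat.coprime_two_right.mp (H1.Cores.coprime_card_pPrimeCore (G := X) 2)
  set P : Sylow 2 X := T.subtype hTX with hP
  have hPc : IsMulCommutative (P : Subgroup X) := by
    refine ⟨⟨?_⟩⟩
    intro a b
    apply Subtype.ext
    apply Subtype.ext
    have ha : ((a : X) : G) ∈ T := by
      have := a.2
      exact this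
    have hb : ((b : X) : G) ∈ T := by
      have := b.2
      exact this
    exact S.comm ha hb
  have h1 := H1.Solv.sylow_sup_pPrimeCore_normal hs 2 P hPc
  rw [hc, sup_bot_eq] at h1
  have h2 : ∀ x ∈ X, ∀ t ∈ T, x * t * x⁻¹ ∈ T := by
    intro x hx t ht
    have h3 : (⟨t, hTX ht⟩ : X) ∈ (P : Subgroup X) := ht
    have h4 := h1.conj_mem _ h3 ⟨x, hx⟩
    exact h4
  intro x hx
  rw [mem_normalizer_iff]
  intro t
  constructor
  · intro ht
    exact h2 x hx t ht
  · intro ht
    have := h2 x⁻¹ (X.inv_mem hx) _ ht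
    have e : x⁻¹ * (x * t * x⁻¹) * x⁻¹⁻¹ = t := by group
    rwa [e] at this

theorem center_eq_bot (S : Sim G T H) : center G = ⊥ := by
  haveI := S.simple
  rcases (inferInstance : (center G).Normal).eq_bot_or_eq_top with h | h
  · exact h
  · exfalso
    apply S.nonsolv
    apply Group.isSolvable_of_comm
    intro a b
    have : b ∈ center G := by rw [h]; exact mem_top b
    exact mem_center_iff.mp this a

theorem cent_ne_top (S : Sim G T H) {x : G} (hx : x ≠ 1) : centralizer ({x} : Set G) ≠ ⊤ := by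
  intro h
  apply hx
  rw [← mem_bot, ← S.center_eq_bot, mem_center_iff]
  intro g
  have : g ∈ centralizer ({x} : Set G) := by rw [h]; exact mem_top g
  exact mem_centralizer_singleton_iff.mp this

theorem cent_le (S : Sim G T H) (hH : H ≠ ⊤) {t : G} (ht : t ∈ T) (ht1 : t ≠ 1) :
    centralizer ({t} : Set G) ≤ normalizer ((T : Subgroup G) : Set G) := by
  apply S.le_norm hH _ _ (S.cent_ne_top ht1)
  intro s hs
  rw [mem_centralizer_singleton_iff]
  exact S.comm hs ht

theorem mem_of_norm {x : G} (hx : x ∈ normalizer ((T : Subgroup G) : Set G)) (h2 : IsPGroup 2 (zpowers x)) :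
    x ∈ T := by
  have : Fact (Nat.Prime 2) := ⟨Nat.prime_two⟩
  have h := h2.inf_normalizer_sylow T
  have h3 : x ∈ zpowers x ⊓ normalizer (T : Set G) := ⟨mem_zpowers x, hx⟩
  rw [h] at h3
  exact h3.2

theorem ti (S : Sim G T H) (hH : H ≠ ⊤) {t g : G} (ht : t ∈ T) (ht1 : t ≠ 1)
    (hg : g * t * g⁻¹ ∈ T) : g ∈ normalizer ((T : Subgroup G) : Set G) := by
  have : Fact (Nat.Prime 2) := ⟨Nat.prime_two⟩
  have h1 : g * t * g⁻¹ ≠ 1 := by
    intro h
    apply ht1
    have : t = g⁻¹ * (g * t * g⁻¹) * g := by group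
    rw [this, h]; group
  have h2 := S.cent_le hH hg h1
  have h3 : ∀ s ∈ T, g * s * g⁻¹ ∈ T := by
    intro s hs
    apply mem_of_norm
    · apply h2
      rw [mem_centralizer_singleton_iff]
      have := S.comm hs ht
      calc g * s * g⁻¹ * (g * t * g⁻¹) = g * (s * t) * g⁻¹ := by group
        _ = g * (t * s) * g⁻¹ := by rw [this]
        _ = g * t * g⁻¹ * (g * s * g⁻¹) := by group
    · have h4 : IsPGroup 2 (((T : Subgroup G).map (MulAut.conj g).toMonoidHom)) := T.2.map _
      apply h4.to_le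
      rw [zpowers_le]
      exact ⟨s, hs, rfl⟩
  have h4 : (T : Subgroup G).map (MulAut.conj g).toMonoidHom = T := by
    apply Subgroup.eq_of_le_of_card_ge
    · rintro _ ⟨s, hs, rfl⟩
      exact h3 s hs
    · apply le_of_eq
      exact Nat.card_congr (Subgroup.equivMapOfInjective _ _ (MulAut.conj g).injective).toEquiv
  rw [mem_normalizer_iff]
  intro s
  constructor
  · exact h3 s
  · intro hs
    have h5 : g * s * g⁻¹ ∈ (T : Subgroup G).map (MulAut.conj g).toMonoidHom := by
      rw [h4]; exact hs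
    obtain ⟨r, hr, hrs⟩ := h5
    have h6 : g * r * g⁻¹ = g * s * g⁻¹ := hrs
    have h7 : r = s := by
      have := mul_right_cancel h6
      exact mul_left_cancel this
    rw [← h7]; exact hr

theorem even (S : Sim G T H) (hodd : ∀ (K : Type u) [Group K] [Finite K], Odd (Nat.card K) →
    Group.IsSolvable K) : H ≠ ⊤ := by
  intro h
  apply S.nonsolv
  apply hodd
  have := S.odd
  rwa [h, Subgroup.card_top] at this

theorem T_ne_bot (S : Sim G T H) (hH : H ≠ ⊤) : (T : Subgroup G) ≠ ⊥ := by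
  intro h
  apply hH
  have h1 := S.card_mul
  have h2 : Nat.card T = 1 := by
    have : Nat.card (T : Subgroup G) = 1 := by rw [h]; exact Subgroup.card_bot
    exact this
  rw [h2, mul_one] at h1
  exact Subgroup.eq_top_of_card_eq H h1

theorem norm_ne_top (S : Sim G T H) (hH : H ≠ ⊤) : normalizer ((T : Subgroup G) : Set G) ≠ ⊤ := by
  intro h
  haveI := S.simple
  have hn : (T : Subgroup G).Normal := by
    rw [← Subgroup.normalizer_eq_top_iff]
    exact h
  rcases hn.eq_bot_or_eq_top with h1 | h1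
  · exact S.T_ne_bot hH h1
  · apply S.nonsolv
    apply Group.isSolvable_of_comm
    intro a b
    have ha : a ∈ (T : Subgroup G) := by rw [h1]; exact mem_top a
    have hb : b ∈ (T : Subgroup G) := by rw [h1]; exact mem_top b
    exact S.comm ha hb

/-- the Sylow `2`-subgroup contains two distinct involutions -/
theorem two_inv (S : Sim G T H) (hH : H ≠ ⊤) : ∃ s ∈ T, ∃ t ∈ T, s * s = 1 ∧ t * t = 1 ∧ s ≠ 1 ∧
    t ≠ 1 ∧ s ≠ t := by
  by_contra hcon
  push Not at hcon
  have : Fact (Nat.Prime 2) := ⟨Nat.prime_two⟩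
  haveI := S.simple
  have hT1 := S.T_ne_bot hH
  have hcyc : IsCyclic T := by
    by_cases hs : ∃ s ∈ T, s * s = 1 ∧ s ≠ 1
    · obtain ⟨s, hsT, hss, hs1⟩ := hs
      have hB : IsPGroup 2 (T : Subgroup G) := T.2
      refine H3.UniqueSub.isCyclic_of_comm (B := (T : Subgroup G)) hB (fun a b => Subtype.ext (S.comm a.2 b.2))
        (zpowers (⟨s, hsT⟩ : (T : Subgroup G))) ?_ ?_
      · rw [Nat.card_zpowers]
        apply orderOf_le_of_pow_eq_one (by norm_num)
        apply Subtype.ext
        simpa [pow_two] using hss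
      · intro x hx
        by_cases hx1 : x = 1
        · rw [hx1]; exact one_mem _
        · have hxx : (x : G) * x = 1 := by
            have := congrArg Subtype.val hx
            simpa [pow_two] using this
          have := hcon s hsT x x.2 hss hxx hs1 (by intro h; exact hx1 (Subtype.ext h))
          have h2 : x = ⟨s, hsT⟩ := Subtype.ext this.symm
          rw [h2]
          exact mem_zpowers _
    · push Not at hs
      have : Subsingleton T := by
        by_contra hns
        rw [not_subsingleton_iff_nontrivial] at hns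
        have hcard : 2 ∣ Nat.card (T : Subgroup G) := by
          obtain ⟨k, hk⟩ := IsPGroup.iff_card.mp T.2
          rcases Nat.eq_zero_or_pos k with h0 | h0
          · rw [h0, pow_zero] at hk
            have := (Nat.card_eq_one_iff_unique.mp hk).1
            exact absurd hns (not_nontrivial_iff_subsingleton.mpr this)
          · rw [hk]; exact dvd_pow_self 2 h0.ne'
        obtain ⟨x, hx⟩ := exists_prime_orderOf_dvd_card' (G := (T : Subgroup G)) 2 hcard
        have hx2 : x * x = 1 := by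
          have := pow_orderOf_eq_one x
          rwa [hx, pow_two] at this
        have hx1 : (x : G) = 1 := hs x x.2 (congrArg Subtype.val hx2)
        have : x = 1 := Subtype.ext hx1
        rw [this, orderOf_one] at hx
        norm_num at hx
      infer_instance
  have heven : 2 ∣ Nat.card G := by
    obtain ⟨k, hk⟩ := IsPGroup.iff_card.mp T.2
    rcases Nat.eq_zero_or_pos k with h0 | h0
    · rw [h0, pow_zero] at hk
      exact absurd (Subgroup.card_eq_one.mp hk) hT1
    · exact (dvd_pow_self 2 h0.ne').trans (hk ▸ Subgroup.card_subgroup_dvd_card _)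
  have hmin : (Nat.card G).minFac = 2 := (Nat.minFac_eq_two_iff _).mpr heven
  have hcompl := IsCyclic.isComplement' hmin (P := T) hcyc
  set K := (MonoidHom.transferSylow T (IsCyclic.normalizer_le_centralizer hmin hcyc)).ker with hK
  have hKn : K.Normal := inferInstance
  rcases hKn.eq_bot_or_eq_top with h | h
  · rw [h] at hcompl
    have h1 : (T : Subgroup G) = ⊤ := Subgroup.isComplement'_bot_left.mp hcompl
    apply S.nonsolv
    apply Group.isSolvable_of_comm
    intro a b
    have ha : a ∈ (T : Subgroup G) := by rw [h1]; exact mem_top a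
    have hb : b ∈ (T : Subgroup G) := by rw [h1]; exact mem_top b
    exact S.comm ha hb
  · rw [h] at hcompl
    exact hT1 (Subgroup.isComplement'_top_left.mp hcompl)

theorem conj (S : Sim G T H) (g : G) : Sim G T (H.map ((MulAut.conj g : G ≃* G) : G →* G)) where
  ag := S.ag
  ih := S.ih
  simple := S.simple
  nonsolv := S.nonsolv
  odd := by
    have : Nat.card (H.map ((MulAut.conj g : G ≃* G) : G →* G)) = Nat.card H :=
      Nat.card_congr (Subgroup.equivMapOfInjective _ _ (MulAut.conj g).injective).toEquiv.symm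
    rw [this]; exact S.odd
  idx := by
    rw [Subgroup.index_map_equiv]; exact S.idx

/-- a coset of `N(T)` with many involutions -/
theorem exists_coset (S : Sim G T H) (hH : H ≠ ⊤) :
    ∃ u : G, u ∉ normalizer ((T : Subgroup G) : Set G) ∧ u * u = 1 ∧
      {t : G | t ∈ T ∧ t * t = 1 ∧ t ≠ 1}.ncard ≤
        {x : G | x ∈ normalizer ((T : Subgroup G) : Set G) ∧ u * x * u⁻¹ = x⁻¹}.ncard := by
  classical
  haveI := Fintype.ofFinite G
  set N := normalizer ((T : Subgroup G) : Set G) with hN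
  haveI : Fintype (G ⧸ N) := Fintype.ofFinite _
  set I : Finset G := Finset.univ.filter (fun v => v * v = 1 ∧ v ≠ 1) with hI
  set A : Finset G := Finset.univ.filter (fun t => t ∈ T ∧ t * t = 1 ∧ t ≠ 1) with hA
  have hAc : {t : G | t ∈ T ∧ t * t = 1 ∧ t ≠ 1}.ncard = A.card := by
    rw [← Set.ncard_coe_finset]
    congr 1
    ext x
    simp [hA]
  have hA0 : 0 < A.card := by
    obtain ⟨s, hs, -, -, hss, -, hs1, -, -⟩ := S.two_inv hH
    exact Finset.card_pos.mpr ⟨s, by simp [hA, hs, hss, hs1]⟩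
  have h1 : Fintype.card (G ⧸ N) * A.card ≤ I.card := by
    have h2 : (Finset.univ ×ˢ A : Finset ((G ⧸ N) × G)).card ≤ I.card := by
      apply Finset.card_le_card_of_injOn (fun x => x.1.out * x.2 * x.1.out⁻¹)
      · rintro ⟨c, t⟩ hct
        simp only [Finset.coe_product, Finset.coe_univ, Set.mem_prod, Set.mem_univ, true_and,
          Finset.mem_coe, hA, Finset.mem_filter, Finset.mem_univ] at hct
        obtain ⟨-, htt, ht1⟩ := hct
        simp only [hI, Finset.coe_filter, Finset.mem_univ, true_and, Set.mem_ofPred_eq]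
        constructor
        · have : c.out * t * c.out⁻¹ * (c.out * t * c.out⁻¹) = c.out * (t * t) * c.out⁻¹ := by group
          rw [this, htt]; group
        · intro h
          apply ht1
          have : t = c.out⁻¹ * (c.out * t * c.out⁻¹) * c.out := by group
          rw [this, h]; group
      · rintro ⟨c, t⟩ hct ⟨d, s⟩ hds heq
        simp only [Finset.coe_product, Finset.coe_univ, Set.mem_prod, Set.mem_univ, true_and,
          Finset.mem_coe, hA, Finset.mem_filter, Finset.mem_univ] at hct hds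
        obtain ⟨htT, htt, ht1⟩ := hct
        obtain ⟨hsT, hss, hs1⟩ := hds
        simp only at heq
        have h3 : (d.out⁻¹ * c.out) * t * (d.out⁻¹ * c.out)⁻¹ = s := by
          have : (d.out⁻¹ * c.out) * t * (d.out⁻¹ * c.out)⁻¹ = d.out⁻¹ * (c.out * t * c.out⁻¹) * d.out := by group
          rw [this, heq]; group
        have h4 : d.out⁻¹ * c.out ∈ N := S.ti hH htT ht1 (by rw [h3]; exact hsT)
        have h5 : d = c := by
          rw [← QuotientGroup.out_eq' d, ← QuotientGroup.out_eq' c]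
          exact QuotientGroup.eq.mpr h4
        subst h5
        have h6 : t = s := by
          rw [← h3]; group
        rw [h6]
    rwa [Finset.card_product, Finset.card_univ] at h2
  have h2 : I.card = ∑ c : G ⧸ N, (I.filter (fun v => (QuotientGroup.mk v : G ⧸ N) = c)).card :=
    Finset.card_eq_sum_card_fiberwise (fun _ _ => Finset.mem_coe.mpr (Finset.mem_univ _))
  have h3 : (I.filter (fun v => (QuotientGroup.mk v : G ⧸ N) = QuotientGroup.mk 1)).card ≤ A.card := by
    apply Finset.card_le_card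
    intro v hv
    simp only [hI, Finset.mem_filter, Finset.mem_univ, true_and] at hv
    obtain ⟨⟨hvv, hv1⟩, hvN⟩ := hv
    have hvN' : v ∈ N := by
      have := QuotientGroup.eq.mp hvN.symm
      simpa using this
    simp only [hA, Finset.mem_filter, Finset.mem_univ, true_and]
    refine ⟨mem_of_norm hvN' ?_, hvv, hv1⟩
    rintro ⟨x, n, rfl⟩
    refine ⟨1, Subtype.ext ?_⟩
    show (v ^ n) ^ 2 ^ 1 = 1
    rw [pow_one, ← zpow_natCast, ← zpow_mul, mul_comm, zpow_mul]
    have : v ^ ((2 : ℕ) : ℤ) = 1 := by rw [zpow_natCast, pow_two, hvv]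
    rw [this, one_zpow]
  have h4 : ∃ c : G ⧸ N, c ≠ QuotientGroup.mk 1 ∧
      A.card ≤ (I.filter (fun v => (QuotientGroup.mk v : G ⧸ N) = c)).card := by
    by_contra hcon
    push Not at hcon
    have h5 : I.card ≤ A.card + ∑ c ∈ Finset.univ.erase (QuotientGroup.mk 1 : G ⧸ N), (A.card - 1) := by
      rw [h2, ← Finset.add_sum_erase _ _ (Finset.mem_univ (QuotientGroup.mk 1 : G ⧸ N))]
      apply Nat.add_le_add h3
      apply Finset.sum_le_sum
      intro c hc
      have := hcon c (Finset.ne_of_mem_erase hc)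
      omega
    rw [Finset.sum_const, smul_eq_mul, Finset.card_erase_of_mem (Finset.mem_univ _),
      Finset.card_univ] at h5
    have h6 : 1 < Fintype.card (G ⧸ N) := by
      rw [← Nat.card_eq_fintype_card]
      have h7 : N.index ≠ 1 := by
        intro h
        exact S.norm_ne_top hH (Subgroup.index_eq_one.mp h)
      have h8 : 0 < N.index := Nat.card_pos
      have h9 : N.index = Nat.card (G ⧸ N) := rfl
      omega
    obtain ⟨n, hn⟩ : ∃ n, Fintype.card (G ⧸ N) = n + 2 := ⟨Fintype.card (G ⧸ N) - 2, by omega⟩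
    obtain ⟨a, ha⟩ : ∃ a, A.card = a + 1 := ⟨A.card - 1, by omega⟩
    rw [hn, ha] at h1 h5
    simp only [Nat.add_sub_cancel] at h5
    have h7 : n + 2 - 1 = n + 1 := by omega
    rw [h7] at h5
    nlinarith
  obtain ⟨c, hc1, hc⟩ := h4
  obtain ⟨u, hu⟩ : (I.filter (fun v => (QuotientGroup.mk v : G ⧸ N) = c)).Nonempty := by
    rw [← Finset.card_pos]; omega
  simp only [hI, Finset.mem_filter, Finset.mem_univ, true_and] at hu
  obtain ⟨⟨huu, hu1⟩, huc⟩ := hu
  refine ⟨u, ?_, huu, ?_⟩
  · intro huN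
    apply hc1
    rw [← huc]
    apply QuotientGroup.eq.mpr
    simpa using huN
  · rw [hAc]
    refine hc.trans ?_
    rw [← Set.ncard_coe_finset]
    have huinv : u⁻¹ = u := inv_eq_of_mul_eq_one_left huu
    apply Set.ncard_le_ncard_of_injOn (fun v => u * v)
    · intro v hv
      simp only [hI, Finset.coe_filter, Finset.mem_filter, Finset.mem_univ, true_and,
        Set.mem_ofPred_eq] at hv
      obtain ⟨⟨hvv, hv1⟩, hvc⟩ := hv
      have hvinv : v⁻¹ = v := inv_eq_of_mul_eq_one_left hvv
      constructor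
      · have := QuotientGroup.eq.mp (huc.trans hvc.symm)
        rwa [huinv] at this
      · show u * (u * v) * u⁻¹ = (u * v)⁻¹
        rw [mul_inv_rev, huinv, hvinv, ← mul_assoc u u v, huu, one_mul]
    · intro v _ w _ hvw
      exact mul_left_cancel hvw

/-- the elements of order at most two of `T` -/
def V (S : Sim G T H) : Subgroup G where
  carrier := {s | s ∈ T ∧ s * s = 1}
  one_mem' := ⟨one_mem _, by simp⟩
  mul_mem' := by
    rintro a b ⟨ha, haa⟩ ⟨hb, hbb⟩
    refine ⟨mul_mem ha hb, ?_⟩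
    have := S.comm ha hb
    calc a * b * (a * b) = a * (b * a) * b := by group
      _ = a * (a * b) * b := by rw [this]
      _ = (a * a) * (b * b) := by group
      _ = 1 := by rw [haa, hbb, one_mul]
  inv_mem' := by
    rintro a ⟨ha, haa⟩
    refine ⟨inv_mem ha, ?_⟩
    rw [← mul_inv_rev, haa, inv_one]

theorem mem_V (S : Sim G T H) {s : G} : s ∈ S.V ↔ s ∈ T ∧ s * s = 1 := Iff.rfl

theorem isPGroup_zpowers {v : G} (hvv : v * v = 1) : IsPGroup 2 (zpowers v) := by
  rintro ⟨x, n, rfl⟩
  refine ⟨1, Subtype.ext ?_⟩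
  show (v ^ n) ^ 2 ^ 1 = 1
  rw [pow_one, ← zpow_natCast, ← zpow_mul, mul_comm, zpow_mul]
  have : v ^ ((2 : ℕ) : ℤ) = 1 := by rw [zpow_natCast, pow_two, hvv]
  rw [this, one_zpow]

/-- centralizers of elements of `D` -/
theorem eq_of_comm (S : Sim G T H) (hH : H ≠ ⊤) {u : G}
    (huN : u ∉ normalizer ((T : Subgroup G) : Set G)) (huu : u * u = 1) {d : G}
    (hdN : d ∈ normalizer ((T : Subgroup G) : Set G)) (hdu : u * d * u⁻¹ = d⁻¹) (hd1 : d ≠ 1)
    (hdH : d ∈ H) {t : G} (ht : t ∈ S.V) (ht1 : t ≠ 1) (htd : t * d = d * t) {s : G} (hs : s ∈ S.V)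
    (hs1 : s ≠ 1) (hsd : s * d = d * s) : s = t := by
  have : Fact (Nat.Prime 2) := ⟨Nat.prime_two⟩
  by_contra hst
  set Y := centralizer ({d} : Set G) with hY
  have hYt : Y ≠ ⊤ := S.cent_ne_top hd1
  have hsol : Group.IsSolvable Y := by
    apply S.solv Y hYt
    intro y hy
    obtain ⟨h, hh, t, ht, rfl⟩ := S.exists_fac y
    rw [hY, mem_centralizer_singleton_iff] at hy
    -- `d ^ h = t d t⁻¹`
    have h1 : h⁻¹ * d * h = t * d * t⁻¹ := by
      have : d = (h * t) * d * (h * t)⁻¹ := by rw [hy]; group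
      calc h⁻¹ * d * h = h⁻¹ * ((h * t) * d * (h * t)⁻¹) * h := by rw [← this]
        _ = t * d * t⁻¹ := by group
    have h2 : d⁻¹ * (t * d * t⁻¹) ∈ H := by
      rw [← h1]
      exact H.mul_mem (H.inv_mem hdH) (H.mul_mem (H.mul_mem (H.inv_mem hh) hdH) hh)
    have h3 : d⁻¹ * (t * d * t⁻¹) ∈ T := by
      have e : d⁻¹ * (t * d * t⁻¹) = (d⁻¹ * t * d⁻¹⁻¹) * t⁻¹ := by group
      rw [e]
      exact mul_mem ((mem_normalizer_iff.mp (inv_mem hdN) t).mp ht) (inv_mem ht)
    have h4 := S.disj h2 h3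
    have h5 : t * d * t⁻¹ = d := by
      have : t * d * t⁻¹ = d * (d⁻¹ * (t * d * t⁻¹)) := by group
      rw [this, h4, mul_one]
    have htY : t ∈ Y := by
      rw [hY, mem_centralizer_singleton_iff]
      calc t * d = (t * d * t⁻¹) * t := by group
        _ = d * t := by rw [h5]
    have hhY : h ∈ Y := by
      rw [h5] at h1
      rw [hY, mem_centralizer_singleton_iff]
      calc h * d = h * (h⁻¹ * d * h) := by rw [h1]
        _ = d * h := by group
    exact ⟨h, hh, t, ht, hhY, htY, rfl⟩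
  have hcompl : IsComplement' (H.subgroupOf Y) ((T : Subgroup G).subgroupOf Y) := by
    apply isComplement_sub (fun x hx hxT => S.disj hx hxT)
    intro y hy
    obtain ⟨h, hh, t, ht, rfl⟩ := S.exists_fac y
    rw [hY, mem_centralizer_singleton_iff] at hy
    have h1 : h⁻¹ * d * h = t * d * t⁻¹ := by
      have : d = (h * t) * d * (h * t)⁻¹ := by rw [hy]; group
      calc h⁻¹ * d * h = h⁻¹ * ((h * t) * d * (h * t)⁻¹) * h := by rw [← this]
        _ = t * d * t⁻¹ := by group
    have h2 : d⁻¹ * (t * d * t⁻¹) ∈ H := by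
      rw [← h1]
      exact H.mul_mem (H.inv_mem hdH) (H.mul_mem (H.mul_mem (H.inv_mem hh) hdH) hh)
    have h3 : d⁻¹ * (t * d * t⁻¹) ∈ T := by
      have e : d⁻¹ * (t * d * t⁻¹) = (d⁻¹ * t * d⁻¹⁻¹) * t⁻¹ := by group
      rw [e]
      exact mul_mem ((mem_normalizer_iff.mp (inv_mem hdN) t).mp ht) (inv_mem ht)
    have h4 := S.disj h2 h3
    have h5 : t * d * t⁻¹ = d := by
      have : t * d * t⁻¹ = d * (d⁻¹ * (t * d * t⁻¹)) := by group
      rw [this, h4, mul_one]
    have htY : t ∈ Y := by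
      rw [hY, mem_centralizer_singleton_iff]
      calc t * d = (t * d * t⁻¹) * t := by group
        _ = d * t := by rw [h5]
    have hhY : h ∈ Y := by
      rw [h5] at h1
      rw [hY, mem_centralizer_singleton_iff]
      calc h * d = h * (h⁻¹ * d * h) := by rw [h1]
        _ = d * h := by group
    exact ⟨h, hh, t, ht, hhY, htY, rfl⟩
  have hTYp : IsPGroup 2 ((T : Subgroup G).subgroupOf Y) := T.2.comap_of_injective _ Y.subtype_injective
  have hidx : ¬ 2 ∣ ((T : Subgroup G).subgroupOf Y).index := by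
    rw [hcompl.index_eq_card]
    have h2 : Nat.card (H.subgroupOf Y) ∣ Nat.card H := by
      have e : Nat.card (H.subgroupOf Y) = Nat.card ((H.subgroupOf Y).map Y.subtype) :=
        Nat.card_congr (Subgroup.equivMapOfInjective _ Y.subtype Y.subtype_injective).toEquiv
      rw [e]
      apply Subgroup.card_dvd_of_le
      rintro _ ⟨x, hx, rfl⟩
      exact hx
    rw [← even_iff_two_dvd, Nat.not_even_iff_odd]
    exact S.odd.of_dvd_nat h2
  set P : Sylow 2 Y := hTYp.toSylow hidx with hP
  have hPc : IsMulCommutative (P : Subgroup Y) := by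
    refine ⟨⟨?_⟩⟩
    intro a b
    apply Subtype.ext
    apply Subtype.ext
    have ha : ((a : Y) : G) ∈ T := a.2
    have hb : ((b : Y) : G) ∈ T := b.2
    exact S.comm ha hb
  have hnorm := H1.Solv.sylow_sup_pPrimeCore_normal hsol 2 P hPc
  set O : Subgroup G := (Cfsg.pPrimeCore 2 Y).map Y.subtype with hO
  have hOn : (Cfsg.pPrimeCore 2 Y).Normal := inferInstance
  have hOY : O ≤ Y := by
    rintro _ ⟨x, -, rfl⟩; exact x.2
  have hYO : Y ≤ normalizer (O : Set G) := by
    intro y hy
    have key : ∀ y ∈ Y, ∀ x ∈ O, y * x * y⁻¹ ∈ O := by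
      rintro y hy _ ⟨x, hx, rfl⟩
      exact ⟨⟨y, hy⟩ * x * ⟨y, hy⟩⁻¹, hOn.conj_mem x hx _, rfl⟩
    rw [mem_normalizer_iff]
    intro x
    constructor
    · exact key y hy x
    · intro hx
      have := key y⁻¹ (inv_mem hy) _ hx
      have e : y⁻¹ * (y * x * y⁻¹) * y⁻¹⁻¹ = x := by group
      rwa [e] at this
  have hOcard : (Nat.card O).Coprime 2 := by
    have : Nat.card O = Nat.card (Cfsg.pPrimeCore 2 Y) :=
      Nat.card_congr (Subgroup.equivMapOfInjective _ _ Y.subtype_injective).toEquiv.symm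
    rw [this]
    exact H1.Cores.coprime_card_pPrimeCore (G := Y) 2
  set W : Subgroup G := S.V ⊓ Y with hW
  have hWp : IsPGroup 2 W := by
    refine T.2.to_le ?_
    rintro x ⟨hx, -⟩
    exact hx.1
  have hsY : s ∈ Y := by rw [hY, mem_centralizer_singleton_iff]; exact hsd
  have htY : t ∈ Y := by rw [hY, mem_centralizer_singleton_iff]; exact htd
  have hWc : IsMulCommutative W := by
    refine ⟨⟨?_⟩⟩
    intro a b
    apply Subtype.ext
    exact S.comm a.2.1.1 b.2.1.1
  have hWn : ¬ IsCyclic W := by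
    intro hcyc
    obtain ⟨w, hw⟩ := hcyc.exists_generator
    have hww : w * w = 1 := Subtype.ext w.2.1.2
    have h1 : ∀ x : W, x = 1 ∨ x = w := by
      intro x
      obtain ⟨n, hn⟩ := mem_zpowers_iff.mp (hw x)
      rcases Int.even_or_odd' n with ⟨k, rfl | rfl⟩
      · left
        rw [← hn, zpow_mul, zpow_two, hww, one_zpow]
      · right
        rw [← hn, zpow_add, zpow_mul, zpow_two, hww, one_zpow, one_mul, zpow_one]
    have h2 := h1 ⟨s, hs, hsY⟩
    have h3 := h1 ⟨t, ht, htY⟩
    rcases h2 with h2 | h2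
    · exact hs1 (congrArg Subtype.val h2)
    · rcases h3 with h3 | h3
      · exact ht1 (congrArg Subtype.val h3)
      · exact hst (congrArg Subtype.val (h2.trans h3.symm))
  have hcop : (Nat.card W).Coprime (Nat.card O) := by
    obtain ⟨k, hk⟩ := IsPGroup.iff_card.mp hWp
    rw [hk]
    exact Nat.Coprime.pow_left k hOcard.symm
  have hgen := H2.GenCent.main W O hWc hWn ((inf_le_right : W ≤ Y).trans hYO) hcop
  have hON : O ≤ normalizer ((T : Subgroup G) : Set G) := by
    rw [← hgen]
    refine iSup₂_le ?_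
    rintro a ⟨ha, ha1⟩
    exact inf_le_right.trans (S.cent_le hH ha.1.1 ha1)
  have hYN : Y ≤ normalizer ((T : Subgroup G) : Set G) := by
    intro y hy
    obtain ⟨o, ho, n, hn, hyon⟩ := H13.Transport.exists_mul_normalizer (p := 2) (G := Y)
      (A := (P : Subgroup Y)) (N := Cfsg.pPrimeCore 2 Y) P.2
      (H1.Cores.coprime_card_pPrimeCore (G := Y) 2) (x := ⟨y, hy⟩)
      (fun a ha => hnorm.conj_mem a (mem_sup_left ha) _)
    have h1 : (o : G) ∈ normalizer ((T : Subgroup G) : Set G) := hON ⟨o, ho, rfl⟩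
    have h2 : (n : G) ∈ normalizer ((T : Subgroup G) : Set G) := by
      have hsP : (⟨s, hsY⟩ : Y) ∈ (P : Subgroup Y) := hs.1
      have h3 := (mem_normalizer_iff.mp hn ⟨s, hsY⟩).mp hsP
      have h4 : (n : G) * s * (n : G)⁻¹ ∈ T := h3
      exact S.ti hH hs.1 hs1 h4
    have h3 : y = (o : G) * (n : G) := congrArg Subtype.val hyon
    rw [h3]
    exact mul_mem h1 h2
  have husY : u * s * u⁻¹ ∈ Y := by
    rw [hY, mem_centralizer_singleton_iff]
    have h1 : u * d⁻¹ * u⁻¹ = d := by
      have : u * d⁻¹ * u⁻¹ = (u * d * u⁻¹)⁻¹ := by group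
      rw [this, hdu, inv_inv]
    have h2 : s * d⁻¹ = d⁻¹ * s := by
      have : s * d⁻¹ = d⁻¹ * (d * s) * d⁻¹ := by group
      rw [this, ← hsd]; group
    calc u * s * u⁻¹ * d = u * s * u⁻¹ * (u * d⁻¹ * u⁻¹) := by rw [h1]
      _ = u * (s * d⁻¹) * u⁻¹ := by group
      _ = u * (d⁻¹ * s) * u⁻¹ := by rw [h2]
      _ = (u * d⁻¹ * u⁻¹) * (u * s * u⁻¹) := by group
      _ = d * (u * s * u⁻¹) := by rw [h1]
  have husT : u * s * u⁻¹ ∈ T := by
    apply mem_of_norm (hYN husY)
    apply isPGroup_zpowers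
    have : u * s * u⁻¹ * (u * s * u⁻¹) = u * (s * s) * u⁻¹ := by group
    rw [this, hs.2]; group
  exact huN (S.ti hH hs.1 hs1 husT)

theorem inv_dvd (S : Sim G T H) (hH : H ≠ ⊤) {u : G}
    (huN : u ∉ normalizer ((T : Subgroup G) : Set G)) (huu : u * u = 1) {p : ℕ} (hp : p.Prime)
    (hp2 : p ≠ 2) (D : Subgroup G) (hDN : D ≤ normalizer ((T : Subgroup G) : Set G))
    (hDp : IsPGroup p D) (hDu : ∀ x ∈ D, u * x * u⁻¹ = x⁻¹) {r : ℕ} (hr : Nat.card S.V = 2 ^ (r + 1)) :
    Nat.card D ∣ 2 ^ r - 1 := by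
  classical
  haveI := Fact.mk hp
  have : Fact (Nat.Prime 2) := ⟨Nat.prime_two⟩
  -- `D` fixes a point
  obtain ⟨c, hc⟩ : (MulAction.fixedPoints D (G ⧸ H)).Nonempty := by
    apply hDp.nonempty_fixed_point_of_prime_not_dvd_card
    obtain ⟨k, hk⟩ := S.idx
    have h1 : Nat.card (G ⧸ H) = 2 ^ k := hk
    rw [h1]
    intro h
    exact hp2 ((Nat.prime_dvd_prime_iff_eq hp Nat.prime_two).mp (hp.dvd_of_dvd_pow h))
  obtain ⟨g, rfl⟩ := QuotientGroup.mk_surjective c
  have hg : ∀ d ∈ D, g⁻¹ * d * g ∈ H := by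
    intro d hd
    have h1 := hc ⟨d, hd⟩
    have h2 : (QuotientGroup.mk (d * g) : G ⧸ H) = QuotientGroup.mk g := h1
    have h3 := QuotientGroup.eq.mp h2.symm
    rwa [← mul_assoc] at h3
  have S' := S.conj g
  set H' := H.map ((MulAut.conj g : G ≃* G) : G →* G) with hH'
  have hH't : H' ≠ ⊤ := by
    intro h
    have h1 : H'.index = H.index := Subgroup.index_map_equiv _ _
    rw [h, Subgroup.index_top] at h1
    exact hH (Subgroup.index_eq_one.mp h1.symm)
  have hDH : ∀ d ∈ D, d ∈ H' := by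
    intro d hd
    refine ⟨g⁻¹ * d * g, hg d hd, ?_⟩
    show g * (g⁻¹ * d * g) * g⁻¹ = d
    group
  -- the element of `T` with the same effect as `u`
  obtain ⟨h, hh, t, ht, hut⟩ := S'.exists_fac u
  have ht1 : t ≠ 1 := by
    rintro rfl
    rw [mul_one] at hut
    have h1 : orderOf u ∣ Nat.card H' := by
      rw [← Nat.card_zpowers]
      exact Subgroup.card_dvd_of_le (by rw [zpowers_le, hut]; exact hh)
    have h2 : orderOf u ∣ 2 := orderOf_dvd_of_pow_eq_one (by rw [pow_two, huu])
    have h3 : orderOf u = 1 := by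
      rcases (Nat.dvd_prime Nat.prime_two).mp h2 with h3 | h3
      · exact h3
      · exfalso
        rw [h3] at h1
        have := S'.odd
        rw [← Nat.not_even_iff_odd, even_iff_two_dvd] at this
        exact this h1
    rw [orderOf_eq_one_iff] at h3
    apply huN
    rw [h3]
    exact one_mem _
  have htD : ∀ d ∈ D, t * d = d * t := by
    intro d hd
    have h1 : t * d * t⁻¹ = h⁻¹ * d⁻¹ * h := by
      rw [← hDu d hd, hut]; group
    have h2 : d⁻¹ * (t * d * t⁻¹) ∈ H' := by
      rw [h1]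
      exact H'.mul_mem (H'.inv_mem (hDH d hd)) (H'.mul_mem (H'.mul_mem (H'.inv_mem hh) (H'.inv_mem (hDH d hd))) hh)
    have h3 : d⁻¹ * (t * d * t⁻¹) ∈ T := by
      have e : d⁻¹ * (t * d * t⁻¹) = (d⁻¹ * t * d⁻¹⁻¹) * t⁻¹ := by group
      rw [e]
      exact mul_mem ((mem_normalizer_iff.mp (inv_mem (hDN hd)) t).mp ht) (inv_mem ht)
    have h4 := S'.disj h2 h3
    have h5 : t * d * t⁻¹ = d := by
      have : t * d * t⁻¹ = d * (d⁻¹ * (t * d * t⁻¹)) := by group
      rw [this, h4, mul_one]
    calc t * d = (t * d * t⁻¹) * t := by group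
      _ = d * t := by rw [h5]
  -- an involution `t₁` centralized by `D`
  obtain ⟨t₁, ht₁V, ht₁1, ht₁D⟩ : ∃ t₁ ∈ S.V, t₁ ≠ 1 ∧ ∀ d ∈ D, t₁ * d = d * t₁ := by
    have h1 : IsPGroup 2 (zpowers t) := T.2.to_le (by rw [zpowers_le]; exact ht)
    have h2 : 2 ∣ Nat.card (zpowers t) := by
      obtain ⟨k, hk⟩ := IsPGroup.iff_card.mp h1
      rcases Nat.eq_zero_or_pos k with h0 | h0
      · rw [h0, pow_zero] at hk
        exact absurd (zpowers_eq_bot.mp (Subgroup.card_eq_one.mp hk)) ht1
      · rw [hk]; exact dvd_pow_self 2 h0.ne'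
    obtain ⟨x, hx⟩ := exists_prime_orderOf_dvd_card' (G := zpowers t) 2 h2
    have hx2 : x * x = 1 := by
      have := pow_orderOf_eq_one x
      rwa [hx, pow_two] at this
    have hxT : (x : G) ∈ T := by
      have : zpowers t ≤ (T : Subgroup G) := by rw [zpowers_le]; exact ht
      exact this x.2
    refine ⟨x, ⟨hxT, congrArg Subtype.val hx2⟩, ?_, ?_⟩
    · intro h
      have : x = 1 := Subtype.ext h
      rw [this, orderOf_one] at hx
      norm_num at hx
    · intro d hd
      have h3 : t ∈ centralizer ({d} : Set G) := by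
        rw [mem_centralizer_singleton_iff]; exact htD d hd
      have h4 : zpowers t ≤ centralizer ({d} : Set G) := by rw [zpowers_le]; exact h3
      exact mem_centralizer_singleton_iff.mp (h4 x.2)
  have hV' : S'.V = S.V := rfl
  have key : ∀ d ∈ D, d ≠ 1 → ∀ s ∈ S.V, s ≠ 1 → s * d = d * s → s = t₁ := by
    intro d hd hd1 s hs hs1 hsd
    exact S'.eq_of_comm hH't huN huu (hDN hd) (hDu d hd) hd1 (hDH d hd) ht₁V ht₁1 (ht₁D d hd) hs hs1 hsd
  -- semiregular action on `V ∖ {1, t₁}`
  let X := {s : G // s ∈ S.V ∧ s ≠ 1 ∧ s ≠ t₁}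
  let act : MulAction D X :=
    { smul := fun d s => ⟨(d : G) * s * (d : G)⁻¹, by
        obtain ⟨s, ⟨hsT, hss⟩, hs1, hst⟩ := s
        refine ⟨⟨(mem_normalizer_iff.mp (hDN d.2) s).mp hsT, ?_⟩, ?_, ?_⟩
        · have : (d : G) * s * (d : G)⁻¹ * ((d : G) * s * (d : G)⁻¹) = d * (s * s) * (d : G)⁻¹ := by group
          rw [this, hss]; group
        · intro h
          apply hs1
          have : s = (d : G)⁻¹ * ((d : G) * s * (d : G)⁻¹) * d := by group
          rw [this, h]; group
        · intro h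
          apply hst
          have h1 : s = (d : G)⁻¹ * ((d : G) * s * (d : G)⁻¹) * d := by group
          have h2 : (d : G) * s * (d : G)⁻¹ = t₁ := h
          rw [h1, h2, mul_assoc, ht₁D d d.2]; group⟩
      one_smul := by
        rintro ⟨s, hs⟩
        apply Subtype.ext
        show ((1 : D) : G) * s * ((1 : D) : G)⁻¹ = s
        simp
      mul_smul := by
        rintro a b ⟨s, hs⟩
        apply Subtype.ext
        show ((a * b : D) : G) * s * ((a * b : D) : G)⁻¹ = (a : G) * ((b : G) * s * (b : G)⁻¹) * (a : G)⁻¹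
        rw [Subgroup.coe_mul]; group }
  have hfree : ∀ s : X, MulAction.stabilizer D s = ⊥ := by
    rintro ⟨s, hsV, hs1, hst⟩
    rw [eq_bot_iff]
    intro d hd
    rw [mem_bot]
    by_contra hd1
    apply hst
    have h1 : (d : G) * s * (d : G)⁻¹ = s := congrArg Subtype.val hd
    apply key d d.2 (fun h => hd1 (Subtype.ext h)) s hsV hs1
    calc s * d = (d * s * (d : G)⁻¹) * d := by rw [h1]
      _ = d * s := by group
  have hdvd : Nat.card D ∣ Nat.card X := by
    rw [Nat.card_congr (MulAction.selfEquivOrbitsQuotientProd (G := D) (X := X) hfree), Nat.card_prod]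
    exact dvd_mul_left _ _
  have hXcard : Nat.card X + 2 = 2 ^ (r + 1) := by
    rw [← hr]
    have h1 : Nat.card X = {s : G | s ∈ S.V ∧ s ≠ 1 ∧ s ≠ t₁}.ncard := rfl
    have h2 : Nat.card S.V = (S.V : Set G).ncard := rfl
    have h3 : (S.V : Set G) = insert 1 (insert t₁ {s : G | s ∈ S.V ∧ s ≠ 1 ∧ s ≠ t₁}) := by
      ext s
      simp only [SetLike.mem_coe, Set.mem_insert_iff, Set.mem_ofPred_eq]
      constructor
      · intro hs
        by_cases h4 : s = 1
        · left; exact h4
        · by_cases h5 : s = t₁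
          · right; left; exact h5
          · right; right; exact ⟨hs, h4, h5⟩
      · rintro (rfl | rfl | h4)
        · exact one_mem _
        · exact ht₁V
        · exact h4.1
    rw [h1, h2, h3, Set.ncard_insert_of_notMem, Set.ncard_insert_of_notMem]
    · rintro ⟨-, -, h⟩; exact h rfl
    · rintro (h | ⟨-, h, -⟩)
      · exact ht₁1 h.symm
      · exact h rfl
  have h1 : Nat.card X = 2 * (2 ^ r - 1) := by
    have : 1 ≤ 2 ^ r := Nat.one_le_two_pow
    rw [pow_succ] at hXcard
    omega
  rw [h1] at hdvd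
  refine Nat.Coprime.dvd_of_dvd_mul_left ?_ hdvd
  obtain ⟨k, hk⟩ := IsPGroup.iff_card.mp hDp
  rw [hk]
  exact Nat.Coprime.pow_left k ((Nat.coprime_primes hp Nat.prime_two).mpr hp2)

/-- no minimal counterexample -/
theorem false (S : Sim G T H) (hH : H ≠ ⊤) : False := by
  classical
  have : Fact (Nat.Prime 2) := ⟨Nat.prime_two⟩
  have hVp : IsPGroup 2 S.V := T.2.to_le (fun x hx => hx.1)
  obtain ⟨r', hr'⟩ := IsPGroup.iff_card.mp hVp
  obtain ⟨s, hs, t, ht, hss, htt, hs1, ht1, hst⟩ := S.two_inv hH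
  have h3 : 2 < Nat.card S.V := by
    have h1 : ({1, s, t} : Finset G).card = 3 := by
      rw [Finset.card_insert_of_notMem, Finset.card_insert_of_notMem, Finset.card_singleton]
      · simpa using hst
      · simp only [Finset.mem_insert, Finset.mem_singleton, not_or]
        exact ⟨hs1.symm, ht1.symm⟩
    have h2 : Nat.card S.V = (S.V : Set G).ncard := rfl
    rw [h2]
    have h4 : (({1, s, t} : Finset G) : Set G) ⊆ (S.V : Set G) := by
      intro x hx
      simp only [Finset.coe_insert, Finset.coe_singleton, Set.mem_insert_iff, Set.mem_singleton_iff] at hx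
      rcases hx with rfl | rfl | rfl
      · exact one_mem _
      · exact ⟨hs, hss⟩
      · exact ⟨ht, htt⟩
    have h5 := Set.ncard_le_ncard h4 (Set.toFinite _)
    rw [Set.ncard_coe_finset, h1] at h5
    omega
  obtain ⟨r, rfl⟩ : ∃ r, r' = r + 2 := by
    refine ⟨r' - 2, ?_⟩
    have : ¬ r' < 2 := by
      intro h
      have h2 : r' = 0 ∨ r' = 1 := by omega
      rw [hr'] at h3
      rcases h2 with rfl | rfl <;> norm_num at h3
    omega
  obtain ⟨u, huN, huu, hle⟩ := S.exists_coset hH
  set N := normalizer ((T : Subgroup G) : Set G) with hN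
  have huinv : u⁻¹ = u := inv_eq_of_mul_eq_one_left huu
  set X : Subgroup G := N ⊓ N.comap (MulAut.conj u : G ≃* G).toMonoidHom with hX
  have hmemX : ∀ x, x ∈ X ↔ x ∈ N ∧ u * x * u⁻¹ ∈ N := fun x => Iff.rfl
  have hXodd : Odd (Nat.card X) := by
    rw [← Nat.not_even_iff_odd, even_iff_two_dvd]
    intro h2
    obtain ⟨x, hx⟩ := exists_prime_orderOf_dvd_card' (G := X) 2 h2
    have hx2 : (x : G) * x = 1 := by
      have := pow_orderOf_eq_one x
      rw [hx, pow_two] at this
      exact congrArg Subtype.val this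
    have hx1 : (x : G) ≠ 1 := by
      intro h
      have : x = 1 := Subtype.ext h
      rw [this, orderOf_one] at hx
      norm_num at hx
    have h5 : (x : G) ∈ T := mem_of_norm x.2.1 (isPGroup_zpowers hx2)
    have h6 : u * (x : G) * u⁻¹ ∈ T := by
      apply mem_of_norm x.2.2
      apply isPGroup_zpowers
      have : u * (x : G) * u⁻¹ * (u * (x : G) * u⁻¹) = u * ((x : G) * x) * u⁻¹ := by group
      show u * (x : G) * u⁻¹ * (u * (x : G) * u⁻¹) = 1
      rw [this, hx2]; group
    exact huN (S.ti hH h5 hx1 h6)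
  have hXu : ∀ x ∈ X, u * x * u⁻¹ ∈ X := by
    rintro x ⟨h1, h2⟩
    refine ⟨h2, ?_⟩
    show u * (u * x * u⁻¹) * u⁻¹ ∈ N
    have e : u * (u * x * u⁻¹) * u⁻¹ = (u * u) * x * (u * u)⁻¹ := by group
    rw [e, huu]
    simpa using h1
  have hM : 2 ^ (r + 1) - 1 ≠ 0 := by
    have : 2 ≤ 2 ^ (r + 1) := by
      rw [pow_succ]
      have := Nat.one_le_two_pow (n := r)
      omega
    omega
  have h7 := inv_bound X hXodd u huu hXu S.ag (2 ^ (r + 1) - 1) hM (by
    intro p hp hp2 D hDX hDp hDu
    exact S.inv_dvd hH huN huu hp hp2 D (hDX.trans inf_le_left) hDp hDu hr')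
  have h8 : {x : G | x ∈ N ∧ u * x * u⁻¹ = x⁻¹}.ncard ≤ {x : G | x ∈ X ∧ u * x * u⁻¹ = x⁻¹}.ncard := by
    apply Set.ncard_le_ncard _ (Set.toFinite _)
    rintro x ⟨hx, hxu⟩
    refine ⟨⟨hx, ?_⟩, hxu⟩
    show u * x * u⁻¹ ∈ N
    rw [hxu]
    exact inv_mem hx
  have h9 : {t : G | t ∈ T ∧ t * t = 1 ∧ t ≠ 1}.ncard + 1 = 2 ^ (r + 2) := by
    rw [← hr']
    have h2 : Nat.card S.V = (S.V : Set G).ncard := rfl
    have h3 : (S.V : Set G) = insert 1 {t : G | t ∈ T ∧ t * t = 1 ∧ t ≠ 1} := by
      ext s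
      simp only [SetLike.mem_coe, Set.mem_insert_iff, Set.mem_ofPred_eq]
      constructor
      · intro hs
        by_cases h4 : s = 1
        · left; exact h4
        · right; exact ⟨hs.1, hs.2, h4⟩
      · rintro (rfl | h4)
        · exact one_mem _
        · exact ⟨h4.1, h4.2.1⟩
    rw [h2, h3, Set.ncard_insert_of_notMem]
    rintro ⟨-, -, h⟩; exact h rfl
  have h10 : 2 ^ (r + 2) = 2 * 2 ^ (r + 1) := by ring
  have h11 : 1 ≤ 2 ^ (r + 1) := Nat.one_le_two_pow
  omega

end Sim

/-- **Theorem A**: a finite group with abelian Sylow subgroups which has a subgroup of odd order and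
`2`-power index is solvable. -/
theorem isSolvable (hodd : ∀ (K : Type u) [Group K] [Finite K], Odd (Nat.card K) → Group.IsSolvable K)
    (n : ℕ) : ∀ (G : Type u) [Group G] [Finite G], Nat.card G = n → AG G →
      ∀ H : Subgroup G, Odd (Nat.card H) → (∃ c, H.index = 2 ^ c) → Group.IsSolvable G := by
  induction n using Nat.strong_induction_on with
  | _ n ih =>
    intro G _ _ hn hAG H hHo hHi
    have hIH : IH.{u} (Nat.card G) := by
      intro K _ _ hK hAK L hLo hLi
      exact ih (Nat.card K) (by rw [← hn]; exact hK) K rfl hAK L hLo hLi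
    by_contra hns
    have hHt : H ≠ ⊤ := by
      intro h
      apply hns
      apply hodd
      rwa [h, Subgroup.card_top] at hHo
    by_cases hsim : ∃ N : Subgroup G, N.Normal ∧ N ≠ ⊥ ∧ N ≠ ⊤
    · obtain ⟨N, hN, hN1, hN2⟩ := hsim
      have h1 : Group.IsSolvable N := by
        apply hIH N _ (hAG.subgroup N) (H.subgroupOf N)
        · have h2 : Nat.card (H.subgroupOf N) ∣ Nat.card H := by
            have e : Nat.card (H.subgroupOf N) = Nat.card ((H.subgroupOf N).map N.subtype) :=
              Nat.card_congr (Subgroup.equivMapOfInjective _ N.subtype N.subtype_injective).toEquiv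
            rw [e]
            apply Subgroup.card_dvd_of_le
            rintro _ ⟨x, hx, rfl⟩
            exact hx
          exact hHo.of_dvd_nat h2
        · obtain ⟨c, hc⟩ := hHi
          have h2 := H1.Hall.card_sup_mul_card_inf H N
          have h3 : H.relIndex N = H.relIndex (H ⊔ N) := by
            have h4 : Nat.card (H ⊓ N : Subgroup G) * H.relIndex N = Nat.card N := by
              have := Subgroup.card_mul_index (H.subgroupOf N)
              rw [← Subgroup.inf_subgroupOf_right, H13.Coprime.card_subgroupOf inf_le_right] at this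
              rw [← this]
              congr 1
              rw [Subgroup.inf_subgroupOf_right]; rfl
            have h5 : Nat.card H * H.relIndex (H ⊔ N) = Nat.card (H ⊔ N : Subgroup G) := by
              have := Subgroup.card_mul_index (H.subgroupOf (H ⊔ N))
              rwa [H13.Coprime.card_subgroupOf le_sup_left] at this
            rw [← h5, ← h4] at h2
            have h6 : 0 < Nat.card H * Nat.card (H ⊓ N : Subgroup G) := Nat.mul_pos Nat.card_pos Nat.card_pos
            apply Nat.eq_of_mul_eq_mul_left h6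
            calc Nat.card H * Nat.card (H ⊓ N : Subgroup G) * H.relIndex N
                = Nat.card H * (Nat.card (H ⊓ N : Subgroup G) * H.relIndex N) := by ring
              _ = Nat.card H * H.relIndex (H ⊔ N) * Nat.card (H ⊓ N : Subgroup G) := h2.symm
              _ = Nat.card H * Nat.card (H ⊓ N : Subgroup G) * H.relIndex (H ⊔ N) := by ring
          have h4 : (H.subgroupOf N).index ∣ 2 ^ c := by
            show H.relIndex N ∣ 2 ^ c
            rw [h3, ← hc]
            exact ⟨_, (Subgroup.relIndex_mul_index le_sup_left).symm⟩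
          obtain ⟨k, _, hk⟩ := (Nat.dvd_prime_pow Nat.prime_two).mp h4
          exact ⟨k, hk⟩
        · refine lt_of_le_of_ne (Subgroup.card_le_card_group N) ?_
          intro h
          exact hN2 (Subgroup.eq_top_of_card_eq N h)
      have h2 : Group.IsSolvable (G ⧸ N) := by
        apply hIH (G ⧸ N) _ (hAG.of_surjective (QuotientGroup.mk' N) (QuotientGroup.mk'_surjective N))
          (H.map (QuotientGroup.mk' N))
        · exact hHo.of_dvd_nat (Subgroup.card_map_dvd _ _)
        · obtain ⟨c, hc⟩ := hHi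
          have h4 : (H.map (QuotientGroup.mk' N)).index ∣ 2 ^ c := by
            rw [← hc]
            exact Subgroup.index_map_dvd _ (QuotientGroup.mk'_surjective N)
          obtain ⟨k, _, hk⟩ := (Nat.dvd_prime_pow Nat.prime_two).mp h4
          exact ⟨k, hk⟩
        · have h3 := Subgroup.card_mul_index N
          have h4 : 1 < Nat.card N := (Subgroup.one_lt_card_iff_ne_bot N).mpr hN1
          have h5 : 0 < Nat.card (G ⧸ N) := Nat.card_pos
          have h6 : N.index = Nat.card (G ⧸ N) := rfl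
          rw [h6] at h3
          nlinarith
      exact hns (Group.isSolvable_of_ker_le_range N.subtype (QuotientGroup.mk' N)
        (by rw [QuotientGroup.ker_mk', Subgroup.range_subtype]))
    · push Not at hsim
      have hnt : Nontrivial G := by
        by_contra h
        rw [not_nontrivial_iff_subsingleton] at h
        exact hns inferInstance
      have hsimple : IsSimpleGroup G := by
        refine ⟨fun N hN => ?_⟩
        by_cases h : N = ⊥
        · left; exact h
        · right; exact hsim N hN h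
      obtain ⟨T⟩ : Nonempty (Sylow 2 G) := inferInstance
      have S : Sim G T H := ⟨hAG, hIH, hsimple, hns, hHo, hHi⟩
      exact S.false hHt

end H72.HallAbel
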