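import Mathlib
import Cfsg.Agent.Lib.H72.HallAbel
import Cfsg.Agent.Lib.H72.ClassSize
import Cfsg.Agent.Lib.H75.UnionConj

/-!
S4133 modulo the odd order theorem: finite groups with abelian Sylow subgroups in which the maximal
power of `2` dividing a class size is a class size.
-/

set_option autoImplicit false

open Subgroup

universe u

namespace H72.AGroupMax

/-- an element fixed modulo an abelian normal subgroup can be corrected to a central element, if it is
a `q`-element and the Sylow `q`-subgroups are abelian -/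
theorem exists_central {M : Type*} [Group M] [Finite M] {q : ℕ} (hq : q.Prime)
    (hab : ∀ Q : Subgroup M, IsPGroup q Q → ∀ x ∈ Q, ∀ y ∈ Q, x * y = y * x)
    (B : Subgroup M) [hBn : B.Normal] (hB : ∀ a ∈ B, ∀ b ∈ B, a * b = b * a) (y : M)
    (hyB : ∀ b ∈ B, y * b = b * y) (hy : ∀ g : M, y⁻¹ * (g * y * g⁻¹) ∈ B) {e : ℕ}
    (hye : y ^ q ^ e = 1) : ∃ b ∈ B, ∀ g : M, g * (y * b) = (y * b) * g := by
  classical
  haveI := Fact.mk hq
  haveI := Fintype.ofFinite M
  letI cg : CommGroup B := { (inferInstance : Group B) with mul_comm := fun a b => Subtype.ext (hB a a.2 b b.2) }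
  set C := centralizer ({y} : Set M) with hC
  haveI : Fintype (M ⧸ C) := Fintype.ofFinite _
  -- `q` does not divide the number of conjugates
  have hk : ¬ q ∣ C.index := by
    have h1 : IsPGroup q (zpowers y) := by
      rintro ⟨x, n, rfl⟩
      refine ⟨e, Subtype.ext ?_⟩
      show (y ^ n) ^ q ^ e = 1
      rw [← zpow_natCast, ← zpow_mul, mul_comm, zpow_mul, zpow_natCast, hye, one_zpow]
    obtain ⟨Q, hQ⟩ := h1.exists_le_sylow
    have hyQ : y ∈ Q := hQ (mem_zpowers y)
    have h2 : (Q : Subgroup M) ≤ C := by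
      intro x hx
      rw [hC, mem_centralizer_singleton_iff]
      exact hab Q Q.2 x hx y hyQ
    intro h
    exact Q.not_dvd_index (h.trans (Subgroup.index_dvd_of_le h2))
  let c : M → B := fun g => ⟨y⁻¹ * (g * y * g⁻¹), hy g⟩
  have hc : ∀ a b : M, (QuotientGroup.leftRel C) a b → c a = c b := by
    intro a b hab
    rw [QuotientGroup.leftRel_apply] at hab
    rw [hC, mem_centralizer_singleton_iff] at hab
    apply Subtype.ext
    show y⁻¹ * (a * y * a⁻¹) = y⁻¹ * (b * y * b⁻¹)
    have h1 : b * y * b⁻¹ = a * ((a⁻¹ * b) * y) * b⁻¹ := by group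
    rw [h1, hab]
    group
  let cc : M ⧸ C → B := Quotient.lift c hc
  let φ : M → B →* B := fun h =>
    { toFun := fun b => ⟨h * b * h⁻¹, hBn.conj_mem b b.2 h⟩
      map_one' := by apply Subtype.ext; simp
      map_mul' := by
        intro a b
        apply Subtype.ext
        show h * ((a : M) * b) * h⁻¹ = h * a * h⁻¹ * (h * b * h⁻¹)
        group }
  have hcc : ∀ (h : M) (z : M ⧸ C), cc (h • z) = c h * φ h (cc z) := by
    intro h z
    obtain ⟨g, rfl⟩ := QuotientGroup.mk_surjective z
    apply Subtype.ext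
    show y⁻¹ * ((h * g) * y * (h * g)⁻¹) = y⁻¹ * (h * y * h⁻¹) * (h * (y⁻¹ * (g * y * g⁻¹)) * h⁻¹)
    group
  set Pi : B := ∏ z : M ⧸ C, cc z with hPi
  set k := Fintype.card (M ⧸ C) with hkdef
  have hkk : k = C.index := by rw [hkdef, ← Nat.card_eq_fintype_card]; rfl
  have hprod : ∀ h : M, Pi = c h ^ k * φ h Pi := by
    intro h
    have h1 : ∏ z : M ⧸ C, cc (h • z) = Pi := by
      exact Fintype.prod_equiv (MulAction.toPerm h) _ _ (fun z => rfl)
    have h2 : φ h Pi = ∏ z : M ⧸ C, φ h (cc z) := map_prod _ _ _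
    have h3 : ∏ z : M ⧸ C, cc (h • z) = ∏ z : M ⧸ C, (c h * φ h (cc z)) :=
      Finset.prod_congr rfl (fun z _ => hcc h z)
    rw [h2, ← h1, h3, Finset.prod_mul_distrib, Finset.prod_const, Finset.card_univ]
  -- `c h` has order dividing `q ^ e`
  have hcq : ∀ h : M, c h ^ q ^ e = 1 := by
    intro h
    apply Subtype.ext
    show (y⁻¹ * (h * y * h⁻¹)) ^ q ^ e = 1
    have h1 : Commute y⁻¹ (h * y * h⁻¹) := by
      have h2 : h * y * h⁻¹ = y * (y⁻¹ * (h * y * h⁻¹)) := by group
      have h3 := hyB _ (hy h)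
      rw [h2]
      have h4 : Commute y (y⁻¹ * (h * y * h⁻¹)) := h3
      exact ((Commute.refl y).mul_right h4).inv_left
    rw [h1.mul_pow, inv_pow, hye, inv_one, one_mul]
    have : (h * y * h⁻¹) ^ q ^ e = h * y ^ q ^ e * h⁻¹ := by
      have := map_pow (MulAut.conj h) y (q ^ e)
      simp only [MulAut.conj_apply] at this
      exact this.symm
    rw [this, hye]; group
  -- choose `l` with `k l ≡ 1`
  have hcop : Nat.Coprime k (q ^ e) := by
    rw [hkk]
    exact Nat.Coprime.pow_right e ((Nat.Prime.coprime_iff_not_dvd hq).mpr hk).symm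
  have hfix : ∀ (l m : ℤ), (k : ℤ) * l + (q ^ e : ℕ) * m = 1 → ∀ h : M, φ h (Pi ^ l) = (c h)⁻¹ * Pi ^ l := by
    intro l m hlm h
    rw [map_zpow]
    have h1 : φ h Pi = (c h ^ k)⁻¹ * Pi := by
      rw [eq_inv_mul_iff_mul_eq]; exact (hprod h).symm
    rw [h1, mul_zpow, inv_zpow]
    congr 1
    rw [inv_inj, ← zpow_natCast, ← zpow_mul]
    have h2 : (k : ℤ) * l = 1 - (q ^ e : ℕ) * m := by linarith
    rw [h2, zpow_sub, zpow_one, zpow_mul, zpow_natCast, hcq h, one_zpow, inv_one, mul_one]
  obtain ⟨l, m, hlm⟩ : ∃ l m : ℤ, (k : ℤ) * l + (q ^ e : ℕ) * m = 1 := by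
    have := Nat.isCoprime_iff_coprime.mpr hcop
    obtain ⟨a, b, hab⟩ := this
    exact ⟨a, b, by rw [← hab]; ring⟩
  refine ⟨(Pi ^ l : B), (Pi ^ l : B).2, ?_⟩
  intro g
  have h1 := congrArg Subtype.val (hfix l m hlm g)
  have h2 : g * ((Pi ^ l : B) : M) * g⁻¹ = (y⁻¹ * (g * y * g⁻¹))⁻¹ * ((Pi ^ l : B) : M) := h1
  have h3 : g * (y * ((Pi ^ l : B) : M)) * g⁻¹ = y * ((Pi ^ l : B) : M) := by
    have e1 : g * (y * ((Pi ^ l : B) : M)) * g⁻¹ = (g * y * g⁻¹) * (g * ((Pi ^ l : B) : M) * g⁻¹) := by group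
    rw [e1, h2]; group
  calc g * (y * ((Pi ^ l : B) : M)) = (g * (y * ((Pi ^ l : B) : M)) * g⁻¹) * g := by group
    _ = y * ((Pi ^ l : B) : M) * g := by rw [h3]

/-- every element of `C` can be corrected by an element of `B` so that its centralizer maps onto the
centralizer modulo `B` -/
theorem exists_correct {G : Type u} [Group G] [Finite G] (hAG : HallAbel.AG G) (C B : Subgroup G)
    [hBn : B.Normal] (hBC : B ≤ C) (hCB : ∀ c ∈ C, ∀ b ∈ B, c * b = b * c) (n : ℕ) :
    ∀ y ∈ C, orderOf y = n →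
      ∃ b ∈ B, ∀ g : G, y⁻¹ * (g * y * g⁻¹) ∈ B → g * (y * b) = (y * b) * g := by
  induction n using Nat.strong_induction_on with
  | _ n ih =>
    intro y hy hn
    by_cases hn1 : n = 1
    · refine ⟨1, one_mem _, ?_⟩
      intro g _
      rw [hn1, orderOf_eq_one_iff] at hn
      rw [hn]; simp
    have hn0 : n ≠ 0 := by rw [← hn]; exact (orderOf_pos y).ne'
    obtain ⟨q, hq, hqn⟩ := Nat.exists_prime_and_dvd hn1
    haveI := Fact.mk hq
    obtain ⟨e, m, hqm, hnem⟩ := Nat.exists_eq_pow_mul_and_not_dvd hn0 q hq.ne_one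
    have he : e ≠ 0 := by
      rintro rfl
      rw [pow_zero, one_mul] at hnem
      exact hqm (hnem ▸ hqn)
    have hcop : Nat.Coprime (q ^ e) m := Nat.Coprime.pow_left e ((Nat.Prime.coprime_iff_not_dvd hq).mpr hqm)
    obtain ⟨a, b, hab⟩ := Nat.isCoprime_iff_coprime.mpr hcop
    have hyn : y ^ (q ^ e * m) = 1 := by rw [← hnem, ← hn]; exact pow_orderOf_eq_one y
    -- general principle: primary elements
    have prim : ∀ z ∈ C, z ^ q ^ e = 1 →
        ∃ b ∈ B, ∀ g : G, z⁻¹ * (g * z * g⁻¹) ∈ B → g * (z * b) = (z * b) * g := by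
      intro z hz hze
      let M : Subgroup G := (centralizer ({(QuotientGroup.mk z : G ⧸ B)} : Set (G ⧸ B))).comap (QuotientGroup.mk' B)
      have hM : ∀ g : G, g ∈ M ↔ z⁻¹ * (g * z * g⁻¹) ∈ B := by
        intro g
        show (QuotientGroup.mk g : G ⧸ B) ∈ centralizer ({(QuotientGroup.mk z : G ⧸ B)} : Set (G ⧸ B)) ↔ _
        rw [mem_centralizer_singleton_iff, ← QuotientGroup.mk_mul, ← QuotientGroup.mk_mul]
        rw [eq_comm, QuotientGroup.eq]
        have e1 : (z * g)⁻¹ * (g * z) = g⁻¹ * (z⁻¹ * (g * z * g⁻¹)) * g := by group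
        rw [e1]
        constructor
        · intro h
          have := hBn.conj_mem _ h g
          have e2 : g * (g⁻¹ * (z⁻¹ * (g * z * g⁻¹)) * g) * g⁻¹ = z⁻¹ * (g * z * g⁻¹) := by group
          rwa [e2] at this
        · intro h
          have := hBn.conj_mem _ h g⁻¹
          rwa [inv_inv] at this
      have hBM : B ≤ M := by
        intro b hb
        rw [hM]
        have : z⁻¹ * (b * z * b⁻¹) = z⁻¹ * (b * z) * b⁻¹ := by group
        rw [this, ← hCB z hz b hb]
        have : z⁻¹ * (z * b) * b⁻¹ = 1 := by group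
        rw [this]; exact one_mem _
      have hzM : z ∈ M := by
        rw [hM]
        have : z⁻¹ * (z * z * z⁻¹) = 1 := by group
        rw [this]; exact one_mem _
      obtain ⟨b, hb, hbc⟩ := exists_central (M := M) hq
        (fun Q hQ => (hAG.subgroup M) q hq Q hQ) (B.subgroupOf M)
        (fun a ha b hb => Subtype.ext (hCB a (hBC ha) b hb)) ⟨z, hzM⟩
        (fun b hb => Subtype.ext (hCB z hz b hb)) (fun g => (hM g).mp g.2) (e := e)
        (Subtype.ext hze)
      refine ⟨b, hb, ?_⟩
      intro g hg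
      exact congrArg Subtype.val (hbc ⟨g, (hM g).mpr hg⟩)
    -- decompose `y`
    set y1 := y ^ (b * (m : ℤ)) with hy1
    set y2 := y ^ (a * ((q ^ e : ℕ) : ℤ)) with hy2
    have hyy : y = y1 * y2 := by
      rw [hy1, hy2, ← zpow_add, add_comm, hab, zpow_one]
    have hy1e : y1 ^ q ^ e = 1 := by
      rw [hy1, ← zpow_natCast, ← zpow_mul]
      have : b * (m : ℤ) * ((q ^ e : ℕ) : ℤ) = ((q ^ e * m : ℕ) : ℤ) * b := by push_cast; ring
      rw [this, zpow_mul, zpow_natCast, hyn, one_zpow]
    have hy2m : y2 ^ m = 1 := by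
      rw [hy2, ← zpow_natCast, ← zpow_mul]
      have : a * ((q ^ e : ℕ) : ℤ) * (m : ℤ) = ((q ^ e * m : ℕ) : ℤ) * a := by push_cast; ring
      rw [this, zpow_mul, zpow_natCast, hyn, one_zpow]
    have hy1C : y1 ∈ C := C.zpow_mem hy _
    have hy2C : y2 ∈ C := C.zpow_mem hy _
    have hmn : m < n := by
      rw [hnem]
      have h1 : 1 < q ^ e := Nat.one_lt_pow he hq.one_lt
      have h2 : 0 < m := Nat.pos_of_ne_zero (by rintro rfl; exact hqm (dvd_zero q))
      nlinarith
    have hm0 : 0 < m := Nat.pos_of_ne_zero (by rintro rfl; exact hqm (dvd_zero q))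
    obtain ⟨b1, hb1, h1⟩ := prim y1 hy1C hy1e
    obtain ⟨b2, hb2, h2⟩ := ih (orderOf y2)
      (lt_of_le_of_lt (orderOf_le_of_pow_eq_one hm0 hy2m) hmn) y2 hy2C rfl
    refine ⟨b1 * b2, B.mul_mem hb1 hb2, ?_⟩
    intro g hg
    -- `g` centralizes all powers of `y` modulo `B`
    have hpow : ∀ i : ℤ, (y ^ i)⁻¹ * (g * y ^ i * g⁻¹) ∈ B := by
      intro i
      rw [← QuotientGroup.eq] at hg ⊢
      have h3 : (QuotientGroup.mk (g * y ^ i * g⁻¹) : G ⧸ B) = (QuotientGroup.mk (g * y * g⁻¹) : G ⧸ B) ^ i := by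
        rw [← QuotientGroup.mk_zpow]
        congr 1
        have := map_zpow (MulAut.conj g) y i
        simpa only [MulAut.conj_apply] using this
      rw [h3, ← hg, QuotientGroup.mk_zpow]
    have h3 := h1 g (hpow _)
    have h4 := h2 g (hpow _)
    have h5 : y * (b1 * b2) = (y1 * b1) * (y2 * b2) := by
      have := hCB y2 hy2C b1 hb1
      calc y * (b1 * b2) = y1 * (y2 * b1) * b2 := by rw [hyy]; group
        _ = y1 * (b1 * y2) * b2 := by rw [this]
        _ = (y1 * b1) * (y2 * b2) := by group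
    rw [h5]
    exact (show Commute g (y1 * b1) from h3).mul_right (show Commute g (y2 * b2) from h4)

theorem main (hFT : ∀ (K : Type u) [Group K] [Finite K], Odd (Nat.card K) → Group.IsSolvable K)
    {G : Type u} [Group G] [Finite G] (hAG : HallAbel.AG G) (a : ℕ)
    (hmax : ∀ y : G, ¬ 2 ^ (a + 1) ∣ (centralizer ({y} : Set G)).index)
    (x : G) (hx : (centralizer ({x} : Set G)).index = 2 ^ a) : Group.IsSolvable G := by
  classical
  have : Fact (Nat.Prime 2) := ⟨Nat.prime_two⟩
  set K := centralizer ({x} : Set G) with hK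
  set C := K.normalCore with hC
  have hCK : C ≤ K := K.normalCore_le
  obtain ⟨P⟩ : Nonempty (Sylow 2 G) := inferInstance
  have hcop : (P : Subgroup G).index.Coprime K.index := by
    rw [hx]
    exact Nat.Coprime.pow_right a (Nat.coprime_two_right.mpr (by
      rw [← Nat.not_even_iff_odd, even_iff_two_dvd]; exact P.not_dvd_index))
  have hfac := H1.Solv.exists_mul_of_coprime_index hcop
  have hPC : (P : Subgroup G) ⊓ K ≤ C := by
    rintro s ⟨hsP, hsK⟩ g
    obtain ⟨k, hk, p, hp, hg⟩ := H1.Solv.exists_mul_of_coprime_index hcop.symm g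
    have h1 : p * s * p⁻¹ = s := by
      rw [hAG 2 Nat.prime_two P P.2 p hp s hsP]; group
    have h2 : g * s * g⁻¹ = k * (p * s * p⁻¹) * k⁻¹ := by rw [hg]; group
    rw [h2, h1]
    exact K.mul_mem (K.mul_mem hk hsK) (K.inv_mem hk)
  -- the index of `C` in `K` is odd
  have hCodd : Odd (C.relIndex K) := by
    have h1 : ((P : Subgroup G) ⊓ K).index = (P : Subgroup G).index * K.index :=
      H1.Solv.index_inf_of_coprime hcop
    have h2 : ((P : Subgroup G) ⊓ K).relIndex K * K.index = ((P : Subgroup G) ⊓ K).index :=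
      Subgroup.relIndex_mul_index inf_le_right
    have h3 : ((P : Subgroup G) ⊓ K).relIndex K = (P : Subgroup G).index := by
      have h4 : 0 < K.index := by rw [hx]; positivity
      apply Nat.eq_of_mul_eq_mul_right h4
      rw [h2, h1]
    have h4 : C.relIndex K ∣ (P : Subgroup G).index := by
      rw [← h3]
      exact Subgroup.relIndex_dvd_of_le_left K hPC
    apply Odd.of_dvd_nat _ h4
    rw [← Nat.not_even_iff_odd, even_iff_two_dvd]
    exact P.not_dvd_index
  -- the quotient is solvable
  have hquot : Group.IsSolvable (G ⧸ C) := by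
    apply HallAbel.isSolvable hFT (Nat.card (G ⧸ C)) (G ⧸ C) rfl
      (hAG.of_surjective (QuotientGroup.mk' C) (QuotientGroup.mk'_surjective C))
      (K.map (QuotientGroup.mk' C))
    · have h1 := H1.Cores.card_map_mk' C K hCK
      have h2 : Nat.card C * C.relIndex K = Nat.card K := by
        have := Subgroup.card_mul_index (C.subgroupOf K)
        rwa [H13.Coprime.card_subgroupOf hCK] at this
      have h3 : Nat.card (K.map (QuotientGroup.mk' C)) = C.relIndex K := by
        have h4 : 0 < Nat.card C := Nat.card_pos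
        apply Nat.eq_of_mul_eq_mul_left h4
        rw [h2, ← h1]
      rw [h3]; exact hCodd
    · refine ⟨a, ?_⟩
      rw [← hx, ← Subgroup.index_comap_of_surjective _ (QuotientGroup.mk'_surjective C)]
      congr 1
      rw [QuotientGroup.comap_map_mk', sup_eq_right.mpr hCK]
  -- the kernel is solvable
  set N := normalClosure ({x} : Set G) with hN
  have hCN : ∀ c ∈ C, ∀ y ∈ N, c * y = y * c := by
    intro c hc
    have h1 : N ≤ centralizer ({c} : Set G) := by
      rw [hN, normalClosure, closure_le]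
      intro z hz
      rw [Group.mem_conjugatesOfSet_iff] at hz
      obtain ⟨x', hx', hconj⟩ := hz
      rw [Set.mem_singleton_iff] at hx'
      subst hx'
      obtain ⟨g, rfl⟩ := isConj_iff.mp hconj
      rw [SetLike.mem_coe, mem_centralizer_singleton_iff]
      have h2 : g⁻¹ * c * g⁻¹⁻¹ ∈ K := hc g⁻¹
      rw [hK, mem_centralizer_singleton_iff] at h2
      calc g * x' * g⁻¹ * c = g * (x' * (g⁻¹ * c * g⁻¹⁻¹)) * g⁻¹ := by group
        _ = g * (g⁻¹ * c * g⁻¹⁻¹ * x') * g⁻¹ := by rw [h2]
        _ = c * (g * x' * g⁻¹) := by group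
    intro y hy
    exact (mem_centralizer_singleton_iff.mp (h1 hy)).symm
  set B := C ⊓ N with hB
  have hBn : B.Normal := inferInstance
  have hCB : ∀ c ∈ C, ∀ b ∈ B, c * b = b * c := fun c hc b hb => hCN c hc b hb.2
  have hodd : ∀ y : C, ¬ 2 ∣ (centralizer ({y} : Set C)).index := by
    intro y
    obtain ⟨b, hb, hyb⟩ := exists_correct hAG C B inf_le_left hCB _ (y : G) y.2 rfl
    set y' : G := (y : G) * b with hy'
    have hy'C : y' ∈ C := C.mul_mem y.2 hb.1
    have hy'x : y' * x = x * y' := hCN y' hy'C x (subset_normalClosure (Set.mem_singleton x))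
    set z := y' * x with hz
    have hxN : x ∈ N := subset_normalClosure (Set.mem_singleton x)
    have hNn : N.Normal := normalClosure_normal
    have hCn : C.Normal := K.normalCore_normal
    have key : ∀ g : G, g * z = z * g → g * y' = y' * g ∧ g * x = x * g := by
      intro g hg
      have h1 : (g * y' * g⁻¹) * (g * x * g⁻¹) = y' * x := by
        have h0 : (g * y' * g⁻¹) * (g * x * g⁻¹) = g * z * g⁻¹ := by rw [hz]; group
        have h00 : z * g * g⁻¹ = z := by group
        rw [h0, hg, h00]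
      have h2 : y'⁻¹ * (g * y' * g⁻¹) = x * (g * x * g⁻¹)⁻¹ := by
        rw [eq_mul_inv_of_mul_eq h1]; group
      have h3 : y'⁻¹ * (g * y' * g⁻¹) ∈ B := by
        refine ⟨C.mul_mem (C.inv_mem hy'C) (hCn.conj_mem _ hy'C g), ?_⟩
        rw [h2]
        exact N.mul_mem hxN (N.inv_mem (hNn.conj_mem _ hxN g))
      have h4 : (y : G)⁻¹ * (g * y * g⁻¹) ∈ B := by
        have : (y : G)⁻¹ * (g * y * g⁻¹) = b * (y'⁻¹ * (g * y' * g⁻¹)) * (g * b * g⁻¹)⁻¹ := by
          rw [hy']; group
        rw [this]
        exact B.mul_mem (B.mul_mem hb h3) (B.inv_mem (hBn.conj_mem _ hb g))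
      have h5 := hyb g h4
      refine ⟨h5, ?_⟩
      have h6 : g * x = (y'⁻¹) * ((g * y') * x) := by
        rw [h5]
        have h7 : y'⁻¹ * (y' * g * x) = g * x := by group
        rw [h7]
      rw [h6]
      have h8 : g * y' * x = g * z := by rw [hz]; group
      rw [h8, hg, hz]
      have h9 : y'⁻¹ * (y' * x * g) = x * g := by group
      rw [h9]
    have h1 : centralizer ({z} : Set G) ≤ K := by
      intro g hg
      rw [mem_centralizer_singleton_iff] at hg
      rw [hK, mem_centralizer_singleton_iff]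
      exact (key g hg).2
    have h2 : centralizer ({z} : Set G) ≤ centralizer ({y'} : Set G) := by
      intro g hg
      rw [mem_centralizer_singleton_iff] at hg
      rw [mem_centralizer_singleton_iff]
      exact (key g hg).1
    have h3 : ¬ 2 ∣ (centralizer ({z} : Set G)).relIndex K := by
      intro h
      apply hmax z
      rw [← Subgroup.relIndex_mul_index h1, hx, pow_succ, mul_comm]
      exact Nat.mul_dvd_mul h (dvd_refl _)
    have h4 : ¬ 2 ∣ (centralizer ({y'} : Set G)).relIndex K := fun h =>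
      h3 (h.trans (Subgroup.relIndex_dvd_of_le_left K h2))
    have h5 : (centralizer ({y'} : Set G)).relIndex C ∣ (centralizer ({y'} : Set G)).relIndex K := by
      have h6 := H72.ClassSize.relIndex_normal_dvd_index (C.subgroupOf K)
        ((centralizer ({y'} : Set G)).subgroupOf K)
      rw [Subgroup.relIndex_subgroupOf hCK] at h6
      exact h6
    intro h
    apply h4
    refine Dvd.dvd.trans ?_ h5
    have h6 : centralizer ({y} : Set C) = (centralizer ({y'} : Set G)).subgroupOf C := by
      ext c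
      rw [mem_centralizer_singleton_iff, Subgroup.mem_subgroupOf, mem_centralizer_singleton_iff]
      have h7 := hCB c c.2 b hb
      constructor
      · intro h8
        have h9 : (c : G) * y = y * c := congrArg Subtype.val h8
        calc (c : G) * y' = ((c : G) * y) * b := by rw [hy']; group
          _ = y * (c * b) := by rw [h9]; group
          _ = y' * c := by rw [h7, hy']; group
      · intro h8
        apply Subtype.ext
        show (c : G) * y = y * c
        have h9 : (c : G) * y = ((c : G) * y') * b⁻¹ := by rw [hy']; group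
        rw [h9, h8, hy']
        have h10 : (y : G) * b * c * b⁻¹ = y * (b * c) * b⁻¹ := by group
        rw [h10, ← h7]; group
    rw [h6] at h
    exact h
  have hCs : Group.IsSolvable C := by
    obtain ⟨Q⟩ : Nonempty (Sylow 2 C) := inferInstance
    have h1 := H75.UnionConj.sylow_le_center 2 hodd Q
    have h2 : Odd (Nat.card (C ⧸ center C)) := by
      have h3 : (center C).index ∣ (Q : Subgroup C).index := Subgroup.index_dvd_of_le h1
      have h4 : Odd (center C).index := by
        apply Odd.of_dvd_nat _ h3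
        rw [← Nat.not_even_iff_odd, even_iff_two_dvd]
        exact Q.not_dvd_index
      exact h4
    have h3 : Group.IsSolvable (C ⧸ center C) := hFT _ h2
    have h4 : Group.IsSolvable (center C) := by
      apply Group.isSolvable_of_comm
      intro a b
      apply Subtype.ext
      exact (mem_center_iff.mp b.2 a)
    exact Group.isSolvable_of_ker_le_range (center C).subtype (QuotientGroup.mk' (center C))
      (by rw [QuotientGroup.ker_mk', Subgroup.range_subtype])
  exact Group.isSolvable_of_ker_le_range C.subtype (QuotientGroup.mk' C)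
    (by rw [QuotientGroup.ker_mk', Subgroup.range_subtype])

end H72.AGroupMax
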