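import Mathlib
import Cfsg.Agent.Lib.H1.FpfNilp
import Cfsg.Agent.Lib.H1.Cyc
import Cfsg.Agent.Lib.H1.Frat
import Cfsg.Agent.Lib.H2.Nilp
import Cfsg.Agent.Lib.H13.Thompson
import Cfsg.Agent.Lib.H13.SylowN
import Cfsg.Agent.Lib.H24.HalfTrans
import Cfsg.Agent.Lib.H72.PGroupCenter
import Cfsg.Agent.Lib.H72.TwoLargest

set_option autoImplicit false
set_option linter.unusedSectionVars false

/-! Camina pairs. -/

namespace H72.Camina

open Subgroup
open scoped commutatorElement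

universe u

/-- `(G, N)` is a Camina pair (or `N = 1`) -/
structure Cam (G : Type*) [Group G] (N : Subgroup G) : Prop where
  nrm : N.Normal
  cam : ∀ g : G, g ∉ N → ∀ n ∈ N, ∃ x : G, x * g * x⁻¹ = g * n

variable {G : Type u} [Group G] [Finite G]

theorem Cam.quot {N : Subgroup G} (h : Cam G N) (O : Subgroup G) [O.Normal] (_hO : O ≤ N) :
    Cam (G ⧸ O) (N.map (QuotientGroup.mk' O)) where
  nrm := h.nrm.map _ (QuotientGroup.mk'_surjective O)
  cam := by
    intro g hg n hn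
    obtain ⟨g, rfl⟩ := QuotientGroup.mk'_surjective O g
    obtain ⟨n, hn, rfl⟩ := hn
    have hg' : g ∉ N := fun h1 => hg ⟨g, h1, rfl⟩
    obtain ⟨x, hx⟩ := h.cam g hg' n hn
    exact ⟨QuotientGroup.mk' O x, by rw [← map_mul, ← map_inv, ← map_mul, hx, map_mul]⟩

theorem orderOf_conj' (x g : G) : orderOf (x * g * x⁻¹) = orderOf g :=
  MulEquiv.orderOf_eq (MulAut.conj x) g

theorem Cam.pElement {N : Subgroup G} (h : Cam G N) {g : G} (hg : g ∉ N) {p k : ℕ}
    (hp : p.Prime) (hgp : orderOf g = p ^ k) {c : G} (hc : c ∈ N) (hcg : Commute g c) :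
    ∃ j, orderOf c = p ^ j := by
  obtain ⟨a, m, hm, hcm⟩ := Nat.exists_eq_pow_mul_and_not_dvd (orderOf_pos c).ne' p hp.ne_one
  have h1 : orderOf (c ^ (p ^ a)) = m := by
    rw [orderOf_pow' c (pow_ne_zero a hp.ne_zero), hcm, Nat.gcd_eq_right (Dvd.intro _ rfl),
      Nat.mul_div_cancel_left _ (pow_pos hp.pos a)]
  have hcop : (orderOf g).Coprime (orderOf (c ^ (p ^ a))) := by
    rw [h1, hgp]
    exact Nat.Coprime.pow_left _ ((Nat.Prime.coprime_iff_not_dvd hp).mpr hm)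
  have h2 := (hcg.pow_right (p ^ a)).orderOf_mul_eq_mul_orderOf_of_coprime hcop
  obtain ⟨x, hx⟩ := h.cam g hg (c ^ (p ^ a)) (pow_mem hc _)
  rw [← hx, orderOf_conj', h1] at h2
  have h3 : m = 1 := by
    have h4 : 0 < orderOf g := orderOf_pos g
    exact (Nat.eq_of_mul_eq_mul_left h4 (by rw [← h2, mul_one])).symm
  exact ⟨a, by rw [hcm, h3, mul_one]⟩

/-- the set of `g⁻¹ g^u`, `u ∈ A` -/
def cset (A : Subgroup G) (g : G) : Set G := Set.range (fun u : A => g⁻¹ * ((u : G) * g * (u : G)⁻¹))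

theorem card_cset (A : Subgroup G) (g : G) :
    Nat.card (cset A g) = (centralizer {g}).relIndex A := by
  let f : A ⧸ ((centralizer {g}).subgroupOf A) → cset A g := fun q =>
    Quotient.liftOn' q (fun u => ⟨g⁻¹ * ((u : G) * g * (u : G)⁻¹), ⟨u, rfl⟩⟩) (by
      intro a b hab
      rw [QuotientGroup.leftRel_apply, Subgroup.mem_subgroupOf,
        Subgroup.mem_centralizer_singleton_iff] at hab
      apply Subtype.ext
      show g⁻¹ * ((a : G) * g * (a : G)⁻¹) = g⁻¹ * ((b : G) * g * (b : G)⁻¹)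
      have h1 : (a : G)⁻¹ * b * g = g * ((a : G)⁻¹ * b) := hab
      have h2 : (b : G) * g * (b : G)⁻¹ = a * ((a : G)⁻¹ * b * g) * (b : G)⁻¹ := by group
      rw [h2, h1]
      group)
  rw [Subgroup.relIndex, Subgroup.index]
  symm
  apply Nat.card_eq_of_bijective f
  constructor
  · intro x y hxy
    induction x using QuotientGroup.induction_on with
    | H a =>
    induction y using QuotientGroup.induction_on with
    | H b =>
    have h1 : g⁻¹ * ((a : G) * g * (a : G)⁻¹) = g⁻¹ * ((b : G) * g * (b : G)⁻¹) :=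
      congrArg Subtype.val hxy
    rw [QuotientGroup.eq, Subgroup.mem_subgroupOf, Subgroup.mem_centralizer_singleton_iff]
    have h2 : (a : G) * g * (a : G)⁻¹ = (b : G) * g * (b : G)⁻¹ := mul_left_cancel h1
    show (a : G)⁻¹ * b * g = g * ((a : G)⁻¹ * b)
    have h3 : (a : G)⁻¹ * b * g = (a : G)⁻¹ * ((b : G) * g * (b : G)⁻¹) * b := by group
    rw [h3, ← h2]
    group
  · rintro ⟨_, ⟨u, rfl⟩⟩
    exact ⟨(u : A ⧸ ((centralizer {g}).subgroupOf A)), rfl⟩

/-- elements centralizing `g` modulo `N` -/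
def modCent (N : Subgroup G) (hN : N.Normal) (g : G) : Subgroup G where
  carrier := {u | g⁻¹ * (u * g * u⁻¹) ∈ N}
  mul_mem' := by
    intro u v hu hv
    have h1 : g⁻¹ * (u * v * g * (u * v)⁻¹) =
        (g⁻¹ * (u * g * u⁻¹)) * (u * (g⁻¹ * (v * g * v⁻¹)) * u⁻¹) := by group
    show g⁻¹ * (u * v * g * (u * v)⁻¹) ∈ N
    rw [h1]
    exact mul_mem hu (hN.conj_mem _ hv u)
  one_mem' := by
    show g⁻¹ * (1 * g * 1⁻¹) ∈ N
    have : g⁻¹ * (1 * g * 1⁻¹) = 1 := by group
    rw [this]; exact one_mem _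
  inv_mem' := by
    intro u hu
    show g⁻¹ * (u⁻¹ * g * u⁻¹⁻¹) ∈ N
    have h1 : g⁻¹ * (u⁻¹ * g * u⁻¹⁻¹) = u⁻¹ * (g⁻¹ * (u * g * u⁻¹))⁻¹ * u⁻¹⁻¹ := by group
    rw [h1]
    exact hN.conj_mem _ (inv_mem hu) _

theorem mem_modCent {N : Subgroup G} {hN : N.Normal} {g u : G} :
    u ∈ modCent N hN g ↔ g⁻¹ * (u * g * u⁻¹) ∈ N := Iff.rfl

theorem le_modCent {N : Subgroup G} (hN : N.Normal) (g : G) : N ≤ modCent N hN g := by
  intro n hn
  rw [mem_modCent]
  have : g⁻¹ * (n * g * n⁻¹) = (g⁻¹ * n * g⁻¹⁻¹) * n⁻¹ := by group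
  rw [this]
  exact mul_mem (hN.conj_mem n hn _) (inv_mem hn)

theorem cent_le_modCent {N : Subgroup G} (hN : N.Normal) (g : G) :
    centralizer {g} ≤ modCent N hN g := by
  intro c hc
  rw [Subgroup.mem_centralizer_singleton_iff] at hc
  rw [mem_modCent]
  have : g⁻¹ * (c * g * c⁻¹) = 1 := by rw [hc]; group
  rw [this]; exact one_mem _

theorem Cam.cset_modCent {N : Subgroup G} (h : Cam G N) {g : G} (hg : g ∉ N) :
    cset (modCent N h.nrm g) g = (N : Set G) := by
  ext n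
  constructor
  · rintro ⟨u, rfl⟩
    exact u.2
  · intro hn
    obtain ⟨x, hx⟩ := h.cam g hg n hn
    have h1 : g⁻¹ * (x * g * x⁻¹) = n := by rw [hx]; group
    exact ⟨⟨x, by rw [mem_modCent, h1]; exact hn⟩, h1⟩

theorem rel_mul_card (A B : Subgroup G) : (A.relIndex B) * Nat.card (A ⊓ B : Subgroup G) =
    Nat.card B := by
  rw [← Subgroup.inf_relIndex_right, ← Subgroup.relIndex_bot_left (H := A ⊓ B), mul_comm,
    Subgroup.relIndex_mul_relIndex _ _ _ bot_le inf_le_right, Subgroup.relIndex_bot_left]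

/-- The supplement principle. -/
theorem Cam.supp {N K : Subgroup G} (h : Cam G N) (hK : K ⊔ N = ⊤) {g : G} (hg : g ∉ N)
    (hgK : g ∈ K) :
    centralizer {g} ≤ K ∧ ∀ n ∈ K ⊓ N, ∃ x ∈ K, x * g * x⁻¹ = g * n := by
  have hN := h.nrm
  set M := modCent N h.nrm g with hM
  set C := centralizer ({g} : Set G) with hC
  have hCM : C ≤ M := cent_le_modCent _ _
  have hNM : N ≤ M := le_modCent _ _
  have h1 : C.relIndex M = Nat.card N := by
    rw [← card_cset, h.cset_modCent hg]; rfl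
  have hsub : cset (M ⊓ K) g ⊆ ((K ⊓ N : Subgroup G) : Set G) := by
    rintro _ ⟨⟨u, hu⟩, rfl⟩
    obtain ⟨hu1, hu2⟩ := Subgroup.mem_inf.mp hu
    refine ⟨?_, hu1⟩
    exact K.mul_mem (K.inv_mem hgK) (K.mul_mem (K.mul_mem hu2 hgK) (K.inv_mem hu2))
  have h2 : C.relIndex (M ⊓ K) ≤ Nat.card (K ⊓ N : Subgroup G) := by
    rw [← card_cset]
    exact Nat.card_mono (Set.toFinite _) hsub
  -- Dedekind
  have h3 : (M ⊓ K) ⊔ N = M := by
    apply le_antisymm (sup_le inf_le_left hNM)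
    intro u hu
    have hu1 : u ∈ K ⊔ N := hK ▸ trivial
    obtain ⟨k, hk, n, hn, rfl⟩ := Subgroup.mem_sup_of_normal_right.mp hu1
    have hk1 : k ∈ M := (M.mul_mem_cancel_right (hNM hn)).mp hu
    exact mul_mem ((le_sup_left : M ⊓ K ≤ _) (Subgroup.mem_inf.mpr ⟨hk1, hk⟩))
      ((le_sup_right : N ≤ _) hn)
  have h4 : (M ⊓ K) ⊓ N = K ⊓ N := by
    rw [inf_comm M K, inf_assoc, inf_eq_right.mpr hNM]
  have h5 := H13.Thompson.card_sup_mul_card_inf (A := M ⊓ K) (B := N)
    (by rw [Subgroup.normalizer_eq_top]; exact le_top)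
  rw [h3, h4] at h5
  have h6 := rel_mul_card C M
  rw [inf_eq_left.mpr hCM, h1] at h6
  have h7 := rel_mul_card C (M ⊓ K)
  have h8 : C ⊓ (M ⊓ K) = C ⊓ K := by rw [← inf_assoc, inf_eq_left.mpr hCM]
  rw [h8] at h7
  have hNpos : 0 < Nat.card N := Nat.card_pos
  have hKNpos : 0 < Nat.card (K ⊓ N : Subgroup G) := Nat.card_pos
  have hCKpos : 0 < Nat.card (C ⊓ K : Subgroup G) := Nat.card_pos
  -- |C| |K ∩ N| = |M ∩ K|
  have h9 : Nat.card C * Nat.card (K ⊓ N : Subgroup G) = Nat.card (M ⊓ K : Subgroup G) := by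
    apply Nat.eq_of_mul_eq_mul_left hNpos
    calc Nat.card N * (Nat.card C * Nat.card (K ⊓ N : Subgroup G))
        = (Nat.card N * Nat.card C) * Nat.card (K ⊓ N : Subgroup G) := by ring
      _ = Nat.card M * Nat.card (K ⊓ N : Subgroup G) := by rw [h6]
      _ = Nat.card N * Nat.card (M ⊓ K : Subgroup G) := by rw [h5]; ring
  have h10 : Nat.card C ≤ Nat.card (C ⊓ K : Subgroup G) := by
    have h11 : Nat.card C * Nat.card (K ⊓ N : Subgroup G) ≤
        Nat.card (C ⊓ K : Subgroup G) * Nat.card (K ⊓ N : Subgroup G) := by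
      rw [h9, ← h7, mul_comm]
      exact Nat.mul_le_mul_left _ h2
    exact Nat.le_of_mul_le_mul_right h11 hKNpos
  have h12 : C ⊓ K = C := Subgroup.eq_of_le_of_card_ge inf_le_left h10
  have h13 : C ≤ K := inf_eq_left.mp h12
  refine ⟨h13, ?_⟩
  rw [h12] at h7
  have h14 : C.relIndex (M ⊓ K) = Nat.card (K ⊓ N : Subgroup G) := by
    have hCpos : 0 < Nat.card C := Nat.card_pos
    apply Nat.eq_of_mul_eq_mul_right hCpos
    rw [h7, ← h9]; ring
  have h15 : cset (M ⊓ K) g = ((K ⊓ N : Subgroup G) : Set G) := by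
    apply Set.eq_of_subset_of_ncard_le hsub _ (Set.toFinite _)
    rw [← card_cset] at h14
    exact h14.ge
  intro n hn
  have h16 : n ∈ cset (M ⊓ K) g := by rw [h15]; exact hn
  obtain ⟨⟨u, hu⟩, hun⟩ := h16
  refine ⟨u, (Subgroup.mem_inf.mp hu).2, ?_⟩
  have h17 : g⁻¹ * (u * g * u⁻¹) = n := hun
  rw [← h17]; group

theorem Cam.sub {N K : Subgroup G} (h : Cam G N) (hK : K ⊔ N = ⊤) : Cam K (N.subgroupOf K) where
  nrm := by have := h.nrm; infer_instance
  cam := by
    intro g hg n hn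
    obtain ⟨x, hx, hxg⟩ := (h.supp hK (g := g) hg g.2).2 n ⟨n.2, hn⟩
    exact ⟨⟨x, hx⟩, Subtype.ext hxg⟩

/-- `L ≤ [L, S]` with `S` nilpotent forces `L = 1` -/
theorem eq_bot_of_le_commutator {L S : Subgroup G} (hS : Group.IsNilpotent S) (hLS : L ≤ S)
    (h : L ≤ ⁅L, S⁆) : L = ⊥ := by
  rw [eq_bot_iff]
  apply H2.Residual.le_of_le_sup_commutator hS bot_le hLS
  · rw [Subgroup.normalizer_eq_top]; exact le_top
  · rw [bot_sup_eq]; exact h

/-- Sylow transitivity on `h L` for a normal `p`-subgroup `L` -/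
theorem Cam.sylow_trans {L : Subgroup G} (h : Cam G L) {p : ℕ} [hp : Fact p.Prime]
    (hL : IsPGroup p L) (S : Sylow p G) {x : G} (hxL : x ∉ L)
    (hcen : ∀ s ∈ S, x⁻¹ * (s * x * s⁻¹) ∈ L) {n : G} (hn : n ∈ L) :
    ∃ s ∈ S, x⁻¹ * (s * x * s⁻¹) = n := by
  set M := modCent L h.nrm x with hM
  set C := centralizer ({x} : Set G) with hC
  have hSM : (S : Subgroup G) ≤ M := fun s hs => hcen s hs
  have hCM : C ≤ M := cent_le_modCent _ _
  have h1 : C.relIndex M = Nat.card L := by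
    rw [← card_cset, h.cset_modCent hxL]; rfl
  have hsub : cset (S : Subgroup G) x ⊆ (L : Set G) := by
    rintro _ ⟨⟨u, hu⟩, rfl⟩
    exact hcen u hu
  obtain ⟨a, ha⟩ := IsPGroup.iff_card.mp hL
  obtain ⟨b, hb⟩ := IsPGroup.iff_card.mp S.2
  obtain ⟨c, hc⟩ := IsPGroup.iff_card.mp (S.2.to_le (inf_le_right : C ⊓ (S : Subgroup G) ≤ S))
  have h6 := rel_mul_card C M
  rw [inf_eq_left.mpr hCM, h1] at h6
  have h7 := rel_mul_card C (S : Subgroup G)
  -- p-parts
  obtain ⟨e, m, hm, hCm⟩ := Nat.exists_eq_pow_mul_and_not_dvd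
    (Nat.card_pos (α := C)).ne' p hp.out.ne_one
  have h8 : p ^ (a + e) ∣ Nat.card G := by
    have h9 : p ^ (a + e) ∣ Nat.card M := by
      rw [← h6, ha, hCm, pow_add]
      exact Nat.mul_dvd_mul_left _ (Dvd.intro _ rfl)
    exact h9.trans (Subgroup.card_subgroup_dvd_card M)
  have h10 : p ^ (a + e) ∣ Nat.card (S : Subgroup G) := by
    rw [S.card_eq_multiplicity]
    exact (Nat.pow_dvd_pow_iff_le_right hp.out.one_lt).mpr
      ((Nat.Prime.pow_dvd_iff_le_factorization hp.out Nat.card_pos.ne').mp h8)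
  have h11 : p ^ c ∣ p ^ e := by
    have h12 : p ^ c ∣ Nat.card C := by
      rw [← hc]
      exact Subgroup.card_dvd_of_le inf_le_left
    rw [hCm] at h12
    have hcop : (p ^ c).Coprime m :=
      Nat.Coprime.pow_left _ ((Nat.Prime.coprime_iff_not_dvd hp.out).mpr hm)
    exact hcop.dvd_of_dvd_mul_right h12
  have h13 : Nat.card L ≤ C.relIndex (S : Subgroup G) := by
    have hpos : 0 < p ^ e := pow_pos hp.out.pos e
    have hrel : 0 < C.relIndex (S : Subgroup G) :=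
      Nat.pos_of_ne_zero Subgroup.index_ne_zero_of_finite
    have h14 : p ^ a * p ^ e ≤ C.relIndex (S : Subgroup G) * p ^ e := by
      calc p ^ a * p ^ e = p ^ (a + e) := (pow_add _ _ _).symm
        _ ≤ Nat.card (S : Subgroup G) := Nat.le_of_dvd Nat.card_pos h10
        _ = C.relIndex (S : Subgroup G) * p ^ c := by rw [← h7, hc]
        _ ≤ C.relIndex (S : Subgroup G) * p ^ e := Nat.mul_le_mul_left _ (Nat.le_of_dvd hpos h11)
    rw [ha]
    exact Nat.le_of_mul_le_mul_right h14 hpos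
  have h15 : cset (S : Subgroup G) x = (L : Set G) := by
    apply Set.eq_of_subset_of_ncard_le hsub _ (Set.toFinite _)
    rw [← card_cset] at h13
    exact h13
  have h16 : n ∈ cset (S : Subgroup G) x := by rw [h15]; exact hn
  obtain ⟨⟨u, hu⟩, hun⟩ := h16
  exact ⟨u, hu, hun⟩

theorem Cam.exists_pair {L : Subgroup G} (h : Cam G L) {p : ℕ} [hp : Fact p.Prime]
    (hL : IsPGroup p L) (hne : L ≠ ⊥) (S : Sylow p G) (hS : ¬ (S : Subgroup G) ≤ L) :
    ∃ x ∈ S, ∃ y ∈ S, x ∉ L ∧ y ∉ L ∧ x ^ p ∈ L ∧ y ^ p ∈ L ∧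
      x⁻¹ * (y * x * y⁻¹) ∈ L ∧ x ∉ zpowers y ⊔ L := by
  have hLn := h.nrm
  have hLS : L ≤ S := IsPGroup.le_sylow_of_normal hL S
  set L' := L.subgroupOf (S : Subgroup G) with hL'
  have hL'n : L'.Normal := by infer_instance
  have hL'top : L' ≠ ⊤ := by
    intro h1
    rw [Subgroup.subgroupOf_eq_top] at h1
    exact hS h1
  have hnt : Nontrivial ((S : Subgroup G) ⧸ L') := by
    rw [QuotientGroup.nontrivial_iff]; exact hL'top
  have hq : IsPGroup p ((S : Subgroup G) ⧸ L') := S.2.to_quotient _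
  have hcn : Nontrivial (center ((S : Subgroup G) ⧸ L')) := hq.center_nontrivial
  have hcard : p ∣ Nat.card (center ((S : Subgroup G) ⧸ L')) := by
    obtain ⟨k, hk⟩ := IsPGroup.iff_card.mp (hq.to_subgroup (center ((S : Subgroup G) ⧸ L')))
    rw [hk]
    have : k ≠ 0 := by
      rintro rfl
      rw [pow_zero] at hk
      have := Finite.one_lt_card (α := center ((S : Subgroup G) ⧸ L'))
      omega
    exact dvd_pow_self p this
  obtain ⟨⟨c, hcc⟩, hco⟩ := exists_prime_orderOf_dvd_card' p hcard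
  obtain ⟨x, rfl⟩ := QuotientGroup.mk'_surjective L' c
  rw [Subgroup.orderOf_mk] at hco
  have hxL : (x : G) ∉ L := by
    intro h1
    have h2 : QuotientGroup.mk' L' x = 1 := (QuotientGroup.eq_one_iff x).mpr h1
    rw [h2, orderOf_one] at hco
    exact hp.out.one_lt.ne hco
  have hxp : (x : G) ^ p ∈ L := by
    have h1 := pow_orderOf_eq_one (QuotientGroup.mk' L' x)
    rw [hco, ← map_pow] at h1
    exact (QuotientGroup.eq_one_iff (x ^ p)).mp h1
  have hcen : ∀ s ∈ S, (x : G)⁻¹ * (s * x * s⁻¹) ∈ L := by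
    intro s hs
    have h1 := Subgroup.mem_center_iff.mp hcc (QuotientGroup.mk' L' ⟨s, hs⟩)
    have h2 : QuotientGroup.mk' L' (x⁻¹ * (⟨s, hs⟩ * x * ⟨s, hs⟩⁻¹)) = 1 := by
      rw [map_mul, map_mul, map_mul, h1, map_inv, map_inv]; group
    exact (QuotientGroup.eq_one_iff
      (x⁻¹ * ((⟨s, hs⟩ : (S : Subgroup G)) * x * (⟨s, hs⟩ : (S : Subgroup G))⁻¹))).mp h2
  obtain ⟨y, hy, hyL, hxy⟩ : ∃ y ∈ S, y ∉ L ∧ (x : G) ∉ zpowers y ⊔ L := by
    by_contra hcon
    push Not at hcon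
    apply hne
    apply eq_bot_of_le_commutator S.2.isNilpotent hLS
    intro n hn
    obtain ⟨s, hs, hsn⟩ := h.sylow_trans hL S hxL hcen hn
    by_cases hsL : s ∈ L
    · have h1 : n = ⁅(x : G)⁻¹, s⁆ := by
        rw [← hsn, commutatorElement_def]
        group
      rw [h1, Subgroup.commutator_comm]
      exact Subgroup.commutator_mem_commutator (inv_mem x.2) hsL
    · obtain ⟨z, hz, l, hl, hzl⟩ := Subgroup.mem_sup_of_normal_right.mp (hcon s hs hsL)
      obtain ⟨j, rfl⟩ := Subgroup.mem_zpowers_iff.mp hz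
      have h1 : n = ⁅l⁻¹, s⁆ := by
        rw [← hsn, ← hzl, commutatorElement_def]
        group
      rw [h1]
      exact Subgroup.commutator_mem_commutator (inv_mem hl) hs
  -- replace `y` by a power
  have hex : ∃ m : ℕ, y ^ (p ^ m) ∈ L := by
    obtain ⟨m, hm⟩ := isPGroup_iff_pow_pow_eq_one.mp S.2 ⟨y, hy⟩
    refine ⟨m, ?_⟩
    have h1 : y ^ (p ^ m) = 1 := by simpa using congrArg Subtype.val hm
    rw [h1]; exact one_mem _
  classical
  have hm := Nat.find_spec hex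
  have hm0 : Nat.find hex ≠ 0 := by
    intro h0
    rw [h0, pow_zero, pow_one] at hm
    exact hyL hm
  obtain ⟨k, hk⟩ := Nat.exists_eq_succ_of_ne_zero hm0
  have hk1 : y ^ (p ^ k) ∉ L := Nat.find_min hex (by omega)
  refine ⟨x, x.2, y ^ (p ^ k), pow_mem hy _, hxL, hk1, hxp, ?_, ?_, ?_⟩
  · rw [← pow_mul, ← pow_succ]
    rw [hk] at hm
    exact hm
  · exact hcen _ (pow_mem hy _)
  · intro h1
    apply hxy
    have h2 : zpowers (y ^ (p ^ k)) ≤ zpowers y := by
      rw [Subgroup.zpowers_le]; exact pow_mem (mem_zpowers y) _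
    exact (sup_le_sup_right h2 L) h1

theorem pCore_index {L : Type*} [Group L] [Finite L] (hnil : Group.IsNilpotent L) (p : ℕ)
    [hp : Fact p.Prime] : ¬ p ∣ (Cfsg.pCore p L).index := by
  obtain ⟨P⟩ : Nonempty (Sylow p L) := inferInstance
  have h1 : (P : Subgroup L).Normal := inferInstance
  have h2 : (P : Subgroup L) ≤ Cfsg.pCore p L := H1.Cores.le_pCore h1 P.2
  intro h3
  exact P.not_dvd_index (h3.trans (Subgroup.index_dvd_of_le h2))

/-- two commuting distinct subgroups of order `p` cannot act fixed-point-freely -/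
theorem no_fpf {L : Subgroup G} (hLn : L.Normal) (hnil : Group.IsNilpotent L) (hL : L ≠ ⊥) {p : ℕ} [hp : Fact p.Prime]
    {x y : G} (hx : x ^ p = 1) (hy : y ^ p = 1) (hx1 : x ≠ 1) (hy1 : y ≠ 1) (hxy : x * y = y * x)
    (hne : x ∉ zpowers y)
    (hfpf : ∀ e ∈ closure {x, y}, e ≠ 1 → L ⊓ centralizer {e} = ⊥) : False := by
  set E := closure ({x, y} : Set G) with hE
  have hEc : IsMulCommutative E := by
    rw [hE]
    apply Subgroup.isMulCommutative_closure
    intro a ha b hb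
    simp only [Set.mem_insert_iff, Set.mem_singleton_iff] at ha hb
    rcases ha with rfl | rfl <;> rcases hb with rfl | rfl
    · rfl
    · exact hxy
    · exact hxy.symm
    · rfl
  set V := (center L).map L.subtype with hV
  have hVc : IsMulCommutative V := by
    rw [hV]; infer_instance
  have hVne : V ≠ ⊥ := by
    intro h
    rw [hV, Subgroup.map_eq_bot_iff, Subgroup.ker_subtype, le_bot_iff] at h
    have : Nontrivial L := (Subgroup.nontrivial_iff_ne_bot L).mpr hL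
    exact Group.IsNilpotent.center_ne_bot L h
  have hVn : V.Normal := by rw [hV]; infer_instance
  have hVL : V ≤ L := Subgroup.map_subtype_le _
  have hcyc := H1.Cyc.isCyclic_of_fpf_subgroup E V hVne
    (by rw [Subgroup.normalizer_eq_top]; exact le_top)
    (fun a ha ha1 => by
      rw [eq_bot_iff, ← hfpf a ha ha1]
      exact inf_le_inf_right _ hVL) (Or.inl hEc)
  have hxE : x ∈ E := Subgroup.subset_closure (by simp)
  have hyE : y ∈ E := Subgroup.subset_closure (by simp)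
  have hox : orderOf (⟨x, hxE⟩ : E) = p := by
    rw [Subgroup.orderOf_mk]; exact orderOf_eq_prime hx hx1
  have hoy : orderOf (⟨y, hyE⟩ : E) = p := by
    rw [Subgroup.orderOf_mk]; exact orderOf_eq_prime hy hy1
  have h1 : zpowers (⟨x, hxE⟩ : E) = zpowers (⟨y, hyE⟩ : E) := by
    apply H24.HalfTrans.cyclic_subgroup_eq
    rw [Nat.card_zpowers, Nat.card_zpowers, hox, hoy]
  have h2 : (⟨x, hxE⟩ : E) ∈ zpowers (⟨y, hyE⟩ : E) := h1 ▸ mem_zpowers _
  obtain ⟨j, hj⟩ := Subgroup.mem_zpowers_iff.mp h2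
  apply hne
  exact ⟨j, by simpa using congrArg Subtype.val hj⟩

theorem mem_map_mk {L O : Subgroup G} [O.Normal] (hO : O ≤ L) {x : G} :
    QuotientGroup.mk' O x ∈ L.map (QuotientGroup.mk' O) ↔ x ∈ L := by
  constructor
  · rintro ⟨l, hl, hlx⟩
    have h1 : l⁻¹ * x ∈ O := QuotientGroup.eq.mp hlx
    have h2 : x = l * (l⁻¹ * x) := by group
    rw [h2]
    exact mul_mem hl (hO h1)
  · intro h
    exact Subgroup.mem_map_of_mem _ h

/-- A nilpotent Camina kernel `L` with `p` dividing `|L|` and `|G : L|` is a `p`-group. -/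
theorem Cam.isPGroup_of_nilpotent {L : Subgroup G} (h : Cam G L) (hnil : Group.IsNilpotent L)
    {p : ℕ} [hp : Fact p.Prime] (hpL : p ∣ Nat.card L) (hpi : p ∣ L.index) : IsPGroup p L := by
  have hLn := h.nrm
  set O := (Cfsg.pResidual p L).map L.subtype with hO
  set D := (Cfsg.pCore p L).map L.subtype with hD
  have hOn : O.Normal := by rw [hO]; infer_instance
  have hDn : D.Normal := by rw [hD]; infer_instance
  have hOL : O ≤ L := Subgroup.map_subtype_le _
  have hDL : D ≤ L := Subgroup.map_subtype_le _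
  have hOcard : ¬ p ∣ Nat.card O := by
    rw [hO, Subgroup.card_map_of_injective L.subtype_injective]
    exact H2.NPC.iff_not_dvd_card_residual.mp (H2.Nilp.hasNPC_of_nilpotent hnil)
  -- the quotient by `O`
  have hL1p : IsPGroup p (L.map (QuotientGroup.mk' O)) := by
    have h1 := H2.Residual.isPGroup_quotient_residual (G := L) (p := p)
    rw [isPGroup_iff_pow_pow_eq_one]
    rintro ⟨_, ⟨l, hl, rfl⟩⟩
    obtain ⟨k, hk⟩ := isPGroup_iff_pow_pow_eq_one.mp h1 (QuotientGroup.mk ⟨l, hl⟩)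
    refine ⟨k, ?_⟩
    apply Subtype.ext
    rw [← QuotientGroup.mk_pow, QuotientGroup.eq_one_iff] at hk
    show (QuotientGroup.mk' O l) ^ p ^ k = 1
    rw [← map_pow]
    exact (QuotientGroup.eq_one_iff _).mpr ⟨_, hk, rfl⟩
  have hL1ne : L.map (QuotientGroup.mk' O) ≠ ⊥ := by
    intro h1
    rw [Subgroup.map_eq_bot_iff, QuotientGroup.ker_mk'] at h1
    exact hOcard (le_antisymm h1 hOL ▸ hpL)
  obtain ⟨S⟩ : Nonempty (Sylow p G) := inferInstance
  let S1 : Sylow p (G ⧸ O) := S.mapSurjective (QuotientGroup.mk'_surjective O)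
  have hS1 : (S1 : Subgroup (G ⧸ O)) = (S : Subgroup G).map (QuotientGroup.mk' O) := rfl
  have hS1L : ¬ (S1 : Subgroup (G ⧸ O)) ≤ L.map (QuotientGroup.mk' O) := by
    intro h1
    have h2 := Subgroup.index_dvd_of_le h1
    rw [Subgroup.index_map_eq _ (QuotientGroup.mk'_surjective O)
      (by rw [QuotientGroup.ker_mk']; exact hOL)] at h2
    exact S1.not_dvd_index (hpi.trans h2)
  obtain ⟨x1, hx1, y1, hy1, hx1L, hy1L, hx1p, hy1p, hxy1, hne1⟩ :=
    (h.quot O hOL).exists_pair hL1p hL1ne S1 hS1L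
  obtain ⟨x, hx, rfl⟩ : ∃ x ∈ S, QuotientGroup.mk' O x = x1 := by
    have : x1 ∈ (S : Subgroup G).map (QuotientGroup.mk' O) := hS1 ▸ hx1
    exact this
  obtain ⟨y, hy, rfl⟩ : ∃ y ∈ S, QuotientGroup.mk' O y = y1 := by
    have : y1 ∈ (S : Subgroup G).map (QuotientGroup.mk' O) := hS1 ▸ hy1
    exact this
  rw [mem_map_mk hOL] at hx1L hy1L
  rw [← map_pow, mem_map_mk hOL] at hx1p hy1p
  rw [← map_inv, ← map_mul, ← map_inv, ← map_mul, ← map_mul, mem_map_mk hOL] at hxy1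
  -- the quotient by `D`
  set L2 := L.map (QuotientGroup.mk' D) with hL2
  by_contra hnp
  have hL2card : ¬ p ∣ Nat.card L2 := by
    intro h1
    have h2 := pCore_index hnil p
    have h3 := H1.Cores.card_map_mk' D L hDL
    have h4 : Nat.card D = Nat.card (Cfsg.pCore p L) := by
      rw [hD, Subgroup.card_map_of_injective L.subtype_injective]
    have h5 := (Cfsg.pCore p L).card_mul_index
    rw [← h3, h4] at h5
    have h6 : (Cfsg.pCore p L).index = Nat.card L2 :=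
      Nat.eq_of_mul_eq_mul_left Nat.card_pos h5
    rw [h6] at h2
    exact h2 h1
  have hL2ne : L2 ≠ ⊥ := by
    intro h1
    rw [hL2, Subgroup.map_eq_bot_iff, QuotientGroup.ker_mk'] at h1
    apply hnp
    apply IsPGroup.to_le _ h1
    rw [hD]
    exact (H1.Cores.isPGroup_pCore p).map _
  have h2 := h.quot D hDL
  have hL2nil : Group.IsNilpotent L2 := by
    let f : L →* L2 := ((QuotientGroup.mk' D).subgroupMap L)
    exact Group.nilpotent_of_surjective f ((QuotientGroup.mk' D).subgroupMap_surjective L)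
  let S2 : Sylow p (G ⧸ D) := S.mapSurjective (QuotientGroup.mk'_surjective D)
  have hS2 : (S2 : Subgroup (G ⧸ D)) = (S : Subgroup G).map (QuotientGroup.mk' D) := rfl
  have hinf : ∀ g : G ⧸ D, g ∈ (S2 : Subgroup (G ⧸ D)) → g ∈ L2 → g = 1 := by
    intro g hg1 hg2
    obtain ⟨k, hk⟩ := (IsPGroup.iff_orderOf.mp S2.2) ⟨g, hg1⟩
    rw [Subgroup.orderOf_mk] at hk
    have h3 := Subgroup.orderOf_dvd_natCard L2 hg2
    rw [hk] at h3
    have h4 : k = 0 := by
      by_contra h5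
      exact hL2card ((dvd_pow_self p h5).trans h3)
    rw [h4, pow_zero, orderOf_eq_one_iff] at hk
    exact hk
  have hxS2 : QuotientGroup.mk' D x ∈ (S2 : Subgroup (G ⧸ D)) := hS2 ▸ Subgroup.mem_map_of_mem _ hx
  have hyS2 : QuotientGroup.mk' D y ∈ (S2 : Subgroup (G ⧸ D)) := hS2 ▸ Subgroup.mem_map_of_mem _ hy
  refine no_fpf (h2.nrm) hL2nil hL2ne (x := QuotientGroup.mk' D x) (y := QuotientGroup.mk' D y)
    ?_ ?_ ?_ ?_ ?_ ?_ ?_ (p := p)
  · apply hinf _ (pow_mem hxS2 p)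
    rw [← map_pow]; exact Subgroup.mem_map_of_mem _ hx1p
  · apply hinf _ (pow_mem hyS2 p)
    rw [← map_pow]; exact Subgroup.mem_map_of_mem _ hy1p
  · intro h3
    exact hx1L (hDL ((QuotientGroup.eq_one_iff x).mp h3))
  · intro h3
    exact hy1L (hDL ((QuotientGroup.eq_one_iff y).mp h3))
  · have h3 : QuotientGroup.mk' D (x⁻¹ * (y * x * y⁻¹)) = 1 := by
      apply hinf _ _ (Subgroup.mem_map_of_mem _ hxy1)
      rw [hS2]
      apply Subgroup.mem_map_of_mem
      exact mul_mem (inv_mem hx) (mul_mem (mul_mem hy hx) (inv_mem hy))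
    rw [map_mul, map_mul, map_mul, map_inv, map_inv, inv_mul_eq_one] at h3
    rw [eq_mul_inv_iff_mul_eq] at h3
    exact h3
  · intro h3
    apply hne1
    obtain ⟨j, hj⟩ := Subgroup.mem_zpowers_iff.mp h3
    rw [← map_zpow] at hj
    have h4 : (y ^ j)⁻¹ * x ∈ D := QuotientGroup.eq.mp hj
    have h5 : x = y ^ j * ((y ^ j)⁻¹ * x) := by group
    rw [h5, map_mul]
    exact mul_mem ((le_sup_left : zpowers _ ≤ _) (by rw [map_zpow]; exact zpow_mem (mem_zpowers _) j))
      ((le_sup_right : L.map (QuotientGroup.mk' O) ≤ _) (Subgroup.mem_map_of_mem _ (hDL h4)))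
  · intro e he he1
    have heS : e ∈ (S2 : Subgroup (G ⧸ D)) := by
      have : closure {QuotientGroup.mk' D x, QuotientGroup.mk' D y} ≤ (S2 : Subgroup (G ⧸ D)) := by
        rw [Subgroup.closure_le]
        intro a ha
        simp only [Set.mem_insert_iff, Set.mem_singleton_iff] at ha
        rcases ha with rfl | rfl
        · exact hxS2
        · exact hyS2
      exact this he
    have heL : e ∉ L2 := fun h3 => he1 (hinf e heS h3)
    obtain ⟨k, hk⟩ := (IsPGroup.iff_orderOf.mp S2.2) ⟨e, heS⟩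
    rw [Subgroup.orderOf_mk] at hk
    rw [eq_bot_iff]
    intro c hc
    obtain ⟨hc1, hc2⟩ := Subgroup.mem_inf.mp hc
    have hcomm : Commute e c := by
      rw [Subgroup.mem_centralizer_singleton_iff] at hc2
      exact hc2.symm
    obtain ⟨j, hj⟩ := h2.pElement heL hp.out hk hc1 hcomm
    have h3 := Subgroup.orderOf_dvd_natCard L2 hc1
    rw [hj] at h3
    have h4 : j = 0 := by
      by_contra h5
      exact hL2card ((dvd_pow_self p h5).trans h3)
    rw [h4, pow_zero, orderOf_eq_one_iff] at hj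
    exact hj

theorem exists_min_supp (N : Subgroup G) : ∃ K : Subgroup G, K ⊔ N = ⊤ ∧
    ∀ H : Subgroup G, H ≤ K → H ⊔ N = ⊤ → H = K := by
  obtain ⟨K, hK, hmin⟩ := Set.exists_min_image {K : Subgroup G | K ⊔ N = ⊤}
    (fun K => Nat.card K) (Set.toFinite _) ⟨⊤, top_sup_eq _⟩
  exact ⟨K, hK, fun H hHK hH => Subgroup.eq_of_le_of_card_ge hHK (hmin H hH)⟩

theorem le_frattini_of_min {N K : Subgroup G} (hK : K ⊔ N = ⊤)
    (hmin : ∀ H : Subgroup G, H ≤ K → H ⊔ N = ⊤ → H = K) : N.subgroupOf K ≤ frattini K := by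
  intro x hx
  rw [H1.Frat.mem_frattini_iff]
  intro M hM
  by_contra hxM
  have h1 : M ⊔ N.subgroupOf K = ⊤ := by
    apply hM.2
    refine lt_of_le_of_ne le_sup_left ?_
    intro h2
    exact hxM (h2 ▸ (le_sup_right : N.subgroupOf K ≤ M ⊔ N.subgroupOf K) hx)
  have h2 : K ≤ M.map K.subtype ⊔ N := by
    have h3 := congrArg (Subgroup.map K.subtype) h1
    rw [Subgroup.map_sup, Subgroup.subgroupOf_map_subtype, ← MonoidHom.range_eq_map,
      Subgroup.range_subtype] at h3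
    conv_lhs => rw [← h3]
    exact sup_le_sup_left inf_le_left _
  have h3 : M.map K.subtype ⊔ N = ⊤ := by
    rw [eq_top_iff, ← hK]
    exact sup_le h2 le_sup_right
  have h4 := hmin _ (Subgroup.map_subtype_le _) h3
  apply hM.1
  rw [eq_top_iff]
  intro k _
  have h5 : (k : G) ∈ M.map K.subtype := by rw [h4]; exact k.2
  obtain ⟨m, hm, hmk⟩ := h5
  have : m = k := Subtype.ext hmk
  exact this ▸ hm

theorem isNilpotent_of_le {A B : Subgroup G} (h : A ≤ B) (hB : Group.IsNilpotent B) :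
    Group.IsNilpotent A := by
  have h1 : Group.IsNilpotent (A.subgroupOf B) := inferInstance
  exact Group.nilpotent_of_surjective (Subgroup.subgroupOfEquivOfLe h).toMonoidHom
    (Subgroup.subgroupOfEquivOfLe h).surjective

theorem Cam.supp_pgroup {N K : Subgroup G} (h : Cam G N) (hK : K ⊔ N = ⊤)
    (hmin : ∀ H : Subgroup G, H ≤ K → H ⊔ N = ⊤ → H = K) (hne : N.subgroupOf K ≠ ⊥) :
    ∃ p : ℕ, p.Prime ∧ IsPGroup p (N.subgroupOf K) := by
  set L := N.subgroupOf K with hL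
  have hc := h.sub hK
  have hLn := hc.nrm
  have hLF : L ≤ frattini K := le_frattini_of_min hK hmin
  have hnil : Group.IsNilpotent L := isNilpotent_of_le hLF frattini_nilpotent
  have hcard : Nat.card L ≠ 1 := fun h1 => hne (Subgroup.card_eq_one.mp h1)
  obtain ⟨p, hp, hpd⟩ := Nat.exists_prime_and_dvd hcard
  have hpf : Fact p.Prime := ⟨hp⟩
  refine ⟨p, hp, hc.isPGroup_of_nilpotent hnil hpd ?_⟩
  by_contra hpi
  set R := (Cfsg.pCore p L).map L.subtype with hR
  have hRn : R.Normal := by rw [hR]; infer_instance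
  have hRL : R ≤ L := Subgroup.map_subtype_le _
  have hRidx : ¬ p ∣ R.index := by
    have h1 : R.index = (Cfsg.pCore p L).index * L.index := by
      rw [← Subgroup.relIndex_mul_index hRL, Subgroup.relIndex, hR]
      rw [Subgroup.subgroupOf, Subgroup.comap_map_eq_self_of_injective L.subtype_injective]
    rw [h1, hp.dvd_mul]
    push Not
    exact ⟨pCore_index hnil p, hpi⟩
  have hRp : IsPGroup p R := by rw [hR]; exact (H1.Cores.isPGroup_pCore p).map _
  obtain ⟨a, ha⟩ := IsPGroup.iff_card.mp hRp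
  have hcop : (Nat.card R).Coprime R.index := by
    rw [ha]
    exact Nat.Coprime.pow_left _ ((Nat.Prime.coprime_iff_not_dvd hp).mpr hRidx)
  obtain ⟨H, hH⟩ := Subgroup.exists_right_complement'_of_coprime hcop
  have h2 : H = ⊤ := by
    apply frattini_nongenerating
    rw [eq_top_iff, ← hH.sup_eq_top, sup_comm]
    exact sup_le_sup_left (hRL.trans hLF) _
  have h3 : R = ⊥ := by
    have := hH.disjoint.eq_bot
    rwa [h2, inf_top_eq] at this
  have h4 : Nat.card (Cfsg.pCore p L) = 1 := by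
    rw [← Subgroup.card_map_of_injective L.subtype_injective, ← hR, h3, Subgroup.card_bot]
  have h5 := (Cfsg.pCore p L).card_mul_index
  rw [h4, one_mul] at h5
  exact pCore_index hnil p (h5 ▸ hpd)

theorem order_mem_sub {N K : Subgroup G} {p : ℕ} [Fact p.Prime] (hLp : IsPGroup p (N.subgroupOf K))
    {w : G} (hwK : w ∈ K) (hwN : w ∈ N) : ∃ b, orderOf w = p ^ b := by
  let z : N.subgroupOf K := ⟨⟨w, hwK⟩, Subgroup.mem_subgroupOf.mpr hwN⟩
  obtain ⟨b, hb⟩ := (IsPGroup.iff_orderOf.mp hLp) z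
  refine ⟨b, ?_⟩
  rw [← hb]
  have h1 : orderOf ((z : K) : G) = orderOf z := by rw [Subgroup.orderOf_coe, Subgroup.orderOf_coe]
  exact h1

theorem Cam.conj_into {N K : Subgroup G} (h : Cam G N) (hK : K ⊔ N = ⊤) {g : G} (hg : g ∉ N) :
    ∃ u : G, u * g * u⁻¹ ∈ K := by
  have hN := h.nrm
  have h1 : g ∈ K ⊔ N := hK ▸ trivial
  obtain ⟨k, hk, n, hn, hkn⟩ := Subgroup.mem_sup_of_normal_right.mp h1
  obtain ⟨u, hu⟩ := h.cam g hg n⁻¹ (inv_mem hn)
  refine ⟨u, ?_⟩
  have : g * n⁻¹ = k := by rw [← hkn]; group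
  rw [hu, this]
  exact hk

theorem exists_pow_prime_mem {N : Subgroup G} {s : ℕ} {g : G} (hg : g ∉ N)
    {k : ℕ} (hk : g ^ (s ^ k) ∈ N) : ∃ m : ℕ, g ^ (s ^ m) ∉ N ∧ (g ^ (s ^ m)) ^ s ∈ N := by
  classical
  have hex : ∃ m : ℕ, g ^ (s ^ m) ∈ N := ⟨k, hk⟩
  have hm := Nat.find_spec hex
  have hm0 : Nat.find hex ≠ 0 := by
    intro h0
    rw [h0, pow_zero, pow_one] at hm
    exact hg hm
  obtain ⟨l, hl⟩ := Nat.exists_eq_succ_of_ne_zero hm0
  refine ⟨l, Nat.find_min hex (by omega), ?_⟩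
  rw [← pow_mul, ← pow_succ]
  rw [hl] at hm
  exact hm

/-- Camina's theorem -/
theorem Cam.trichotomy {N : Subgroup G} (h : Cam G N) (hN2 : N ≠ ⊤) :
    (∀ x ∈ N, x ≠ 1 → Subgroup.centralizer ({x} : Set G) ≤ N) ∨ IsPrimePow (Nat.card N) ∨
      IsPrimePow N.index := by
  have hNn := h.nrm
  by_cases hF : ∀ x ∈ N, x ≠ 1 → Subgroup.centralizer ({x} : Set G) ≤ N
  · exact Or.inl hF
  right
  push Not at hF
  obtain ⟨x, hxN, hx1, hxc⟩ := hF
  obtain ⟨y, hyc, hyN⟩ := SetLike.not_le_iff_exists.mp hxc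
  obtain ⟨j, p, k, hp, hjk, hjN⟩ := H72.TwoLargest.exists_primary_pow hyN
  have hpf : Fact p.Prime := ⟨hp⟩
  obtain ⟨K, hK, hmin⟩ := exists_min_supp N
  obtain ⟨u, hu⟩ := h.conj_into hK hjN
  set g := u * y ^ j * u⁻¹ with hg
  set c := u * x * u⁻¹ with hc
  have hgN : g ∉ N := by
    intro h1
    apply hjN
    have h2 := hNn.conj_mem _ h1 u⁻¹
    have h3 : u⁻¹ * (u * y ^ j * u⁻¹) * u⁻¹⁻¹ = y ^ j := by group
    rwa [hg, h3] at h2
  have hcN : c ∈ N := hNn.conj_mem x hxN u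
  have hc1 : c ≠ 1 := by
    intro h1
    apply hx1
    have h2 : x = u⁻¹ * c * u := by rw [hc]; group
    rw [h2, h1]; group
  have hyx : Commute (y ^ j) x := by
    rw [Subgroup.mem_centralizer_singleton_iff] at hyc
    have : Commute y x := hyc
    exact this.pow_left j
  have hgc : Commute g c := by
    show u * y ^ j * u⁻¹ * (u * x * u⁻¹) = u * x * u⁻¹ * (u * y ^ j * u⁻¹)
    have h1 : u * y ^ j * u⁻¹ * (u * x * u⁻¹) = u * (y ^ j * x) * u⁻¹ := by group
    rw [h1, hyx.eq]; group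
  have hgo : orderOf g = p ^ k := by rw [hg, orderOf_conj', hjk]
  obtain ⟨a, hca⟩ := h.pElement hgN hp hgo hcN hgc
  have hcK : c ∈ K := by
    apply (h.supp hK hgN hu).1
    rw [Subgroup.mem_centralizer_singleton_iff]
    exact hgc.symm
  have hLne : N.subgroupOf K ≠ ⊥ := by
    intro h1
    have h2 : (⟨c, hcK⟩ : K) ∈ N.subgroupOf K := hcN
    rw [h1, Subgroup.mem_bot] at h2
    exact hc1 (congrArg Subtype.val h2)
  obtain ⟨p0, hp0, hLp⟩ := h.supp_pgroup hK hmin hLne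
  have ha0 : a ≠ 0 := by
    rintro rfl
    rw [pow_zero, orderOf_eq_one_iff] at hca
    exact hc1 hca
  have hpp : p = p0 := by
    have hpf0 : Fact p0.Prime := ⟨hp0⟩
    obtain ⟨b, hb⟩ := order_mem_sub hLp hcK hcN
    rw [hca] at hb
    exact (Nat.prime_dvd_prime_iff_eq hp hp0).mp
      (hp.dvd_of_dvd_pow (hb ▸ dvd_pow_self p ha0))
  subst hpp
  by_cases hidx : IsPrimePow N.index
  · exact Or.inr hidx
  left
  have hidx1 : N.index ≠ 1 := fun h1 => hN2 (Subgroup.index_eq_one.mp h1)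
  have hidx0 : N.index ≠ 0 := Subgroup.index_ne_zero_of_finite
  obtain ⟨s, hs, hsp, hsi⟩ : ∃ s : ℕ, s.Prime ∧ s ≠ p ∧ s ∣ N.index := by
    by_contra hcon
    push Not at hcon
    apply hidx
    have h1 : N.index = p ^ N.index.primeFactorsList.length :=
      Nat.eq_prime_pow_of_unique_prime_dvd hidx0 (fun {d} hd hdi => by
        by_contra h2
        exact hcon d hd h2 hdi)
    rw [isPrimePow_nat_iff]
    refine ⟨p, N.index.primeFactorsList.length, hp, ?_, h1.symm⟩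
    rcases Nat.eq_zero_or_pos N.index.primeFactorsList.length with h2 | h2
    · exfalso
      rw [h2, pow_zero] at h1
      exact hidx1 h1
    · exact h2
  have hsf : Fact s.Prime := ⟨hs⟩
  obtain ⟨S⟩ : Nonempty (Sylow s G) := inferInstance
  obtain ⟨h0, hh0S, hh0N⟩ : ∃ h0 ∈ S, h0 ∉ N := by
    by_contra hcon
    push Not at hcon
    have h1 : (S : Subgroup G) ≤ N := hcon
    exact S.not_dvd_index (hsi.trans (Subgroup.index_dvd_of_le h1))
  obtain ⟨b, hb⟩ := isPGroup_iff_pow_pow_eq_one.mp S.2 ⟨h0, hh0S⟩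
  have hb' : h0 ^ (s ^ b) = 1 := by simpa using congrArg Subtype.val hb
  obtain ⟨m, hm1, hm2⟩ := exists_pow_prime_mem hh0N (s := s) (k := b) (by rw [hb']; exact one_mem _)
  obtain ⟨v, hv⟩ := h.conj_into hK hm1
  set t := v * h0 ^ (s ^ m) * v⁻¹ with ht
  have htN : t ∉ N := by
    intro h1
    apply hm1
    have h2 := hNn.conj_mem _ h1 v⁻¹
    have h3 : v⁻¹ * (v * h0 ^ (s ^ m) * v⁻¹) * v⁻¹⁻¹ = h0 ^ (s ^ m) := by group
    rwa [ht, h3] at h2
  have hto : ∃ d, orderOf t = s ^ d := by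
    rw [ht, orderOf_conj']
    obtain ⟨d, hd⟩ := (IsPGroup.iff_orderOf.mp S.2) ⟨h0 ^ (s ^ m), pow_mem hh0S _⟩
    rw [Subgroup.orderOf_mk] at hd
    exact ⟨d, hd⟩
  obtain ⟨d, hd⟩ := hto
  have hfix : N ⊓ centralizer {t} = ⊥ := by
    rw [eq_bot_iff]
    intro w hw
    obtain ⟨hw1, hw2⟩ := Subgroup.mem_inf.mp hw
    have hwK : w ∈ K := (h.supp hK htN hv).1 hw2
    have hcomm : Commute t w := by
      rw [Subgroup.mem_centralizer_singleton_iff] at hw2
      exact hw2.symm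
    obtain ⟨e, he⟩ := h.pElement htN hs hd hw1 hcomm
    obtain ⟨f, hf⟩ := order_mem_sub hLp hwK hw1
    have hcop : (s ^ e).Coprime (p ^ f) :=
      Nat.Coprime.pow _ _ ((Nat.coprime_primes hs hp).mpr hsp)
    rw [he] at hf
    rw [hf, Nat.coprime_self] at hcop
    rw [Subgroup.mem_bot, ← orderOf_eq_one_iff, he, hf, hcop]
  have hts : t ^ s ∈ N := by
    have h1 : t ^ s = v * (h0 ^ (s ^ m)) ^ s * v⁻¹ := by rw [ht, conj_pow]
    rw [h1]
    exact hNn.conj_mem _ hm2 v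
  have hts1 : t ^ s = 1 := by
    have h1 : t ^ s ∈ N ⊓ centralizer {t} := Subgroup.mem_inf.mpr ⟨hts, by
      rw [Subgroup.mem_centralizer_singleton_iff]
      exact (Commute.refl t).pow_left s⟩
    rwa [hfix, Subgroup.mem_bot] at h1
  have hnil : Group.IsNilpotent N := by
    apply H1.FpfNilp.isNilpotent_of_conj (g := t) _ hfix hs
    · rw [hts1]; exact one_mem _
    · rw [Subgroup.normalizer_eq_top]; trivial
  have hpN : p ∣ Nat.card N := by
    have h1 := Subgroup.orderOf_dvd_natCard N hcN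
    rw [hca] at h1
    exact (dvd_pow_self p ha0).trans h1
  have hpi : p ∣ N.index := by
    have h1 : orderOf (QuotientGroup.mk' N g) ∣ p ^ k := by
      rw [← hgo]; exact orderOf_map_dvd _ _
    obtain ⟨l, _, hl⟩ := (Nat.dvd_prime_pow hp).mp h1
    have hl0 : l ≠ 0 := by
      rintro rfl
      rw [pow_zero, orderOf_eq_one_iff] at hl
      exact hgN ((QuotientGroup.eq_one_iff g).mp hl)
    have h2 : orderOf (QuotientGroup.mk' N g) ∣ N.index := by
      rw [Subgroup.index_eq_card]; exact orderOf_dvd_natCard _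
    rw [hl] at h2
    exact (dvd_pow_self p hl0).trans h2
  have hNp := h.isPGroup_of_nilpotent hnil hpN hpi
  obtain ⟨e, he⟩ := IsPGroup.iff_card.mp hNp
  rw [isPrimePow_nat_iff]
  refine ⟨p, e, hp, ?_, he.symm⟩
  rcases Nat.eq_zero_or_pos e with h2 | h2
  · exfalso
    rw [he, h2, pow_zero] at hpN
    exact hp.one_lt.ne' (Nat.dvd_one.mp hpN)
  · exact h2

end H72.Camina
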