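import Mathlib
import Cfsg.Agent.Lib.H72.Cls1

/-!
Finite groups with the class sizes of `PSL₂(q)`.  Part 2: the centralizers of `p`-elements.
-/

set_option autoImplicit false
set_option linter.unusedSectionVars false

open Subgroup
open H72.ClassSize H72.TwoLargest
open scoped Pointwise

namespace H72.Cls

variable {G : Type*} [Group G] [Finite G] {p s d n1 n0 : ℕ}

/-- `p`-elements and `p'`-elements have coprime orders -/
theorem coprime_orderOf [hp : Fact p.Prime] {x y : G} (hx : ∃ k, orderOf x = p ^ k) (hy : ¬ p ∣ orderOf y) :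
    (orderOf x).Coprime (orderOf y) := by
  obtain ⟨k, hk⟩ := hx
  rw [hk]
  exact Nat.Coprime.pow_left _ ((Nat.Prime.coprime_iff_not_dvd hp.out).mpr hy)

/-- a divisibility of class sizes prime to `p` from the inclusion of the `p'`-elements -/
theorem cs_dvd_of_pPrime [hp : Fact p.Prime] {u y : G} (hy : ¬ p ∣ cs y)
    (h : ∀ a ∈ centralizer ({u} : Set G), ¬ p ∣ orderOf a → a ∈ centralizer ({y} : Set G)) :
    cs y ∣ cs u := by
  -- `|C(u)| = p ^ a * m`
  obtain ⟨a, m, hm, hcard⟩ := Nat.exists_eq_pow_mul_and_not_dvd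
    (Nat.card_pos (α := centralizer ({u} : Set G))).ne' p hp.out.ne_one
  have h1 : m ∣ Nat.card (centralizer ({y} : Set G)) := by
    rw [Nat.dvd_iff_prime_pow_dvd_dvd]
    intro r k hr hrk
    haveI : Fact r.Prime := ⟨hr⟩
    rcases Nat.eq_zero_or_pos k with h0 | h0
    · rw [h0, pow_zero]; exact one_dvd _
    have hrp : r ≠ p := by
      rintro rfl
      exact hm ((dvd_pow_self r (by omega)).trans hrk)
    have h2 : r ^ k ∣ Nat.card (centralizer ({u} : Set G)) := by
      rw [hcard]; exact hrk.mul_left _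
    obtain ⟨R, hR⟩ := Sylow.exists_subgroup_card_pow_prime r h2
    have h3 : R.map (centralizer ({u} : Set G)).subtype ≤ centralizer ({y} : Set G) := by
      rintro _ ⟨x, hx, rfl⟩
      apply h _ x.2
      have h4 : orderOf x ∣ r ^ k := by
        have h5 : orderOf (⟨x, hx⟩ : R) = orderOf x := Subgroup.orderOf_mk x hx
        rw [← h5, ← hR]
        exact orderOf_dvd_natCard _
      intro h5
      have h6 : p ∣ orderOf x := by
        have h7 : orderOf (x : G) = orderOf x := Subgroup.orderOf_coe x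
        rw [← h7]
        exact h5
      exact hrp ((Nat.prime_dvd_prime_iff_eq hp.out hr).mp (hp.out.dvd_of_dvd_pow (h6.trans h4))).symm
    have h4 := Subgroup.card_dvd_of_le h3
    rwa [Subgroup.card_map_of_injective (Subgroup.subtype_injective _), hR] at h4
  have h2 := Subgroup.card_mul_index (centralizer ({u} : Set G))
  have h3 := Subgroup.card_mul_index (centralizer ({y} : Set G))
  obtain ⟨t, ht⟩ := h1
  have h4 : cs y ∣ p ^ a * cs u := by
    refine ⟨t, ?_⟩
    have hm0 : 0 < m := by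
      rcases Nat.eq_zero_or_pos m with h0 | h0
      · rw [h0] at hm; exact absurd (dvd_zero p) hm
      · exact h0
    apply Nat.eq_of_mul_eq_mul_left hm0
    have e1 : cs u = (centralizer ({u} : Set G)).index := rfl
    have e2 : cs y = (centralizer ({y} : Set G)).index := rfl
    rw [e1, e2]
    calc m * (p ^ a * (centralizer ({u} : Set G)).index)
        = Nat.card (centralizer ({u} : Set G)) * (centralizer ({u} : Set G)).index := by rw [hcard]; ring
      _ = Nat.card (centralizer ({y} : Set G)) * (centralizer ({y} : Set G)).index := by rw [h2, h3]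
      _ = m * ((centralizer ({y} : Set G)).index * t) := by rw [ht]; ring
  exact (Nat.Coprime.pow_right a ((Nat.Prime.coprime_iff_not_dvd hp.out).mpr hy).symm).dvd_of_dvd_mul_left h4

namespace Grp

variable (H : Grp G p s d n1 n0)
include H

theorem cs_eq_of_not_dvd {x : G} (hx : x ∉ center G) (h : ¬ p ∣ cs x) : cs x = n1 := by
  rcases H.toNum.of_not_dvd (H.all x) h with h1 | h1
  · exact absurd ((cs_eq_one x).mp h1) hx
  · exact h1

theorem cs_eq_of_dvd_n1 {x : G} (hx : x ∉ center G) (h : cs x ∣ n1) : cs x = n1 :=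
  H.cs_eq_of_not_dvd hx (fun h1 => H.toNum.p_not_dvd_n1 (h1.trans h))

theorem n1_ne_one : n1 ≠ 1 := by
  have := H.toNum.n1_gt
  have := H.toNum.s3
  omega

theorem not_center {x : G} (h : cs x = n1) : x ∉ center G := by
  rw [← cs_eq_one, h]
  exact H.n1_ne_one

/-- centralizers of elements with class size `n1` are minimal -/
theorem cent_le_of_le {x y : G} (hx : cs x = n1) (h : centralizer ({y} : Set G) ≤ centralizer ({x} : Set G)) :
    centralizer ({x} : Set G) = centralizer ({y} : Set G) := by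
  have h1 : n1 ∣ cs y := hx ▸ cs_dvd_of_le h
  have h2 := H.toNum.of_n1_dvd (H.all y) h1
  exact le_antisymm (cent_eq_of_le h (by rw [hx, h2])) h

/-- **Step 1** -/
theorem exists_y0 [hp : Fact p.Prime] : ∃ y : G, (∃ k, orderOf y = p ^ k) ∧ cs y = n1 := by
  obtain ⟨x0, hx0⟩ := H.ex1
  obtain ⟨x, y, hx, hy, hxy, hcomm, hxo, hyo, -, -⟩ :=
    H71.Basic.exists_pPart x0 (isOfFinOrder_of_finite x0) p hp.out
  have hle : ∀ w ∈ zpowers x0, centralizer ({x0} : Set G) ≤ centralizer ({w} : Set G) := by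
    intro w hw g hg
    obtain ⟨n, rfl⟩ := Subgroup.mem_zpowers_iff.mp hw
    exact mem_cent.mpr (Commute.zpow_right (mem_cent.mp hg : Commute g x0) n)
  by_cases hxc : x ∈ center G
  · -- `y` has class size `n1`
    have hyc : y ∉ center G := by
      intro h
      exact H.not_center hx0 (hxy ▸ mul_mem hxc h)
    have hy1 : cs y = n1 := H.cs_eq_of_dvd_n1 hyc (hx0 ▸ cs_dvd_of_le (hle y hy))
    have hp1 : ¬ p ∣ cs y := by rw [hy1]; exact H.toNum.p_not_dvd_n1
    obtain ⟨P, hP⟩ := (not_dvd_index_iff p y).mp hp1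
    have hall : ∀ u ∈ P, centralizer ({y} : Set G) ≤ centralizer ({u} : Set G) := by
      intro u hu
      have huy : u * y = y * u := mem_cent.mp (hP hu)
      have hco : (orderOf u).Coprime (orderOf y) := coprime_orderOf (H72.AbSyl.orderOf_of_mem hu) hyo
      have h1 := cent_mul huy hco
      have h2 : centralizer ({u * y} : Set G) ≤ centralizer ({y} : Set G) := by rw [h1]; exact inf_le_right
      rw [H.cent_le_of_le hy1 h2, h1]
      exact inf_le_left
    have hnc : ∃ u ∈ P, u ∉ center G := by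
      by_contra hcon
      push Not at hcon
      obtain ⟨v, hv⟩ := H.ex2
      have h1 : ¬ p ∣ (centralizer ({v} : Set G)).index := by
        rw [not_dvd_index_iff]
        exact ⟨P, fun g hg => mem_cent.mpr (mem_center_iff.mp (hcon g hg) v).symm⟩
      apply h1
      have h2 : (centralizer ({v} : Set G)).index = (s + 1) * (s + 2) := hv
      rw [h2]
      exact H.toNum.p_dvd_q.mul_right _
    obtain ⟨u, hu, huc⟩ := hnc
    exact ⟨u, H72.AbSyl.orderOf_of_mem hu, H.cs_eq_of_dvd_n1 huc (hy1 ▸ cs_dvd_of_le (hall u hu))⟩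
  · exact ⟨x, hxo, H.cs_eq_of_dvd_n1 hxc (hx0 ▸ cs_dvd_of_le (hle x hx))⟩

/-- the `p'`-elements commuting with a `p`-element of class size `n1` are central in its centralizer -/
theorem cent1 [hp : Fact p.Prime] {y : G} (hyo : ∃ k, orderOf y = p ^ k) (hy : cs y = n1) {a : G}
    (ha : a ∈ centralizer ({y} : Set G)) (hao : ¬ p ∣ orderOf a) :
    centralizer ({y} : Set G) ≤ centralizer ({a} : Set G) := by
  have h1 := cent_mul (mem_cent.mp ha).symm (coprime_orderOf hyo hao)
  have h2 : centralizer ({y * a} : Set G) ≤ centralizer ({y} : Set G) := by rw [h1]; exact inf_le_left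
  rw [H.cent_le_of_le hy h2, h1]
  exact inf_le_right

/-- every Sylow subgroup contains an element of class size `n1` centralized by it -/
theorem exists_y [hp : Fact p.Prime] (P : Sylow p G) :
    ∃ y ∈ P, cs y = n1 ∧ (P : Subgroup G) ≤ centralizer ({y} : Set G) := by
  obtain ⟨y0, hy0, hy1⟩ := H.exists_y0
  have hp1 : ¬ p ∣ cs y0 := by rw [hy1]; exact H.toNum.p_not_dvd_n1
  obtain ⟨Q, hQ⟩ := (not_dvd_index_iff p y0).mp hp1
  have hyQ : y0 ∈ Q := by
    obtain ⟨k, hk⟩ := hy0
    refine H72.AbSyl.mem_of_cent hQ ?_ (mem_cent.mpr rfl) hk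
    intro a ha hao g hg
    exact (mem_cent.mp (H.cent1 ⟨k, hk⟩ hy1 ha hao hg)).symm
  obtain ⟨g, hg⟩ := MulAction.exists_smul_eq G Q P
  refine ⟨g * y0 * g⁻¹, ?_, ?_, ?_⟩
  · rw [← hg]
    exact (H72.AbSyl.mem_smul_iff g Q y0).mp hyQ
  · rw [cs_conj, hy1]
  · intro y hy
    have hy' : y ∈ P := hy
    have h2 : g⁻¹ * y * g ∈ Q := by
      rw [H72.AbSyl.mem_smul_iff g Q, hg]
      have : g * (g⁻¹ * y * g) * g⁻¹ = y := by group
      rwa [this]
    have h3 := mem_cent.mp (hQ h2)
    apply mem_cent.mpr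
    calc y * (g * y0 * g⁻¹) = g * ((g⁻¹ * y * g) * y0) * g⁻¹ := by group
      _ = g * (y0 * (g⁻¹ * y * g)) * g⁻¹ := by rw [h3]
      _ = g * y0 * g⁻¹ * y := by group

/-- **Step 2**: every noncentral `p`-element has class size `n1` -/
theorem cs_pElt [hp : Fact p.Prime] {u : G} (hu : u ∉ center G) (huo : ∃ k, orderOf u = p ^ k) : cs u = n1 := by
  obtain ⟨P, huP⟩ : ∃ P : Sylow p G, u ∈ P := by
    obtain ⟨k, hk⟩ := huo
    obtain ⟨P, hP⟩ := (IsPGroup.of_card (n := k) (by rw [Nat.card_zpowers, hk]) :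
      IsPGroup p (zpowers u)).exists_le_sylow
    exact ⟨P, hP (mem_zpowers u)⟩
  obtain ⟨y, hyP, hy1, hPy⟩ := H.exists_y P
  have hyo := H72.AbSyl.orderOf_of_mem hyP
  have huy : y ∈ centralizer ({u} : Set G) := mem_cent.mpr (mem_cent.mp (hPy huP)).symm
  apply H.toNum.of_n1_dvd (H.all u)
  rw [← hy1]
  apply cs_dvd_of_pPrime (p := p) (by rw [hy1]; exact H.toNum.p_not_dvd_n1)
  intro a ha hao
  -- `a` commutes with `y`
  have h1 := cent_mul (mem_cent.mp ha).symm (coprime_orderOf huo hao)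
  have h2 : centralizer ({u * a} : Set G) ≤ centralizer ({u} : Set G) := by rw [h1]; exact inf_le_left
  have h3 : centralizer ({u * a} : Set G) ≤ centralizer ({a} : Set G) := by rw [h1]; exact inf_le_right
  have hu1 : cs u ≠ 1 := by rwa [ne_eq, cs_eq_one]
  have h4 : cs u ∣ cs (u * a) := cs_dvd_of_le h2
  have h5 : cs (u * a) ≠ 1 := by
    intro h6
    rw [h6, Nat.dvd_one] at h4
    exact hu1 h4
  suffices h6 : y ∈ centralizer ({u * a} : Set G) from mem_cent.mpr (mem_cent.mp (h3 h6)).symm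
  rcases H.toNum.of_dvd (H.all u) (H.all _) hu1 h4 h5 with h6 | ⟨hp2, -, h6⟩
  · exact cent_eq_of_le h2 (by rw [h6]) huy
  · -- index two
    have h7 : (centralizer ({u * a} : Set G)).relIndex (centralizer ({u} : Set G)) = 2 := by
      have h8 := Subgroup.relIndex_mul_index h2
      have h9 : (centralizer ({u} : Set G)).index = cs u := rfl
      have h10 : (centralizer ({u * a} : Set G)).index = cs (u * a) := rfl
      rw [h9, h10, h6] at h8
      exact Nat.eq_of_mul_eq_mul_right (cs_pos u) h8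
    set K := (centralizer ({u * a} : Set G)).subgroupOf (centralizer ({u} : Set G)) with hK
    have h8 : K.index = 2 := h7
    haveI : K.Normal := Subgroup.normal_of_index_eq_two h8
    have h9 : (⟨y, huy⟩ : centralizer ({u} : Set G)) ^ 2 ∈ K := by
      rw [← h8]; exact Subgroup.pow_index_mem _ _
    have h10 : y ^ 2 ∈ centralizer ({u * a} : Set G) := h9
    obtain ⟨k, hk⟩ := hyo
    have h11 : Nat.Coprime 2 (p ^ k) :=
      Nat.Coprime.pow_right _ ((Nat.coprime_primes Nat.prime_two hp.out).mpr hp2.symm)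
    have h12 := Nat.gcd_eq_gcd_ab 2 (p ^ k)
    rw [h11] at h12
    have h13 : y = (y ^ 2) ^ (Nat.gcdA 2 (p ^ k)) * ((y ^ (p ^ k)) ^ (Nat.gcdB 2 (p ^ k))) := by
      rw [← zpow_natCast, ← zpow_natCast, ← zpow_mul, ← zpow_mul, ← zpow_add, ← h12]
      simp
    rw [h13, ← hk, pow_orderOf_eq_one, one_zpow, mul_one]
    exact zpow_mem h10 _

/-- **Step 2.5**: the Sylow `p`-subgroups are abelian -/
theorem abelian [hp : Fact p.Prime] (P : Sylow p G) : ∀ x ∈ P, ∀ y ∈ P, x * y = y * x := by
  by_cases hα : ∃ u a : G, u ∉ center G ∧ (∃ k, orderOf u = p ^ k) ∧ a ∈ centralizer ({u} : Set G) ∧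
      ¬ p ∣ orderOf a ∧ a ∉ center G
  · obtain ⟨u, a, hu, huo, ha, hao, hac⟩ := hα
    have hu1 := H.cs_pElt hu huo
    have h1 := H.cent1 huo hu1 ha hao
    have ha1 : cs a = n1 := H.cs_eq_of_dvd_n1 hac (hu1 ▸ cs_dvd_of_le h1)
    have h2 := H.cent_le_of_le ha1 h1
    obtain ⟨P0, hP0⟩ := (not_dvd_index_iff p a).mp (by
      have : (centralizer ({a} : Set G)).index = n1 := ha1
      rw [this]; exact H.toNum.p_not_dvd_n1)
    have h3 : ∀ x ∈ P0, ∀ y ∈ P0, x * y = y * x := by
      intro x hx y hy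
      by_cases hxc : x ∈ center G
      · exact (mem_center_iff.mp hxc y).symm
      have hxo := H72.AbSyl.orderOf_of_mem hx
      have hx1 := H.cs_pElt hxc hxo
      have h4 := H.cent1 hxo hx1 (mem_cent.mpr (mem_cent.mp (hP0 hx)).symm) hao
      have h5 := H.cent_le_of_le ha1 h4
      have h6 : y ∈ centralizer ({x} : Set G) := by rw [← h5]; exact hP0 hy
      exact (mem_cent.mp h6).symm
    obtain ⟨g, hg⟩ := MulAction.exists_smul_eq G P0 P
    have hmem : ∀ y ∈ P, g⁻¹ * y * g ∈ P0 := by
      intro y hy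
      rw [H72.AbSyl.mem_smul_iff g P0, hg]
      have : g * (g⁻¹ * y * g) * g⁻¹ = y := by group
      rwa [this]
    intro x hx y hy
    have h4 := h3 _ (hmem x hx) _ (hmem y hy)
    calc x * y = g * ((g⁻¹ * x * g) * (g⁻¹ * y * g)) * g⁻¹ := by group
      _ = g * ((g⁻¹ * y * g) * (g⁻¹ * x * g)) * g⁻¹ := by rw [h4]
      _ = y * x := by group
  · push Not at hα
    have hH : H72.AbSyl.Hyp G p := by
      refine ⟨?_, ?_⟩
      · intro u hu huo
        have h1 : (centralizer ({u} : Set G)).index = n1 := H.cs_pElt hu huo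
        rw [h1]; exact H.toNum.p_not_dvd_n1
      · intro u hu huo a ha hao
        exact hα u a hu huo ha hao
    exact hH.abelian P

end Grp

end H72.Cls
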