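import Mathlib
import Cfsg.Agent.Lib.H72.Cls2

/-!
Finite groups with the class sizes of `PSL₂(q)`.  Part 3: the Sylow `p`-subgroups.
-/

set_option autoImplicit false
set_option linter.unusedSectionVars false

open Subgroup
open H72.ClassSize H72.TwoLargest
open scoped Pointwise

namespace H72.Cls

variable {G : Type*} [Group G] [Finite G] {p s d n1 n0 : ℕ}

/-- all orbits of the same size -/
theorem dvd_card_of_orbits {K α : Type*} [Group K] [MulAction K α] [Finite α] (c : ℕ)
    (h : ∀ a : α, Nat.card (MulAction.orbit K a) = c) : c ∣ Nat.card α := by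
  classical
  rw [Nat.card_congr (MulAction.selfEquivSigmaOrbits K α)]
  haveI : Finite (MulAction.orbitRel.Quotient K α) := Quotient.finite _
  haveI : Fintype (MulAction.orbitRel.Quotient K α) := Fintype.ofFinite _
  rw [Nat.card_sigma]
  apply Finset.dvd_sum
  intro ω _
  rw [h]

namespace Grp

variable (H : Grp G p s d n1 n0) [hp : Fact p.Prime] (P : Sylow p G)
include H

theorem exists_nc : ∃ u ∈ P, u ∉ center G := by
  obtain ⟨y, hy, hy1, -⟩ := H.exists_y P
  exact ⟨y, hy, H.not_center hy1⟩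

theorem le_cent {u : G} (hu : u ∈ P) : (P : Subgroup G) ≤ centralizer ({u} : Set G) :=
  fun y hy => mem_cent.mpr (H.abelian P y hy u hu)

theorem cs_of_mem {u : G} (hu : u ∈ P) (huc : u ∉ center G) : cs u = n1 :=
  H.cs_pElt huc (H72.AbSyl.orderOf_of_mem hu)

theorem pElt_mem {u : G} (hu : u ∈ P) (huc : u ∉ center G) {x : G} (hx : x ∈ centralizer ({u} : Set G))
    (hxo : ∃ k, orderOf x = p ^ k) : x ∈ P := by
  obtain ⟨k, hk⟩ := hxo
  refine H72.AbSyl.mem_of_cent (H.le_cent P hu) ?_ hx hk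
  intro a ha hao g hg
  exact (mem_cent.mp (H.cent1 (H72.AbSyl.orderOf_of_mem hu) (H.cs_of_mem P hu huc) ha hao hg)).symm

theorem cent_eq {u : G} (hu : u ∈ P) (huc : u ∉ center G) :
    centralizer ({u} : Set G) = centralizer ((P : Subgroup G) : Set G) := by
  apply le_antisymm
  · intro g hg
    obtain ⟨x, y, hx, hy, hxy, -, hxo, hyo, -, -⟩ :=
      H71.Basic.exists_pPart g (isOfFinOrder_of_finite g) p hp.out
    rw [← zpowers_le] at hg
    rw [← hxy]
    apply mul_mem
    · have h1 : x ∈ P := H.pElt_mem P hu huc (hg hx) hxo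
      rw [mem_centralizer_iff]
      intro h hh
      exact H.abelian P h hh x h1
    · rw [mem_centralizer_iff]
      intro h hh
      exact mem_cent.mp (H.cent1 (H72.AbSyl.orderOf_of_mem hu) (H.cs_of_mem P hu huc) (hg hy) hyo
        (H.le_cent P hu hh))
  · intro g hg
    exact mem_cent.mpr (mem_centralizer_iff.mp hg u hu).symm

theorem cent_comm {x y : G} (hx : x ∈ centralizer ((P : Subgroup G) : Set G))
    (hy : y ∈ centralizer ((P : Subgroup G) : Set G)) : x * y = y * x := by
  obtain ⟨u, hu, huc⟩ := H.exists_nc P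
  rw [← H.cent_eq P hu huc] at hx hy
  obtain ⟨a, b, ha, hb, hab, -, hao, hbo, -, -⟩ :=
    H71.Basic.exists_pPart x (isOfFinOrder_of_finite x) p hp.out
  rw [← zpowers_le] at hx
  have h1 : a ∈ P := H.pElt_mem P hu huc (hx ha) hao
  have h2 : a * y = y * a := by
    rw [H.cent_eq P hu huc] at hy
    exact mem_centralizer_iff.mp hy a h1
  have h3 : y * b = b * y := mem_cent.mp (H.cent1 (H72.AbSyl.orderOf_of_mem hu)
    (H.cs_of_mem P hu huc) (hx hb) hbo hy)
  rw [← hab, mul_assoc, ← h3, ← mul_assoc, h2, mul_assoc]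

theorem mem_of_cent_syl {x : G} (hx : x ∈ centralizer ((P : Subgroup G) : Set G))
    (hxo : ∃ k, orderOf x = p ^ k) : x ∈ P := by
  obtain ⟨u, hu, huc⟩ := H.exists_nc P
  rw [← H.cent_eq P hu huc] at hx
  exact H.pElt_mem P hu huc hx hxo

theorem cent_eq_of_mem {x : G} (hx : x ∈ centralizer ((P : Subgroup G) : Set G)) (hxc : x ∉ center G) :
    centralizer ({x} : Set G) = centralizer ((P : Subgroup G) : Set G) := by
  obtain ⟨u, hu, huc⟩ := H.exists_nc P
  have h1 : centralizer ({u} : Set G) ≤ centralizer ({x} : Set G) := by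
    rw [H.cent_eq P hu huc]
    intro y hy
    exact mem_cent.mpr (H.cent_comm P hy hx)
  have hu1 := H.cs_of_mem P hu huc
  have h2 : cs x = n1 := H.cs_eq_of_dvd_n1 hxc (hu1 ▸ cs_dvd_of_le h1)
  rw [H.cent_le_of_le h2 h1, H.cent_eq P hu huc]

/-- the trivial intersection property -/
theorem eq_of_mem {P Q : Sylow p G} {x : G} (hx : x ∈ centralizer ((P : Subgroup G) : Set G))
    (hx' : x ∈ centralizer ((Q : Subgroup G) : Set G)) (hxc : x ∉ center G) : P = Q := by
  have h1 := H.cent_eq_of_mem P hx hxc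
  have h2 := H.cent_eq_of_mem Q hx' hxc
  have h3 : (P : Subgroup G) ≤ Q := by
    intro y hy
    apply H.mem_of_cent_syl Q _ (H72.AbSyl.orderOf_of_mem hy)
    rw [← h2, h1, mem_centralizer_iff]
    intro h hh
    exact H.abelian P h hh y hy
  exact Sylow.ext (P.3 Q.2 h3).symm

theorem mem_cent_of_mem {x : G} (hx : x ∈ P) : x ∈ centralizer ((P : Subgroup G) : Set G) := by
  rw [mem_centralizer_iff]
  intro h hh
  exact H.abelian P h hh x hx

/-- a noncentral `p`-element commuting with `g` modulo the centre commutes with `g` -/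
theorem comm_of_center {g u : G} (hu : u ∈ P) (h : g * u * g⁻¹ * u⁻¹ ∈ center G) :
    g * u = u * g := by
  by_cases hv : u ∈ center G
  · exact mem_center_iff.mp hv g
  obtain ⟨x, y, hx, hy, hxy, -, hxo, hyo, -, -⟩ :=
    H71.Basic.exists_pPart g (isOfFinOrder_of_finite g) p hp.out
  have hS : ∀ t ∈ zpowers g, t * u * t⁻¹ * u⁻¹ ∈ center G := by
    intro t ht
    have h1 : (QuotientGroup.mk g : G ⧸ center G) * QuotientGroup.mk u =
        QuotientGroup.mk u * QuotientGroup.mk g := by
      have h2 : ((g * u * g⁻¹ * u⁻¹ : G) : G ⧸ center G) = 1 := (QuotientGroup.eq_one_iff _).mpr h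
      rw [QuotientGroup.mk_mul, QuotientGroup.mk_mul, QuotientGroup.mk_mul, QuotientGroup.mk_inv,
        QuotientGroup.mk_inv] at h2
      calc (QuotientGroup.mk g : G ⧸ center G) * QuotientGroup.mk u
          = (QuotientGroup.mk g * QuotientGroup.mk u * (QuotientGroup.mk g)⁻¹ * (QuotientGroup.mk u)⁻¹) *
            (QuotientGroup.mk u * QuotientGroup.mk g) := by group
        _ = QuotientGroup.mk u * QuotientGroup.mk g := by rw [h2, one_mul]
    obtain ⟨n, hn⟩ := Subgroup.mem_zpowers_iff.mp ht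
    have h3 : Commute (QuotientGroup.mk t : G ⧸ center G) (QuotientGroup.mk u) := by
      rw [← hn, QuotientGroup.mk_zpow]
      exact Commute.zpow_left h1 n
    have h4 : ((t * u * t⁻¹ * u⁻¹ : G) : G ⧸ center G) = 1 := by
      rw [QuotientGroup.mk_mul, QuotientGroup.mk_mul, QuotientGroup.mk_mul, QuotientGroup.mk_inv,
        QuotientGroup.mk_inv, h3.eq]
      group
    exact (QuotientGroup.eq_one_iff _).mp h4
  have hyv : y * u = u * y := by
    apply H72.Ito.comm_of_coprime (hS y hy)
    obtain ⟨j, hj⟩ := H72.AbSyl.orderOf_of_mem hu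
    rw [hj]
    exact Nat.Coprime.pow_right _ ((hp.out.coprime_iff_not_dvd.mpr hyo).symm)
  have hxv : x * u = u * x := by
    have h5 := hS x hx
    have h6 : x ∈ P := by
      obtain ⟨k, hk⟩ := hxo
      apply H72.AbSyl.mem_of_normalizes hk
      have h7 : ∀ w ∈ P, x * w * x⁻¹ ∈ P := by
        intro w hw
        have h9 := H72.Ito.conj_mem_cent h5 (H.le_cent P hu hw)
        exact H.pElt_mem P hu hv h9 (H72.AbSyl.orderOf_conj' (H72.AbSyl.orderOf_of_mem hw))
      have h8 : x • P = P := by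
        apply Sylow.ext
        apply (x • P : Sylow p G).3 P.2 ?_ |>.symm
        intro w hw
        rw [Sylow.coe_subgroup_smul, Subgroup.mem_pointwise_smul_iff_inv_smul_mem] at hw
        have h9 : x⁻¹ * w * x ∈ P := by
          have := hw
          rwa [← map_inv, MulAut.smul_def, MulAut.conj_apply, inv_inv] at this
        have h10 := h7 _ h9
        have h11 : x * (x⁻¹ * w * x) * x⁻¹ = w := by group
        rwa [h11] at h10
      exact Sylow.smul_eq_iff_mem_normalizer.mp h8
    exact H.abelian P x h6 u hu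
  rw [← hxy, mul_assoc, hyv, ← mul_assoc, hxv, mul_assoc]

theorem inf_sub_center {P Q : Sylow p G} (hPQ : Q ≠ P) {x : G} (hx : x ∈ P)
    (hxQ : x ∈ normalizer ((Q : Subgroup G) : Set G)) : x ∈ center G := by
  by_contra hxc
  apply hPQ
  obtain ⟨k, hk⟩ := H72.AbSyl.orderOf_of_mem hx
  have h1 : x ∈ Q := H72.AbSyl.mem_of_normalizes hk hxQ
  exact (H.eq_of_mem (H.mem_cent_of_mem P hx) (H.mem_cent_of_mem Q h1) hxc).symm

/-- the orbits of `P` on the other Sylow subgroups -/
theorem card_orbit {Q : Sylow p G} (hPQ : Q ≠ P) :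
    Nat.card (MulAction.orbit (P : Subgroup G) Q) = (center G).relIndex (P : Subgroup G) := by
  rw [Nat.card_congr (MulAction.orbitEquivQuotientStabilizer (P : Subgroup G) Q)]
  have h1 : MulAction.stabilizer (P : Subgroup G) Q = (center G).subgroupOf (P : Subgroup G) := by
    ext x
    rw [MulAction.mem_stabilizer_iff, mem_subgroupOf]
    have h2 : x • Q = (x : G) • Q := rfl
    rw [h2, Sylow.smul_eq_iff_mem_normalizer]
    constructor
    · exact fun h => H.inf_sub_center hPQ x.2 h
    · intro h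
      show (x : G) ∈ normalizer ((Q : Subgroup G) : Set G)
      rw [mem_normalizer_iff]
      intro y
      rw [← mem_center_iff.mp h y, mul_inv_cancel_right]
  rw [h1]
  rfl

theorem modEq : (center G).relIndex (P : Subgroup G) ∣ Nat.card (Sylow p G) - 1 := by
  classical
  let act : MulAction (P : Subgroup G) {Q : Sylow p G // Q ≠ P} :=
    { smul := fun g Q => ⟨(g : G) • Q.1, by
        intro h
        apply Q.2
        have h1 : (g : G)⁻¹ • ((g : G) • Q.1) = (g : G)⁻¹ • P := by rw [h]
        rw [inv_smul_smul] at h1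
        rw [h1]
        apply Sylow.smul_eq_iff_mem_normalizer.mpr
        exact le_normalizer ((P : Subgroup G).inv_mem g.2)⟩
      one_smul := fun Q => Subtype.ext (one_smul G Q.1)
      mul_smul := fun g h Q => Subtype.ext (mul_smul (g : G) (h : G) Q.1) }
  have h1 : Nat.card {Q : Sylow p G // Q ≠ P} = Nat.card (Sylow p G) - 1 := by
    have h2 : Nat.card {Q : Sylow p G // Q ≠ P} = Nat.card ({P}ᶜ : Set (Sylow p G)) := rfl
    rw [h2, Nat.card_coe_set_eq, Set.ncard_compl, Set.ncard_singleton]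
  rw [← h1]
  apply dvd_card_of_orbits (K := (P : Subgroup G))
  intro Q
  rw [← H.card_orbit P Q.2]
  have h3 : Set.InjOn (Subtype.val : {Q : Sylow p G // Q ≠ P} → Sylow p G)
      (MulAction.orbit (P : Subgroup G) Q) := Subtype.val_injective.injOn
  have h4 : (Subtype.val : {Q : Sylow p G // Q ≠ P} → Sylow p G) '' (MulAction.orbit (P : Subgroup G) Q) =
      MulAction.orbit (P : Subgroup G) Q.1 := by
    ext R
    constructor
    · rintro ⟨_, ⟨g, rfl⟩, rfl⟩
      exact ⟨g, rfl⟩
    · rintro ⟨g, rfl⟩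
      exact ⟨g • Q, ⟨g, rfl⟩, rfl⟩
  rw [← h4]
  exact (Nat.card_image_of_injOn h3).symm

theorem c_eq_pow : ∃ k, (center G).relIndex (P : Subgroup G) = p ^ k := by
  obtain ⟨n, hn⟩ := IsPGroup.iff_card.mp P.2
  have h1 : (center G).relIndex (P : Subgroup G) ∣ p ^ n := by
    rw [← hn]; exact Subgroup.relIndex_dvd_card _ _
  obtain ⟨k, -, hk⟩ := (Nat.dvd_prime_pow hp.out).mp h1
  exact ⟨k, hk⟩

theorem q_dvd_c : s + 1 ∣ (center G).relIndex (P : Subgroup G) := by
  obtain ⟨v, hv⟩ := H.ex2
  have h1 : s + 1 ∣ (center G).index := by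
    have h2 : centralizer ({v} : Set G) ≥ center G := H72.Ito.center_le_cent v
    have h3 : (centralizer ({v} : Set G)).index ∣ (center G).index := Subgroup.index_dvd_of_le h2
    have h4 : (centralizer ({v} : Set G)).index = (s + 1) * (s + 2) := hv
    rw [h4] at h3
    exact (dvd_mul_right _ _).trans h3
  have h2 : (center G).relIndex ((P : Subgroup G) ⊔ center G) * ((P : Subgroup G) ⊔ center G).index =
      (center G).index := Subgroup.relIndex_mul_index le_sup_right
  have h3 : (center G).relIndex ((P : Subgroup G) ⊔ center G) = (center G).relIndex (P : Subgroup G) := by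
    rw [Subgroup.relIndex_sup_right]
  rw [h3] at h2
  rw [← h2] at h1
  have h4 : Nat.Coprime (s + 1) ((P : Subgroup G) ⊔ center G).index := by
    obtain ⟨f, hf⟩ := H.hq
    rw [hf]
    apply Nat.Coprime.pow_left
    rw [hp.out.coprime_iff_not_dvd]
    intro h5
    exact P.not_dvd_index (h5.trans (Subgroup.index_dvd_of_le le_sup_left))
  exact h4.dvd_of_dvd_mul_right h1

theorem normalizer_le : normalizer ((P : Subgroup G) : Set G) ≤
    normalizer ((centralizer ((P : Subgroup G) : Set G)) : Set G) := by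
  have h2 : ∀ n ∈ normalizer ((P : Subgroup G) : Set G), ∀ y ∈ centralizer ((P : Subgroup G) : Set G),
      n * y * n⁻¹ ∈ centralizer ((P : Subgroup G) : Set G) := by
    intro n hn y hy
    rw [mem_centralizer_iff]
    intro e he
    have h4 : n⁻¹ * e * n ∈ (P : Subgroup G) := by
      have h5 := (mem_normalizer_iff.mp ((normalizer ((P : Subgroup G) : Set G)).inv_mem hn) e).mp he
      rwa [inv_inv] at h5
    have h6 := mem_centralizer_iff.mp hy _ h4
    calc e * (n * y * n⁻¹) = n * ((n⁻¹ * e * n) * y) * n⁻¹ := by group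
      _ = n * (y * (n⁻¹ * e * n)) * n⁻¹ := by rw [h6]
      _ = n * y * n⁻¹ * e := by group
  intro n hn
  rw [mem_normalizer_iff]
  intro y
  refine ⟨h2 n hn y, fun h => ?_⟩
  have h3 := h2 n⁻¹ ((normalizer ((P : Subgroup G) : Set G)).inv_mem hn) _ h
  have h4 : n⁻¹ * (n * y * n⁻¹) * n⁻¹⁻¹ = y := by group
  rwa [h4] at h3

theorem cent_le_norm : centralizer ((P : Subgroup G) : Set G) ≤ normalizer ((P : Subgroup G) : Set G) := by
  intro x hx
  rw [mem_normalizer_iff]
  have h2 : ∀ n ∈ centralizer ((P : Subgroup G) : Set G), ∀ y ∈ (P : Subgroup G),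
      n * y * n⁻¹ = y := by
    intro n hn y hy
    rw [← mem_centralizer_iff.mp hn y hy, mul_inv_cancel_right]
  intro y
  constructor
  · intro hy
    rw [h2 x hx y hy]; exact hy
  · intro hy
    have h3 := h2 x⁻¹ (inv_mem hx) _ hy
    have h4 : x⁻¹ * (x * y * x⁻¹) * x⁻¹⁻¹ = y := by group
    rw [h4] at h3
    rw [h3]; exact hy

theorem index_cent : (centralizer ((P : Subgroup G) : Set G)).index = n1 := by
  obtain ⟨u, hu, huc⟩ := H.exists_nc P
  rw [← H.cent_eq P hu huc]
  exact H.cs_of_mem P hu huc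

/-- `|N(P) : C(P)| < |P : P ∩ Z|` -/
theorem w_lt : (centralizer ((P : Subgroup G) : Set G)).relIndex (normalizer ((P : Subgroup G) : Set G)) <
    (center G).relIndex (P : Subgroup G) := by
  classical
  obtain ⟨u, hu, huc⟩ := H.exists_nc P
  set N := normalizer ((P : Subgroup G) : Set G) with hN
  set C := (centralizer ((P : Subgroup G) : Set G)).subgroupOf N with hC
  set Z := (center G).subgroupOf (P : Subgroup G) with hZ
  have hconj : ∀ n : N, (n : G) * u * (n : G)⁻¹ ∈ (P : Subgroup G) := fun n =>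
    (mem_normalizer_iff.mp n.2 u).mp hu
  have hwd : ∀ n m : N, n⁻¹ * m ∈ C → (⟨(n : G) * u * (n : G)⁻¹, hconj n⟩ : (P : Subgroup G)) =
      ⟨(m : G) * u * (m : G)⁻¹, hconj m⟩ := by
    intro n m h
    apply Subtype.ext
    have h1 : (n : G)⁻¹ * m ∈ centralizer ((P : Subgroup G) : Set G) := h
    have h2 := mem_centralizer_iff.mp h1 u hu
    calc (n : G) * u * (n : G)⁻¹ = n * (u * ((n : G)⁻¹ * m)) * (m : G)⁻¹ := by group
      _ = n * (((n : G)⁻¹ * m) * u) * (m : G)⁻¹ := by rw [h2]
      _ = m * u * (m : G)⁻¹ := by group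
  let f : (N ⧸ C) → ((P : Subgroup G) ⧸ Z) := fun x => Quotient.liftOn' x
    (fun n => (QuotientGroup.mk (⟨(n : G) * u * (n : G)⁻¹, hconj n⟩ : (P : Subgroup G)) :
      (P : Subgroup G) ⧸ Z)) (by
        intro n m h
        rw [QuotientGroup.leftRel_apply] at h
        show (QuotientGroup.mk (⟨(n : G) * u * (n : G)⁻¹, hconj n⟩ : (P : Subgroup G)) :
          (P : Subgroup G) ⧸ Z) = QuotientGroup.mk (⟨(m : G) * u * (m : G)⁻¹, hconj m⟩ : (P : Subgroup G))
        rw [hwd n m h])
  have hinj : Function.Injective f := by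
    intro x y
    induction x using QuotientGroup.induction_on with | H n => ?_
    induction y using QuotientGroup.induction_on with | H m => ?_
    intro h
    have h1 : (QuotientGroup.mk (⟨(n : G) * u * (n : G)⁻¹, hconj n⟩ : (P : Subgroup G)) :
      (P : Subgroup G) ⧸ Z) = QuotientGroup.mk (⟨(m : G) * u * (m : G)⁻¹, hconj m⟩ : (P : Subgroup G)) := h
    rw [QuotientGroup.eq] at h1
    have h2 : ((n : G) * u * (n : G)⁻¹)⁻¹ * ((m : G) * u * (m : G)⁻¹) ∈ center G := h1
    rw [QuotientGroup.eq]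
    show (n : G)⁻¹ * m ∈ centralizer ((P : Subgroup G) : Set G)
    rw [← H.cent_eq P hu huc, mem_cent]
    apply H.comm_of_center P hu
    have h3 : ((n : G)⁻¹ * m) * u * ((n : G)⁻¹ * m)⁻¹ * u⁻¹ =
        (n : G)⁻¹ * (((m : G) * u * (m : G)⁻¹) * ((n : G) * u * (n : G)⁻¹)⁻¹) * (n : G)⁻¹⁻¹ := by group
    rw [h3]
    apply (inferInstance : (center G).Normal).conj_mem
    have h4 : ((m : G) * u * (m : G)⁻¹) * ((n : G) * u * (n : G)⁻¹)⁻¹ =
        ((n : G) * u * (n : G)⁻¹) * (((n : G) * u * (n : G)⁻¹)⁻¹ * ((m : G) * u * (m : G)⁻¹)) *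
        ((n : G) * u * (n : G)⁻¹)⁻¹ := by group
    rw [h4]
    exact (inferInstance : (center G).Normal).conj_mem _ h2 _
  have hns : ¬ Function.Surjective f := by
    intro hs
    obtain ⟨x, hx⟩ := hs (QuotientGroup.mk 1)
    induction x using QuotientGroup.induction_on with | H n => ?_
    have h1 : (QuotientGroup.mk (⟨(n : G) * u * (n : G)⁻¹, hconj n⟩ : (P : Subgroup G)) :
      (P : Subgroup G) ⧸ Z) = QuotientGroup.mk 1 := hx
    rw [QuotientGroup.mk_one, QuotientGroup.eq_one_iff] at h1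
    have h2 : (n : G) * u * (n : G)⁻¹ ∈ center G := h1
    apply huc
    have h3 := (inferInstance : (center G).Normal).conj_mem _ h2 (n : G)⁻¹
    have h4 : (n : G)⁻¹ * ((n : G) * u * (n : G)⁻¹) * (n : G)⁻¹⁻¹ = u := by group
    rwa [h4] at h3
  show Nat.card (N ⧸ C) < Nat.card ((P : Subgroup G) ⧸ Z)
  rcases lt_or_ge (Nat.card (N ⧸ C)) (Nat.card ((P : Subgroup G) ⧸ Z)) with h | h
  · exact h
  · exfalso
    exact hns ((Nat.bijective_iff_injective_and_card f).mpr
      ⟨hinj, le_antisymm (Nat.card_le_card_of_injective f hinj) h⟩).2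

end Grp

end H72.Cls
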