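import Mathlib
import Cfsg.Agent.Lib.H72.Cls3

/-!
Finite groups with the class sizes of `PSL₂(q)`.  Part 4: the numbers; the action on the Sylow
`p`-subgroups.
-/

set_option autoImplicit false
set_option linter.unusedSectionVars false

open Subgroup
open H72.ClassSize H72.TwoLargest
open scoped Pointwise

namespace H72.Cls

variable {G : Type*} [Group G] [Finite G] {p s d n1 n0 : ℕ}

namespace Grp

variable (H : Grp G p s d n1 n0) [hp : Fact p.Prime] (P : Sylow p G)
include H

theorem not_normal (h1 : (normalizer ((P : Subgroup G) : Set G)).index = 1) : False := by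
  have hN : normalizer ((P : Subgroup G) : Set G) = ⊤ := Subgroup.index_eq_one.mp h1
  haveI : (P : Subgroup G).Normal := normalizer_eq_top_iff.mp hN
  obtain ⟨v, hv⟩ := H.ex2
  have h2 : (centralizer ({v} : Set G)).relIndex (P : Subgroup G) = (center G).relIndex (P : Subgroup G) := by
    have h3 : (centralizer ({v} : Set G)) ⊓ (P : Subgroup G) = center G ⊓ (P : Subgroup G) := by
      apply le_antisymm
      · intro u hu
        obtain ⟨hu1, hu2⟩ := Subgroup.mem_inf.mp hu
        refine Subgroup.mem_inf.mpr ⟨?_, hu2⟩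
        by_contra huc
        have h4 : v ∈ centralizer ((P : Subgroup G) : Set G) := by
          rw [← H.cent_eq P hu2 huc]
          exact mem_cent.mpr (mem_cent.mp hu1).symm
        have h5 : centralizer ({u} : Set G) ≤ centralizer ({v} : Set G) := by
          rw [H.cent_eq P hu2 huc]
          intro y hy
          exact mem_cent.mpr (H.cent_comm P hy h4)
        have h6 : cs v ∣ n1 := by
          rw [← H.cs_of_mem P hu2 huc]; exact cs_dvd_of_le h5
        apply H.toNum.p_not_dvd_n1
        refine dvd_trans ?_ h6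
        rw [hv]
        exact H.toNum.p_dvd_q.mul_right _
      · exact inf_le_inf_right _ (H72.Ito.center_le_cent v)
    rw [← Subgroup.inf_relIndex_right, h3, Subgroup.inf_relIndex_right]
  have h3 : (center G).relIndex (P : Subgroup G) ∣ (s + 1) * (s + 2) := by
    rw [← h2]
    have h4 := relIndex_normal_dvd_index (P : Subgroup G) (centralizer ({v} : Set G))
    have h5 : (centralizer ({v} : Set G)).index = (s + 1) * (s + 2) := hv
    rwa [h5] at h4
  obtain ⟨c', hc'⟩ := H.q_dvd_c P
  obtain ⟨k, hk⟩ := H.c_eq_pow P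
  have h4 : c' = 1 := by
    rw [hc'] at h3
    have h5 : c' ∣ s + 2 := Nat.dvd_of_mul_dvd_mul_left (by omega) h3
    have h6 : c' ∣ p ^ k := by rw [← hk, hc']; exact dvd_mul_left _ _
    obtain ⟨j, -, hj⟩ := (Nat.dvd_prime_pow hp.out).mp h6
    rcases Nat.eq_zero_or_pos j with h0 | h0
    · rw [hj, h0, pow_zero]
    · exfalso
      have h7 : p ∣ s + 2 := (dvd_pow_self p (by omega)).trans (hj ▸ h5)
      have h8 : s + 2 = (s + 1) + 1 := rfl
      rw [h8] at h7
      exact hp.out.one_lt.ne' (Nat.dvd_one.mp ((Nat.dvd_add_right H.toNum.p_dvd_q).mp h7))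
  rw [h4, mul_one] at hc'
  have h5 := H.w_lt P
  have h6 := H.index_cent P
  rw [hN, Subgroup.relIndex_top_right, h6, hc'] at h5
  have := H.toNum.n1_gt
  omega

theorem numbers : (normalizer ((P : Subgroup G) : Set G)).index = s + 2 ∧
    (center G).relIndex (P : Subgroup G) = s + 1 ∧
    d * (centralizer ((P : Subgroup G) : Set G)).relIndex (normalizer ((P : Subgroup G) : Set G)) = s := by
  have h1 := Subgroup.relIndex_mul_index (H.cent_le_norm P)
  rw [H.index_cent P] at h1
  set w := (centralizer ((P : Subgroup G) : Set G)).relIndex (normalizer ((P : Subgroup G) : Set G)) with hw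
  have h2 := H.modEq P
  have h2' : Nat.card (Sylow p G) = (normalizer ((P : Subgroup G) : Set G)).index :=
    P.card_eq_index_normalizer
  rw [h2'] at h2
  set ν := (normalizer ((P : Subgroup G) : Set G)).index with hν
  have hν0 : ν ≠ 0 := Subgroup.index_ne_zero_of_finite
  have h3 := H.q_dvd_c P
  obtain ⟨k, hk⟩ := h3.trans h2
  have hk' : ν = 1 + (s + 1) * k := by omega
  have h4 : (d * w) * ν = s * (s + 2) := by rw [mul_assoc, h1, H.toNum.hn1]
  have hs := H.toNum.s3
  rcases Nat.eq_zero_or_pos k with h0 | h0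
  · exfalso
    rw [h0, mul_zero, add_zero] at hk'
    exact H.not_normal P (hν ▸ hk')
  set m := d * w with hm
  rw [hk'] at h4
  have h5 : s + 1 ∣ m + 1 := by
    have h6 : (m + 1) + (s + 1) * (m * k) = (s + 1) * (s + 1) := by nlinarith
    have h7 : s + 1 ∣ (m + 1) + (s + 1) * (m * k) := by rw [h6]; exact dvd_mul_right _ _
    exact (Nat.dvd_add_left (dvd_mul_right _ _)).mp h7
  have h6 : s ≤ m := by
    have := Nat.le_of_dvd (by omega) h5
    omega
  have hk1 : k = 1 := by
    by_contra hne
    have h7 : 2 ≤ k := by omega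
    have h8 : s * (1 + (s + 1) * 2) ≤ m * (1 + (s + 1) * k) :=
      Nat.mul_le_mul h6 (by nlinarith)
    rw [h4] at h8
    nlinarith
  subst hk1
  have h7 : m = s := by
    apply Nat.eq_of_mul_eq_mul_right (show 0 < s + 2 by omega)
    rw [← h4]; ring
  have h8 : ν = s + 2 := by rw [hk']; ring
  refine ⟨h8, ?_, h7⟩
  rw [h8] at h2
  exact Nat.dvd_antisymm h2 h3

end Grp

end H72.Cls
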