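import Mathlib
import Cfsg.Agent.Lib.H72.Cls4


/-!
Finite groups with the class sizes of `PSL₂(q)`.  Part 5: the action on the Sylow `p`-subgroups.
-/

set_option autoImplicit false
set_option linter.unusedSectionVars false

open Subgroup
open H72.ClassSize H72.TwoLargest
open scoped Pointwise

namespace H72.Cls

variable {G : Type*} [Group G] [Finite G] {p s d n1 n0 : ℕ}

namespace Grp

variable (H : Grp G p s d n1 n0) [hp : Fact p.Prime]
include H

theorem card_syl : Nat.card (Sylow p G) = s + 2 := by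
  obtain ⟨P⟩ : Nonempty (Sylow p G) := inferInstance
  rw [P.card_eq_index_normalizer]
  exact (H.numbers P).1

theorem exists_ne (P : Sylow p G) : ∃ Q : Sylow p G, Q ≠ P := by
  have h1 := H.card_syl
  have : Nontrivial (Sylow p G) := Finite.one_lt_card_iff_nontrivial.mp (by omega)
  exact _root_.exists_ne P

theorem smul_eq_iff {g : G} {P : Sylow p G} : g • P = P ↔ g ∈ normalizer ((P : Subgroup G) : Set G) :=
  Sylow.smul_eq_iff_mem_normalizer

/-- `P` is transitive on the other Sylow subgroups -/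
theorem exists_smul {P Q R : Sylow p G} (hQ : Q ≠ P) (hR : R ≠ P) : ∃ u ∈ P, u • Q = R := by
  classical
  have h1 := H.card_orbit P hQ
  rw [(H.numbers P).2.1] at h1
  have h2 : MulAction.orbit (P : Subgroup G) Q ⊆ ({P}ᶜ : Set (Sylow p G)) := by
    rintro _ ⟨g, rfl⟩
    intro h3
    have h4 : (g : G) • Q = P := h3
    apply hQ
    have h5 : (g : G)⁻¹ • P = P := by
      rw [H.smul_eq_iff]
      exact le_normalizer ((P : Subgroup G).inv_mem g.2)
    calc Q = (g : G)⁻¹ • ((g : G) • Q) := (inv_smul_smul _ _).symm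
      _ = (g : G)⁻¹ • P := by rw [h4]
      _ = P := h5
  have h3 : MulAction.orbit (P : Subgroup G) Q = ({P}ᶜ : Set (Sylow p G)) := by
    apply Set.eq_of_subset_of_ncard_le h2
    rw [Set.ncard_compl, Set.ncard_singleton, H.card_syl, ← Nat.card_coe_set_eq, h1]
    simp
  have h4 : R ∈ MulAction.orbit (P : Subgroup G) Q := by rw [h3]; exact hR
  obtain ⟨g, hg⟩ := h4
  exact ⟨g, g.2, hg⟩

theorem two_trans : MulAction.IsMultiplyPretransitive G (Sylow p G) 2 := by
  rw [MulAction.is_two_pretransitive_iff]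
  intro a b c e hab hce
  obtain ⟨g, hg⟩ := MulAction.exists_smul_eq G a c
  have h1 : g • b ≠ c := by
    rw [← hg]
    exact fun h => hab (smul_left_cancel g h).symm
  obtain ⟨u, hu, hub⟩ := H.exists_smul h1 hce.symm
  refine ⟨u * g, ?_, ?_⟩
  · rw [mul_smul, hg, H.smul_eq_iff]
    exact le_normalizer hu
  · rw [mul_smul, hub]

/-- the kernel of the action is the centre -/
theorem mem_center_of_fix {k : G} (hk : ∀ Q : Sylow p G, k • Q = Q) : k ∈ center G := by
  by_contra hkc
  have key : ∀ P : Sylow p G, k ∈ centralizer ((P : Subgroup G) : Set G) := by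
    intro P
    rw [mem_centralizer_iff]
    intro u hu
    symm
    apply H.comm_of_center P hu
    obtain ⟨Q, hQ⟩ := H.exists_ne P
    have h1 : k * u * k⁻¹ * u⁻¹ ∈ P := by
      apply mul_mem _ (inv_mem hu)
      exact (mem_normalizer_iff.mp (H.smul_eq_iff.mp (hk P)) u).mp hu
    apply H.inf_sub_center hQ h1
    rw [← H.smul_eq_iff]
    have h2 : ∀ R : Sylow p G, k⁻¹ • R = R := fun R => by rw [inv_smul_eq_iff, hk R]
    rw [mul_smul, mul_smul, mul_smul, h2 (u⁻¹ • Q), smul_inv_smul, hk Q]
  obtain ⟨P⟩ : Nonempty (Sylow p G) := inferInstance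
  obtain ⟨Q, hQ⟩ := H.exists_ne P
  exact hQ (H.eq_of_mem (key P) (key Q) hkc).symm

theorem smul_of_center {k : G} (hk : k ∈ center G) (Q : Sylow p G) : k • Q = Q := by
  rw [H.smul_eq_iff, mem_normalizer_iff]
  intro y
  rw [← mem_center_iff.mp hk y, mul_inv_cancel_right]

theorem smul_of_cent {P : Sylow p G} {g : G} (hg : g ∈ centralizer ((P : Subgroup G) : Set G)) : g • P = P :=
  H.smul_eq_iff.mpr (H.cent_le_norm P hg)

/-- elements of `C(P)` fixing another point are central -/
theorem cent_fix {P Q : Sylow p G} (hQ : Q ≠ P) {g : G}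
    (hg : g ∈ centralizer ((P : Subgroup G) : Set G)) (hgQ : g • Q = Q) : g ∈ center G := by
  apply H.mem_center_of_fix
  intro R
  by_cases hR : R = P
  · rw [hR]; exact H.smul_of_cent hg
  · obtain ⟨u, hu, rfl⟩ := H.exists_smul hQ hR
    rw [← mul_smul, ← mem_centralizer_iff.mp hg u hu, mul_smul, hgQ]

theorem three_fix {P Q R : Sylow p G} (hQ : Q ≠ P) (hR : R ≠ P) (hQR : Q ≠ R) {g : G}
    (h1 : g • P = P) (h2 : g • Q = Q) (h3 : g • R = R) : g ∈ center G := by
  obtain ⟨u, hu, huQ⟩ := H.exists_smul hQ hR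
  have h2' : g⁻¹ • Q = Q := by rw [inv_smul_eq_iff, h2]
  have h4 : u⁻¹ * (g * u * g⁻¹) ∈ center G := by
    have h5 : u⁻¹ * (g * u * g⁻¹) ∈ P :=
      mul_mem (inv_mem hu) ((mem_normalizer_iff.mp (H.smul_eq_iff.mp h1) u).mp hu)
    apply H.inf_sub_center hQ h5
    rw [← H.smul_eq_iff, mul_smul, mul_smul, mul_smul, h2', huQ, h3, ← huQ, inv_smul_smul]
  have h5 : g * u * g⁻¹ * u⁻¹ ∈ center G := by
    have h6 := (inferInstance : (center G).Normal).conj_mem _ h4 u
    have h7 : u * (u⁻¹ * (g * u * g⁻¹)) * u⁻¹ = g * u * g⁻¹ * u⁻¹ := by group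
    rwa [h7] at h6
  have h6 := H.comm_of_center P hu h5
  have huc : u ∉ center G := by
    intro h
    apply hQR
    rw [← huQ, H.smul_of_center h]
  have h7 : g ∈ centralizer ((P : Subgroup G) : Set G) := by
    rw [← H.cent_eq P hu huc]
    exact mem_cent.mpr h6
  exact H.cent_fix hQ h7 h2

theorem exists_two_fix {P Q : Sylow p G} (hQ : Q ≠ P) : ∃ g : G, g ∉ center G ∧ g • P = P ∧ g • Q = Q := by
  have h1 := (H.numbers P).2.2
  have h2 : (centralizer ((P : Subgroup G) : Set G)).relIndex (normalizer ((P : Subgroup G) : Set G)) ≠ 1 := by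
    intro h3
    rw [h3, mul_one] at h1
    rcases H.hd with h | h <;> omega
  have h3 : ¬ normalizer ((P : Subgroup G) : Set G) ≤ centralizer ((P : Subgroup G) : Set G) := by
    rwa [← Subgroup.relIndex_eq_one]
  obtain ⟨n, hn, hnc⟩ := SetLike.not_le_iff_exists.mp h3
  have h4 : n • P = P := H.smul_eq_iff.mpr hn
  have h5 : n • Q ≠ P := by
    intro h
    rw [← h4] at h
    exact hQ (smul_left_cancel n h)
  obtain ⟨u, hu, huQ⟩ := H.exists_smul h5 hQ
  refine ⟨u * n, ?_, ?_, ?_⟩
  · intro h
    apply hnc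
    have h6 : n = u⁻¹ * (u * n) := by group
    rw [h6]
    apply mul_mem (inv_mem (H.mem_cent_of_mem P hu))
    rw [mem_centralizer_iff]
    intro y _
    exact mem_center_iff.mp h y
  · rw [mul_smul, h4]
    exact H.smul_of_cent (H.mem_cent_of_mem P hu)
  · rw [mul_smul, huQ]

/-- `|C(P) : Z| = q` -/
theorem relIndex_cent (P : Sylow p G) : (center G).relIndex (centralizer ((P : Subgroup G) : Set G)) = s + 1 := by
  classical
  obtain ⟨Q, hQ⟩ := H.exists_ne P
  set C := centralizer ((P : Subgroup G) : Set G) with hC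
  have h1 : (P : Subgroup G) ≤ C := fun u hu => H.mem_cent_of_mem P hu
  have h2 : MulAction.orbit C Q = ({P}ᶜ : Set (Sylow p G)) := by
    ext R
    constructor
    · rintro ⟨g, rfl⟩
      intro h3
      have h4 : (g : G) • Q = P := h3
      apply hQ
      have h5 : (g : G)⁻¹ • P = P := H.smul_of_cent (inv_mem g.2)
      calc Q = (g : G)⁻¹ • ((g : G) • Q) := (inv_smul_smul _ _).symm
        _ = (g : G)⁻¹ • P := by rw [h4]
        _ = P := h5
    · intro hR
      obtain ⟨u, hu, huR⟩ := H.exists_smul hQ hR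
      exact ⟨⟨u, h1 hu⟩, huR⟩
  have h3 : Nat.card (MulAction.orbit C Q) = s + 1 := by
    rw [h2, Nat.card_coe_set_eq, Set.ncard_compl, Set.ncard_singleton, H.card_syl]
    simp
  rw [Nat.card_congr (MulAction.orbitEquivQuotientStabilizer C Q)] at h3
  have h4 : MulAction.stabilizer C Q = (center G).subgroupOf C := by
    ext x
    rw [MulAction.mem_stabilizer_iff, mem_subgroupOf]
    constructor
    · exact fun h => H.cent_fix hQ x.2 h
    · exact fun h => H.smul_of_center h Q
  rw [h4] at h3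
  exact h3

theorem index_center : (center G).index = (s + 1) * n1 := by
  obtain ⟨P⟩ : Nonempty (Sylow p G) := inferInstance
  have h1 : center G ≤ centralizer ((P : Subgroup G) : Set G) := by
    intro z hz
    rw [mem_centralizer_iff]
    intro h _
    exact mem_center_iff.mp hz h
  rw [← Subgroup.relIndex_mul_index h1, H.relIndex_cent P, H.index_cent P]

end Grp

end H72.Cls
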