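import Mathlib
import Cfsg.Agent.Lib.H8.SzRec11

/-!
Zassenhaus groups with abelian kernel contain `PSL₂(q)`.
-/

set_option autoImplicit false
set_option linter.unusedSectionVars false

namespace H72.ZassAb

open Cfsg MulAction H8.Zass H16.Zass H16.ZassFrob

theorem simple_case {G Ω : Type*} [Group G] [Finite G] [MulAction G Ω] [Fintype Ω]
    (hZ : IsZassenhausGroup G Ω) {a b : Ω} (hab : a ≠ b) {K : Subgroup G} (hK : IsKer a K)
    (hKab : IsMulCommutative K) [IsSimpleGroup G] :
    ∃ (F : Type) (_ : Field F) (_ : Fintype F), Fintype.card Ω = Fintype.card F + 1 ∧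
      Nonempty (G ≃* Matrix.ProjectiveSpecialLinearGroup (Fin 2) F) := by
  classical
  rcases Nat.even_or_odd (Nat.card (H8.Zass.E2 G a b)) with he | ho
  · obtain ⟨F, iF, iFf, hc, -, hiso⟩ := H8.ZassSimp.even_main hZ hab he
    exact ⟨F, iF, iFf, hc, hiso⟩
  · have hcardK := hK.card hZ hab
    rcases H8.ZassFeit.gen_case _ rfl hZ hab hK ho with h | ⟨-, hna, -⟩
    · obtain ⟨F, iF, iFf, hcard, hiso⟩ := H8.ZassPSL2.main hZ hab ho (by
        change Fintype.card Ω - 2 ≤ 2 * Nat.card (H8.Zass.E2 G a b)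
        omega)
      exact ⟨F, iF, iFf, hcard, hiso⟩
    · exact absurd hKab hna

universe u v

theorem exists_psl (n : ℕ) : ∀ {G : Type u} {Ω : Type v} [Group G] [Finite G] [MulAction G Ω] [Fintype Ω]
    (_ : Nat.card G = n) (_ : IsZassenhausGroup G Ω) {a b : Ω} (_ : a ≠ b) {K : Subgroup G} (_ : IsKer a K)
    (_ : IsMulCommutative K),
    ∃ (M : Subgroup G) (F : Type) (_ : Field F) (_ : Fintype F), Fintype.card Ω = Fintype.card F + 1 ∧
      Nonempty (M ≃* Matrix.ProjectiveSpecialLinearGroup (Fin 2) F) := by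
  induction n using Nat.strong_induction_on with
  | _ n ih =>
    intro G Ω _ _ _ _ hn hZ a b hab K hK hKab
    by_cases hs : IsSimpleGroup G
    · obtain ⟨F, iF, iFf, hc, ⟨e⟩⟩ := simple_case hZ hab hK hKab
      exact ⟨⊤, F, iF, iFf, hc, ⟨Subgroup.topEquiv.trans e⟩⟩
    have hnt : Nontrivial G := by
      obtain ⟨g, hg, -⟩ := hZ.2.2.2.1
      exact ⟨g, 1, hg⟩
    obtain ⟨M, hM, hMb, hMt⟩ : ∃ M : Subgroup G, M.Normal ∧ M ≠ ⊥ ∧ M ≠ ⊤ := by
      by_contra hcon
      push Not at hcon
      apply hs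
      refine { exists_pair_ne := hnt.exists_pair_ne, eq_bot_or_eq_top_of_normal := fun M hM => ?_ }
      by_cases h : M = ⊥
      · exact Or.inl h
      · exact Or.inr (hcon M hM h)
    have hZM := of_normal hZ M hMb
    have hKM : K ≤ M := hK.le_normal hZ hab M hMb
    have hcardM : Nat.card M < n := by
      rw [← hn]
      have h1 := Subgroup.card_mul_index M
      have h2 : M.index ≠ 1 := fun h => hMt (Subgroup.index_eq_one.1 h)
      have h3 : 0 < M.index := Nat.pos_of_ne_zero M.index_ne_zero_of_finite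
      have h4 : 0 < Nat.card M := Nat.card_pos
      rw [← h1]
      have h5 : 2 ≤ M.index := by omega
      nlinarith
    have hKM' : IsKer a (K.subgroupOf M) := by
      intro g
      rw [Subgroup.mem_subgroupOf, hK g]
      constructor
      · rintro ⟨h1, h2⟩
        refine ⟨h1, ?_⟩
        rcases h2 with h2 | h2
        · exact Or.inl (Subtype.ext h2)
        · exact Or.inr h2
      · rintro ⟨h1, h2⟩
        refine ⟨h1, ?_⟩
        rcases h2 with h2 | h2
        · exact Or.inl (by rw [h2]; rfl)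
        · exact Or.inr h2
    have eK : (K.subgroupOf M) ≃* K := Subgroup.subgroupOfEquivOfLe hKM
    have hKab' : IsMulCommutative (K.subgroupOf M) := by
      refine ⟨⟨fun x y => eK.injective ?_⟩⟩
      rw [map_mul, map_mul]
      exact hKab.is_comm.comm _ _
    obtain ⟨M', F, iF, iFf, hc, ⟨e⟩⟩ := ih _ hcardM rfl hZM hab hKM' hKab'
    refine ⟨M'.map M.subtype, F, iF, iFf, hc, ⟨?_⟩⟩
    exact (M'.equivMapOfInjective M.subtype M.subtype_injective).symm.trans e

end H72.ZassAb
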