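import Mathlib
import Cfsg.Agent.Lib.H72.Cls5
import Cfsg.Agent.Lib.H72.ZassAb

/-!
Finite groups with the class sizes of `PSL₂(q)`.  Part 6: the quotient by the centre is a Zassenhaus group.
-/

set_option autoImplicit false
set_option linter.unusedSectionVars false

open Subgroup
open H72.ClassSize H72.TwoLargest
open scoped Pointwise

namespace H72.Cls

theorem Num.arith {p s d n1 n0 l t j : ℕ} (N : Num p s d n1 n0) (hl : l.Prime) (ht : s + 2 = l ^ t)
    (h : InL p s n1 n0 ((s + 1) * l ^ j)) (hlast : l ^ j = s + 2 → ∃ m, d * m = s ∧ l ∣ m) : False := by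
  have hs := N.s3
  have hpow2 : ∀ k : ℕ, l = 2 → 2 ≤ k → 4 ∣ l ^ k := by
    intro k h2 hk
    rw [h2]
    exact pow_dvd_pow 2 hk
  have hpow : ∀ k : ℕ, 3 ≤ l ^ k → l = 2 → 2 ≤ k := by
    intro k h1 h2
    rw [h2] at h1
    by_contra hcon
    have h3 : k = 0 ∨ k = 1 := by omega
    rcases h3 with rfl | rfl <;> simp at h1
  have ht0 : l ∣ s + 2 := by
    rw [ht]
    apply dvd_pow_self
    rintro rfl
    rw [pow_zero] at ht
    omega
  have hl2 : l ∣ s → l = 2 := by
    intro h1
    have h2 := (Nat.dvd_add_right h1).mp ht0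
    exact (Nat.prime_dvd_prime_iff_eq hl Nat.prime_two).mp h2
  have h4 : l = 2 → 4 ∣ s + 2 := by
    intro h2
    rw [ht]
    exact hpow2 t h2 (hpow t (by rw [← ht]; omega) h2)
  have hq0 : 0 < s + 1 := by omega
  rcases h with h1 | h1 | h1 | h1 | ⟨hp2, h1⟩
  · have : 0 < l ^ j := pow_pos hl.pos _
    nlinarith
  · have h2 : s + 1 ∣ n1 := by rw [← h1]; exact dvd_mul_right _ _
    have h3 := Nat.eq_one_of_dvd_coprimes N.coprime_q_n1 dvd_rfl h2
    omega
  · have h2 : l ^ j = s := Nat.eq_of_mul_eq_mul_left hq0 h1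
    have h3 : l ∣ s := by
      rw [← h2]
      apply dvd_pow_self
      rintro rfl
      rw [pow_zero] at h2
      omega
    have h5 := hl2 h3
    have h6 : 4 ∣ s := by
      rw [← h2]
      exact hpow2 j h5 (hpow j (by rw [h2]; omega) h5)
    have h7 := h4 h5
    omega
  · have h2 : l ^ j = s + 2 := Nat.eq_of_mul_eq_mul_left hq0 h1
    obtain ⟨m, hm, hlm⟩ := hlast h2
    have h5 := hl2 (hm ▸ hlm.mul_left d)
    have h7 := h4 h5
    rcases N.hd with ⟨hp, -, -⟩ | ⟨hp, hd, -⟩
    · have h8 := N.p_dvd_q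
      rw [hp] at h8
      omega
    · rw [h5] at hlm
      rw [hd] at hm
      omega
  · rcases N.hn0 hp2 with ⟨h2, h3⟩ | ⟨h2, h3⟩
    · have h5 : 2 * l ^ j = s + 2 := by
        apply Nat.eq_of_mul_eq_mul_left hq0
        rw [← h3, ← h1]; ring
      have h6 : 2 ∣ l ^ t := by rw [← ht, ← h5]; exact dvd_mul_right _ _
      have h7 : l = 2 := ((Nat.prime_dvd_prime_iff_eq Nat.prime_two hl).mp (Nat.prime_two.dvd_of_dvd_pow h6)).symm
      have h8 := h4 h7
      omega
    · have h5 : 2 * l ^ j = s := by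
        apply Nat.eq_of_mul_eq_mul_left hq0
        rw [← h3, ← h1]; ring
      have h6 : 2 ∣ l ^ t := by rw [← ht, ← h5]; omega
      have h7 : l = 2 := ((Nat.prime_dvd_prime_iff_eq Nat.prime_two hl).mp (Nat.prime_two.dvd_of_dvd_pow h6)).symm
      have h8 : 4 ∣ l ^ j := hpow2 j h7 (hpow j (by omega) h7)
      omega

variable {G : Type*} [Group G] [Finite G] {p s d n1 n0 : ℕ}

variable (G p) in
/-- the permutation group on the Sylow subgroups -/
noncomputable abbrev Gam : Subgroup (Equiv.Perm (Sylow p G)) := (MulAction.toPermHom G (Sylow p G)).range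

variable (G p) in
/-- the map to the permutation group -/
noncomputable def phi : G →* Gam G p := (MulAction.toPermHom G (Sylow p G)).rangeRestrict

theorem phi_surj : Function.Surjective (phi G p) := MonoidHom.rangeRestrict_surjective _

theorem phi_smul (g : G) (Q : Sylow p G) : phi G p g • Q = g • Q := rfl

/-- a subgroup containing all `r`-elements for primes `r ≠ l` has `l`-power index -/
theorem relIndex_pow {A B : Subgroup G} {l : ℕ} (hl : l.Prime) (hAB : A ≤ B)
    (h : ∀ r, r.Prime → r ≠ l → ∀ x ∈ B, (∃ k, orderOf x = r ^ k) → x ∈ A) : ∃ j, A.relIndex B = l ^ j := by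
  refine ⟨_, Nat.eq_prime_pow_of_unique_prime_dvd (p := l) ?_ ?_⟩
  · exact (Subgroup.index_ne_zero_of_finite (H := A.subgroupOf B))
  · intro r hr hrd
    by_contra hrl
    haveI : Fact r.Prime := ⟨hr⟩
    obtain ⟨R⟩ : Nonempty (Sylow r B) := inferInstance
    have h1 : (R : Subgroup B) ≤ A.subgroupOf B := by
      intro x hx
      rw [mem_subgroupOf]
      apply h r hr hrl x x.2
      obtain ⟨k, hk⟩ := H72.AbSyl.orderOf_of_mem hx
      exact ⟨k, by rw [Subgroup.orderOf_coe]; exact hk⟩
    exact R.not_dvd_index (hrd.trans (Subgroup.index_dvd_of_le h1))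

namespace Grp

variable (H : Grp G p s d n1 n0) [hp : Fact p.Prime]
include H

theorem phi_eq_one_iff (g : G) : phi G p g = 1 ↔ g ∈ center G := by
  constructor
  · intro h
    apply H.mem_center_of_fix
    intro Q
    rw [← phi_smul, h, one_smul]
  · intro h
    apply Subtype.ext
    ext Q : 1
    exact H.smul_of_center h Q

theorem no_regular (N : Subgroup (Gam G p)) (hN : N.Normal) (ht : MulAction.IsPretransitive N (Sylow p G))
    (hr : ∀ a : Sylow p G, MulAction.stabilizer N a = ⊥) : False := by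
  classical
  have hs := H.toNum.s3
  have hcΩ := H.card_syl
  have h2t : MulAction.IsMultiplyPretransitive (Gam G p) (Sylow p G) 2 := by
    rw [MulAction.is_two_pretransitive_iff]
    intro a b c e hab hce
    obtain ⟨g, h1, h2⟩ := MulAction.is_two_pretransitive_iff.mp H.two_trans hab hce
    exact ⟨phi G p g, h1, h2⟩
  obtain ⟨P⟩ : Nonempty (Sylow p G) := inferInstance
  have hcN : Nat.card N = s + 2 := by
    rw [← hcΩ]
    apply Nat.card_congr
    refine Equiv.ofBijective (fun n : N => n • P) ⟨?_, ?_⟩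
    · intro m n hmn
      have h1 : n⁻¹ * m ∈ MulAction.stabilizer N P := by
        rw [MulAction.mem_stabilizer_iff, mul_smul, show m • P = n • P from hmn, inv_smul_smul]
      rw [hr P, Subgroup.mem_bot] at h1
      exact (inv_mul_eq_one.1 h1).symm
    · intro c
      exact MulAction.exists_smul_eq N P c
  obtain ⟨l, hl, hld⟩ := Nat.exists_prime_and_dvd (show Nat.card N ≠ 1 by omega)
  haveI : Fact l.Prime := ⟨hl⟩
  obtain ⟨⟨mb, hmb⟩, hmo⟩ := exists_prime_orderOf_dvd_card' (G := N) l hld
  rw [Subgroup.orderOf_mk] at hmo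
  have hmb1 : mb ≠ 1 := by
    rintro rfl
    rw [orderOf_one] at hmo
    exact hl.one_lt.ne hmo
  have hconj : ∀ y ∈ N, y ≠ 1 → ∃ g, g * mb * g⁻¹ = y := fun y hy hy1 =>
    H8.Zass.conj_of_regular h2t hr hmb hy hmb1 hy1
  have hNl : IsPGroup l N := by
    rintro ⟨y, hy⟩
    by_cases hy1 : y = 1
    · exact ⟨0, by simp [hy1]⟩
    · refine ⟨1, ?_⟩
      obtain ⟨g, hg⟩ := hconj y hy hy1
      apply Subtype.ext
      show y ^ (l ^ 1) = 1
      rw [← hg, pow_one, conj_pow, ← hmo, pow_orderOf_eq_one]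
      simp
  obtain ⟨t, ht'⟩ := IsPGroup.iff_card.mp hNl
  rw [hcN] at ht'
  -- index of the centralizer in the permutation group
  have hidx : (centralizer ({mb} : Set (Gam G p))).index = s + 1 := by
    rw [index_eq_card_conj]
    have e : {y : Gam G p // ∃ g : Gam G p, g * mb * g⁻¹ = y} ≃ {y : N // y ≠ 1} :=
      { toFun := fun y => ⟨⟨y.1, by
            obtain ⟨g, hg⟩ := y.2
            rw [← hg]; exact hN.conj_mem _ hmb g⟩, by
            intro h
            obtain ⟨g, hg⟩ := y.2
            have h1 : y.1 = 1 := congrArg Subtype.val h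
            rw [h1] at hg
            apply hmb1
            rw [mul_inv_eq_one, mul_eq_left] at hg
            exact hg⟩
        invFun := fun y => ⟨y.1.1, hconj _ y.1.2 (fun h => y.2 (Subtype.ext h))⟩
        left_inv := fun y => rfl
        right_inv := fun y => rfl }
    rw [Nat.card_congr e]
    have h2 : Nat.card {y : N // y ≠ 1} = Nat.card ({1}ᶜ : Set N) := rfl
    rw [h2, Nat.card_coe_set_eq, Set.ncard_compl, Set.ncard_singleton, hcN]
    simp
  obtain ⟨m0, hm0⟩ := phi_surj (p := p) mb
  obtain ⟨m, hm, hmk⟩ := H72.AbSyl.lift_elt (phi G p) hl (n := m0) ⟨1, by rw [hm0, hmo, pow_one]⟩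
  rw [hm0] at hm
  set C : Subgroup G := (centralizer ({mb} : Set (Gam G p))).comap (phi G p) with hC
  have hCi : C.index = s + 1 := by
    rw [hC, Subgroup.index_comap_of_surjective _ phi_surj, hidx]
  have hle : centralizer ({m} : Set G) ≤ C := by
    intro g hg
    rw [hC, Subgroup.mem_comap, mem_cent, ← hm, ← map_mul, mem_cent.mp hg, map_mul]
  obtain ⟨j, hj⟩ := relIndex_pow hl hle (by
    intro r hr' hrl x hx hxo
    rw [mem_cent]
    apply H72.Ito.comm_of_coprime
    · rw [← H.phi_eq_one_iff, map_mul, map_mul, map_mul, map_inv, map_inv, hm]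
      have h3 : phi G p x * mb = mb * phi G p x := mem_cent.mp hx
      rw [h3]
      group
    · obtain ⟨k, hk⟩ := hxo
      obtain ⟨k', hk'⟩ := hmk
      rw [hk, hk']
      exact Nat.Coprime.pow _ _ ((Nat.coprime_primes hr' hl).mpr hrl))
  have hcs : cs m = (s + 1) * l ^ j := by
    have h3 := Subgroup.relIndex_mul_index hle
    rw [hj, hCi] at h3
    rw [mul_comm]
    exact h3.symm
  apply H.toNum.arith hl ht' (hcs ▸ H.all m)
  intro h3
  -- `|C(m) : Z| = s / d` is divisible by `l`
  have h4 : center G ≤ centralizer ({m} : Set G) := H72.Ito.center_le_cent m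
  have h5 := Subgroup.relIndex_mul_index h4
  have h6 : (centralizer ({m} : Set G)).index = (s + 1) * (s + 2) := by
    have : (centralizer ({m} : Set G)).index = cs m := rfl
    rw [this, hcs, h3]
  rw [h6, H.index_center] at h5
  set a := (center G).relIndex (centralizer ({m} : Set G)) with ha
  have h7 : d * a = s := by
    have h8 : a * (s + 2) = n1 := by
      apply Nat.eq_of_mul_eq_mul_left (show 0 < s + 1 by omega)
      rw [← h5]; ring
    apply Nat.eq_of_mul_eq_mul_right (show 0 < s + 2 by omega)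
    rw [← H.toNum.hn1, ← h8]; ring
  refine ⟨a, h7, ?_⟩
  have hmC : m ∈ centralizer ({m} : Set G) := mem_cent.mpr rfl
  set Z := (center G).subgroupOf (centralizer ({m} : Set G)) with hZ
  have h8 : orderOf (QuotientGroup.mk (⟨m, hmC⟩ : centralizer ({m} : Set G)) :
      centralizer ({m} : Set G) ⧸ Z) = l := by
    apply orderOf_eq_prime
    · rw [← QuotientGroup.mk_pow, QuotientGroup.eq_one_iff]
      show m ^ l ∈ center G
      rw [← H.phi_eq_one_iff, map_pow, hm, ← hmo, pow_orderOf_eq_one]
    · rw [ne_eq, QuotientGroup.eq_one_iff]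
      intro h9
      have h10 : m ∈ center G := h9
      rw [← H.phi_eq_one_iff, hm] at h10
      exact hmb1 h10
  rw [← h8]
  exact orderOf_dvd_natCard _

/-- the quotient by the centre is a Zassenhaus group -/
theorem isZassenhaus : Cfsg.IsZassenhausGroup (Gam G p) (Sylow p G) := by
  refine ⟨inferInstance, ?_, ?_, ?_, ?_⟩
  · rw [MulAction.is_two_pretransitive_iff]
    intro a b c e hab hce
    obtain ⟨g, h1, h2⟩ := MulAction.is_two_pretransitive_iff.mp H.two_trans hab hce
    exact ⟨phi G p g, h1, h2⟩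
  · intro γ a b c hab hbc hac h1 h2 h3
    obtain ⟨g, rfl⟩ := phi_surj γ
    rw [H.phi_eq_one_iff]
    exact H.three_fix hab.symm hac.symm hbc h1 h2 h3
  · obtain ⟨P⟩ : Nonempty (Sylow p G) := inferInstance
    obtain ⟨Q, hQ⟩ := H.exists_ne P
    obtain ⟨g, hg, h1, h2⟩ := H.exists_two_fix hQ
    exact ⟨phi G p g, fun h => hg ((H.phi_eq_one_iff g).mp h), P, Q, hQ.symm, h1, h2⟩
  · intro N hN ht
    by_contra hcon
    push Not at hcon
    exact H.no_regular N hN ht hcon

/-- the quotient by the centre is `PSL₂` over a field of order `q` -/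
theorem exists_iso : ∃ (F : Type) (_ : Field F) (_ : Fintype F), s + 1 = Fintype.card F ∧
    Nat.card (G ⧸ center G) = (s + 1) * n1 ∧
    (Nat.card (Matrix.ProjectiveSpecialLinearGroup (Fin 2) F) = (s + 1) * n1 →
      Nonempty (G ⧸ center G ≃* Matrix.ProjectiveSpecialLinearGroup (Fin 2) F)) := by
  classical
  have hZ := H.isZassenhaus
  letI : Fintype (Sylow p G) := Fintype.ofFinite _
  obtain ⟨P⟩ : Nonempty (Sylow p G) := inferInstance
  obtain ⟨Q, hQ⟩ := H.exists_ne P
  -- the kernel
  have hKfix : ∀ u ∈ (P : Subgroup G).map (phi G p), u ≠ 1 → ∀ c : Sylow p G, u • c = c → c = P := by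
    rintro _ ⟨u, hu, rfl⟩ hu1 c hc
    by_contra hcP
    apply hu1
    rw [H.phi_eq_one_iff]
    exact H.inf_sub_center hcP hu (H.smul_eq_iff.mp hc)
  have hKa : (P : Subgroup G).map (phi G p) ≤ MulAction.stabilizer (Gam G p) P := by
    rintro _ ⟨u, hu, rfl⟩
    rw [MulAction.mem_stabilizer_iff]
    exact H.smul_of_cent (H.mem_cent_of_mem P hu)
  have hKcard : Nat.card ((P : Subgroup G).map (phi G p)) + 1 = Fintype.card (Sylow p G) := by
    have h1 : Nat.card ((P : Subgroup G).map (phi G p)) = s + 1 := by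
      have h2 : Nat.card ((P : Subgroup G).map (phi G p)) =
          ((phi G p).ker).relIndex (P : Subgroup G) := by
        exact (Subgroup.relIndex_ker (f := phi G p) (K := (P : Subgroup G))).symm
      have h3 : (phi G p).ker = center G := by
        ext g; rw [MonoidHom.mem_ker, H.phi_eq_one_iff]
      rw [h2, h3, (H.numbers P).2.1]
    rw [h1, ← Nat.card_eq_fintype_card, H.card_syl]
  have hK := H8.Zass.isKer_of hZ hQ.symm hKa hKcard hKfix
  have hKab : IsMulCommutative ((P : Subgroup G).map (phi G p)) := by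
    refine IsMulCommutative.of_comm ?_
    rintro ⟨_, x, hx, rfl⟩ ⟨_, y, hy, rfl⟩
    apply Subtype.ext
    show phi G p x * phi G p y = phi G p y * phi G p x
    rw [← map_mul, H.abelian P x hx y hy, map_mul]
  obtain ⟨M, F, iF, iFf, hcF, ⟨e⟩⟩ := H72.ZassAb.exists_psl _ rfl hZ hQ.symm hK hKab
  have hsF : s + 1 = Fintype.card F := by
    have h1 := H.card_syl
    rw [Nat.card_eq_fintype_card, hcF] at h1
    omega
  have hcG : Nat.card (G ⧸ center G) = (s + 1) * n1 := by
    have h1 : Nat.card (G ⧸ center G) = (center G).index := rfl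
    rw [h1, H.index_center]
  refine ⟨F, iF, iFf, hsF, hcG, fun hcard => ?_⟩
  have h3 : (phi G p).ker = center G := by
    ext g; rw [MonoidHom.mem_ker, H.phi_eq_one_iff]
  have e1 : G ⧸ center G ≃* Gam G p :=
    (QuotientGroup.quotientMulEquivOfEq h3.symm).trans
      (QuotientGroup.quotientKerEquivOfSurjective (phi G p) phi_surj)
  have hM : M = ⊤ := by
    apply Subgroup.eq_top_of_card_eq
    rw [Nat.card_congr e.toEquiv, hcard, ← Nat.card_congr e1.toEquiv, hcG]
  subst hM
  exact ⟨e1.trans (Subgroup.topEquiv.symm.trans e)⟩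

end Grp

end H72.Cls
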