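import Mathlib
import Cfsg.Agent.Lib.H72.Cls6
import Cfsg.Agent.Lib.H72.PSLClass2
import Cfsg.Agent.Lib.H98.DicksonPGL
import Cfsg.Agent.Lib.H21.PSLTransport

/-!
Finite groups with the class sizes of `PSL₂(q)`.  Part 7: the quotient by the centre is `PSL₂(q)`.
-/

set_option autoImplicit false
set_option linter.unusedSectionVars false

open Subgroup
open H72.ClassSize H72.TwoLargest H72.Cls H72.PSLClass

namespace H72.Cls

/-- the numbers of `F` -/
theorem exists_num {F : Type*} [Field F] [Fintype F]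
    (hq : (2 ∣ Fintype.card F ∧ 2 < Fintype.card F) ∨ (¬ 2 ∣ Fintype.card F ∧ 7 ≤ Fintype.card F)) :
    ∃ p s d n1 n0, Fintype.card F = s + 1 ∧ Num p s d n1 n0 ∧ (p = 2 ↔ (2 : F) = 0) := by
  obtain ⟨n, hp, hn⟩ := FiniteField.card F (ringChar F)
  set p := ringChar F with hpdef
  have h20 : (2 : F) = 0 ↔ p = 2 := by
    have h1 : ((2 : ℕ) : F) = 0 ↔ p ∣ 2 := ringChar.spec F 2
    rw [Nat.cast_ofNat] at h1
    rw [h1]
    exact Nat.prime_dvd_prime_iff_eq hp Nat.prime_two
  obtain ⟨s, hs⟩ : ∃ s, Fintype.card F = s + 1 := ⟨Fintype.card F - 1, by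
    have := Fintype.card_pos (α := F)
    omega⟩
  by_cases hp2 : p = 2
  · have h2 : 2 ∣ Fintype.card F := by
      rw [hn, hp2]
      exact dvd_pow_self 2 n.ne_zero
    have h3 : 2 < Fintype.card F := by
      rcases hq with h | h
      · exact h.2
      · exact absurd h2 h.1
    refine ⟨p, s, 1, s * (s + 2), 0, hs, ⟨hp, ⟨n, by rw [← hs, hn]⟩, Or.inl ⟨hp2, rfl, by omega⟩, by ring, ?_⟩,
      h20.symm⟩
    exact fun h => absurd hp2 h
  · have h2 : ¬ 2 ∣ Fintype.card F := by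
      rw [hn]
      intro h
      exact hp2 ((Nat.prime_dvd_prime_iff_eq Nat.prime_two hp).mp (Nat.prime_two.dvd_of_dvd_pow h)).symm
    have h3 : 7 ≤ Fintype.card F := by
      rcases hq with h | h
      · exact absurd h.1 h2
      · exact h.2
    have h4 : s % 4 = 0 ∨ s % 4 = 2 := by omega
    have h5 : 2 * (s / 2) = s := by omega
    rcases h4 with h4 | h4
    · refine ⟨p, s, 2, (s / 2) * (s + 2), (s + 1) * ((s + 2) / 2), hs, ⟨hp, ⟨n, by rw [← hs, hn]⟩,
        Or.inr ⟨hp2, rfl, by omega⟩, ?_, ?_⟩, h20.symm⟩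
      · rw [← mul_assoc, h5]
      · intro _
        left
        refine ⟨h4, ?_⟩
        have h6 : 2 * ((s + 2) / 2) = s + 2 := by omega
        rw [← mul_assoc, mul_comm 2, mul_assoc, h6]
    · refine ⟨p, s, 2, (s / 2) * (s + 2), (s + 1) * (s / 2), hs, ⟨hp, ⟨n, by rw [← hs, hn]⟩,
        Or.inr ⟨hp2, rfl, by omega⟩, ?_, ?_⟩, h20.symm⟩
      · rw [← mul_assoc, h5]
      · intro _
        right
        refine ⟨h4, ?_⟩
        rw [← mul_assoc, mul_comm 2, mul_assoc, h5]

theorem card_psl {F : Type*} [Field F] [Fintype F] {p s d n1 n0 : ℕ} (hF : s + 1 = Fintype.card F)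
    (N : Num p s d n1 n0) : Nat.card (Matrix.ProjectiveSpecialLinearGroup (Fin 2) F) = (s + 1) * n1 := by
  have h1 := H98.DicksonPGL.card_psl_eq F
  rw [Nat.card_eq_fintype_card (α := F), ← hF, Nat.add_sub_cancel] at h1
  have h2 : Nat.gcd 2 s = d := by
    rcases N.hd with ⟨h3, h4, -⟩ | ⟨h3, h4, -⟩
    · have h5 := N.p_not_dvd_s
      rw [h3] at h5
      rw [h4]
      exact (Nat.Prime.coprime_iff_not_dvd Nat.prime_two).mpr h5
    · rw [h4]
      apply Nat.gcd_eq_left
      rcases N.hn0 h3 with h5 | h5 <;> omega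
  rw [h2] at h1
  apply Nat.eq_of_mul_eq_mul_left N.d_pos
  rw [h1]
  have h3 := N.hn1
  calc (s + 1 + 1) * ((s + 1) * s) = (s + 1) * (s * (s + 2)) := by ring
    _ = (s + 1) * (d * n1) := by rw [h3]
    _ = d * ((s + 1) * n1) := by ring

/-- transfer of the hypothesis -/
theorem Grp.of_range {G L : Type*} [Group G] [Group L] {p s d n1 n0 : ℕ}
    (h : Set.range (fun g : G => (centralizer ({g} : Set G)).index) =
      Set.range (fun g : L => (centralizer ({g} : Set L)).index)) (H : Grp L p s d n1 n0) :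
    Grp G p s d n1 n0 := by
  have key : ∀ n, (∃ x : L, cs x = n) → ∃ x : G, cs x = n := by
    rintro n ⟨x, hx⟩
    have h1 : n ∈ Set.range (fun g : L => (centralizer ({g} : Set L)).index) := ⟨x, hx⟩
    rw [← h] at h1
    exact h1
  refine { toNum := H.toNum, all := ?_, ex1 := key _ H.ex1, ex2 := key _ H.ex2, ex3 := fun h2 => key _ (H.ex3 h2) }
  intro x
  have h1 : cs x ∈ Set.range (fun g : G => (centralizer ({g} : Set G)).index) := ⟨x, rfl⟩
  rw [h] at h1
  obtain ⟨y, hy⟩ := h1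
  rw [← hy]
  exact H.all y

theorem quot_iso {F : Type*} [Field F] [Fintype F]
    (hq : (2 ∣ Fintype.card F ∧ 2 < Fintype.card F) ∨ (¬ 2 ∣ Fintype.card F ∧ 7 ≤ Fintype.card F))
    {G : Type*} [Group G] [Finite G]
    (h : Set.range (fun g : G => (Subgroup.centralizer ({g} : Set G)).index) = Set.range (fun g : (Matrix.ProjectiveSpecialLinearGroup (Fin 2) F) => (Subgroup.centralizer ({g} : Set (Matrix.ProjectiveSpecialLinearGroup (Fin 2) F))).index)) :
    Nonempty (G ⧸ Subgroup.center G ≃* Matrix.ProjectiveSpecialLinearGroup (Fin 2) F) := by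
  obtain ⟨p, s, d, n1, n0, hs, N, hp⟩ := exists_num hq
  have H := Grp.of_range h (grp hs N hp)
  haveI : Fact p.Prime := ⟨N.hp⟩
  obtain ⟨F', iF, iFf, hc, -, hiso⟩ := H.exists_iso
  obtain ⟨e⟩ := hiso (card_psl hc N)
  obtain ⟨e'⟩ := H21.PSLTransport.psl_congr_card (K := F') (L := F) (by rw [← hc, hs]) (Fin 2)
  exact ⟨e.trans e'⟩

end H72.Cls
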