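import Mathlib
import Cfsg.Agent.Lib.H72.Cls7

/-!
Finite groups with the class sizes of `PSL₂(q)`.  Part 8: splitting off the centre.
-/

set_option autoImplicit false
set_option linter.unusedSectionVars false

open Subgroup
open H72.ClassSize H72.TwoLargest H72.Cls H72.PSLClass
open scoped commutatorElement

namespace H72.Cls

/-- the facts on `L = PSL₂(q)` which are used -/
structure Quot (G L : Type*) [Group G] [Group L] (p s d n1 n0 : ℕ) (π : G →* L) : Prop where
  H : Grp G p s d n1 n0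
  HL : Grp L p s d n1 n0
  surj : Function.Surjective π
  hker : ∀ g, π g = 1 ↔ g ∈ center G
  hc1 : ∀ x : L, x ≠ 1 → cs x ≠ 1
  hn0 : p ≠ 2 → ∀ x y : L, cs x = n0 → cs y = n0 → IsConj x y
  hab : ∀ x : L, x ≠ 1 → ∃ B : Subgroup L, (∀ a ∈ B, ∀ b ∈ B, a * b = b * a) ∧
    (∀ g ∈ centralizer ({x} : Set L), ∀ h ∈ centralizer ({x} : Set L), g ∉ B → h ∉ B → g * h ∈ B)

/-- the commutator subgroup of a group with an abelian subgroup of index at most two -/
theorem mem_commutator_of_index_two {K : Type*} [Group K] (A : Subgroup K)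
    (hA : ∀ a ∈ A, ∀ b ∈ A, a * b = b * a) (h2 : ∀ g h : K, g ∉ A → h ∉ A → g * h ∈ A)
    {z : K} (hz : z ∈ commutator K) : ∃ a ∈ A, ∃ t : K, z = a * t * a⁻¹ * t⁻¹ := by
  by_cases hA' : A = ⊤
  · refine ⟨1, one_mem _, 1, ?_⟩
    have h1 : commutator K ≤ ⊥ := by
      rw [commutator_def, Subgroup.commutator_le]
      intro g _ h _
      rw [Subgroup.mem_bot, commutatorElement_eq_one_iff_mul_comm]
      exact hA g (hA' ▸ Subgroup.mem_top g) h (hA' ▸ Subgroup.mem_top h)
    have h3 := h1 hz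
    rw [Subgroup.mem_bot] at h3
    rw [h3]; group
  obtain ⟨t, ht⟩ : ∃ t, t ∉ A := by
    by_contra hcon
    push Not at hcon
    exact hA' (eq_top_iff.mpr fun x _ => hcon x)
  have hconj : ∀ a ∈ A, ∀ u, u ∉ A → u * a * u⁻¹ ∈ A := by
    intro a ha u hu
    by_contra hc
    have h3 := h2 _ _ hc hu
    rw [inv_mul_cancel_right] at h3
    apply hu
    have h4 := A.mul_mem h3 (A.inv_mem ha)
    rwa [mul_inv_cancel_right] at h4
  let D : Subgroup K :=
    { carrier := {z | ∃ a ∈ A, z = a * t * a⁻¹ * t⁻¹}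
      one_mem' := ⟨1, one_mem _, by group⟩
      mul_mem' := by
        rintro _ _ ⟨a, ha, rfl⟩ ⟨b, hb, rfl⟩
        refine ⟨a * b, mul_mem ha hb, ?_⟩
        have h3 : t * a⁻¹ * t⁻¹ ∈ A := hconj _ (inv_mem ha) t ht
        have h4 : b * (t * b⁻¹ * t⁻¹) ∈ A := mul_mem hb (hconj _ (inv_mem hb) t ht)
        calc a * t * a⁻¹ * t⁻¹ * (b * t * b⁻¹ * t⁻¹)
            = a * ((t * a⁻¹ * t⁻¹) * (b * (t * b⁻¹ * t⁻¹))) := by group
          _ = a * ((b * (t * b⁻¹ * t⁻¹)) * (t * a⁻¹ * t⁻¹)) := by rw [hA _ h3 _ h4]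
          _ = a * b * t * (a * b)⁻¹ * t⁻¹ := by group
      inv_mem' := by
        rintro _ ⟨a, ha, rfl⟩
        refine ⟨a⁻¹, inv_mem ha, ?_⟩
        have h3 : t * a * t⁻¹ ∈ A := hconj _ ha t ht
        calc (a * t * a⁻¹ * t⁻¹)⁻¹ = (t * a * t⁻¹) * a⁻¹ := by group
          _ = a⁻¹ * (t * a * t⁻¹) := by rw [hA _ h3 _ (inv_mem ha)]
          _ = a⁻¹ * t * a⁻¹⁻¹ * t⁻¹ := by group }
  have hinv : t⁻¹ ∉ A := fun h => ht (by simpa using A.inv_mem h)
  have hdec : ∀ g, g ∉ A → ∃ a ∈ A, g = a * t := by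
    intro g hg
    exact ⟨g * t⁻¹, h2 _ _ hg hinv, by group⟩
  have hle : commutator K ≤ D := by
    rw [commutator_def, Subgroup.commutator_le]
    have key1 : ∀ g ∈ A, ∀ h : K, h ∉ A → ⁅g, h⁆ ∈ D := by
      intro g hg h hh
      obtain ⟨b, hb, rfl⟩ := hdec h hh
      refine ⟨g, hg, ?_⟩
      have h3 : g * (t * g⁻¹ * t⁻¹) ∈ A := mul_mem hg (hconj _ (inv_mem hg) t ht)
      rw [commutatorElement_def]
      calc g * (b * t) * g⁻¹ * (b * t)⁻¹ = (g * b) * (t * g⁻¹ * t⁻¹) * b⁻¹ := by group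
        _ = (b * g) * (t * g⁻¹ * t⁻¹) * b⁻¹ := by rw [hA _ hg _ hb]
        _ = b * (g * (t * g⁻¹ * t⁻¹)) * b⁻¹ := by group
        _ = (g * (t * g⁻¹ * t⁻¹)) * b * b⁻¹ := by rw [hA _ hb _ h3]
        _ = g * t * g⁻¹ * t⁻¹ := by group
    intro g _ h _
    by_cases hg : g ∈ A
    · by_cases hh : h ∈ A
      · have h3 : ⁅g, h⁆ = 1 := commutatorElement_eq_one_iff_mul_comm.mpr (hA g hg h hh)
        rw [h3]; exact D.one_mem
      · exact key1 g hg h hh
    · by_cases hh : h ∈ A
      · have h3 := D.inv_mem (key1 h hh g hg)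
        rwa [commutatorElement_inv] at h3
      · obtain ⟨a, ha, rfl⟩ := hdec g hg
        obtain ⟨b, hb, rfl⟩ := hdec h hh
        refine ⟨a * b⁻¹, mul_mem ha (inv_mem hb), ?_⟩
        have h3 : t * (b * a⁻¹) * t⁻¹ ∈ A := hconj _ (mul_mem hb (inv_mem ha)) t ht
        rw [commutatorElement_def]
        calc a * t * (b * t) * (a * t)⁻¹ * (b * t)⁻¹
            = a * ((t * (b * a⁻¹) * t⁻¹) * b⁻¹) := by group
          _ = a * (b⁻¹ * (t * (b * a⁻¹) * t⁻¹)) := by rw [hA _ h3 _ (inv_mem hb)]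
          _ = a * b⁻¹ * t * (a * b⁻¹)⁻¹ * t⁻¹ := by group
  obtain ⟨a, ha, hz'⟩ := hle hz
  exact ⟨a, ha, t, hz'⟩

namespace Quot

variable {G L : Type*} [Group G] [Group L] [Finite G] {p s d n1 n0 : ℕ} {π : G →* L}
variable (Q : Quot G L p s d n1 n0 π)
include Q

theorem cs_dvd (x : G) : cs (π x) ∣ cs x := by
  have h1 := Subgroup.index_comap_of_surjective (centralizer ({π x} : Set L)) Q.surj
  have h2 : centralizer ({x} : Set G) ≤ (centralizer ({π x} : Set L)).comap π := by
    intro g hg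
    rw [Subgroup.mem_comap, mem_cent, ← map_mul, mem_cent.mp hg, map_mul]
  have h3 : ((centralizer ({π x} : Set L)).comap π).index ∣ (centralizer ({x} : Set G)).index :=
    Subgroup.index_dvd_of_le h2
  rw [h1] at h3
  exact h3

theorem cs_mul_center (x : G) {z : G} (hz : z ∈ center G) : cs (x * z) = cs x := by
  have h1 : centralizer ({x * z} : Set G) = centralizer ({x} : Set G) := by
    ext g
    rw [mem_cent, mem_cent]
    have h2 := mem_center_iff.mp hz g
    constructor
    · intro h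
      have h3 : (g * x) * z = (x * g) * z := by
        rw [mul_assoc, h, mul_assoc, ← h2, mul_assoc]
      exact mul_right_cancel h3
    · intro h
      rw [← mul_assoc, h, mul_assoc, h2, mul_assoc]
  show (centralizer ({x * z} : Set G)).index = (centralizer ({x} : Set G)).index
  rw [h1]

theorem cs_eq (x : G) : cs (π x) = cs x := by
  by_cases h1 : π x = 1
  · have h2 := (Q.hker x).mp h1
    rw [h1, (cs_eq_one x).mpr h2, cs_eq_one]
    exact one_mem _
  have h2 := Q.hc1 _ h1
  have h3 : cs x ≠ 1 := by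
    intro h
    have := Q.cs_dvd x
    rw [h, Nat.dvd_one] at this
    exact h2 this
  rcases Q.H.toNum.of_dvd (Q.HL.all _) (Q.H.all x) h2 (Q.cs_dvd x) h3 with h4 | ⟨hp2, h4, h5⟩
  · exact h4.symm
  · exfalso
    obtain ⟨x1, hx1⟩ := Q.H.ex3 hp2
    have hn0 : n0 ≠ 1 := by
      intro h
      have := Q.H.toNum.p_dvd_n0 hp2
      rw [h] at this
      exact Q.H.hp.one_lt.ne' (Nat.dvd_one.mp this)
    have hn00 : 0 < n0 := by rw [← hx1]; exact cs_pos x1
    have h6 : π x1 ≠ 1 := by
      intro h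
      have := (cs_eq_one x1).mpr ((Q.hker x1).mp h)
      rw [hx1] at this
      exact hn0 this
    have h7 : cs (π x1) = n0 := by
      have h8 := Q.cs_dvd x1
      rw [hx1] at h8
      have hin : InL p s n1 n0 n0 := hx1 ▸ Q.H.all x1
      rcases Q.H.toNum.of_dvd (Q.HL.all (π x1)) hin (Q.hc1 _ h6) h8 hn0 with h9 | ⟨-, h9, h10⟩
      · exact h9.symm
      · omega
    obtain ⟨c, hc⟩ := isConj_iff.mp (Q.hn0 hp2 _ _ h4 h7)
    obtain ⟨g, rfl⟩ := Q.surj c
    have h8 : (g * x * g⁻¹)⁻¹ * x1 ∈ center G := by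
      rw [← Q.hker, map_mul, map_inv, map_mul, map_mul, map_inv, hc, inv_mul_cancel]
    have h9 : cs x1 = cs x := by
      have h10 := Q.cs_mul_center (g * x * g⁻¹) h8
      rw [mul_inv_cancel_left, cs_conj] at h10
      exact h10
    rw [hx1, h5, h4] at h9
    omega

/-- elements commuting modulo the centre commute -/
theorem comm {x y : G} (h : π x * π y = π y * π x) : x * y = y * x := by
  have h1 := Subgroup.index_comap_of_surjective (centralizer ({π y} : Set L)) Q.surj
  have h2 : centralizer ({y} : Set G) ≤ (centralizer ({π y} : Set L)).comap π := by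
    intro g hg
    rw [Subgroup.mem_comap, mem_cent, ← map_mul, mem_cent.mp hg, map_mul]
  have h3 : (centralizer ({π y} : Set L)).comap π ≤ centralizer ({y} : Set G) := by
    rw [← Subgroup.relIndex_eq_one]
    have h4 := Subgroup.relIndex_mul_index h2
    have h5 : ((centralizer ({π y} : Set L)).comap π).index = (centralizer ({y} : Set G)).index := by
      rw [h1]; exact Q.cs_eq y
    rw [h5] at h4
    have h6 : 0 < (centralizer ({y} : Set G)).index := index_pos y
    exact Nat.eq_of_mul_eq_mul_right h6 (by rw [h4, one_mul])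
  have h4 : x ∈ (centralizer ({π y} : Set L)).comap π := by
    rw [Subgroup.mem_comap, mem_cent]; exact h
  exact mem_cent.mp (h3 h4)

/-- commutators of a Sylow subgroup meet the centre trivially -/
theorem syl_comm {r : ℕ} [hr : Fact r.Prime] (R : Sylow r G) {z : (R : Subgroup G)}
    (hz : z ∈ commutator (R : Subgroup G)) (hzc : (z : G) ∈ center G) : z = 1 := by
  by_cases hR : ∀ x ∈ R, π x = 1
  · -- `R` is central
    have h1 : commutator (R : Subgroup G) ≤ ⊥ := by
      rw [commutator_def, Subgroup.commutator_le]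
      intro g _ h _
      rw [Subgroup.mem_bot, commutatorElement_eq_one_iff_mul_comm]
      apply Subtype.ext
      exact (mem_center_iff.mp ((Q.hker _).mp (hR g g.2)) h).symm
    have h2 := h1 hz
    rwa [Subgroup.mem_bot] at h2
  push Not at hR
  obtain ⟨x0, hx0, hx01⟩ := hR
  have hRm : IsPGroup r ((R : Subgroup G).map π) := R.2.map π
  haveI : Nontrivial ((R : Subgroup G).map π) := ⟨⟨π x0, ⟨x0, hx0, rfl⟩⟩, 1, fun h => hx01 (congrArg Subtype.val h)⟩
  haveI : Finite L := Finite.of_surjective π Q.surj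
  haveI := hRm.center_nontrivial
  obtain ⟨⟨⟨c, hc⟩, hcc⟩, hc1⟩ := _root_.exists_ne (1 : center ((R : Subgroup G).map π))
  have hc1' : c ≠ 1 := fun h => hc1 (Subtype.ext (Subtype.ext h))
  have hcent : ∀ x ∈ R, π x ∈ centralizer ({c} : Set L) := by
    intro x hx
    rw [mem_cent]
    have h1 := mem_center_iff.mp hcc ⟨π x, ⟨x, hx, rfl⟩⟩
    exact congrArg Subtype.val h1
  obtain ⟨B, hB1, hB2⟩ := Q.hab c hc1'
  obtain ⟨a, ha, t, hat⟩ := mem_commutator_of_index_two ((B.comap π).subgroupOf (R : Subgroup G))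
    (by
      intro a ha b hb
      apply Subtype.ext
      exact Q.comm (hB1 _ ha _ hb))
    (by
      intro g h hg hh
      rw [mem_subgroupOf, Subgroup.mem_comap] at hg hh ⊢
      rw [Subgroup.coe_mul, map_mul]
      exact hB2 _ (hcent g g.2) _ (hcent h h.2) hg hh) hz
  have h1 : (a : G) * t = t * a := by
    apply Q.comm
    have h2 : π ((a : G) * t * (a : G)⁻¹ * (t : G)⁻¹) = 1 := by
      rw [Q.hker]
      have h3 : ((a * t * a⁻¹ * t⁻¹ : (R : Subgroup G)) : G) ∈ center G := hat ▸ hzc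
      exact h3
    rw [map_mul, map_mul, map_mul, map_inv, map_inv, mul_inv_eq_one, mul_inv_eq_iff_eq_mul] at h2
    exact h2
  rw [hat]
  apply Subtype.ext
  show (a : G) * t * (a : G)⁻¹ * (t : G)⁻¹ = 1
  rw [h1]; group

/-- the centre meets the commutator subgroup trivially -/
theorem center_inf : center G ⊓ commutator G = ⊥ := by
  rw [eq_bot_iff]
  intro z hz
  rw [Subgroup.mem_bot]
  by_contra hz1
  obtain ⟨r, hr, hrd⟩ := Nat.exists_prime_and_dvd (fun h => hz1 (orderOf_eq_one_iff.mp h) : orderOf z ≠ 1)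
  haveI : Fact r.Prime := ⟨hr⟩
  set y := z ^ (orderOf z / r) with hy
  have hyo : orderOf y = r := orderOf_pow_orderOf_div (orderOf_pos z).ne' hrd
  have hyc : y ∈ center G := pow_mem (Subgroup.mem_inf.mp hz).1 _
  have hyG : y ∈ commutator G := pow_mem (Subgroup.mem_inf.mp hz).2 _
  obtain ⟨R⟩ : Nonempty (Sylow r G) := inferInstance
  have hyR : y ∈ R := H72.AbSyl.mem_of_central R (k := 1) (by rw [hyo, pow_one]) hyc
  have key : ∀ (k : ℕ) (g0 : G), g0⁻¹ * y ^ k * g0 ∈ (R : Subgroup G) → g0⁻¹ * y ^ k * g0 = y ^ k := by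
    intro k g0 _
    rw [mul_assoc, ← mem_center_iff.mp (pow_mem hyc k) g0, inv_mul_cancel_left]
  have h1 := MonoidHom.transfer_eq_pow (Abelianization.of (G := (R : Subgroup G))) y key
  have h2 : MonoidHom.transfer (Abelianization.of (G := (R : Subgroup G))) y = 1 :=
    Abelianization.commutator_subset_ker _ hyG
  rw [h2] at h1
  have h3 := (QuotientGroup.eq_one_iff _).mp h1.symm
  have h4 := Q.syl_comm R h3 (pow_mem hyc _)
  have h5 : y ^ (R : Subgroup G).index = 1 := congrArg Subtype.val h4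
  have h6 := orderOf_dvd_of_pow_eq_one h5
  rw [hyo] at h6
  exact R.not_dvd_index h6

/-- the splitting -/
theorem split (hperf : commutator L = ⊤) : ∃ N A : Subgroup G, N.Normal ∧ A ≤ center G ∧ N ⊓ A = ⊥ ∧ N ⊔ A = ⊤ ∧
    Nonempty (N ≃* L) := by
  have hmap : (commutator G).map π = ⊤ := by
    rw [commutator_def, Subgroup.map_commutator, Subgroup.map_top_of_surjective π Q.surj, ← commutator_def, hperf]
  have hinf : commutator G ⊓ center G = ⊥ := by rw [inf_comm]; exact Q.center_inf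
  refine ⟨commutator G, center G, inferInstance, le_rfl, hinf, ?_, ?_⟩
  · rw [eq_top_iff]
    intro g _
    have h1 : π g ∈ (commutator G).map π := by rw [hmap]; exact Subgroup.mem_top _
    obtain ⟨n, hn, hng⟩ := h1
    have h2 : n⁻¹ * g ∈ center G := by rw [← Q.hker, map_mul, map_inv, hng, inv_mul_cancel]
    have h3 : g = n * (n⁻¹ * g) := by group
    rw [h3]
    exact mul_mem (Subgroup.mem_sup_left hn) (Subgroup.mem_sup_right h2)
  · refine ⟨MulEquiv.ofBijective (π.comp (commutator G).subtype) ⟨?_, ?_⟩⟩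
    · rw [injective_iff_map_eq_one]
      rintro ⟨n, hn⟩ h
      have h1 : n ∈ commutator G ⊓ center G := Subgroup.mem_inf.mpr ⟨hn, (Q.hker n).mp h⟩
      rw [hinf, Subgroup.mem_bot] at h1
      exact Subtype.ext h1
    · intro x
      have h1 : x ∈ (commutator G).map π := by rw [hmap]; exact Subgroup.mem_top _
      obtain ⟨n, hn, hng⟩ := h1
      exact ⟨⟨n, hn⟩, hng⟩

end Quot

end H72.Cls
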