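import Mathlib
import Cfsg.Agent.Lib.H72.Cls8

/-!
Finite groups with the class sizes of `PSL₂(q)`.  Part 9: the facts on `PSL₂(q)`.
-/

set_option autoImplicit false
set_option linter.unusedSectionVars false

open Subgroup
open H72.ClassSize H72.TwoLargest H72.Cls H72.PSLClass H45.SL2

namespace H72.Cls

variable {F : Type*} [Field F]

local notation "SL" => Matrix.SpecialLinearGroup (Fin 2) F
local notation "PSL" => Matrix.ProjectiveSpecialLinearGroup (Fin 2) F

/-- matrices commuting with a nonscalar matrix commute -/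
theorem comm_of_nonscalar {A B C : SL} (hA : ¬ (A = 1 ∨ A = -1)) (hB : B * A = A * B) (hC : C * A = A * C) :
    B * C = C * B := by
  have b00 := congrArg (fun M : SL => M.1 0 0) hB
  have b01 := congrArg (fun M : SL => M.1 0 1) hB
  have b10 := congrArg (fun M : SL => M.1 1 0) hB
  have c00 := congrArg (fun M : SL => M.1 0 0) hC
  have c01 := congrArg (fun M : SL => M.1 0 1) hC
  have c10 := congrArg (fun M : SL => M.1 1 0) hC
  simp only [mul_00, mul_01, mul_10] at b00 b01 b10 c00 c01 c10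
  have hne : A.1 0 1 ≠ 0 ∨ A.1 1 0 ≠ 0 ∨ A.1 0 0 - A.1 1 1 ≠ 0 := by
    by_contra hcon
    push Not at hcon
    exact hA (scalar_iff hcon.1 hcon.2.1 (sub_eq_zero.mp hcon.2.2))
  -- the three minors vanish
  have key : B.1 0 1 * C.1 1 0 = C.1 0 1 * B.1 1 0 ∧
      B.1 0 1 * (C.1 0 0 - C.1 1 1) = C.1 0 1 * (B.1 0 0 - B.1 1 1) ∧
      B.1 1 0 * (C.1 0 0 - C.1 1 1) = C.1 1 0 * (B.1 0 0 - B.1 1 1) := by
    rcases hne with h | h | h
    · refine ⟨?_, ?_, ?_⟩
      · apply mul_left_cancel₀ h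
        linear_combination (C.1 0 1) * b00 - B.1 0 1 * c00
      · apply mul_left_cancel₀ h
        linear_combination (-C.1 0 1) * b01 + B.1 0 1 * c01
      · apply mul_left_cancel₀ h
        apply mul_left_cancel₀ h
        linear_combination (A.1 0 1 * (C.1 1 1 - C.1 0 0)) * b00 + (A.1 0 1 * (B.1 0 0 - B.1 1 1)) * c00 +
          (A.1 1 0 * B.1 0 1) * c01 - (A.1 1 0 * C.1 0 1) * b01
    · refine ⟨?_, ?_, ?_⟩
      · apply mul_left_cancel₀ h
        linear_combination (C.1 1 0) * b00 - B.1 1 0 * c00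
      · apply mul_left_cancel₀ h
        apply mul_left_cancel₀ h
        linear_combination (A.1 1 0 * (C.1 0 0 - C.1 1 1)) * b00 - (A.1 1 0 * (B.1 0 0 - B.1 1 1)) * c00 -
          (A.1 0 1 * B.1 1 0) * c10 + (A.1 0 1 * C.1 1 0) * b10
      · apply mul_left_cancel₀ h
        linear_combination (C.1 1 0) * b10 - B.1 1 0 * c10
    · refine ⟨?_, ?_, ?_⟩
      · apply mul_left_cancel₀ h
        apply mul_left_cancel₀ h
        linear_combination (A.1 0 1 * (B.1 0 0 - B.1 1 1)) * c10 -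
          ((A.1 0 0 - A.1 1 1) * C.1 1 0) * b01 - (A.1 0 1 * (C.1 0 0 - C.1 1 1)) * b10 +
          ((A.1 0 0 - A.1 1 1) * B.1 1 0) * c01
      · apply mul_left_cancel₀ h
        linear_combination (-(C.1 0 0 - C.1 1 1)) * b01 + (B.1 0 0 - B.1 1 1) * c01
      · apply mul_left_cancel₀ h
        linear_combination (C.1 0 0 - C.1 1 1) * b10 - (B.1 0 0 - B.1 1 1) * c10
  obtain ⟨k1, k2, k3⟩ := key
  apply ext4
  · rw [mul_00, mul_00]; linear_combination k1
  · rw [mul_01, mul_01]; linear_combination -k2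
  · rw [mul_10, mul_10]; linear_combination k3
  · rw [mul_11, mul_11]; linear_combination -k1

theorem exists_abelian (x : PSL) (hx : x ≠ 1) : ∃ B : Subgroup PSL, (∀ a ∈ B, ∀ b ∈ B, a * b = b * a) ∧
    (∀ g ∈ centralizer ({x} : Set PSL), ∀ h ∈ centralizer ({x} : Set PSL), g ∉ B → h ∉ B → g * h ∈ B) := by
  obtain ⟨A, rfl⟩ := pj_surj x
  have hA : ¬ (A = 1 ∨ A = -1) := fun h => hx ((pj_one_iff A).mpr h)
  refine ⟨(centralizer ({A} : Set SL)).map (pj F), ?_, ?_⟩
  · rintro _ ⟨B, hB, rfl⟩ _ ⟨C, hC, rfl⟩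
    rw [← map_mul, ← map_mul, comm_of_nonscalar hA (mem_cent.mp hB) (mem_cent.mp hC)]
  · intro g hg h hh hgB hhB
    obtain ⟨g, rfl⟩ := pj_surj g
    obtain ⟨h, rfl⟩ := pj_surj h
    rcases (mem_comap_cent A g).mp hg with h1 | h1
    · exact absurd ⟨g, mem_cent.mpr h1, rfl⟩ hgB
    rcases (mem_comap_cent A h).mp hh with h2 | h2
    · exact absurd ⟨h, mem_cent.mpr h2, rfl⟩ hhB
    refine ⟨g * h, ?_, map_mul _ _ _⟩
    rw [SetLike.mem_coe, mem_cent]
    rw [mul_assoc, h2, mul_neg, ← mul_assoc, h1, neg_mul, neg_neg, mul_assoc]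

variable [Fintype F] {p s d n1 n0 : ℕ} (hF : Fintype.card F = s + 1) (N : Num p s d n1 n0)
  (hp : p = 2 ↔ (2 : F) = 0)
include hF N hp

theorem psl_cs_ne_one (x : PSL) (hx : x ≠ 1) : cs x ≠ 1 := by
  obtain ⟨A, rfl⟩ := pj_surj x
  have hA : ¬ (A = 1 ∨ A = -1) := fun h => hx ((pj_one_iff A).mpr h)
  have hs := N.s3
  have h1 := N.n1_gt
  rcases cs_pj_cases hF N hp hA with ⟨h2, -, h3⟩ | ⟨-, h3 | h3 | h3⟩
  · rw [h3]
    intro h4
    have := N.p_dvd_n0 h2
    rw [h4] at this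
    exact N.hp.one_lt.ne' (Nat.dvd_one.mp this)
  · rw [h3]; omega
  · rw [h3]; nlinarith
  · rw [h3]; nlinarith

theorem psl_conj (hp2 : p ≠ 2) (x y : PSL) (hx : cs x = n0) (hy : cs y = n0) : IsConj x y := by
  obtain ⟨A, rfl⟩ := pj_surj x
  obtain ⟨B, rfl⟩ := pj_surj y
  rw [cs_n0_iff hF N hp hp2] at hx hy
  have h4 : (tr A) ^ 2 ≠ 4 := by
    rw [hx]
    intro h
    have h5 : (2 : F) * 2 = 0 := by linear_combination -h
    rcases mul_eq_zero.mp h5 with h6 | h6 <;> exact hp2 (hp.mpr h6)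
  obtain ⟨g, hg⟩ := isConj_iff.mp (isConj_of_tr_eq A B (by rw [hx, hy]) h4)
  exact isConj_iff.mpr ⟨pj F g, by rw [← hg, map_mul, map_mul, map_inv]⟩

theorem psl_perfect : commutator PSL = ⊤ := by
  classical
  have hs := N.s3
  obtain ⟨l, hl⟩ := IsCyclic.exists_generator (α := Fˣ)
  have hlo : orderOf l = s := by
    rw [orderOf_eq_card_of_forall_mem_zpowers hl, Nat.card_eq_fintype_card, Fintype.card_units, hF]
    rfl
  have hl2 : (l : F) ^ 2 ≠ 1 := by
    intro h
    have h1 : l ^ 2 = 1 := by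
      apply Units.ext
      rw [Units.val_pow_eq_pow_val, h, Units.val_one]
    have := Nat.le_of_dvd (by norm_num) (orderOf_dvd_of_pow_eq_one h1)
    omega
  have h1 : commutator SL = ⊤ := Matrix.SL2.commutator_eq_top l.ne_zero hl2
  rw [eq_top_iff]
  intro x _
  obtain ⟨A, rfl⟩ := pj_surj x
  have h2 : A ∈ commutator SL := by rw [h1]; exact Subgroup.mem_top _
  have h3 : (commutator SL).map (pj F) ≤ commutator PSL := by
    rw [_root_.commutator_def, _root_.commutator_def, Subgroup.map_commutator]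
    exact Subgroup.commutator_mono le_top le_top
  exact h3 ⟨A, h2, rfl⟩

end H72.Cls

namespace H72.Cls

theorem main_split {F : Type*} [Field F] [Fintype F]
    (hq : (2 ∣ Fintype.card F ∧ 2 < Fintype.card F) ∨ (¬ 2 ∣ Fintype.card F ∧ 7 ≤ Fintype.card F))
    {G : Type*} [Group G] [Finite G]
    (h : Set.range (fun g : G => (Subgroup.centralizer ({g} : Set G)).index) = Set.range (fun g : (Matrix.ProjectiveSpecialLinearGroup (Fin 2) F) => (Subgroup.centralizer ({g} : Set (Matrix.ProjectiveSpecialLinearGroup (Fin 2) F))).index)) :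
    ∃ N A : Subgroup G, N.Normal ∧ A ≤ Subgroup.center G ∧ N ⊓ A = ⊥ ∧ N ⊔ A = ⊤ ∧
      Nonempty (N ≃* Matrix.ProjectiveSpecialLinearGroup (Fin 2) F) := by
  obtain ⟨e⟩ := quot_iso hq h
  obtain ⟨p, s, d, n1, n0, hs, N, hp⟩ := exists_num hq
  have HL := grp hs N hp
  have H := Grp.of_range h HL
  have Q : Quot G (Matrix.ProjectiveSpecialLinearGroup (Fin 2) F) p s d n1 n0
      ((e : G ⧸ center G →* _).comp (QuotientGroup.mk' (center G))) := by
    refine { H := H, HL := HL, surj := ?_, hker := ?_, hc1 := psl_cs_ne_one hs N hp, hn0 := ?_, hab := exists_abelian }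
    · exact e.surjective.comp (QuotientGroup.mk'_surjective _)
    · intro g
      rw [← QuotientGroup.eq_one_iff (N := center G)]
      exact MulEquiv.map_eq_one_iff e
    · intro hp2 x y hx hy
      exact psl_conj hs N hp hp2 x y hx hy
  exact Q.split (psl_perfect hs N hp)

end H72.Cls
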