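import Mathlib
import Cfsg.Agent.Lib.H72.ClassSize

set_option autoImplicit false
set_option linter.unusedSectionVars false

/-! Covering the `p`-elements of a group generated by its `p`-elements by proper subgroups. -/

namespace H72.CoverP

open Subgroup

universe u

/-- the set of `p`-elements -/
def PE (p : ℕ) (G : Type*) [Group G] : Set G := {g : G | ∃ k : ℕ, orderOf g = p ^ k}

/-- the subgroup generated by the `p`-elements of `K` -/
def pg (p : ℕ) {G : Type*} [Group G] (K : Subgroup G) : Subgroup G :=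
  closure {g : G | g ∈ K ∧ g ∈ PE p G}

variable {G : Type u} [Group G] {p : ℕ}

theorem pg_le (K : Subgroup G) : pg p K ≤ K := by
  rw [pg, closure_le]
  exact fun g hg => hg.1

theorem pg_mono {K L : Subgroup G} (h : K ≤ L) : pg p K ≤ pg p L :=
  closure_mono fun _ hg => ⟨h hg.1, hg.2⟩

theorem mem_pg {K : Subgroup G} {g : G} (hg : g ∈ K) (hp : g ∈ PE p G) : g ∈ pg p K :=
  subset_closure ⟨hg, hp⟩

theorem pg_pg (K : Subgroup G) : pg p (pg p K) = pg p K := by
  apply le_antisymm (pg_le _)
  conv_lhs => rw [pg]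
  rw [closure_le]
  exact fun g hg => mem_pg (mem_pg hg.1 hg.2) hg.2

theorem pe_conj {g x : G} (hg : g ∈ PE p G) : x * g * x⁻¹ ∈ PE p G := by
  obtain ⟨k, hk⟩ := hg
  refine ⟨k, ?_⟩
  rw [← hk]
  exact orderOf_injective (MulAut.conj x).toMonoidHom (MulAut.conj x).injective g

theorem pg_map_conj (K : Subgroup G) (x : G) :
    (pg p K).map (MulAut.conj x).toMonoidHom = pg p (K.map (MulAut.conj x).toMonoidHom) := by
  rw [pg, MonoidHom.map_closure, pg]
  congr 1
  ext g
  constructor
  · rintro ⟨h, ⟨h1, h2⟩, rfl⟩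
    exact ⟨⟨h, h1, rfl⟩, pe_conj h2⟩
  · rintro ⟨⟨h, h1, rfl⟩, h2⟩
    refine ⟨h, ⟨h1, ?_⟩, rfl⟩
    have h3 := pe_conj (x := x⁻¹) h2
    have h4 : x⁻¹ * (MulAut.conj x).toMonoidHom h * x⁻¹⁻¹ = h := by
      simp [MulAut.conj_apply, mul_assoc]
    rwa [h4] at h3

theorem pe_pow [hp : Fact p.Prime] {g : G} (hg : g ∈ PE p G) (n : ℕ) : g ^ n ∈ PE p G := by
  obtain ⟨k, hk⟩ := hg
  obtain ⟨i, _, hi⟩ := (Nat.dvd_prime_pow hp.out).mp (hk ▸ orderOf_pow_dvd (x := g) n)
  exact ⟨i, hi⟩

theorem closure_pe_sub {L : Subgroup G} (hL : pg p L = L) : closure (PE p L) = ⊤ := by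
  apply Subgroup.map_injective L.subtype_injective
  rw [MonoidHom.map_closure, ← MonoidHom.range_eq_map, Subgroup.range_subtype]
  conv_rhs => rw [← hL]
  rw [pg]
  congr 1
  ext g
  constructor
  · rintro ⟨h, ⟨k, hk⟩, rfl⟩
    refine ⟨h.2, k, ?_⟩
    rw [← hk]
    exact Subgroup.orderOf_coe h
  · rintro ⟨h1, k, hk⟩
    refine ⟨⟨g, h1⟩, ⟨k, ?_⟩, rfl⟩
    rw [← hk]
    exact Subgroup.orderOf_mk g h1

/-- a group is not the union of `p` proper subgroups if all orders are powers of `p` -/
theorem pgroup_case [Finite G] [hp : Fact p.Prime] (hG : IsPGroup p G) (S : Finset (Subgroup G))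
    (hS : ∀ K ∈ S, K ≠ ⊤) (hcov : ∀ g : G, ∃ K ∈ S, g ∈ K) : p + 1 ≤ S.card := by
  classical
  have : Fintype G := Fintype.ofFinite G
  by_contra hlt
  push Not at hlt
  have hle : S.card ≤ p := by omega
  have h1 : (Finset.univ.erase (1 : G)) ⊆ S.biUnion (fun K => (Finset.univ.filter (fun g => g ∈ K)).erase 1) := by
    intro g hg
    obtain ⟨K, hK, hgK⟩ := hcov g
    rw [Finset.mem_biUnion]
    refine ⟨K, hK, ?_⟩
    rw [Finset.mem_erase] at hg ⊢
    exact ⟨hg.1, Finset.mem_filter.mpr ⟨Finset.mem_univ _, hgK⟩⟩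
  have h2 := (Finset.card_le_card h1).trans Finset.card_biUnion_le
  have h3 : ∀ K ∈ S, ((Finset.univ.filter (fun g => g ∈ K)).erase (1 : G)).card + 1 ≤ Nat.card G / p := by
    intro K hK
    have h4 : (1 : G) ∈ Finset.univ.filter (fun g => g ∈ K) :=
      Finset.mem_filter.mpr ⟨Finset.mem_univ _, K.one_mem⟩
    rw [Finset.card_erase_add_one h4]
    have h5 : (Finset.univ.filter (fun g => g ∈ K)).card = Nat.card K := by
      have h5' : Nat.card K = Nat.card {g : G // g ∈ K} := rfl
      rw [h5', Nat.card_eq_fintype_card, Fintype.card_subtype]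
    rw [h5]
    have h6 : p ∣ K.index := by
      obtain ⟨n, hn⟩ := hG.exists_card_eq
      have h7 : K.index ∣ p ^ n := hn ▸ K.index_dvd_card
      obtain ⟨i, _, hi⟩ := (Nat.dvd_prime_pow hp.out).mp h7
      have h8 : i ≠ 0 := by
        rintro rfl
        rw [pow_zero, Subgroup.index_eq_one] at hi
        exact hS K hK hi
      rw [hi]
      exact dvd_pow_self p h8
    obtain ⟨c, hc⟩ := h6
    have h9 := K.card_mul_index
    rw [hc] at h9
    have hc0 : 0 < c := by
      rcases Nat.eq_zero_or_pos c with h0 | h0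
      · rw [h0] at h9
        have := Nat.card_pos (α := G)
        omega
      · exact h0
    rw [Nat.le_div_iff_mul_le hp.out.pos, ← h9]
    calc Nat.card K * p = Nat.card K * (p * 1) := by ring
      _ ≤ Nat.card K * (p * c) := Nat.mul_le_mul_left _ (Nat.mul_le_mul_left _ hc0)
  have h4 : ∑ K ∈ S, ((Finset.univ.filter (fun g => g ∈ K)).erase (1 : G)).card + S.card ≤
      S.card * (Nat.card G / p) := by
    rw [Finset.card_eq_sum_ones, ← Finset.sum_add_distrib, Finset.sum_mul]
    apply Finset.sum_le_sum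
    intro K hK
    rw [one_mul]
    exact h3 K hK
  have h5 : (Finset.univ.erase (1 : G)).card + 1 = Nat.card G := by
    rw [Finset.card_erase_add_one (Finset.mem_univ _), Finset.card_univ, Nat.card_eq_fintype_card]
  have h6 : S.card * (Nat.card G / p) ≤ Nat.card G := by
    calc S.card * (Nat.card G / p) ≤ p * (Nat.card G / p) := Nat.mul_le_mul_right _ hle
      _ ≤ Nat.card G := Nat.mul_div_le _ _
  -- so `S.card ≤ 1`
  have h7 : S.card ≤ 1 := by omega
  obtain ⟨K, hK, _⟩ := hcov 1
  have h8 : S = {K} := by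
    ext L
    rw [Finset.mem_singleton]
    constructor
    · intro hL
      exact Finset.card_le_one.mp h7 L hL K hK
    · rintro rfl
      exact hK
  apply hS K hK
  rw [eq_top_iff]
  intro g _
  obtain ⟨L, hL, hg⟩ := hcov g
  rw [h8, Finset.mem_singleton] at hL
  rw [← hL]
  exact hg

theorem mem_map_conj {L : Subgroup G} {a x : G} :
    x ∈ L.map (MulAut.conj a).toMonoidHom ↔ a⁻¹ * x * a ∈ L := by
  constructor
  · rintro ⟨l, hl, rfl⟩
    have : a⁻¹ * (MulAut.conj a).toMonoidHom l * a = l := by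
      simp [MulAut.conj_apply, mul_assoc]
    rwa [this]
  · intro h
    refine ⟨_, h, ?_⟩
    simp [MulAut.conj_apply, mul_assoc]

theorem isPGroup_closure_top {P : Subgroup G} [hp : Fact p.Prime] (hP : IsPGroup p P) : pg p P = P := by
  apply le_antisymm (pg_le _)
  intro g hg
  apply mem_pg hg
  obtain ⟨k, hk⟩ := (IsPGroup.iff_orderOf.mp hP) ⟨g, hg⟩
  rw [Subgroup.orderOf_mk] at hk
  exact ⟨k, hk⟩

theorem main [hp : Fact p.Prime] : ∀ (n : ℕ) (G : Type u) [Group G] [Finite G], Nat.card G = n →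
    closure (PE p G) = ⊤ → ∀ S : Finset (Subgroup G), (∀ K ∈ S, K ≠ ⊤) →
    (∀ g ∈ PE p G, ∃ K ∈ S, g ∈ K) → p + 1 ≤ S.card := by
  classical
  intro n
  induction n using Nat.strong_induction_on with
  | _ n ih =>
  intro G _ _ hn hgen S hS hcov
  by_contra hlt
  push Not at hlt
  have hle : S.card ≤ p := by omega
  -- proper subgroups generated by `p`-elements lie in members of `S`
  have key : ∀ L : Subgroup G, L ≠ ⊤ → pg p L = L → ∃ K ∈ S, L ≤ K := by
    intro L hL hpL
    by_contra hcon
    push Not at hcon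
    have hcard : Nat.card L < n := by
      rw [← hn]
      refine lt_of_le_of_ne (Nat.le_of_dvd Nat.card_pos L.card_subgroup_dvd_card) ?_
      intro h
      exact hL (Subgroup.eq_top_of_card_eq L h)
    have h1 := ih _ hcard L rfl (closure_pe_sub hpL) (S.image fun K => K.subgroupOf L) (by
      intro K hK
      obtain ⟨K', hK', rfl⟩ := Finset.mem_image.mp hK
      intro h
      exact hcon K' hK' (Subgroup.subgroupOf_eq_top.mp h)) (by
      rintro g ⟨k, hk⟩
      obtain ⟨K, hK, hgK⟩ := hcov g ⟨k, by rw [← hk]; exact Subgroup.orderOf_coe g⟩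
      exact ⟨K.subgroupOf L, Finset.mem_image.mpr ⟨K, hK, rfl⟩, hgK⟩)
    have h2 : (S.image fun K => K.subgroupOf L).card ≤ S.card := Finset.card_image_le
    omega
  by_cases hG : IsPGroup p G
  · have h1 := pgroup_case hG S hS (by
      intro g
      obtain ⟨k, hk⟩ := (IsPGroup.iff_orderOf.mp hG) g
      exact hcov g ⟨k, hk⟩)
    omega
  -- Sylow subgroups are proper
  have hsyl : ∀ P : Sylow p G, (P : Subgroup G) ≠ ⊤ := by
    intro P h
    apply hG
    have h1 := P.2
    rw [h] at h1
    exact h1.of_equiv Subgroup.topEquiv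
  obtain ⟨P0⟩ : Nonempty (Sylow p G) := inferInstance
  set S' := S.filter (fun K => ∃ P : Sylow p G, (P : Subgroup G) ≤ K) with hS'
  have hne : S'.Nonempty := by
    obtain ⟨K, hK, hPK⟩ := key P0 (hsyl P0) (isPGroup_closure_top P0.2)
    exact ⟨K, Finset.mem_filter.mpr ⟨hK, P0, hPK⟩⟩
  obtain ⟨K0, hK0, hmax⟩ := Finset.exists_max_image S' (fun K => Nat.card (pg p K)) hne
  obtain ⟨hK0S, P, hP⟩ := Finset.mem_filter.mp hK0
  set L := pg p K0 with hL
  have hLK : L ≤ K0 := pg_le K0
  have hLtop : L ≠ ⊤ := by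
    intro h
    exact hS K0 hK0S (top_le_iff.mp (h ▸ hLK))
  have hPL : (P : Subgroup G) ≤ L := by
    rw [← isPGroup_closure_top P.2]
    exact pg_mono hP
  have hLpg : pg p L = L := pg_pg K0
  -- every conjugate of `L` is one of the `pg K`, `K ∈ S`
  have hconj : ∀ x : G, L.map (MulAut.conj x).toMonoidHom ∈ S.image (fun K => pg p K) := by
    intro x
    set M := L.map (MulAut.conj x).toMonoidHom with hM
    have hMcard : Nat.card M = Nat.card L := Subgroup.card_map_of_injective (MulAut.conj x).injective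
    have h1 : pg p M = M := by rw [hM, ← pg_map_conj, hLpg]
    have h2 : M ≠ ⊤ := by
      intro h
      apply hLtop
      apply Subgroup.eq_top_of_card_eq
      rw [← hMcard, h, Subgroup.card_top]
    obtain ⟨K, hK, hMK⟩ := key M h2 h1
    have h3 : K ∈ S' := by
      refine Finset.mem_filter.mpr ⟨hK, x • P, ?_⟩
      refine le_trans ?_ hMK
      rw [Sylow.smul_def, Sylow.pointwise_smul_def]
      exact Subgroup.map_mono hPL
    have h4 : M ≤ pg p K := by
      rw [← h1]
      exact pg_mono hMK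
    have h5 := hmax K h3
    have h6 := Subgroup.eq_of_le_of_card_ge h4 (by rw [hMcard]; exact h5)
    exact Finset.mem_image.mpr ⟨K, hK, h6.symm⟩
  set N := normalizer (L : Set G) with hN
  have hidx : N.index ≤ p := by
    refine le_trans ?_ hle
    refine le_trans ?_ (Finset.card_image_le (s := S) (f := fun K => pg p K))
    have hkey : ∀ a b : G, a⁻¹ * b ∈ N ↔ L.map (MulAut.conj a).toMonoidHom = L.map (MulAut.conj b).toMonoidHom := by
      intro a b
      constructor
      · intro h
        ext x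
        rw [mem_map_conj, mem_map_conj]
        rw [Subgroup.mem_normalizer_iff''] at h
        rw [h (a⁻¹ * x * a)]
        have : (a⁻¹ * b)⁻¹ * (a⁻¹ * x * a) * (a⁻¹ * b) = b⁻¹ * x * b := by group
        rw [this]
      · intro h
        rw [Subgroup.mem_normalizer_iff]
        intro g
        have h1 : b * g * b⁻¹ ∈ L.map (MulAut.conj a).toMonoidHom ↔
            b * g * b⁻¹ ∈ L.map (MulAut.conj b).toMonoidHom := by rw [h]
        rw [mem_map_conj, mem_map_conj] at h1
        have h2 : b⁻¹ * (b * g * b⁻¹) * b = g := by group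
        have h3 : a⁻¹ * b * g * (a⁻¹ * b)⁻¹ = a⁻¹ * (b * g * b⁻¹) * a := by group
        rw [h2] at h1
        rw [h3]
        exact h1.symm
    let f : G ⧸ N → {M : Subgroup G // M ∈ S.image (fun K => pg p K)} :=
      Quotient.lift (fun g => ⟨L.map (MulAut.conj g).toMonoidHom, hconj g⟩) (by
        intro a b hab
        apply Subtype.ext
        exact (hkey a b).mp (QuotientGroup.leftRel_apply.mp hab))
    have hf : Function.Injective f := by
      intro a b
      refine Quotient.inductionOn₂ a b ?_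
      intro a b hab
      exact Quotient.sound (QuotientGroup.leftRel_apply.mpr ((hkey a b).mpr (congrArg Subtype.val hab)))
    have h1 := Nat.card_le_card_of_injective f hf
    rw [Subgroup.index_eq_card]
    refine h1.trans ?_
    rw [Nat.card_eq_fintype_card, Fintype.card_coe]
  have hpN : ¬ p ∣ N.index := by
    intro h
    have h1 : N.index ∣ (P : Subgroup G).index := Subgroup.index_dvd_of_le (hPL.trans Subgroup.le_normalizer)
    exact P.not_dvd_index (h.trans h1)
  have hlt2 : N.index < p := by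
    refine lt_of_le_of_ne hidx ?_
    intro h
    exact hpN (h ▸ dvd_rfl)
  -- `p`-elements lie in `N`
  have hNtop : N = ⊤ := by
    rw [eq_top_iff, ← hgen, closure_le]
    rintro g ⟨k, hk⟩
    have h1 : N.normalCore.index ∣ (N.index).factorial := by
      rw [Subgroup.normalCore_eq_ker, Subgroup.index_ker, Subgroup.index_eq_card, ← Nat.card_perm]
      exact Subgroup.card_subgroup_dvd_card _
    have h2 : ¬ p ∣ N.normalCore.index := by
      intro h
      have h3 := (hp.out.dvd_factorial).mp (h.trans h1)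
      omega
    have h3 : (g : G ⧸ N.normalCore) = 1 := by
      rw [← orderOf_eq_one_iff]
      have h4 : orderOf (g : G ⧸ N.normalCore) ∣ p ^ k := by
        rw [← hk]
        exact orderOf_map_dvd (QuotientGroup.mk' N.normalCore) g
      have h5 : orderOf (g : G ⧸ N.normalCore) ∣ N.normalCore.index := by
        rw [Subgroup.index_eq_card]
        exact orderOf_dvd_natCard _
      exact Nat.Coprime.eq_one_of_dvd
        (((Nat.Prime.coprime_iff_not_dvd hp.out).mpr h2).pow_left k |>.coprime_dvd_left h4) h5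
    exact Subgroup.normalCore_le N ((QuotientGroup.eq_one_iff g).mp h3)
  have hLn : L.Normal := Subgroup.normalizer_eq_top_iff.mp hNtop
  apply hLtop
  rw [eq_top_iff, ← hgen, closure_le]
  rintro g ⟨k, hk⟩
  have h1 : IsPGroup p (zpowers g) := by
    apply IsPGroup.of_card (n := k)
    rw [Nat.card_zpowers, hk]
  obtain ⟨Q, hQ⟩ := h1.exists_le_sylow
  obtain ⟨x, hx⟩ := MulAction.exists_smul_eq G P Q
  have h2 : (Q : Subgroup G) ≤ L := by
    rw [← hx, Sylow.smul_def, Sylow.pointwise_smul_def]
    rintro _ ⟨y, hy, rfl⟩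
    exact hLn.conj_mem y (hPL hy) x
  exact h2 (hQ (mem_zpowers g))

end H72.CoverP
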