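import Mathlib
import Cfsg.Agent.Lib.H72.JordanCycle
import Cfsg.Agent.Lib.H72.TpCount
import Cfsg.Agent.Lib.H62.PrimGroup

/-!
Primitive groups of degree 13 of even permutations containing an 11-cycle.
-/

set_option autoImplicit false

open MulAction Subgroup Equiv.Perm H72.JordanCycle

namespace H72.Deg13

theorem pow_fix {α : Type*} {x : Equiv.Perm α} {p : ℕ} (hp : p.Prime) (hx : orderOf x = p) {a : α}
    (ha : x a ≠ a) {i : ℤ} (h : (x ^ i) a = a) : (p : ℤ) ∣ i := by
  by_contra hcon
  have hcop : IsCoprime (p : ℤ) i := (Prime.coprime_iff_not_dvd (Nat.prime_iff_prime_int.mp hp)).mpr hcon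
  obtain ⟨u, v, huv⟩ := hcop
  apply ha
  have h1 : x = (x ^ i) ^ v := by
    rw [← zpow_mul]
    calc x = x ^ (1 : ℤ) := (zpow_one x).symm
      _ = x ^ (u * p + v * i) := by rw [huv]
      _ = x ^ (i * v) := by
        rw [zpow_add, mul_comm u, zpow_mul, zpow_natCast, ← hx, pow_orderOf_eq_one, one_zpow, one_mul, mul_comm]
  rw [h1]
  exact Equiv.Perm.zpow_apply_eq_self_of_apply_eq_self h v

theorem caseA {α : Type*} [Fintype α] [DecidableEq α] {G : Subgroup (Equiv.Perm α)}
    (hG : IsPreprimitive G α) (hα : Fintype.card α = 13)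
    (hmt : IsMultiplyPretransitive G α 3) (h5 : 5 ∣ Nat.card G) : alternatingGroup α ≤ G := by
  by_contra hcon
  have hp5 : Nat.Prime 5 := by norm_num
  have : Fact (Nat.Prime 5) := ⟨hp5⟩
  have hsup : ∀ z ∈ G, orderOf z = 5 → z.support.card = 10 := by
    intro z hz hzo
    obtain ⟨n, hn⟩ := Equiv.Perm.cycleType_prime_order (σ := z) (by rw [hzo]; exact hp5)
    have hs := Equiv.Perm.sum_cycleType z
    rw [hn, Multiset.sum_replicate, hzo, smul_eq_mul] at hs
    have hle : z.support.card ≤ 13 := by rw [← hα]; exact Finset.card_le_univ _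
    have hn1 : n = 0 ∨ n = 1 := by omega
    rcases hn1 with rfl | rfl
    · exfalso
      apply hcon
      have hc : z.IsCycle := by
        rw [← Equiv.Perm.card_cycleType_eq_one, hn, Multiset.card_replicate]
      have h6 : z.support.card = 5 := by omega
      exact jordan_cycle hG z hc (by rw [h6]; exact hp5) (by rw [h6, hα]; norm_num) hz
    · omega
  obtain ⟨⟨z, hz⟩, hzo⟩ := exists_prime_orderOf_dvd_card' 5 h5
  rw [Subgroup.orderOf_mk] at hzo
  have hz10 := hsup z hz hzo
  set F : Finset α := z.supportᶜ with hF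
  have hFc : F.card = 3 := by rw [hF, Finset.card_compl, hα, hz10]
  have hmem : ∀ x, x ∉ F ↔ z x ≠ x := by
    intro x
    rw [hF, Finset.mem_compl, not_not, Equiv.Perm.mem_support]
  have hzF : ∀ a ∈ F, z a = a := by
    intro f hf
    by_contra h
    exact (hmem f).mpr h hf
  -- an element fixing F and a further point has trivial 5-part
  have hfree : ∀ g ∈ G, (∀ f ∈ F, g f = f) → orderOf g = 5 → ∀ c, c ∉ F → g c ≠ c := by
    intro g hg hgF hgo c hc hgc
    have h1 := hsup g hg hgo
    have h2 : g.support ⊆ (insert c F)ᶜ := by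
      intro y hy
      rw [Equiv.Perm.mem_support] at hy
      rw [Finset.mem_compl, Finset.mem_insert]
      rintro (rfl | h)
      · exact hy hgc
      · exact hy (hgF y h)
    have h3 := Finset.card_le_card h2
    rw [h1, Finset.card_compl, Finset.card_insert_of_notMem hc, hFc, hα] at h3
    omega
  have hFcne : ∃ c, c ∉ F := by
    by_contra h
    push Not at h
    have : F = Finset.univ := Finset.eq_univ_of_forall h
    rw [this, Finset.card_univ, hα] at hFc
    omega
  have hp2 : ¬ 5 ^ 2 ∣ Nat.card (fixingSubgroup G (F : Set α)) := by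
    intro hd
    obtain ⟨T, hT⟩ := Sylow.exists_subgroup_card_pow_prime 5 hd
    obtain ⟨c, hc⟩ := hFcne
    have hTp : IsPGroup 5 T := IsPGroup.of_card hT
    have hTF : ∀ t : T, ∀ f ∈ F, (((t : fixingSubgroup G (F : Set α)) : G) : Equiv.Perm α) f = f :=
      fun t f hf => (mem_fixingSubgroup_iff G).mp (t : fixingSubgroup G (F : Set α)).2 f hf
    have hTc : ∀ t : T, (((t : fixingSubgroup G (F : Set α)) : G) : Equiv.Perm α) c = c → t = 1 := by
      intro t ht
      by_contra ht1
      obtain ⟨k, hk⟩ := IsPGroup.iff_orderOf.mp hTp t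
      have hk0 : k ≠ 0 := by
        rintro rfl
        rw [pow_zero, orderOf_eq_one_iff] at hk
        exact ht1 hk
      obtain ⟨l, rfl⟩ := Nat.exists_eq_succ_of_ne_zero hk0
      have h1 : orderOf (t ^ 5 ^ l) = 5 := by
        rw [orderOf_pow_of_dvd (by positivity) (by rw [hk]; exact pow_dvd_pow 5 (Nat.le_succ l)), hk,
          pow_succ, Nat.mul_div_cancel_left _ (by positivity)]
      have h2 : (((t ^ 5 ^ l : T) : fixingSubgroup G (F : Set α)) : G) = (((t : fixingSubgroup G (F : Set α)) : G)) ^ 5 ^ l := rfl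
      refine hfree ((((t ^ 5 ^ l : T) : fixingSubgroup G (F : Set α)) : G) : Equiv.Perm α)
        (SetLike.coe_mem _) (hTF _) ?_ c hc ?_
      · rw [Subgroup.orderOf_coe, Subgroup.orderOf_coe, Subgroup.orderOf_coe, h1]
      · rw [h2, Subgroup.coe_pow]
        exact Equiv.Perm.pow_apply_eq_self_of_apply_eq_self ht _
    let φ : T → {y : α // y ∉ F} := fun t =>
      ⟨(((t : fixingSubgroup G (F : Set α)) : G) : Equiv.Perm α) c, by
        intro h
        have h1 := hTF t⁻¹ _ h
        have h2 : (((t⁻¹ : T) : fixingSubgroup G (F : Set α)) : G) = (((t : fixingSubgroup G (F : Set α)) : G))⁻¹ := rfl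
        rw [h2, Subgroup.coe_inv, inv_apply_self'] at h1
        rw [← h1] at h
        exact hc h⟩
    have hφ : Function.Injective φ := by
      intro s t hst
      have h1 := congrArg Subtype.val hst
      have h2 : t⁻¹ * s = 1 := by
        apply hTc
        show ((((t : fixingSubgroup G (F : Set α)) : G))⁻¹ : Equiv.Perm α)
          ((((s : fixingSubgroup G (F : Set α)) : G) : Equiv.Perm α) c) = c
        have h3 : (((s : fixingSubgroup G (F : Set α)) : G) : Equiv.Perm α) c =
          (((t : fixingSubgroup G (F : Set α)) : G) : Equiv.Perm α) c := h1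
        rw [h3, inv_apply_self']
      exact (inv_mul_eq_one.mp h2).symm
    have h1 := Nat.card_le_card_of_injective φ hφ
    have h2 : Nat.card {y : α // y ∉ F} = 10 := by
      rw [Nat.card_eq_fintype_card, Fintype.card_subtype_compl, Fintype.card_coe, hFc, hα]
    have h3 : Nat.card T = 25 := hT
    omega
  obtain ⟨a, ha, b, hb, c, hc, hab, hac, hbc⟩ := Finset.two_lt_card.mp (by omega : 2 < F.card)
  obtain ⟨w, hw, hwz, hwF⟩ := exists_w G F (by rw [hFc]; exact hmt) z hz hzF hzo hp2 a b c ha hb hc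
  set t := (Equiv.swap a b * Equiv.swap a c) * (Equiv.swap a b * Equiv.swap a c) with ht
  have ht3 : t.IsThreeCycle := isThreeCycle_w hab hac hbc
  have htF : ∀ x, x ∉ F → t x = x := by
    intro x hx
    apply w_apply_of_ne <;> rintro rfl <;> exact hx (by assumption)
  have htF' : ∀ x ∈ F, t x ∈ F := by
    intro x hx
    by_contra hcon
    have h1 := htF _ hcon
    have h2 := t.injective h1
    rw [h2] at hcon
    exact hcon hx
  have hwS : ∀ x, x ∉ F → w x ∉ F := by
    intro x hx hcon
    have h1 : w (t⁻¹ (w x)) = w x := by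
      have h3 : t⁻¹ (w x) ∈ F := by
        by_contra h4
        have h5 := htF _ h4
        rw [apply_inv_self'] at h5
        rw [← h5] at h4
        exact h4 hcon
      rw [hwF _ h3, apply_inv_self']
    have h2 := w.injective h1
    rw [Equiv.Perm.inv_eq_iff_eq, htF x hx] at h2
    rw [h2] at hcon
    exact hx hcon
  have hwFn : ∀ n : ℕ, ∀ f ∈ F, (w ^ n) f = (t ^ n) f ∧ (t ^ n) f ∈ F := by
    intro n
    induction n with
    | zero => intro f hf; exact ⟨rfl, hf⟩
    | succ n ih =>
      intro f hf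
      obtain ⟨h1, h2⟩ := ih f hf
      rw [pow_succ', pow_succ', Equiv.Perm.mul_apply, Equiv.Perm.mul_apply, h1, hwF _ h2]
      exact ⟨rfl, htF' _ h2⟩
  have hwSn : ∀ n : ℕ, ∀ x, x ∉ F → (w ^ n) x ∉ F := by
    intro n
    induction n with
    | zero => intro f hf; exact hf
    | succ n ih =>
      intro f hf
      rw [pow_succ', Equiv.Perm.mul_apply]
      exact hwS _ (ih f hf)
  have hzS : ∀ n : ℕ, ∀ x, x ∉ F → (z ^ n) x ∉ F := by
    intro n x hx h
    have h1 : (z ^ n) ((z ^ n) x) = (z ^ n) x := Equiv.Perm.pow_apply_eq_self_of_apply_eq_self (hzF _ h) n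
    have h2 := (z ^ n).injective h1
    rw [h2] at h
    exact hx h
  have hcomm : ∀ i j : ℕ, w ^ i * z ^ j = z ^ j * w ^ i := fun i j =>
    ((show Commute w z from hwz).pow_pow i j)
  -- `w ^ 10` is trivial off `F`
  have hw10 : ∀ x, x ∉ F → (w ^ 10) x = x := by
    intro x hx
    obtain ⟨d, hd, l, hl⟩ : ∃ d : ℕ, (d = 1 ∨ d = 2) ∧ ∃ l : ℤ, (w ^ d) x = (z ^ l) x := by
      let φ : Fin 3 × Fin 5 → {y : α // y ∉ F} := fun ij =>
        ⟨(w ^ (ij.1 : ℕ)) ((z ^ (ij.2 : ℕ)) x), hwSn _ _ (hzS _ _ hx)⟩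
      have hni : ¬ Function.Injective φ := by
        intro h
        have h1 := Nat.card_le_card_of_injective φ h
        have h2 : Nat.card {y : α // y ∉ F} = 10 := by
          rw [Nat.card_eq_fintype_card, Fintype.card_subtype_compl, Fintype.card_coe, hFc, hα]
        rw [h2] at h1
        simp at h1
      rw [Function.Injective] at hni
      push Not at hni
      obtain ⟨⟨i, j⟩, ⟨i', j'⟩, h1, h2⟩ := hni
      have h3 : (w ^ (i : ℕ)) ((z ^ (j : ℕ)) x) = (w ^ (i' : ℕ)) ((z ^ (j' : ℕ)) x) := congrArg Subtype.val h1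
      have gen : ∀ i i' j j' : ℕ, i < i' → (w ^ i) ((z ^ j) x) = (w ^ i') ((z ^ j') x) →
          (w ^ (i' - i)) x = (z ^ ((j : ℤ) - j')) x := by
        intro i i' j j' hlt he
        have e1 : w ^ i' = w ^ i * w ^ (i' - i) := by rw [← pow_add]; congr 1; omega
        rw [e1, Equiv.Perm.mul_apply] at he
        have e2 := (w ^ i).injective he
        have e3 : (w ^ (i' - i)) ((z ^ j') x) = (z ^ j') ((w ^ (i' - i)) x) :=
          DFunLike.congr_fun (hcomm (i' - i) j') x
        rw [e3] at e2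
        have e4 : z ^ ((j : ℤ) - j') = (z ^ j')⁻¹ * z ^ j := by
          rw [sub_eq_neg_add, zpow_add, zpow_neg, zpow_natCast, zpow_natCast]
        rw [e4, Equiv.Perm.mul_apply, e2, inv_apply_self']
      rcases lt_trichotomy (i : ℕ) (i' : ℕ) with hlt | heq | hlt
      · exact ⟨i' - i, by omega, _, gen i i' j j' hlt h3⟩
      · exfalso
        apply h2
        rw [heq] at h3
        have h4 := (w ^ (i' : ℕ)).injective h3
        have h5 : (z ^ ((j : ℤ) - j')) x = x := by
          rw [sub_eq_neg_add, zpow_add, zpow_neg, zpow_natCast, zpow_natCast, Equiv.Perm.mul_apply, h4,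
            inv_apply_self']
        have h6 := pow_fix hp5 hzo ((hmem x).mp hx) h5
        have h7 : (j : ℕ) = j' := by
          have := j.2
          have := j'.2
          omega
        exact Prod.ext (Fin.ext heq) (Fin.ext h7)
      · exact ⟨i - i', by omega, _, gen i' i j' j hlt h3.symm⟩
    have hpow : ∀ n : ℕ, ((w ^ d) ^ n) x = ((z ^ l) ^ n) x := by
      intro n
      induction n with
      | zero => rfl
      | succ n ih =>
        rw [pow_succ', Equiv.Perm.mul_apply, ih]
        have hc1 : w ^ d * (z ^ l) ^ n = (z ^ l) ^ n * w ^ d :=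
          (((show Commute w z from hwz).pow_left d).zpow_right l).pow_right n
        have hc2 : (w ^ d) (((z ^ l) ^ n) x) = ((z ^ l) ^ n) ((w ^ d) x) := DFunLike.congr_fun hc1 x
        rw [hc2, hl, ← Equiv.Perm.mul_apply, ← pow_succ]
    have h5 : ((w ^ d) ^ 5) x = x := by
      rw [hpow 5, ← zpow_natCast, ← zpow_mul, mul_comm, zpow_mul]
      have : z ^ ((5 : ℕ) : ℤ) = 1 := by rw [zpow_natCast, ← hzo, pow_orderOf_eq_one]
      rw [this, one_zpow]; rfl
    rcases hd with rfl | rfl
    · have : w ^ 10 = ((w ^ 1) ^ 5) ^ 2 := by rw [← pow_mul, ← pow_mul]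
      rw [this]
      exact Equiv.Perm.pow_apply_eq_self_of_apply_eq_self h5 2
    · have : w ^ 10 = (w ^ 2) ^ 5 := by rw [← pow_mul]
      rw [this, h5]
  have ht10 : t ^ 10 = t := by
    have h3 : t ^ 3 = 1 := by rw [← ht3.orderOf]; exact pow_orderOf_eq_one t
    calc t ^ 10 = (t ^ 3) ^ 3 * t := by rw [← pow_mul, ← pow_succ]
      _ = t := by rw [h3, one_pow, one_mul]
  have hfin : t = w ^ 10 := by
    apply Equiv.ext
    intro x
    by_cases hx : x ∈ F
    · rw [(hwFn 10 x hx).1, ht10]
    · rw [hw10 x hx, htF x hx]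
  apply hcon
  exact alternatingGroup_le_of_isPreprimitive_of_isThreeCycle_mem hG ht3 (by rw [hfin]; exact G.pow_mem hw 10)

theorem mem_zpowers_zpow {Γ : Type*} [Group Γ] {x : Γ} {p : ℕ} (hp : p.Prime) (hx : orderOf x = p)
    {i : ℤ} (h : ¬ (p : ℤ) ∣ i) : x ∈ zpowers (x ^ i) := by
  have hcop : IsCoprime (p : ℤ) i := (Prime.coprime_iff_not_dvd (Nat.prime_iff_prime_int.mp hp)).mpr h
  obtain ⟨u, v, huv⟩ := hcop
  refine mem_zpowers_iff.mpr ⟨v, ?_⟩
  rw [← zpow_mul]
  symm
  calc x = x ^ (1 : ℤ) := (zpow_one x).symm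
    _ = x ^ (u * p + v * i) := by rw [huv]
    _ = x ^ (i * v) := by
      rw [zpow_add, mul_comm u, zpow_mul, zpow_natCast, ← hx, pow_orderOf_eq_one, one_zpow, one_mul, mul_comm]

theorem conj_pow_pow {Γ : Type*} [Group Γ] {x g : Γ} {i : ℤ} (h : g * x * g⁻¹ = x ^ i) (n : ℕ) :
    g ^ n * x * (g ^ n)⁻¹ = x ^ (i ^ n) := by
  induction n with
  | zero => simp
  | succ n ih =>
    calc g ^ (n + 1) * x * (g ^ (n + 1))⁻¹ = g * (g ^ n * x * (g ^ n)⁻¹) * g⁻¹ := by
          rw [pow_succ']; group
      _ = g * x ^ (i ^ n) * g⁻¹ := by rw [ih]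
      _ = (g * x * g⁻¹) ^ (i ^ n) := by rw [conj_zpow]
      _ = x ^ (i ^ (n + 1)) := by rw [h, ← zpow_mul, pow_succ']

/-- Claim 1 -/
theorem claim1 {α : Type*} [Fintype α] [DecidableEq α] {G : Subgroup (Equiv.Perm α)}
    (hα : Fintype.card α = 13) (halt : G ≤ alternatingGroup α)
    (x : Equiv.Perm α) (hx : x.IsCycle) (hxs : x.support.card = 11) (hxG : x ∈ G)
    (h5 : ¬ 5 ∣ Nat.card G) (g : Equiv.Perm α) (hg : g ∈ G) (hgF : ∀ f ∉ x.support, g f = f)
    (hgx : g * x * g⁻¹ ∈ zpowers x) : g ∈ zpowers x := by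
  have hp11 : Nat.Prime 11 := by norm_num
  have hxo : orderOf x = 11 := by rw [hx.orderOf, hxs]
  obtain ⟨i, hi⟩ := mem_zpowers_iff.mp hgx
  obtain ⟨c, hc, hcyc⟩ := hx
  have hmem : ∀ y, y ∈ x.support ↔ x y ≠ y := fun y => Equiv.Perm.mem_support
  have hxF : ∀ f ∉ x.support, ∀ n : ℤ, (x ^ n) f = f := by
    intro f hf n
    apply Equiv.Perm.zpow_apply_eq_self_of_apply_eq_self
    by_contra h
    exact hf ((hmem f).mpr h)
  have hgc : g c ∈ x.support := by
    by_contra h
    have h1 := g.injective (hgF _ h)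
    rw [h1] at h
    exact h ((hmem c).mpr hc)
  obtain ⟨j, hj⟩ := hcyc ((hmem _).mp hgc)
  set g' := (x ^ j)⁻¹ * g with hg'
  have hg'G : g' ∈ G := G.mul_mem (G.inv_mem (G.zpow_mem hxG j)) hg
  have hg'F : ∀ f ∉ x.support, g' f = f := by
    intro f hf
    show (x ^ j)⁻¹ (g f) = f
    rw [hgF f hf, ← zpow_neg, hxF f hf]
  have hg'c : g' c = c := by
    show (x ^ j)⁻¹ (g c) = c
    rw [← hj, inv_apply_self']
  have hg'x : g' * x * g'⁻¹ = x ^ i := by
    rw [hg', hi]
    have e : (x ^ j)⁻¹ * g * x * ((x ^ j)⁻¹ * g)⁻¹ = (x ^ j)⁻¹ * (g * x * g⁻¹) * x ^ j := by group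
    rw [e, ← hi]
    rw [← zpow_neg, ← zpow_add, ← zpow_add]
    congr 1
    ring
  have hcyc' : ∀ y ∈ x.support, ∃ n : ℤ, (x ^ n) c = y := fun y hy => hcyc ((hmem y).mp hy)
  have hone : ∀ h : Equiv.Perm α, h * x = x * h → h c = c → (∀ f ∉ x.support, h f = f) → h = 1 := by
    intro h hhx hhc hhF
    apply Equiv.ext
    intro y
    by_cases hy : y ∈ x.support
    · obtain ⟨n, rfl⟩ := hcyc' y hy
      have h1 : h * x ^ n = x ^ n * h := (show Commute h x from hhx).zpow_right n
      have h2 : h ((x ^ n) c) = (x ^ n) (h c) := DFunLike.congr_fun h1 c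
      rw [h2, hhc]; rfl
    · exact hhF y hy
  have hpowfix : ∀ n : ℕ, (g' ^ n) c = c ∧ ∀ f ∉ x.support, (g' ^ n) f = f := fun n =>
    ⟨Equiv.Perm.pow_apply_eq_self_of_apply_eq_self hg'c n, fun f hf =>
      Equiv.Perm.pow_apply_eq_self_of_apply_eq_self (hg'F f hf) n⟩
  have hcomm_of : ∀ n : ℕ, i ^ n ≡ 1 [ZMOD 11] → g' ^ n = 1 := by
    intro n hn
    have h1 := conj_pow_pow hg'x n
    have h2 : x ^ (i ^ n) = x := by
      have : x ^ (i ^ n) = x ^ (1 : ℤ) := by
        rw [zpow_eq_zpow_iff_modEq, hxo]; exact hn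
      rw [this, zpow_one]
    rw [h2] at h1
    exact hone _ (mul_inv_eq_iff_eq_mul.mp h1) (hpowfix n).1 (hpowfix n).2
  have hi11 : ¬ (11 : ℤ) ∣ i := by
    intro hd
    have h1 : x ^ i = 1 := by
      have := orderOf_dvd_iff_zpow_eq_one.mp (by rw [hxo]; exact hd : ((orderOf x : ℕ) : ℤ) ∣ i)
      exact this
    rw [h1] at hg'x
    have h2 : x = 1 := by
      have := conj_eq_one_iff.mp hg'x
      exact this
    rw [h2] at hc
    exact hc rfl
  have hfermat : i ^ 10 ≡ 1 [ZMOD 11] := by
    have hcop : IsCoprime i ((11 : ℕ) : ℤ) :=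
      ((Prime.coprime_iff_not_dvd (Nat.prime_iff_prime_int.mp hp11)).mpr hi11).symm
    exact Int.ModEq.pow_card_sub_one_eq_one hp11 hcop
  have h10 := hcomm_of 10 hfermat
  have ho10 : orderOf g' ∣ 10 := orderOf_dvd_of_pow_eq_one h10
  have hoG : orderOf g' ∣ Nat.card G := Subgroup.orderOf_dvd_natCard G hg'G
  have ho5 : ¬ 5 ∣ orderOf g' := fun h => h5 (h.trans hoG)
  have ho2 : orderOf g' ∣ 2 := by
    have hcop : (orderOf g').Coprime 5 := ((Nat.Prime.coprime_iff_not_dvd (by norm_num)).mpr ho5).symm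
    exact hcop.dvd_of_dvd_mul_right (show orderOf g' ∣ 2 * 5 from ho10)
  have hsq : g' ^ 2 = 1 := orderOf_dvd_iff_pow_eq_one.mp ho2
  have hi2 : (11 : ℤ) ∣ (i - 1) * (i + 1) := by
    have h1 := conj_pow_pow hg'x 2
    rw [hsq] at h1
    have h2 : x ^ (i ^ 2) = x ^ (1 : ℤ) := by rw [← h1]; simp
    rw [zpow_eq_zpow_iff_modEq, hxo] at h2
    have h3 := h2.symm.dvd
    have h4 : (i - 1) * (i + 1) = i ^ 2 - 1 := by ring
    rw [h4]
    exact_mod_cast h3
  have hp11i : Prime (11 : ℤ) := Nat.prime_iff_prime_int.mp hp11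
  rcases hp11i.dvd_or_dvd hi2 with h1 | h1
  · have h2 : g' ^ 1 = 1 := hcomm_of 1 (by
      rw [pow_one]
      exact (Int.modEq_iff_dvd.mpr h1).symm)
    rw [pow_one, hg', inv_mul_eq_one] at h2
    exact mem_zpowers_iff.mpr ⟨j, h2⟩
  · exfalso
    have h2 : g' * x * g'⁻¹ = x⁻¹ := by
      rw [hg'x, ← zpow_neg_one, zpow_eq_zpow_iff_modEq, hxo]
      apply Int.ModEq.symm
      rw [Int.modEq_iff_dvd]
      have : i - -1 = i + 1 := by ring
      rw [this]
      exact_mod_cast h1
    have h3 : ∀ n : ℤ, g' ((x ^ n) c) = (x ^ (-n)) c := by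
      intro n
      have h4 : g' * x ^ n * g'⁻¹ = x ^ (-n) := by
        rw [← conj_zpow, h2, inv_zpow, zpow_neg]
      have h5 : g' * x ^ n = x ^ (-n) * g' := mul_inv_eq_iff_eq_mul.mp h4
      have h6 : g' ((x ^ n) c) = (x ^ (-n)) (g' c) := DFunLike.congr_fun h5 c
      rw [h6, hg'c]
    have hsupp : g'.support = (insert c (x.supportᶜ))ᶜ := by
      ext y
      rw [Equiv.Perm.mem_support, Finset.mem_compl, Finset.mem_insert, Finset.mem_compl]
      constructor
      · rintro hy (rfl | h)
        · exact hy hg'c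
        · exact hy (hg'F y h)
      · intro hy hy2
        apply hy
        by_cases hys : y ∈ x.support
        · left
          obtain ⟨n, rfl⟩ := hcyc' y hys
          rw [h3] at hy2
          have h4 : (x ^ (n + n)) c = c := by
            rw [zpow_add, Equiv.Perm.mul_apply, ← hy2, ← Equiv.Perm.mul_apply, ← zpow_add]
            simp
          have h5 := pow_fix hp11 hxo hc h4
          have h6 : (11 : ℤ) ∣ n := by
            have h7 : (11 : ℤ) ∣ 2 * n := by
              have : 2 * n = n + n := by ring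
              rw [this]; exact_mod_cast h5
            rcases hp11i.dvd_or_dvd h7 with h8 | h8
            · norm_num at h8
            · exact h8
          have h7 : x ^ n = 1 := orderOf_dvd_iff_zpow_eq_one.mp (by rw [hxo]; exact_mod_cast h6)
          rw [h7]; rfl
        · exact Or.inr hys
    have hc' : c ∉ x.supportᶜ := by
      rw [Finset.mem_compl, not_not]; exact (hmem c).mpr hc
    have hcard : g'.support.card = 10 := by
      rw [hsupp, Finset.card_compl, Finset.card_insert_of_notMem hc', Finset.card_compl, hα, hxs]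
    have hg'1 : g' ≠ 1 := by
      intro h
      rw [h] at hcard
      simp at hcard
    have ho : orderOf g' = 2 := orderOf_eq_prime hsq hg'1
    obtain ⟨n, hn⟩ := Equiv.Perm.cycleType_prime_order (σ := g') (by rw [ho]; exact Nat.prime_two)
    have hs := Equiv.Perm.sum_cycleType g'
    have hsign := Equiv.Perm.sign_of_cycleType g'
    rw [hs, hcard, hn, Multiset.card_replicate] at hsign
    rw [hn, Multiset.sum_replicate, ho, smul_eq_mul, hcard] at hs
    have hn5 : n + 1 = 5 := by omega
    rw [hn5] at hsign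
    have h8 := Equiv.Perm.mem_alternatingGroup.mp (halt hg'G)
    rw [h8] at hsign
    exact absurd hsign (by decide)

/-- Claim 2 -/
theorem claim2 {α : Type*} [Fintype α] [DecidableEq α] {G : Subgroup (Equiv.Perm α)}
    (hα : Fintype.card α = 13) (halt : G ≤ alternatingGroup α)
    (x : Equiv.Perm α) (hx : x.IsCycle) (hxs : x.support.card = 11) (hxG : x ∈ G)
    (h5 : ¬ 5 ∣ Nat.card G) (g : G) (hgF : ∀ f ∉ x.support, (g : Equiv.Perm α) f = f) :
    (g : Equiv.Perm α) ∈ zpowers x := by
  classical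
  have hp11 : Nat.Prime 11 := by norm_num
  have : Fact (Nat.Prime 11) := ⟨hp11⟩
  have hxo : orderOf x = 11 := by rw [hx.orderOf, hxs]
  set K : Subgroup G := fixingSubgroup G ((x.support : Set α)ᶜ) with hK
  have hKmem : ∀ g : G, g ∈ K ↔ ∀ f ∉ x.support, (g : Equiv.Perm α) f = f := by
    intro g
    rw [hK, mem_fixingSubgroup_iff]
    constructor
    · intro h f hf; exact h f (by simpa using hf)
    · intro h f hf; exact h f (by simpa using hf)
  let x' : K := ⟨⟨x, hxG⟩, (hKmem _).mpr fun f hf => by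
    by_contra h; exact hf (Equiv.Perm.mem_support.mpr h)⟩
  have hx'o : orderOf x' = 11 := by rw [Subgroup.orderOf_mk, Subgroup.orderOf_mk, hxo]
  have hcardK : Nat.card K ∣ (11).factorial := by
    have h1 := card_fixing_dvd G (x.supportᶜ)
    rw [compl_compl, hxs] at h1
    rw [hK, ← Finset.coe_compl]
    exact h1
  have hfac : (Nat.card K).factorization 11 = 1 := by
    apply le_antisymm
    · by_contra hcon
      push Not at hcon
      exact not_sq_dvd_factorial hp11 (((hp11.pow_dvd_iff_le_factorization Nat.card_pos.ne').mpr hcon).trans hcardK)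
    · apply hp11.factorization_pos_of_dvd Nat.card_pos.ne'
      rw [← hx'o]
      exact orderOf_dvd_natCard _
  let P : Sylow 11 K := Sylow.ofCard (zpowers x') (by rw [hfac, pow_one, Nat.card_zpowers, hx'o])
  have hPc : (P : Subgroup K) = zpowers x' := rfl
  have hN : normalizer ((P : Subgroup K) : Set K) ≤ centralizer ((P : Subgroup K) : Set K) := by
    intro k hk
    have h1 : k * x' * k⁻¹ ∈ zpowers x' := by
      have := (mem_normalizer_iff.mp hk x').mp (mem_zpowers x')
      exact this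
    obtain ⟨i, hi⟩ := mem_zpowers_iff.mp h1
    have h2 : ((k : G) : Equiv.Perm α) ∈ zpowers x := by
      apply claim1 hα halt x hx hxs hxG h5 _ (SetLike.coe_mem _) ((hKmem _).mp k.2)
      refine mem_zpowers_iff.mpr ⟨i, ?_⟩
      exact congrArg (fun y : K => ((y : G) : Equiv.Perm α)) hi
    obtain ⟨j, hj⟩ := mem_zpowers_iff.mp h2
    rw [mem_centralizer_iff]
    intro y hy
    obtain ⟨l, rfl⟩ := mem_zpowers_iff.mp (show y ∈ zpowers x' from hy)
    have h3 : k = x' ^ j := Subtype.ext (Subtype.ext hj.symm)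
    rw [h3, ← zpow_add, ← zpow_add, add_comm]
  set W := (MonoidHom.transferSylow P hN).ker with hW
  have hWP : W.IsComplement' P := MonoidHom.ker_transferSylow_isComplement' P hN
  have hW11 : ¬ 11 ∣ Nat.card W := MonoidHom.not_dvd_card_ker_transferSylow P hN
  have hprim := isPreprimitive_fixing hx (by rw [hxs]; exact hp11) hxG
  have hfaith : FaithfulSMul K (SubMulAction.ofFixingSubgroup G ((x.support : Set α)ᶜ)) := by
    constructor
    intro k1 k2 h
    apply Subtype.ext
    apply Subtype.ext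
    apply Equiv.ext
    intro y
    by_cases hy : y ∈ x.support
    · have h1 := h (⟨y, by
        rw [SubMulAction.mem_ofFixingSubgroup_iff]; simpa using hy⟩ :
          SubMulAction.ofFixingSubgroup G ((x.support : Set α)ᶜ))
      exact congrArg Subtype.val h1
    · have e1 := (hKmem _).mp k1.2 y hy
      have e2 := (hKmem _).mp k2.2 y hy
      exact e1.trans e2.symm
  have hWbot : W = ⊥ := by
    by_contra hne
    have hWn : W.Normal := inferInstance
    have htr := H62.PrimGroup.normal_transitive (H := K)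
      (Δ := SubMulAction.ofFixingSubgroup G ((x.support : Set α)ᶜ)) W hne
    obtain ⟨c, hc⟩ : ∃ c, c ∈ x.support := by
      by_contra h
      push Not at h
      have h1 : x.support = ∅ := Finset.eq_empty_of_forall_notMem h
      rw [h1] at hxs; simp at hxs
    let c' : SubMulAction.ofFixingSubgroup G ((x.support : Set α)ᶜ) := ⟨c, by
        rw [SubMulAction.mem_ofFixingSubgroup_iff]; simpa using hc⟩
    have h2 := index_stabilizer W c'
    rw [orbit_eq_univ, Set.ncard_univ] at h2
    have h3 : Nat.card (SubMulAction.ofFixingSubgroup G ((x.support : Set α)ᶜ)) = 11 := by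
      have h3 : Nat.card (SubMulAction.ofFixingSubgroup G ((x.support : Set α)ᶜ)) =
        Nat.card (((x.support : Set α)ᶜ)ᶜ : Set α) := rfl
      rw [h3, compl_compl, Nat.card_coe_set_eq, Set.ncard_coe_finset, hxs]
    rw [h3] at h2
    apply hW11
    rw [← h2]
    exact Subgroup.index_dvd_card _
  have hPtop : (P : Subgroup K) = ⊤ := by
    have := hWP.sup_eq_top
    rwa [hWbot, bot_sup_eq] at this
  have hg' : g ∈ K := (hKmem g).mpr hgF
  have h1 : (⟨g, hg'⟩ : K) ∈ zpowers x' := by
    rw [← hPc, hPtop]; trivial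
  obtain ⟨i, hi⟩ := mem_zpowers_iff.mp h1
  refine mem_zpowers_iff.mpr ⟨i, ?_⟩
  exact congrArg (fun y : K => ((y : G) : Equiv.Perm α)) hi

theorem caseB {α : Type*} [Fintype α] [DecidableEq α] {G : Subgroup (Equiv.Perm α)}
    (hα : Fintype.card α = 13) (halt : G ≤ alternatingGroup α) (hmt : IsMultiplyPretransitive G α 2)
    (x : Equiv.Perm α) (hx : x.IsCycle) (hxs : x.support.card = 11) (hxG : x ∈ G)
    (h5 : ¬ 5 ∣ Nat.card G) : False := by
  classical
  have hp11 : Nat.Prime 11 := by norm_num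
  have : Fact (Nat.Prime 11) := ⟨hp11⟩
  have hxo : orderOf x = 11 := by rw [hx.orderOf, hxs]
  have hF : x.supportᶜ.card = 2 := by rw [Finset.card_compl, hα, hxs]
  obtain ⟨a, b, hab, hFab⟩ := Finset.card_eq_two.mp hF
  have hmemF : ∀ y, y ∉ x.support ↔ y = a ∨ y = b := by
    intro y
    rw [← Finset.mem_compl, hFab]; simp
  have hxa : x a = a := by
    by_contra h
    exact (hmemF a).mpr (Or.inl rfl) (Equiv.Perm.mem_support.mpr h)
  have hxb : x b = b := by
    by_contra h
    exact (hmemF b).mpr (Or.inr rfl) (Equiv.Perm.mem_support.mpr h)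
  have hcl2 : ∀ g : G, (g : Equiv.Perm α) a = a → (g : Equiv.Perm α) b = b → (g : Equiv.Perm α) ∈ zpowers x := by
    intro g hga hgb
    apply claim2 hα halt x hx hxs hxG h5 g
    intro f hf
    rcases (hmemF f).mp hf with rfl | rfl
    · exact hga
    · exact hgb
  -- orders
  have hcardG : Nat.card G = 1716 := by
    have h1 := hmt.index_of_fixingSubgroup_mul (s := ({a, b} : Set α)) (Set.ncard_pair hab)
    rw [Nat.card_eq_fintype_card, hα] at h1
    have h2 : Nat.card (fixingSubgroup G ({a, b} : Set α)) = 11 := by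
      have h3 : fixingSubgroup G ({a, b} : Set α) = zpowers (⟨x, hxG⟩ : G) := by
        ext g
        rw [mem_fixingSubgroup_iff]
        constructor
        · intro h
          obtain ⟨i, hi⟩ := mem_zpowers_iff.mp (hcl2 g (h a (by simp)) (h b (by simp)))
          exact mem_zpowers_iff.mpr ⟨i, Subtype.ext hi⟩
        · intro h y hy
          obtain ⟨i, rfl⟩ := mem_zpowers_iff.mp h
          rcases hy with rfl | hy
          · exact Equiv.Perm.zpow_apply_eq_self_of_apply_eq_self hxa i
          · rw [Set.mem_singleton_iff.mp hy]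
            exact Equiv.Perm.zpow_apply_eq_self_of_apply_eq_self hxb i
      rw [h3, Nat.card_zpowers, Subgroup.orderOf_mk, hxo]
    rw [← Subgroup.card_mul_index (fixingSubgroup G ({a, b} : Set α)), h2]
    have h4 : (13 - 2).factorial = 39916800 := by decide
    have h6 : (13).factorial = 6227020800 := by decide
    rw [h4, h6] at h1
    omega
  have htr : IsPretransitive G α := by
    rw [← is_one_pretransitive_iff]
    exact isMultiplyPretransitive_of_le (n := 2) (by norm_num) (by
      rw [Nat.card_eq_fintype_card, hα]; norm_num)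
  set Γ : Subgroup G := stabilizer G a with hΓ
  have hcardΓ : Nat.card Γ = 132 := by
    have h1 := index_stabilizer G a
    rw [orbit_eq_univ, Set.ncard_univ, Nat.card_eq_fintype_card (α := α), hα] at h1
    have h2 := Subgroup.card_mul_index Γ
    rw [hcardG, h1] at h2
    omega
  have hΓa : ∀ g : Γ, ((g : G) : Equiv.Perm α) a = a := fun g => g.2
  let x' : Γ := ⟨⟨x, hxG⟩, hxa⟩
  have hx'o : orderOf x' = 11 := by
    rw [← Subgroup.orderOf_coe x', ← Subgroup.orderOf_coe (x' : G)]
    exact hxo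
  have hfac : (Nat.card Γ).factorization 11 = 1 := by
    rw [hcardΓ]
    apply le_antisymm
    · by_contra hcon
      push Not at hcon
      have := (hp11.pow_dvd_iff_le_factorization (n := 132) (by norm_num)).mpr hcon
      norm_num at this
    · exact hp11.factorization_pos_of_dvd (by norm_num) (by norm_num)
  let P : Sylow 11 Γ := Sylow.ofCard (zpowers x') (by rw [hfac, pow_one, Nat.card_zpowers, hx'o])
  -- elements of Γ fixing b are powers of x
  have hfixb : ∀ g : Γ, ((g : G) : Equiv.Perm α) b = b → g ∈ zpowers x' := by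
    intro g hg
    obtain ⟨i, hi⟩ := mem_zpowers_iff.mp (hcl2 g (hΓa g) hg)
    exact mem_zpowers_iff.mpr ⟨i, Subtype.ext (Subtype.ext hi)⟩
  have hb_of : ∀ y : α, x y = y → y ≠ a → y = b := by
    intro y hy hya
    have h1 : y ∉ x.support := by
      rw [Equiv.Perm.notMem_support]; exact hy
    rcases (hmemF y).mp h1 with h2 | h2
    · exact absurd h2 hya
    · exact h2
  have hN : normalizer ((P : Subgroup Γ) : Set Γ) ≤ centralizer ((P : Subgroup Γ) : Set Γ) := by
    intro k hk
    have h1 : k⁻¹ * x' * k ∈ zpowers x' := (mem_normalizer_iff''.mp hk x').mp (mem_zpowers x')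
    obtain ⟨i, hi⟩ := mem_zpowers_iff.mp h1
    have h2 : ((k : G) : Equiv.Perm α) b = b := by
      apply hb_of
      · have h3 : x' * k = k * x' ^ i := by rw [hi]; group
        have h4 : ((x' * k : Γ) : G) = ((k * x' ^ i : Γ) : G) := congrArg Subtype.val h3
        have h5 := DFunLike.congr_fun (congrArg Subtype.val h4) b
        have h6 : x (((k : G) : Equiv.Perm α) b) = ((k : G) : Equiv.Perm α) ((x ^ i) b) := h5
        rw [h6, Equiv.Perm.zpow_apply_eq_self_of_apply_eq_self hxb i]
      · intro h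
        rw [← hΓa k] at h
        exact hab (((k : G) : Equiv.Perm α).injective h).symm
    obtain ⟨j, rfl⟩ := mem_zpowers_iff.mp (hfixb k h2)
    rw [mem_centralizer_iff]
    intro y hy
    obtain ⟨l, rfl⟩ := mem_zpowers_iff.mp (show y ∈ zpowers x' from hy)
    rw [← zpow_add, ← zpow_add, add_comm]
  set M := (MonoidHom.transferSylow P hN).ker with hM
  have hMP : M.IsComplement' P := MonoidHom.ker_transferSylow_isComplement' P hN
  have hMn : M.Normal := inferInstance
  have hcardM : Nat.card M = 12 := by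
    have h1 := hMP.card_mul_card
    have h2 : Nat.card (P : Subgroup Γ) = 11 := by
      show Nat.card (zpowers x') = 11
      rw [Nat.card_zpowers, hx'o]
    rw [h2, hcardΓ] at h1
    omega
  have : Fact (Nat.Prime 2) := ⟨Nat.prime_two⟩
  have : Fact (Nat.Prime 3) := ⟨Nat.prime_three⟩
  obtain ⟨t, ht⟩ := exists_prime_orderOf_dvd_card' (G := M) 2 (by rw [hcardM]; norm_num)
  obtain ⟨s, hs⟩ := exists_prime_orderOf_dvd_card' (G := M) 3 (by rw [hcardM]; norm_num)
  have ht1 : t ≠ 1 := by rintro rfl; simp at ht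
  -- x does not commute with t
  have hnc : ¬ x' * (t : Γ) = t * x' := by
    intro h
    apply ht1
    have h2 : (((t : Γ) : G) : Equiv.Perm α) b = b := by
      apply hb_of
      · have h4 : ((x' * (t : Γ) : Γ) : G) = (((t : Γ) * x' : Γ) : G) := congrArg Subtype.val h
        have h5 := DFunLike.congr_fun (congrArg Subtype.val h4) b
        have h6 : x ((((t : Γ) : G) : Equiv.Perm α) b) = (((t : Γ) : G) : Equiv.Perm α) (x b) := h5
        rw [h6, hxb]
      · intro h
        rw [← hΓa (t : Γ)] at h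
        exact hab ((((t : Γ) : G) : Equiv.Perm α).injective h).symm
    have h3 := hfixb _ h2
    have h4 : (t : Γ) ∈ M ⊓ (P : Subgroup Γ) := ⟨t.2, h3⟩
    rw [disjoint_iff.mp hMP.disjoint, Subgroup.mem_bot] at h4
    exact Subtype.ext h4
  let φ : Fin 11 → {m : M // m ≠ 1} := fun j =>
    ⟨⟨x' ^ (j : ℕ) * t * (x' ^ (j : ℕ))⁻¹, hMn.conj_mem _ t.2 _⟩, by
      intro h
      have h1 := congrArg Subtype.val h
      exact ht1 (Subtype.ext (conj_eq_one_iff.mp h1))⟩
  have hφ : Function.Injective φ := by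
    intro j k hjk
    have h1 : x' ^ (j : ℕ) * (t : Γ) * (x' ^ (j : ℕ))⁻¹ = x' ^ (k : ℕ) * (t : Γ) * (x' ^ (k : ℕ))⁻¹ :=
      congrArg (fun y : {m : M // m ≠ 1} => ((y : M) : Γ)) hjk
    by_contra hne
    have h2 : ¬ (11 : ℤ) ∣ (j : ℤ) - k := by
      intro h
      apply hne
      apply Fin.ext
      have := j.2
      have := k.2
      omega
    have h3 : Commute (x' ^ ((j : ℤ) - k)) (t : Γ) := by
      have e : x' ^ ((j : ℤ) - k) = (x' ^ (k : ℕ))⁻¹ * x' ^ (j : ℕ) := by
        rw [sub_eq_neg_add, zpow_add, zpow_neg, zpow_natCast, zpow_natCast]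
      rw [e]
      show (x' ^ (k : ℕ))⁻¹ * x' ^ (j : ℕ) * (t : Γ) = t * ((x' ^ (k : ℕ))⁻¹ * x' ^ (j : ℕ))
      calc (x' ^ (k : ℕ))⁻¹ * x' ^ (j : ℕ) * (t : Γ)
          = (x' ^ (k : ℕ))⁻¹ * (x' ^ (j : ℕ) * (t : Γ) * (x' ^ (j : ℕ))⁻¹) * x' ^ (j : ℕ) := by group
        _ = (x' ^ (k : ℕ))⁻¹ * (x' ^ (k : ℕ) * (t : Γ) * (x' ^ (k : ℕ))⁻¹) * x' ^ (j : ℕ) := by rw [h1]
        _ = t * ((x' ^ (k : ℕ))⁻¹ * x' ^ (j : ℕ)) := by group
    obtain ⟨v, hv⟩ := mem_zpowers_iff.mp (mem_zpowers_zpow hp11 hx'o h2)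
    apply hnc
    have h4 := h3.zpow_left v
    rw [hv] at h4
    exact h4
  have hcardM1 : Nat.card {m : M // m ≠ 1} = 11 := by
    have : Fintype M := Fintype.ofFinite M
    rw [Nat.card_eq_fintype_card, Fintype.card_subtype_compl, Fintype.card_subtype_eq,
      ← Nat.card_eq_fintype_card, hcardM]
  have hsurj : Function.Surjective φ := by
    have hb : Function.Bijective φ := by
      rw [Nat.bijective_iff_injective_and_card]
      exact ⟨hφ, by rw [hcardM1]; simp⟩
    exact hb.2
  have hs1 : s ≠ 1 := by rintro rfl; simp at hs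
  obtain ⟨j, hj⟩ := hsurj ⟨s, hs1⟩
  have h1 : x' ^ (j : ℕ) * (t : Γ) * (x' ^ (j : ℕ))⁻¹ = (s : Γ) :=
    congrArg (fun y : {m : M // m ≠ 1} => ((y : M) : Γ)) hj
  have h2 : orderOf (s : Γ) = orderOf (t : Γ) := by
    rw [← h1]
    exact orderOf_injective (MulAut.conj (x' ^ (j : ℕ))).toMonoidHom (MulAut.conj (x' ^ (j : ℕ))).injective _
  rw [Subgroup.orderOf_coe, Subgroup.orderOf_coe, hs, ht] at h2
  norm_num at h2

/-- degree 13 -/
theorem deg13 {α : Type*} [Fintype α] [DecidableEq α] {G : Subgroup (Equiv.Perm α)}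
    (hG : IsPreprimitive G α) (hα : Fintype.card α = 13) (halt : G ≤ alternatingGroup α)
    (x : Equiv.Perm α) (hx : x.IsCycle) (hxs : x.support.card = 11) (hxG : x ∈ G) :
    alternatingGroup α ≤ G := by
  have h3 : IsMultiplyPretransitive G α 3 := by
    have := isMultiplyPretransitive hG hx (by rw [hxs]; norm_num) hxG (by rw [hxs, hα]; norm_num)
    rwa [hxs, hα] at this
  by_cases h5 : 5 ∣ Nat.card G
  · exact caseA hG hα h3 h5
  · exfalso
    have h2 : IsMultiplyPretransitive G α 2 :=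
      isMultiplyPretransitive_of_le (n := 3) (by norm_num) (by
        rw [Nat.card_eq_fintype_card, hα]; norm_num)
    exact caseB hα halt h2 x hx hxs hxG h5

end H72.Deg13
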