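import Mathlib
import Cfsg.Agent.Lib.H72.FT4159
import Cfsg.Agent.Lib.H3.ThompsonTransfer

/-!
S4167 modulo the odd order theorem: if no class size is divisible by `4` the group is solvable.
-/

set_option autoImplicit false

open Subgroup
open scoped Pointwise

universe u

namespace H72.FT4167

/-- a Sylow `2`-subgroup of the centralizer has index at most two in a Sylow `2`-subgroup -/
theorem exists_index_le_two {G : Type*} [Group G] [Finite G] (x : G)
    (h : ¬ 4 ∣ (Subgroup.centralizer ({x} : Set G)).index) :
    ∃ (Q : Subgroup G) (P : Sylow 2 G), Q ≤ (P : Subgroup G) ∧ Q ≤ Subgroup.centralizer ({x} : Set G) ∧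
      (Q.relIndex (P : Subgroup G) = 1 ∨ Q.relIndex (P : Subgroup G) = 2) := by
  have : Fact (Nat.Prime 2) := ⟨Nat.prime_two⟩
  set C := Subgroup.centralizer ({x} : Set G) with hC
  obtain ⟨R⟩ : Nonempty (Sylow 2 C) := inferInstance
  set Q : Subgroup G := (R : Subgroup C).map C.subtype with hQ
  have hQC : Q ≤ C := by
    rintro _ ⟨y, _, rfl⟩
    exact y.2
  have hQp : IsPGroup 2 Q := R.2.map _
  obtain ⟨P, hP⟩ := hQp.exists_le_sylow
  refine ⟨Q, P, hP, hQC, ?_⟩
  have h1 : Nat.card Q = 2 ^ (Nat.card C).factorization 2 := by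
    rw [← Sylow.card_eq_multiplicity R]
    exact Nat.card_congr (Subgroup.equivMapOfInjective (R : Subgroup C) C.subtype
      (Subgroup.subtype_injective _)).toEquiv.symm
  have h2 : Nat.card P = 2 ^ (Nat.card G).factorization 2 := Sylow.card_eq_multiplicity P
  have h3 : Nat.card C * C.index = Nat.card G := Subgroup.card_mul_index C
  have h4 : (Nat.card G).factorization 2 = (Nat.card C).factorization 2 + C.index.factorization 2 := by
    rw [← h3, Nat.factorization_mul Nat.card_pos.ne' (H72.ClassSize.index_ne_zero x), Finsupp.add_apply]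
  have h5 : C.index.factorization 2 ≤ 1 := by
    by_contra h6
    apply h
    have h7 : 2 ^ 2 ∣ C.index :=
      (pow_dvd_pow 2 (by omega)).trans (Nat.ordProj_dvd C.index 2)
    exact h7
  have h6 : Nat.card Q * Q.relIndex (P : Subgroup G) = Nat.card P := by
    rw [← Subgroup.relIndex_bot_left Q, Subgroup.relIndex_mul_relIndex _ _ _ bot_le hP,
      Subgroup.relIndex_bot_left]
  rw [h1, h2, h4, pow_add] at h6
  have h7 : Q.relIndex (P : Subgroup G) = 2 ^ C.index.factorization 2 :=
    Nat.eq_of_mul_eq_mul_left (by positivity) h6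
  rw [h7]
  interval_cases C.index.factorization 2 <;> simp

/-- no normal subgroup of index two: the centralizer of each element contains a conjugate of each
involution -/
theorem false_of_simple {G : Type*} [Group G] [Finite G] (hs : IsSimpleGroup G)
    (hns : ¬ Group.IsSolvable G) (h : ∀ x : G, ¬ 4 ∣ (Subgroup.centralizer ({x} : Set G)).index)
    (hev : 2 ∣ Nat.card G) : False := by
  have : Fact (Nat.Prime 2) := ⟨Nat.prime_two⟩
  obtain ⟨a, ha⟩ := exists_prime_orderOf_dvd_card' 2 hev
  have ha2 : a ^ 2 = 1 := by rw [← ha, pow_orderOf_eq_one]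
  have ha1 : a ≠ 1 := by
    rintro rfl
    rw [orderOf_one] at ha
    exact absurd ha (by norm_num)
  have key : ∀ x : G, ∃ g : G, g * x * g⁻¹ ∈ Subgroup.centralizer ({a} : Set G) := by
    intro x
    obtain ⟨Q, P, hQP, hQx, hi⟩ := exists_index_le_two x (h x)
    have hmain : ∃ g : G, g * a * g⁻¹ ∈ Q := by
      by_contra hcon
      push Not at hcon
      rcases hi with hi | hi
      · -- `Q = P`
        have hPQ : (P : Subgroup G) ≤ Q := Subgroup.relIndex_eq_one.mp hi
        have hap : IsPGroup 2 (zpowers a) := by
          apply IsPGroup.of_card (n := 1)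
          rw [Nat.card_zpowers, ha, pow_one]
        obtain ⟨R, hR⟩ := hap.exists_le_sylow
        obtain ⟨g, hg⟩ := MulAction.exists_smul_eq G R P
        apply hcon g
        apply hPQ
        rw [← hg]
        show g * a * g⁻¹ ∈ MulAut.conj g • (R : Subgroup G)
        rw [H1.SZ.mem_conj_smul]
        have : g⁻¹ * (g * a * g⁻¹) * g = a := by group
        rw [this]
        exact hR (mem_zpowers a)
      · obtain ⟨M, hM, hMi, -⟩ := H3.ThompsonTransfer.exists_index_two (P : Subgroup G) Q hQP
          (H3.ThompsonTransfer.odd_index_sylow P) hi a ha2 hcon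
        rcases hs.eq_bot_or_eq_top_of_normal M hM with hM' | hM'
        · apply hns
          rw [hM', Subgroup.index_bot] at hMi
          have : IsCyclic G := isCyclic_of_prime_card hMi
          have : IsMulCommutative G := inferInstance
          letI : CommGroup G := { (inferInstance : Group G) with mul_comm := this.is_comm.comm }
          infer_instance
        · rw [hM', Subgroup.index_top] at hMi
          omega
    obtain ⟨g, hg⟩ := hmain
    refine ⟨g⁻¹, ?_⟩
    have h1 := mem_centralizer_singleton_iff.mp (hQx hg)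
    rw [mem_centralizer_singleton_iff]
    calc g⁻¹ * x * g⁻¹⁻¹ * a = g⁻¹ * (x * (g * a * g⁻¹)) * g := by group
      _ = g⁻¹ * (g * a * g⁻¹ * x) * g := by rw [h1]
      _ = a * (g⁻¹ * x * g⁻¹⁻¹) := by group
  have htop := H72.ClassSize.eq_top_of_forall_conj_mem _ key
  have hcen : a ∈ Subgroup.center G := by
    rw [Subgroup.mem_center_iff]
    intro g
    have : g ∈ Subgroup.centralizer ({a} : Set G) := by rw [htop]; exact mem_top g
    exact mem_centralizer_singleton_iff.mp this
  rcases hs.eq_bot_or_eq_top_of_normal (Subgroup.center G) inferInstance with h1 | h1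
  · rw [h1, Subgroup.mem_bot] at hcen
    exact ha1 hcen
  · apply hns
    letI : CommGroup G := Group.commGroupOfCenterEqTop h1
    infer_instance

theorem main (hFT : H72.FT4159.FT.{u}) (n : ℕ) : ∀ (G : Type u) [Group G] [Finite G],
    Nat.card G = n → (∀ x : G, ¬ 4 ∣ (Subgroup.centralizer ({x} : Set G)).index) →
    Group.IsSolvable G := by
  induction n using Nat.strong_induction_on with
  | _ n ih =>
    intro G _ _ hn h
    by_contra hns
    by_cases hodd : Odd (Nat.card G)
    · exact hns (hFT G hodd)
    have hev : 2 ∣ Nat.card G := even_iff_two_dvd.mp (Nat.not_odd_iff_even.mp hodd)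
    have hnt : Nontrivial G := by
      by_contra hcon
      rw [not_nontrivial_iff_subsingleton] at hcon
      exact hns inferInstance
    refine false_of_simple ⟨fun N hN => ?_⟩ hns h hev
    by_contra hcon
    push Not at hcon
    obtain ⟨hbot, htop⟩ := hcon
    have h1 : Group.IsSolvable N := by
      refine ih (Nat.card N) ?_ N rfl ?_
      · rw [← hn]
        exact lt_of_le_of_ne (Subgroup.card_le_card_group N) fun h2 => htop (Subgroup.eq_top_of_card_eq N h2)
      · intro x h4
        exact h x (h4.trans (H72.ClassSize.index_subgroup_dvd N x))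
    have h2 : Group.IsSolvable (G ⧸ N) := by
      refine ih (Nat.card (G ⧸ N)) ?_ (G ⧸ N) rfl ?_
      · rw [← hn, Subgroup.card_eq_card_quotient_mul_card_subgroup N]
        have h3 : 1 < Nat.card N := (Subgroup.one_lt_card_iff_ne_bot N).mpr hbot
        have h4 : 0 < Nat.card (G ⧸ N) := Nat.card_pos
        nlinarith
      · intro x h4
        obtain ⟨y, rfl⟩ := QuotientGroup.mk_surjective x
        exact h y (h4.trans (H72.ClassSize.index_quotient_dvd N y))
    exact hns (Group.isSolvable_of_ker_le_range N.subtype (QuotientGroup.mk' N)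
      (by rw [QuotientGroup.ker_mk', Subgroup.range_subtype]))

end H72.FT4167
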