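import Mathlib
import Cfsg.Agent.Lib.H11.NormalRankOne
import Cfsg.Agent.Lib.H2.NonCyclic
import Cfsg.Agent.Lib.H72.PGroupCenter
import Cfsg.Agent.Lib.H13.Thompson
import Cfsg.Agent.Lib.H3.PBasic

set_option autoImplicit false
set_option linter.unusedSectionVars false

/-! Number of generators of 2-groups acting irreducibly on an odd abelian group. -/

namespace H72.FratIdx

open Subgroup

variable {G : Type*} [Group G] [Finite G]

theorem rel_ne (A B : Subgroup G) : A.relIndex B ≠ 0 := Subgroup.index_ne_zero_of_finite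

theorem relIndex_le_two (L S : Subgroup G) (b : G) (h : ∀ t ∈ S, t ∈ L ∨ b * t ∈ L) :
    L.relIndex S ≤ 2 := by
  by_cases hSL : S ≤ L
  · rw [Subgroup.relIndex_eq_one.mpr hSL]; norm_num
  · obtain ⟨s, hs, hsL⟩ := SetLike.not_le_iff_exists.mp hSL
    apply le_of_eq
    rw [Subgroup.relIndex, Subgroup.index_eq_two_iff]
    have key : ∀ x ∈ S, ∀ y ∈ S, x ∉ L → y ∉ L → x * y ∈ L := by
      intro x hx y hy hxL hyL
      have h1 := (h x⁻¹ (inv_mem hx)).resolve_left (by simpa using hxL)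
      have h2 := (h y hy).resolve_left hyL
      have : x * y = (b * x⁻¹)⁻¹ * (b * y) := by group
      rw [this]; exact mul_mem (inv_mem h1) h2
    refine ⟨⟨s, hs⟩, fun t => ?_⟩
    by_cases ht : (t : G) ∈ L
    · right
      refine ⟨ht, fun h1 => hsL ?_⟩
      have h2 : (t : G) * s ∈ L := h1
      exact (L.mul_mem_cancel_left ht).mp h2
    · left
      exact ⟨key t t.2 s hs ht hsL, ht⟩

/-- `g` centralizes `W` -/
def One (W : Subgroup G) (g : G) : Prop := ∀ w ∈ W, g * w * g⁻¹ = w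

/-- `g` inverts `W` -/
def Neg (W : Subgroup G) (g : G) : Prop := ∀ w ∈ W, g * w * g⁻¹ = w⁻¹

theorem one_iff {W : Subgroup G} {g : G} : One W g ↔ g ∈ centralizer (W : Set G) := by
  rw [Subgroup.mem_centralizer_iff]
  refine forall₂_congr fun w _ => ?_
  rw [mul_inv_eq_iff_eq_mul]
  exact eq_comm

theorem One.mul {W : Subgroup G} {g h : G} (hg : One W g) (hh : One W h) : One W (g * h) := by
  intro w hw
  have : g * h * w * (g * h)⁻¹ = g * (h * w * h⁻¹) * g⁻¹ := by group
  rw [this, hh w hw, hg w hw]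

theorem One.inv {W : Subgroup G} {g : G} (hg : One W g) : One W g⁻¹ := by
  rw [one_iff] at hg ⊢
  exact inv_mem hg

theorem one_one (W : Subgroup G) : One W 1 := fun w _ => by group

theorem Neg.mul {W : Subgroup G} {g h : G} (hg : Neg W g) (hh : Neg W h) : One W (g * h) := by
  intro w hw
  have : g * h * w * (g * h)⁻¹ = g * (h * w * h⁻¹) * g⁻¹ := by group
  rw [this, hh w hw, hg _ (inv_mem hw), inv_inv]

theorem One.mul_neg {W : Subgroup G} {g h : G} (hg : One W g) (hh : Neg W h) : Neg W (g * h) := by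
  intro w hw
  have : g * h * w * (g * h)⁻¹ = g * (h * w * h⁻¹) * g⁻¹ := by group
  rw [this, hh w hw, hg _ (inv_mem hw)]

theorem Neg.mul_one {W : Subgroup G} {g h : G} (hg : Neg W g) (hh : One W h) : Neg W (g * h) := by
  intro w hw
  have : g * h * w * (g * h)⁻¹ = g * (h * w * h⁻¹) * g⁻¹ := by group
  rw [this, hh w hw, hg _ hw]

theorem Neg.inv {W : Subgroup G} {g : G} (hg : Neg W g) : Neg W g⁻¹ := by
  intro w hw
  have h1 := hg (w⁻¹) (inv_mem hw)
  rw [inv_inv] at h1
  have : g⁻¹ * w * g⁻¹⁻¹ = g⁻¹ * (g * w⁻¹ * g⁻¹) * g := by rw [h1]; group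
  rw [this]
  group

structure Dat (W Q K L : Subgroup G) : Prop where
  comm : ∀ a ∈ W, ∀ b ∈ W, a * b = b * a
  odd : Odd (Nat.card W)
  ne : W ≠ ⊥
  two : IsPGroup 2 Q
  norm : ∀ g ∈ Q, ∀ w ∈ W, g * w * g⁻¹ ∈ W
  irr : ∀ U ≤ W, (∀ g ∈ Q, ∀ u ∈ U, g * u * g⁻¹ ∈ U) → U = ⊥ ∨ U = W
  LK : L ≤ K
  KQ : K ≤ Q
  sq : ∀ k ∈ K, k * k ∈ L
  cm : ∀ k ∈ K, ∀ g ∈ Q, k * g * k⁻¹ * g⁻¹ ∈ L
  ker : ∀ k ∈ K, One W k → k ∈ L

variable {W Q K L : Subgroup G}

/-- the fixed points of `g` in `W` -/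
def fixedPts (W : Subgroup G) (g : G) : Subgroup G := W ⊓ centralizer {g}

theorem mem_fixedPts {W : Subgroup G} {g w : G} :
    w ∈ fixedPts W g ↔ w ∈ W ∧ g * w * g⁻¹ = w := by
  rw [fixedPts, Subgroup.mem_inf, Subgroup.mem_centralizer_singleton_iff, mul_inv_eq_iff_eq_mul]
  exact and_congr_right fun _ => eq_comm

theorem Dat.central_invol (D : Dat W Q K L) {g : G} (hg : g ∈ Q) (hg2 : One W (g * g))
    (hc : ∀ h ∈ Q, One W (g * h * g⁻¹ * h⁻¹)) : One W g ∨ Neg W g := by
  have hinv : ∀ h ∈ Q, ∀ u ∈ fixedPts W g, h * u * h⁻¹ ∈ fixedPts W g := by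
    intro h hh u hu
    rw [mem_fixedPts] at hu ⊢
    refine ⟨D.norm h hh u hu.1, ?_⟩
    have h1 : g * (h * u * h⁻¹) * g⁻¹ =
        (g * h * g⁻¹ * h⁻¹) * (h * (g * u * g⁻¹) * h⁻¹) * (g * h * g⁻¹ * h⁻¹)⁻¹ := by group
    rw [h1, hu.2, hc h hh _ (D.norm h hh u hu.1)]
  rcases D.irr (fixedPts W g) inf_le_left hinv with h | h
  · right
    intro w hw
    have h1 : w * (g * w * g⁻¹) ∈ fixedPts W g := by
      rw [mem_fixedPts]
      refine ⟨mul_mem hw (D.norm g hg w hw), ?_⟩
      have h2 : g * (w * (g * w * g⁻¹)) * g⁻¹ = (g * w * g⁻¹) * ((g * g) * w * (g * g)⁻¹) := by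
        group
      rw [h2, hg2 w hw, D.comm _ (D.norm g hg w hw) w hw]
    rw [h, Subgroup.mem_bot] at h1
    exact (inv_eq_of_mul_eq_one_right h1).symm
  · left
    intro w hw
    rw [← h, mem_fixedPts] at hw
    exact hw.2

/-- elements of `Q` acting as `±1` -/
def Z0 (W Q : Subgroup G) : Subgroup Q where
  carrier := {g | One W (g : G) ∨ Neg W (g : G)}
  mul_mem' := by
    rintro a b (ha | ha) (hb | hb)
    · exact Or.inl (ha.mul hb)
    · exact Or.inr (ha.mul_neg hb)
    · exact Or.inr (ha.mul_one hb)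
    · exact Or.inl (ha.mul hb)
  one_mem' := Or.inl (one_one W)
  inv_mem' := by
    rintro a (ha | ha)
    · exact Or.inl ha.inv
    · exact Or.inr ha.inv

theorem one_conj {W Q : Subgroup G} (hnorm : ∀ g ∈ Q, ∀ w ∈ W, g * w * g⁻¹ ∈ W) {g h : G}
    (hg : One W g) (hh : h ∈ Q) : One W (h * g * h⁻¹) := by
  intro w hw
  have h1 := hnorm h⁻¹ (inv_mem hh) w hw
  have h2 : h * g * h⁻¹ * w * (h * g * h⁻¹)⁻¹ = h * (g * (h⁻¹ * w * h⁻¹⁻¹) * g⁻¹) * h⁻¹ := by group
  rw [h2, hg _ h1]
  group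

theorem neg_conj {W Q : Subgroup G} (hnorm : ∀ g ∈ Q, ∀ w ∈ W, g * w * g⁻¹ ∈ W) {g h : G}
    (hg : Neg W g) (hh : h ∈ Q) : Neg W (h * g * h⁻¹) := by
  intro w hw
  have h1 := hnorm h⁻¹ (inv_mem hh) w hw
  have h2 : h * g * h⁻¹ * w * (h * g * h⁻¹)⁻¹ = h * (g * (h⁻¹ * w * h⁻¹⁻¹) * g⁻¹) * h⁻¹ := by group
  rw [h2, hg _ h1]
  group

theorem Z0_normal {W Q : Subgroup G} (hnorm : ∀ g ∈ Q, ∀ w ∈ W, g * w * g⁻¹ ∈ W) :
    (Z0 W Q).Normal := by
  constructor
  rintro g (hg | hg) h
  · exact Or.inl (one_conj hnorm hg h.2)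
  · exact Or.inr (neg_conj hnorm hg h.2)

/-- the kernel of the action -/
def Ker (W Q : Subgroup G) : Subgroup Q where
  carrier := {g | One W (g : G)}
  mul_mem' := fun ha hb => ha.mul hb
  one_mem' := one_one W
  inv_mem' := fun ha => ha.inv

theorem Ker_normal {W Q : Subgroup G} (hnorm : ∀ g ∈ Q, ∀ w ∈ W, g * w * g⁻¹ ∈ W) :
    (Ker W Q).Normal := by
  constructor
  intro g hg h
  exact one_conj hnorm hg h.2

/-- the imprimitive case -/
def CaseA (W Q : Subgroup G) : Prop :=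
  ∃ a ∈ Q, One W (a * a) ∧ ¬ One W a ∧ ¬ Neg W a ∧
    ∀ g ∈ Q, One W (a * g * a⁻¹ * g⁻¹) ∨ Neg W (a * g * a⁻¹ * g⁻¹)

theorem exists_cyc {H R : Type*} [Group H] [Group R] [Finite H] (f : H →* R) (S : Subgroup H)
    (T : Subgroup R) (hT : IsCyclic T) (hS : S.map f ≤ T) :
    ∃ b ∈ S, ∀ s ∈ S, ∃ i : ℤ, b ^ i * s ∈ f.ker := by
  have h1 : IsCyclic (S.map f) := isCyclic_of_injective (Subgroup.inclusion hS)
    (Subgroup.inclusion_injective hS)
  obtain ⟨⟨c, hc⟩, hgen⟩ := h1.exists_generator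
  obtain ⟨b, hb, rfl⟩ := hc
  refine ⟨b, hb, fun s hs => ?_⟩
  obtain ⟨i, hi⟩ := Subgroup.mem_zpowers_iff.mp (hgen ⟨f s, Subgroup.mem_map_of_mem f hs⟩)
  refine ⟨-i, ?_⟩
  have h2 : (f b) ^ i = f s := by simpa using congrArg Subtype.val hi
  rw [MonoidHom.mem_ker, map_mul, map_zpow, ← h2, ← zpow_add, neg_add_cancel, zpow_zero]

theorem Dat.exists_T (D : Dat W Q K L) (hA : ¬ CaseA W Q) :
    ∃ T : Subgroup Q, T.index ≤ 2 ∧
      ∀ S : Subgroup Q, S ≤ T → ∃ b ∈ S, ∀ s ∈ S, ∃ i : ℤ, b ^ i * s ∈ Ker W Q := by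
  have hN := Ker_normal D.norm
  have hZ := Z0_normal D.norm
  set R := Q ⧸ Ker W Q with hR
  have hR2 : IsPGroup 2 R := D.two.to_quotient _
  have hn : ∀ A : Subgroup R, A.Normal → IsMulCommutative A → IsCyclic A := by
    intro A hAn hAc
    by_contra hcyc
    obtain ⟨q, hq, x, y, hx, hy, hy1, hxy⟩ := H2.NonCyclic.exists_pair hAc hcyc
    have hq2 : q = 2 := by
      have := Fact.mk hq
      have h1 : orderOf y = q := orderOf_eq_prime hy hy1
      obtain ⟨k, hk⟩ := (IsPGroup.iff_orderOf.mp (hR2.to_subgroup A)) y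
      rw [h1] at hk
      exact (Nat.prime_dvd_prime_iff_eq hq Nat.prime_two).mp
        (hq.dvd_of_dvd_pow (dvd_of_eq hk))
    subst hq2
    -- the subgroup `E`
    let E : Subgroup Q :=
      { carrier := {g | (QuotientGroup.mk' (Ker W Q) g) ∈ A ∧ (QuotientGroup.mk' (Ker W Q) g) ^ 2 = 1}
        mul_mem' := by
          rintro a b ⟨ha, ha2⟩ ⟨hb, hb2⟩
          refine ⟨by rw [map_mul]; exact mul_mem ha hb, ?_⟩
          have h1 : Commute (QuotientGroup.mk' (Ker W Q) a) (QuotientGroup.mk' (Ker W Q) b) := by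
            have := hAc.is_comm.comm ⟨_, ha⟩ ⟨_, hb⟩
            exact congrArg Subtype.val this
          rw [map_mul, h1.mul_pow, ha2, hb2, one_mul]
        one_mem' := ⟨by rw [map_one]; exact one_mem _, by rw [map_one, one_pow]⟩
        inv_mem' := by
          rintro a ⟨ha, ha2⟩
          exact ⟨by rw [map_inv]; exact inv_mem ha, by rw [map_inv, inv_pow, ha2, inv_one]⟩ }
    have hEn : E.Normal := by
      constructor
      rintro a ⟨ha, ha2⟩ g
      refine ⟨?_, ?_⟩
      · rw [map_mul, map_mul, map_inv]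
        exact hAn.conj_mem _ ha _
      · rw [map_mul, map_mul, map_inv, conj_pow, ha2]
        group
    have hEZ : ¬ E ≤ Z0 W Q := by
      intro h
      obtain ⟨x', hx'⟩ := QuotientGroup.mk'_surjective (Ker W Q) (x : R)
      obtain ⟨y', hy'⟩ := QuotientGroup.mk'_surjective (Ker W Q) (y : R)
      have hxE : x' ∈ E := ⟨by rw [hx']; exact x.2, by
        rw [hx']; simpa using congrArg Subtype.val hx⟩
      have hyE : y' ∈ E := ⟨by rw [hy']; exact y.2, by
        rw [hy']; simpa using congrArg Subtype.val hy⟩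
      have hone : ∀ z : Q, One W (z : G) → QuotientGroup.mk' (Ker W Q) z = 1 := by
        intro z hz
        exact (QuotientGroup.eq_one_iff z).mpr hz
      have hyneg : Neg W (y' : G) := by
        refine (h hyE).resolve_left fun h1 => hy1 ?_
        apply Subtype.ext
        rw [← hy', hone y' h1]; rfl
      have hxneg : Neg W (x' : G) := by
        refine (h hxE).resolve_left fun h1 => hxy ?_
        have : x = 1 := by
          apply Subtype.ext
          rw [← hx', hone x' h1]; rfl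
        rw [this]
        exact one_mem _
      apply hxy
      have h2 : QuotientGroup.mk' (Ker W Q) (x' * y') = 1 := hone _ (hxneg.mul hyneg)
      rw [map_mul, hx', hy'] at h2
      have h3 : x * y = 1 := Subtype.ext h2
      rw [eq_inv_of_mul_eq_one_left h3]
      exact inv_mem (mem_zpowers y)
    -- an element of `E`, central modulo `Z0`
    have hE2n : (E.map (QuotientGroup.mk' (Z0 W Q))).Normal :=
      hEn.map _ (QuotientGroup.mk'_surjective _)
    have hE2 : E.map (QuotientGroup.mk' (Z0 W Q)) ≠ ⊥ := by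
      intro h
      rw [Subgroup.map_eq_bot_iff, QuotientGroup.ker_mk'] at h
      exact hEZ h
    have h3 := H72.PGroupCenter.normal_inf_center_ne_bot (D.two.to_quotient (Z0 W Q)) _ hE2
    obtain ⟨⟨e, he⟩, hene⟩ := Subgroup.ne_bot_iff_exists_ne_one.mp h3
    obtain ⟨⟨a, haE, hae⟩, hec⟩ := Subgroup.mem_inf.mp he
    apply hA
    have haZ : a ∉ Z0 W Q := by
      intro h
      apply hene
      apply Subtype.ext
      exact hae.symm.trans ((QuotientGroup.eq_one_iff a).mpr h)
    refine ⟨a, a.2, ?_, fun h => haZ (Or.inl h), fun h => haZ (Or.inr h), ?_⟩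
    · have h4 := haE.2
      rw [← map_pow] at h4
      have h5 := (QuotientGroup.eq_one_iff _).mp h4
      rw [pow_two] at h5
      exact h5
    · intro g hg
      have h4 := Subgroup.mem_center_iff.mp hec (QuotientGroup.mk' (Z0 W Q) ⟨g, hg⟩)
      rw [← hae, ← map_mul, ← map_mul] at h4
      have h5 : QuotientGroup.mk' (Z0 W Q) (a * ⟨g, hg⟩ * a⁻¹ * ⟨g, hg⟩⁻¹) = 1 := by
        rw [map_mul, map_mul, ← h4, map_mul, map_inv, map_inv]
        group
      exact (QuotientGroup.eq_one_iff _).mp h5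
  have hT : ∃ T0 : Subgroup R, T0.index ≤ 2 ∧ IsCyclic T0 := by
    by_cases hc : IsCyclic R
    · exact ⟨⊤, by rw [Subgroup.index_top]; norm_num, inferInstance⟩
    · obtain ⟨a, t, k, ha, hidx, ht, hC⟩ := H11.NormalRankOne.exists_data hR2 hc hn
      exact ⟨zpowers a, hidx.le, inferInstance⟩
  obtain ⟨T0, hT0, hT0c⟩ := hT
  refine ⟨T0.comap (QuotientGroup.mk' (Ker W Q)), ?_, ?_⟩
  · rw [Subgroup.index_comap_of_surjective _ (QuotientGroup.mk'_surjective _)]
    exact hT0
  · intro S hS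
    have h1 := exists_cyc (QuotientGroup.mk' (Ker W Q)) S T0 hT0c (Subgroup.map_le_iff_le_comap.mpr hS)
    rwa [QuotientGroup.ker_mk'] at h1

theorem zpow_mem_or (L : Subgroup G) {b s : G} {i : ℤ} (hb : b * b ∈ L) (h : b ^ i * s ∈ L) :
    s ∈ L ∨ b * s ∈ L := by
  have hb2 : ∀ j : ℤ, b ^ (2 * j) ∈ L := by
    intro j
    rw [zpow_mul, zpow_two]
    exact zpow_mem hb j
  rcases Int.even_or_odd' i with ⟨c, hc | hc⟩
  · left
    rw [hc] at h
    exact (L.mul_mem_cancel_left (hb2 c)).mp h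
  · right
    rw [hc, zpow_add, zpow_one, mul_assoc] at h
    exact (L.mul_mem_cancel_left (hb2 c)).mp h

/-- the index bound coming from a subgroup `T` -/
theorem Dat.bound_of_T (D : Dat W Q K L) (T : Subgroup Q)
    (hT : ∀ S : Subgroup Q, S ≤ T → ∃ b ∈ S, ∀ s ∈ S, ∃ i : ℤ, b ^ i * s ∈ Ker W Q) :
    L.relIndex K ≤ 2 * T.index := by
  set L' := L.subgroupOf Q with hL'
  set K' := K.subgroupOf Q with hK'
  have hLK' : L' ≤ K' := Subgroup.subgroupOf_mono _ D.LK
  rw [← Subgroup.relIndex_subgroupOf (H := L) D.KQ]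
  have h1 : L'.relIndex K' ≤ (T ⊓ L').relIndex K' :=
    Subgroup.relIndex_le_of_le_left inf_le_right (rel_ne _ _)
  have h2 : (T ⊓ L').relIndex (T ⊓ K') * (T ⊓ K').relIndex K' = (T ⊓ L').relIndex K' :=
    Subgroup.relIndex_mul_relIndex _ _ _ (inf_le_inf_left _ hLK') inf_le_right
  have h3 : (T ⊓ K').relIndex K' ≤ T.index := by
    rw [Subgroup.inf_relIndex_right, ← Subgroup.relIndex_top_right]
    exact Subgroup.relIndex_le_of_le_right le_top (rel_ne _ _)
  have h4 : (T ⊓ L').relIndex (T ⊓ K') ≤ 2 := by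
    obtain ⟨b, hb, hbs⟩ := hT (T ⊓ K') inf_le_left
    apply relIndex_le_two _ _ b
    intro t ht
    obtain ⟨i, hi⟩ := hbs t ht
    have h5 : b ^ i * t ∈ T ⊓ K' := mul_mem (zpow_mem hb i) ht
    have h6 : b ^ i * t ∈ L' := D.ker _ (Subgroup.mem_inf.mp h5).2 hi
    have h7 : b * b ∈ L' := D.sq _ (Subgroup.mem_inf.mp hb).2
    rcases zpow_mem_or L' h7 h6 with h8 | h8
    · exact Or.inl ⟨(Subgroup.mem_inf.mp ht).1, h8⟩
    · exact Or.inr ⟨mul_mem (Subgroup.mem_inf.mp hb).1 (Subgroup.mem_inf.mp ht).1, h8⟩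
  calc L'.relIndex K' ≤ (T ⊓ L').relIndex (T ⊓ K') * (T ⊓ K').relIndex K' := h1.trans h2.ge
    _ ≤ 2 * T.index := Nat.mul_le_mul h4 h3

theorem Dat.le_four (D : Dat W Q K L) (hA : ¬ CaseA W Q) : L.relIndex K ≤ 4 := by
  obtain ⟨T, hT, hS⟩ := D.exists_T hA
  have := D.bound_of_T T hS
  omega

/-- the case of prime order -/
theorem Dat.le_two_of_prime (D : Dat W Q K L) (hW : (Nat.card W).Prime) : L.relIndex K ≤ 2 := by
  have := Fact.mk hW
  have hcyc : IsCyclic W := isCyclic_of_prime_card rfl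
  have hAut : IsCyclic (MulAut W) := by
    have h1 : IsCyclic (ZMod (Nat.card W))ˣ := inferInstance
    exact isCyclic_of_surjective (IsCyclic.mulAutMulEquiv W).symm
      (IsCyclic.mulAutMulEquiv W).symm.surjective
  have hQN : Q ≤ normalizer (W : Set G) := by
    intro g hg
    rw [Subgroup.mem_normalizer_iff]
    intro w
    refine ⟨fun hw => D.norm g hg w hw, fun hw => ?_⟩
    have h1 := D.norm g⁻¹ (inv_mem hg) _ hw
    have h2 : g⁻¹ * (g * w * g⁻¹) * g⁻¹⁻¹ = w := by group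
    rwa [h2] at h1
  let f : Q →* MulAut W := W.normalizerMonoidHom.comp (Subgroup.inclusion hQN)
  have hf : f.ker ≤ Ker W Q := by
    intro g hg
    rw [MonoidHom.mem_ker] at hg
    have h1 : Subgroup.inclusion hQN g ∈ W.normalizerMonoidHom.ker := hg
    rw [Subgroup.normalizerMonoidHom_ker] at h1
    exact one_iff.mpr h1
  have h1 := D.bound_of_T ⊤ (by
    intro S _
    obtain ⟨b, hb, h2⟩ := exists_cyc f S ⊤ inferInstance le_top
    exact ⟨b, hb, fun s hs => (h2 s hs).imp fun i hi => hf hi⟩)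
  rwa [Subgroup.index_top] at h1

theorem mem_sup_of_comm {A B : Subgroup G} (h : ∀ a ∈ A, ∀ b ∈ B, a * b = b * a) {x : G}
    (hx : x ∈ A ⊔ B) : ∃ a ∈ A, ∃ b ∈ B, a * b = x := by
  let S : Subgroup G :=
    { carrier := {x | ∃ a ∈ A, ∃ b ∈ B, a * b = x}
      mul_mem' := by
        rintro _ _ ⟨a, ha, b, hb, rfl⟩ ⟨c, hc, d, hd, rfl⟩
        refine ⟨a * c, mul_mem ha hc, b * d, mul_mem hb hd, ?_⟩
        have := h c hc b hb
        calc a * c * (b * d) = a * (c * b) * d := by group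
          _ = a * (b * c) * d := by rw [this]
          _ = _ := by group
      one_mem' := ⟨1, one_mem _, 1, one_mem _, mul_one _⟩
      inv_mem' := by
        rintro _ ⟨a, ha, b, hb, rfl⟩
        refine ⟨a⁻¹, inv_mem ha, b⁻¹, inv_mem hb, ?_⟩
        rw [mul_inv_rev]
        exact h _ (inv_mem ha) _ (inv_mem hb) }
  have h1 : A ⊔ B ≤ S := sup_le (fun a ha => ⟨a, ha, 1, one_mem _, mul_one _⟩)
    (fun b hb => ⟨1, one_mem _, b, hb, one_mul _⟩)
  exact h1 hx

/-- elements of `W` inverted by `a` -/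
def negPts (hW : ∀ a ∈ W, ∀ b ∈ W, a * b = b * a) (a : G) : Subgroup G where
  carrier := {w | w ∈ W ∧ a * w * a⁻¹ = w⁻¹}
  mul_mem' := by
    rintro w v ⟨hw, hw2⟩ ⟨hv, hv2⟩
    refine ⟨mul_mem hw hv, ?_⟩
    have : a * (w * v) * a⁻¹ = (a * w * a⁻¹) * (a * v * a⁻¹) := by group
    rw [this, hw2, hv2, hW w hw v hv, mul_inv_rev]
  one_mem' := ⟨one_mem _, by group⟩
  inv_mem' := by
    rintro w ⟨hw, hw2⟩
    refine ⟨inv_mem hw, ?_⟩
    have : a * w⁻¹ * a⁻¹ = (a * w * a⁻¹)⁻¹ := by group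
    rw [this, hw2]

/-- the stabilizer -/
def Stb (hnorm : ∀ g ∈ Q, ∀ w ∈ W, g * w * g⁻¹ ∈ W) (a : G) : Subgroup G where
  carrier := {g | g ∈ Q ∧ One W (a * g * a⁻¹ * g⁻¹)}
  mul_mem' := by
    rintro g h ⟨hg, hg2⟩ ⟨hh, hh2⟩
    refine ⟨mul_mem hg hh, ?_⟩
    have : a * (g * h) * a⁻¹ * (g * h)⁻¹ = (a * g * a⁻¹ * g⁻¹) * (g * (a * h * a⁻¹ * h⁻¹) * g⁻¹) := by
      group
    rw [this]
    exact hg2.mul (one_conj hnorm hh2 hg)
  one_mem' := ⟨one_mem _, by
    have : a * 1 * a⁻¹ * 1⁻¹ = 1 := by group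
    rw [this]; exact one_one W⟩
  inv_mem' := by
    rintro g ⟨hg, hg2⟩
    refine ⟨inv_mem hg, ?_⟩
    have : a * g⁻¹ * a⁻¹ * g⁻¹⁻¹ = g⁻¹ * (a * g * a⁻¹ * g⁻¹)⁻¹ * g⁻¹⁻¹ := by group
    rw [this]
    exact one_conj hnorm hg2.inv (inv_mem hg)

structure Act (W Q : Subgroup G) : Prop where
  comm : ∀ a ∈ W, ∀ b ∈ W, a * b = b * a
  odd : Odd (Nat.card W)
  ne : W ≠ ⊥
  two : IsPGroup 2 Q
  norm : ∀ g ∈ Q, ∀ w ∈ W, g * w * g⁻¹ ∈ W
  irr : ∀ U ≤ W, (∀ g ∈ Q, ∀ u ∈ U, g * u * g⁻¹ ∈ U) → U = ⊥ ∨ U = W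

theorem Dat.act (D : Dat W Q K L) : Act W Q := ⟨D.comm, D.odd, D.ne, D.two, D.norm, D.irr⟩

theorem irr_sub {P0 X Y U : Subgroup G} {g0 : G} 
    (hWc : ∀ a ∈ W, ∀ b ∈ W, a * b = b * a)
    (hirr : ∀ U ≤ W, (∀ g ∈ Q, ∀ u ∈ U, g * u * g⁻¹ ∈ U) → U = ⊥ ∨ U = W)
    (hX : X ≤ W) (hY : Y ≤ W) (hXY : X ⊓ Y = ⊥)
    (hg0 : g0 ∈ Q) (hg0P : g0 ∉ P0) (hPQ : P0 ≤ Q)
    (h2 : ∀ g ∈ Q, ∀ h ∈ Q, g ∉ P0 → h ∉ P0 → g * h ∈ P0)
    (hswap : ∀ x ∈ X, g0 * x * g0⁻¹ ∈ Y)
    (hU : U ≤ X) (hinv : ∀ g ∈ P0, ∀ u ∈ U, g * u * g⁻¹ ∈ U) : U = ⊥ ∨ U = X := by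
  set U2 := U.map (MulAut.conj g0).toMonoidHom with hU2
  have hmem2 : ∀ u ∈ U, g0 * u * g0⁻¹ ∈ U2 := fun u hu => ⟨u, hu, by simp⟩
  have hU2Y : U2 ≤ Y := by
    rintro _ ⟨u, hu, rfl⟩
    simpa using hswap u (hU hu)
  have hg0i : g0⁻¹ ∉ P0 := by simpa using hg0P
  have hinv2 : ∀ g ∈ Q, ∀ x ∈ U ⊔ U2, g * x * g⁻¹ ∈ U ⊔ U2 := by
    intro g hg
    have h1 : U ⊔ U2 ≤ (U ⊔ U2).comap (MulAut.conj g).toMonoidHom := by
      apply sup_le
      · intro u hu
        rw [Subgroup.mem_comap]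
        simp only [MulEquiv.coe_toMonoidHom, MulAut.conj_apply]
        by_cases hgP : g ∈ P0
        · exact (le_sup_left : U ≤ U ⊔ U2) (hinv g hgP u hu)
        · have h3 := hinv _ (h2 _ (inv_mem hg0) _ hg hg0i hgP) u hu
          have h4 : g * u * g⁻¹ = g0 * (g0⁻¹ * g * u * (g0⁻¹ * g)⁻¹) * g0⁻¹ := by group
          rw [h4]
          exact (le_sup_right : U2 ≤ U ⊔ U2) (hmem2 _ h3)
      · rintro _ ⟨u, hu, rfl⟩
        rw [Subgroup.mem_comap]
        simp only [MulEquiv.coe_toMonoidHom, MulAut.conj_apply]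
        by_cases hgP : g ∈ P0
        · have h5 : g * g0 ∉ P0 := fun h => hg0P ((P0.mul_mem_cancel_left hgP).mp h)
          have h3 := hinv _ (h2 _ (inv_mem hg0) _ (mul_mem hg hg0) hg0i h5) u hu
          have h4 : g * (g0 * u * g0⁻¹) * g⁻¹ =
              g0 * (g0⁻¹ * (g * g0) * u * (g0⁻¹ * (g * g0))⁻¹) * g0⁻¹ := by group
          rw [h4]
          exact (le_sup_right : U2 ≤ U ⊔ U2) (hmem2 _ h3)
        · have h3 := hinv _ (h2 _ hg _ hg0 hgP hg0P) u hu
          have h4 : g * (g0 * u * g0⁻¹) * g⁻¹ = (g * g0) * u * (g * g0)⁻¹ := by group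
          rw [h4]
          exact (le_sup_left : U ≤ U ⊔ U2) h3
    intro x hx
    have := h1 hx
    rw [Subgroup.mem_comap] at this
    simpa using this
  rcases hirr (U ⊔ U2) (sup_le (hU.trans hX) (hU2Y.trans hY)) hinv2 with h | h
  · left
    rw [← le_bot_iff, ← h]
    exact le_sup_left
  · right
    apply le_antisymm hU
    intro x hx
    have hxW : x ∈ U ⊔ U2 := h ▸ hX hx
    obtain ⟨u, hu, v, hv, rfl⟩ := mem_sup_of_comm
      (fun a ha b hb => hWc a (hX (hU ha)) b (hY (hU2Y hb))) hxW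
    have h5 : v ∈ X ⊓ Y := Subgroup.mem_inf.mpr
      ⟨(X.mul_mem_cancel_left (hU hu)).mp hx, hU2Y hv⟩
    rw [hXY, Subgroup.mem_bot] at h5
    rw [h5, mul_one]
    exact hu

/-- everything about the imprimitive case -/
theorem Act.split (D : Act W Q) (hA : CaseA W Q) :
    ∃ X Y P0 : Subgroup G, Act X P0 ∧ Act Y P0 ∧ P0 ≤ Q ∧ P0.relIndex Q ≤ 2 ∧
      Nat.card X = Nat.card Y ∧ Nat.card X * Nat.card Y = Nat.card W ∧
      (∀ g, One X g → One Y g → One W g) ∧ (∀ g, One W g → One X g) ∧ ∀ g, One W g → One Y g := by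
  obtain ⟨a, ha, ha2, ha1, ham, hac⟩ := hA
  set X := fixedPts W a with hX
  set Y := negPts D.comm a with hY
  set P0 := Stb D.norm a with hP0
  have hXW : X ≤ W := inf_le_left
  have hYW : Y ≤ W := fun w hw => hw.1
  have hPQ : P0 ≤ Q := fun g hg => hg.1
  have hneg : ∀ g ∈ Q, g ∉ P0 → Neg W (a * g * a⁻¹ * g⁻¹) :=
    fun g hg hgP => (hac g hg).resolve_left fun h => hgP ⟨hg, h⟩
  have h2 : ∀ g ∈ Q, ∀ h ∈ Q, g ∉ P0 → h ∉ P0 → g * h ∈ P0 := by
    intro g hg h hh hgP hhP
    refine ⟨mul_mem hg hh, ?_⟩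
    have : a * (g * h) * a⁻¹ * (g * h)⁻¹ = (a * g * a⁻¹ * g⁻¹) * (g * (a * h * a⁻¹ * h⁻¹) * g⁻¹) := by
      group
    rw [this]
    exact (hneg g hg hgP).mul (neg_conj D.norm (hneg h hh hhP) hg)
  obtain ⟨g0, hg0, hg0P⟩ : ∃ g0 ∈ Q, g0 ∉ P0 := by
    by_contra hcon
    push Not at hcon
    -- then `a` is central
    have h3 : One W a ∨ Neg W a := by
      have hinv : ∀ h ∈ Q, ∀ u ∈ fixedPts W a, h * u * h⁻¹ ∈ fixedPts W a := by
        intro h hh u hu
        rw [mem_fixedPts] at hu ⊢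
        refine ⟨D.norm h hh u hu.1, ?_⟩
        have h1 : a * (h * u * h⁻¹) * a⁻¹ =
            (a * h * a⁻¹ * h⁻¹) * (h * (a * u * a⁻¹) * h⁻¹) * (a * h * a⁻¹ * h⁻¹)⁻¹ := by group
        rw [h1, hu.2, (hcon h hh).2 _ (D.norm h hh u hu.1)]
      rcases D.irr (fixedPts W a) inf_le_left hinv with h | h
      · right
        intro w hw
        have h1 : w * (a * w * a⁻¹) ∈ fixedPts W a := by
          rw [mem_fixedPts]
          refine ⟨mul_mem hw (D.norm a ha w hw), ?_⟩
          have h2 : a * (w * (a * w * a⁻¹)) * a⁻¹ = (a * w * a⁻¹) * ((a * a) * w * (a * a)⁻¹) := by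
            group
          rw [h2, ha2 w hw, D.comm _ (D.norm a ha w hw) w hw]
        rw [h, Subgroup.mem_bot] at h1
        exact (inv_eq_of_mul_eq_one_right h1).symm
      · left
        intro w hw
        rw [← h, mem_fixedPts] at hw
        exact hw.2
    rcases h3 with h3 | h3
    · exact ha1 h3
    · exact ham h3
  have hconj : ∀ g w : G, a * (g * w * g⁻¹) * a⁻¹ =
      (a * g * a⁻¹ * g⁻¹) * (g * (a * w * a⁻¹) * g⁻¹) * (a * g * a⁻¹ * g⁻¹)⁻¹ := by
    intro g w; group
  have hXP : ∀ g ∈ P0, ∀ w ∈ X, g * w * g⁻¹ ∈ X := by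
    intro g hg w hw
    rw [hX, mem_fixedPts] at hw ⊢
    have h1 := D.norm g hg.1 w hw.1
    refine ⟨h1, ?_⟩
    rw [hconj, hw.2, hg.2 _ h1]
  have hYP : ∀ g ∈ P0, ∀ w ∈ Y, g * w * g⁻¹ ∈ Y := by
    intro g hg w hw
    have h1 := D.norm g hg.1 w hw.1
    refine ⟨h1, ?_⟩
    have h3 : g * w⁻¹ * g⁻¹ = (g * w * g⁻¹)⁻¹ := by group
    rw [hconj, hw.2, h3, hg.2 _ (inv_mem h1)]
  have hXs : ∀ g ∈ Q, g ∉ P0 → ∀ w ∈ X, g * w * g⁻¹ ∈ Y := by
    intro g hg hgP w hw
    rw [hX, mem_fixedPts] at hw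
    have h1 := D.norm g hg w hw.1
    refine ⟨h1, ?_⟩
    rw [hconj, hw.2, hneg g hg hgP _ h1]
  have hYs : ∀ g ∈ Q, g ∉ P0 → ∀ w ∈ Y, g * w * g⁻¹ ∈ X := by
    intro g hg hgP w hw
    have h1 := D.norm g hg w hw.1
    rw [hX, mem_fixedPts]
    refine ⟨h1, ?_⟩
    have h3 : g * w⁻¹ * g⁻¹ = (g * w * g⁻¹)⁻¹ := by group
    rw [hconj, hw.2, h3, hneg g hg hgP _ (inv_mem h1), inv_inv]
  have hsq : ∀ w ∈ W, w * w = 1 → w = 1 := by
    intro w hw h
    have h1 : orderOf w ∣ 2 := orderOf_dvd_of_pow_eq_one (by rw [pow_two, h])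
    have h3 : orderOf w ∣ Nat.card W := Subgroup.orderOf_dvd_natCard W hw
    have h4 : Odd (orderOf w) := D.odd.of_dvd_nat h3
    rcases (Nat.dvd_prime Nat.prime_two).mp h1 with h5 | h5
    · exact orderOf_eq_one_iff.mp h5
    · rw [h5] at h4
      exact absurd h4 (by decide)
  have hXY : X ⊓ Y = ⊥ := by
    rw [eq_bot_iff]
    intro w hw
    obtain ⟨hwX, hwY⟩ := Subgroup.mem_inf.mp hw
    rw [hX, mem_fixedPts] at hwX
    have h1 : w = w⁻¹ := hwX.2.symm.trans hwY.2
    rw [Subgroup.mem_bot]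
    apply hsq w hwX.1
    nth_rewrite 2 [h1]
    exact mul_inv_cancel w
  have hsup : X ⊔ Y = W := by
    apply le_antisymm (sup_le hXW hYW)
    intro w hw
    have hc := D.norm a ha w hw
    have h1 : w * (a * w * a⁻¹) ∈ X := by
      rw [hX, mem_fixedPts]
      refine ⟨mul_mem hw hc, ?_⟩
      have h3 : a * (w * (a * w * a⁻¹)) * a⁻¹ = (a * w * a⁻¹) * ((a * a) * w * (a * a)⁻¹) := by
        group
      rw [h3, ha2 w hw, D.comm _ hc w hw]
    have h3 : w * (a * w * a⁻¹)⁻¹ ∈ Y := by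
      refine ⟨mul_mem hw (inv_mem hc), ?_⟩
      have h3 : a * (w * (a * w * a⁻¹)⁻¹) * a⁻¹ = (a * w * a⁻¹) * ((a * a) * w * (a * a)⁻¹)⁻¹ := by
        group
      rw [h3, ha2 w hw]
      group
    have h4 : w * w ∈ X ⊔ Y := by
      have h5 : w * w = (w * (a * w * a⁻¹)) * (w * (a * w * a⁻¹)⁻¹) := by
        rw [D.comm w hw _ hc, mul_assoc, ← mul_assoc w w, mul_assoc]
        have := D.comm w hw _ (inv_mem hc)
        calc w * w = w * ((a * w * a⁻¹) * (a * w * a⁻¹)⁻¹) * w := by group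
          _ = (w * (a * w * a⁻¹)) * (a * w * a⁻¹)⁻¹ * w := by group
          _ = ((a * w * a⁻¹) * w) * ((a * w * a⁻¹)⁻¹ * w) := by rw [D.comm w hw _ hc]; group
          _ = _ := by rw [← this]; group
      rw [h5]
      exact mul_mem ((le_sup_left : X ≤ X ⊔ Y) h1) ((le_sup_right : Y ≤ X ⊔ Y) h3)
    obtain ⟨k, hk⟩ := D.odd
    have h6 : w ^ (Nat.card W) = 1 :=
      orderOf_dvd_iff_pow_eq_one.mp (Subgroup.orderOf_dvd_natCard W hw)
    have h7 : w = (w * w) ^ (k + 1) := by
      rw [← pow_two, ← pow_mul, mul_add, mul_one]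
      have : 2 * k + 2 = Nat.card W + 1 := by omega
      rw [this, pow_succ, h6, one_mul]
    rw [h7]
    exact pow_mem h4 _
  have hcXY : Nat.card X = Nat.card Y := by
    apply le_antisymm
    · apply Nat.card_le_card_of_injective (fun x : X => (⟨g0 * x * g0⁻¹, hXs g0 hg0 hg0P x x.2⟩ : Y))
      intro x y hxy
      have := congrArg Subtype.val hxy
      exact Subtype.ext (by simpa using this)
    · apply Nat.card_le_card_of_injective (fun x : Y => (⟨g0 * x * g0⁻¹, hYs g0 hg0 hg0P x x.2⟩ : X))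
      intro x y hxy
      have := congrArg Subtype.val hxy
      exact Subtype.ext (by simpa using this)
  have hcard : Nat.card X * Nat.card Y = Nat.card W := by
    have h1 : X ≤ normalizer (Y : Set G) := by
      intro x hx
      rw [Subgroup.mem_normalizer_iff]
      intro y
      constructor
      · intro hy
        have : x * y * x⁻¹ = y := by
          rw [D.comm x (hXW hx) y (hYW hy)]; group
        rwa [this]
      · intro hy
        have h3 : y = x⁻¹ * (x * y * x⁻¹) * x := by group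
        have h4 := D.comm x (hXW hx) _ (hYW hy)
        have h5 : y = x * y * x⁻¹ := by
          rw [h3]
          calc _ = x⁻¹ * ((x * y * x⁻¹) * x) := by group
            _ = x⁻¹ * (x * (x * y * x⁻¹)) := by rw [h4]
            _ = x * y * x⁻¹ := by group
            _ = _ := by group
        rw [h5]; exact hy
    have h2 := H13.Thompson.card_sup_mul_card_inf h1
    rw [hsup, hXY, Subgroup.card_bot, mul_one] at h2
    exact h2.symm
  have hWne : Nat.card W ≠ 1 := by
    intro h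
    exact D.ne (Subgroup.card_eq_one.mp h)
  have hXne : X ≠ ⊥ := by
    intro h
    rw [← hcXY, h, Subgroup.card_bot] at hcard
    exact hWne hcard.symm
  have hYne : Y ≠ ⊥ := by
    intro h
    rw [hcXY, h, Subgroup.card_bot] at hcard
    exact hWne hcard.symm
  have hodd : ∀ U ≤ W, Odd (Nat.card U) := fun U hU =>
    D.odd.of_dvd_nat (Subgroup.card_dvd_of_le hU)
  refine ⟨X, Y, P0, ?_, ?_, hPQ, ?_, hcXY, hcard, ?_, ?_, ?_⟩
  · exact ⟨fun a ha b hb => D.comm a (hXW ha) b (hXW hb), hodd X hXW, hXne, D.two.to_le hPQ, hXP,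
      fun U hU hinv => irr_sub D.comm D.irr hXW hYW hXY hg0 hg0P hPQ h2 (hXs g0 hg0 hg0P) hU hinv⟩
  · exact ⟨fun a ha b hb => D.comm a (hYW ha) b (hYW hb), hodd Y hYW, hYne, D.two.to_le hPQ, hYP,
      fun U hU hinv => irr_sub D.comm D.irr hYW hXW (inf_comm X Y ▸ hXY) hg0 hg0P hPQ h2
        (hYs g0 hg0 hg0P) hU hinv⟩
  · apply relIndex_le_two _ _ g0
    intro t ht
    by_cases htP : t ∈ P0
    · exact Or.inl htP
    · exact Or.inr (h2 _ hg0 _ ht hg0P htP)
  · intro g h1 h3 w hw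
    rw [← hsup] at hw
    obtain ⟨x, hx, y, hy, rfl⟩ := mem_sup_of_comm
      (fun a ha b hb => D.comm a (hXW ha) b (hYW hb)) hw
    have : g * (x * y) * g⁻¹ = (g * x * g⁻¹) * (g * y * g⁻¹) := by group
    rw [this, h1 x hx, h3 y hy]
  · exact fun g hg w hw => hg w (hXW hw)
  · exact fun g hg w hw => hg w (hYW hw)

theorem one_or_neg_of_card_three {U : Subgroup G} (hU : Nat.card U = 3) {g : G}
    (hg : ∀ u ∈ U, g * u * g⁻¹ ∈ U) : One U g ∨ Neg U g := by
  have : Fact (Nat.Prime 3) := ⟨Nat.prime_three⟩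
  obtain ⟨u, hu, hu1⟩ : ∃ u ∈ U, u ≠ 1 := by
    by_contra hcon
    push Not at hcon
    have : U = ⊥ := (Subgroup.eq_bot_iff_forall U).mpr hcon
    rw [this, Subgroup.card_bot] at hU
    exact absurd hU (by norm_num)
  have hz : zpowers u = U := by
    apply Subgroup.eq_of_le_of_card_ge
    · rw [Subgroup.zpowers_le]; exact hu
    · have h1 : Nat.card (zpowers u) ∣ 3 := by
        rw [← hU]
        exact Subgroup.card_dvd_of_le (by rw [Subgroup.zpowers_le]; exact hu)
      rcases (Nat.dvd_prime Nat.prime_three).mp h1 with h2 | h2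
      · exfalso
        rw [Nat.card_zpowers, orderOf_eq_one_iff] at h2
        exact hu1 h2
      · rw [h2, hU]
  have hord : orderOf u = 3 := by rw [← Nat.card_zpowers, hz, hU]
  have hgu := hg u hu
  rw [← hz] at hgu
  obtain ⟨i, hi⟩ := Subgroup.mem_zpowers_iff.mp hgu
  have h3 : u ^ (3 : ℤ) = 1 := by
    have := pow_orderOf_eq_one u
    rw [hord] at this
    exact_mod_cast this
  have hconj : ∀ j : ℤ, g * u ^ j * g⁻¹ = (u ^ i) ^ j := by
    intro j
    rw [hi, conj_zpow]
  have hmod : u ^ i = 1 ∨ u ^ i = u ∨ u ^ i = u⁻¹ := by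
    have h4 : i = 3 * (i / 3) + i % 3 := (Int.mul_ediv_add_emod i 3).symm
    have h5 : u ^ i = u ^ (i % 3) := by
      conv_lhs => rw [h4, zpow_add, zpow_mul, h3, one_zpow, one_mul]
    have h6 : 0 ≤ i % 3 := Int.emod_nonneg _ (by norm_num)
    have h7 : i % 3 < 3 := Int.emod_lt_of_pos _ (by norm_num)
    rw [h5]
    interval_cases h8 : i % 3
    · left; exact zpow_zero u
    · right; left; exact zpow_one u
    · right; right
      rw [eq_inv_iff_mul_eq_one]
      calc u ^ (2 : ℤ) * u = u ^ (3 : ℤ) := by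
            rw [show (3 : ℤ) = 2 + 1 by norm_num, zpow_add, zpow_one]
        _ = 1 := h3
  rcases hmod with h | h | h
  · exfalso
    rw [h] at hi
    apply hu1
    have : u = g⁻¹ * (g * u * g⁻¹) * g := by group
    rw [this, ← hi]
    group
  · left
    intro w hw
    rw [← hz] at hw
    obtain ⟨j, rfl⟩ := Subgroup.mem_zpowers_iff.mp hw
    rw [hconj, h]
  · right
    intro w hw
    rw [← hz] at hw
    obtain ⟨j, rfl⟩ := Subgroup.mem_zpowers_iff.mp hw
    rw [hconj, h, inv_zpow]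

theorem cent_relIndex_le_two {U H : Subgroup G} (hU : Nat.card U = 3)
    (hnorm : ∀ g ∈ H, ∀ u ∈ U, g * u * g⁻¹ ∈ U) :
    (centralizer (U : Set G)).relIndex H ≤ 2 := by
  by_cases h : ∃ b ∈ H, Neg U b
  · obtain ⟨b, hb, hbn⟩ := h
    apply relIndex_le_two _ _ b
    intro t ht
    rcases one_or_neg_of_card_three hU (hnorm t ht) with h1 | h1
    · exact Or.inl (one_iff.mp h1)
    · exact Or.inr (one_iff.mp (hbn.mul h1))
  · push Not at h
    have h1 : H ≤ centralizer (U : Set G) := by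
      intro t ht
      exact one_iff.mp ((one_or_neg_of_card_three hU (hnorm t ht)).resolve_right (h t ht))
    rw [Subgroup.relIndex_eq_one.mpr h1]
    norm_num

theorem rel_mul_le {A B C : Subgroup G} {m n : ℕ} (h1 : B.relIndex C ≤ m)
    (h2 : A.relIndex (B ⊓ C) ≤ n) : A.relIndex C ≤ n * m := by
  have h3 := Subgroup.relIndex_inf_mul_relIndex A B C
  have h4 : A.relIndex C ≤ (A ⊓ B).relIndex C :=
    Subgroup.relIndex_le_of_le_left inf_le_left (rel_ne _ _)
  calc A.relIndex C ≤ (A ⊓ B).relIndex C := h4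
    _ = A.relIndex (B ⊓ C) * B.relIndex C := h3.symm
    _ ≤ n * m := Nat.mul_le_mul h2 h1

theorem Dat.le_four_of_nine (D : Dat W Q K L) (hC : (centralizer (W : Set G)).relIndex Q ≤ 8) :
    L.relIndex K ≤ 4 := by
  by_cases hL : ∀ l ∈ L, One W l
  · have h1 : ∀ k ∈ K, One W k ∨ Neg W k := by
      intro k hk
      exact D.central_invol (D.KQ hk) (hL _ (D.sq k hk)) fun h hh => hL _ (D.cm k hk h hh)
    have h2 : L.relIndex K ≤ 2 := by
      by_cases h : ∃ b ∈ K, Neg W b
      · obtain ⟨b, hb, hbn⟩ := h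
        apply relIndex_le_two _ _ b
        intro t ht
        rcases h1 t ht with h3 | h3
        · exact Or.inl (D.ker t ht h3)
        · exact Or.inr (D.ker _ (mul_mem hb ht) (hbn.mul h3))
      · push Not at h
        have h3 : K ≤ L := fun t ht => D.ker t ht ((h1 t ht).resolve_right (h t ht))
        rw [Subgroup.relIndex_eq_one.mpr h3]
        norm_num
    omega
  · push Not at hL
    obtain ⟨l, hl, hl1⟩ := hL
    set C := centralizer (W : Set G) with hCdef
    have h1 : C.relIndex K ≤ 8 :=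
      (Subgroup.relIndex_le_of_le_right D.KQ (rel_ne _ _)).trans hC
    have h2 : C ⊓ L ≤ L := inf_le_right
    have h3 := Subgroup.relIndex_mul_relIndex _ _ _ h2 D.LK
    have h4 : C ⊓ L = C ⊓ K := by
      apply le_antisymm (inf_le_inf_left _ D.LK)
      intro x hx
      obtain ⟨hx1, hx2⟩ := Subgroup.mem_inf.mp hx
      exact Subgroup.mem_inf.mpr ⟨hx1, D.ker x hx2 (one_iff.mpr hx1)⟩
    have h5 : (C ⊓ L).relIndex K = C.relIndex K := by rw [h4, Subgroup.inf_relIndex_right]
    have h6 : (C ⊓ L).relIndex L ≠ 1 := by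
      intro h
      rw [Subgroup.relIndex_eq_one] at h
      exact hl1 (one_iff.mpr (Subgroup.mem_inf.mp (h hl)).1)
    have h7 : 2 ≤ (C ⊓ L).relIndex L := by
      have := rel_ne (C ⊓ L) L
      omega
    rw [h5] at h3
    have h8 : 2 * L.relIndex K ≤ 8 := by
      calc 2 * L.relIndex K ≤ (C ⊓ L).relIndex L * L.relIndex K := Nat.mul_le_mul_right _ h7
        _ = C.relIndex K := h3
        _ ≤ 8 := h1
    omega

theorem main (n : ℕ) : ∀ W Q K L : Subgroup G, Dat W Q K L → Nat.card W = n →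
    (n = 3 → L.relIndex K ≤ 2) ∧ (n ≠ 3 → 2 * L.relIndex K ≤ n) := by
  induction n using Nat.strong_induction_on with
  | _ n ih =>
    intro W Q K L D hn
    constructor
    · intro h3
      exact D.le_two_of_prime (by rw [hn, h3]; exact Nat.prime_three)
    · intro h3
      by_cases hA : CaseA W Q
      · obtain ⟨X, Y, P0, hX, hY, hPQ, hidx, hXY, hcard, hone, honeX, honeY⟩ := D.act.split hA
        have hne1 : Nat.card X ≠ 1 := fun h => hX.ne (Subgroup.card_eq_one.mp h)
        have hXpos : 0 < Nat.card X := Nat.card_pos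
        have hlt : Nat.card X < n := by
          rw [← hn, ← hcard, ← hXY]
          have h2 : 2 ≤ Nat.card X := by omega
          have h4 : Nat.card X * 2 ≤ Nat.card X * Nat.card X := Nat.mul_le_mul_left _ h2
          omega
        by_cases hX3 : Nat.card X = 3
        · -- the case of order 9
          have h1 : (centralizer (W : Set G)).relIndex Q ≤ 8 := by
            have h2 : (centralizer (W : Set G)).relIndex (P0 ⊓ Q) ≤ 4 := by
              rw [inf_eq_left.mpr hPQ]
              have h3 : (centralizer (X : Set G)).relIndex P0 ≤ 2 :=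
                cent_relIndex_le_two hX3 hX.norm
              have h4 : (centralizer (W : Set G)).relIndex (centralizer (X : Set G) ⊓ P0) ≤ 2 := by
                have h5 : (centralizer (Y : Set G)).relIndex (centralizer (X : Set G) ⊓ P0) ≤ 2 :=
                  cent_relIndex_le_two (hXY ▸ hX3) (fun g hg => hY.norm g (Subgroup.mem_inf.mp hg).2)
                have h6 : (centralizer (W : Set G)).relIndex (centralizer (X : Set G) ⊓ P0) =
                    (centralizer (Y : Set G)).relIndex (centralizer (X : Set G) ⊓ P0) := by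
                  rw [← Subgroup.inf_relIndex_right (centralizer (W : Set G)),
                    ← Subgroup.inf_relIndex_right (centralizer (Y : Set G))]
                  congr 1
                  ext g
                  simp only [Subgroup.mem_inf]
                  constructor
                  · rintro ⟨h7, h8⟩
                    exact ⟨one_iff.mp (honeY g (one_iff.mpr h7)), h8⟩
                  · rintro ⟨h7, h8, h9⟩
                    exact ⟨one_iff.mp (hone g (one_iff.mpr h8) (one_iff.mpr h7)), h8, h9⟩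
                rw [h6]
                exact h5
              exact rel_mul_le h3 h4
            exact rel_mul_le hidx h2
          have h2 := D.le_four_of_nine h1
          have h4 : n = 9 := by rw [← hn, ← hcard, ← hXY, hX3]
          omega
        · -- general case
          set K0 := K ⊓ P0 with hK0
          set L0 := L ⊓ P0 with hL0
          have hLK0 : L0 ≤ K0 := inf_le_inf_right _ D.LK
          set K' := K0 ⊓ centralizer (X : Set G) with hK'
          set M := K' ⊔ L0 with hM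
          have hMK : M ≤ K0 := sup_le inf_le_left hLK0
          have hcm0 : ∀ k ∈ K0, ∀ g ∈ P0, k * g * k⁻¹ * g⁻¹ ∈ L0 := by
            intro k hk g hg
            obtain ⟨hk1, hk2⟩ := Subgroup.mem_inf.mp hk
            exact Subgroup.mem_inf.mpr ⟨D.cm k hk1 g (hPQ hg),
              mul_mem (mul_mem (mul_mem hk2 hg) (inv_mem hk2)) (inv_mem hg)⟩
          have hsq0 : ∀ k ∈ K0, k * k ∈ L0 := by
            intro k hk
            obtain ⟨hk1, hk2⟩ := Subgroup.mem_inf.mp hk
            exact Subgroup.mem_inf.mpr ⟨D.sq k hk1, mul_mem hk2 hk2⟩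
          have D1 : Dat X P0 K0 M :=
            { comm := hX.comm, odd := hX.odd, ne := hX.ne, two := hX.two, norm := hX.norm,
              irr := hX.irr, LK := hMK, KQ := inf_le_right,
              sq := fun k hk => (le_sup_right : L0 ≤ M) (hsq0 k hk)
              cm := fun k hk g hg => (le_sup_right : L0 ≤ M) (hcm0 k hk g hg)
              ker := fun k hk h => (le_sup_left : K' ≤ M)
                (Subgroup.mem_inf.mpr ⟨hk, one_iff.mp h⟩) }
          have D2 : Dat Y P0 K' (L0 ⊓ K') :=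
            { comm := hY.comm, odd := hY.odd, ne := hY.ne, two := hY.two, norm := hY.norm,
              irr := hY.irr, LK := inf_le_right, KQ := inf_le_left.trans inf_le_right,
              sq := fun k hk => Subgroup.mem_inf.mpr
                ⟨hsq0 k (Subgroup.mem_inf.mp hk).1, mul_mem hk hk⟩
              cm := by
                intro k hk g hg
                obtain ⟨hk1, hk2⟩ := Subgroup.mem_inf.mp hk
                have h1 := hcm0 k hk1 g hg
                refine Subgroup.mem_inf.mpr ⟨h1, Subgroup.mem_inf.mpr ⟨hLK0 h1, ?_⟩⟩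
                rw [← one_iff] at hk2 ⊢
                have h2 : One X (g * k⁻¹ * g⁻¹) := one_conj hX.norm hk2.inv hg
                have h3 : k * g * k⁻¹ * g⁻¹ = k * (g * k⁻¹ * g⁻¹) := by group
                rw [h3]
                exact hk2.mul h2
              ker := by
                intro k hk h
                obtain ⟨hk1, hk2⟩ := Subgroup.mem_inf.mp hk
                obtain ⟨hk3, hk4⟩ := Subgroup.mem_inf.mp hk1
                refine Subgroup.mem_inf.mpr ⟨Subgroup.mem_inf.mpr ⟨?_, hk4⟩, hk⟩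
                exact D.ker k hk3 (hone k (one_iff.mpr hk2) h) }
          have f1 := (ih _ hlt X P0 K0 M D1 rfl).2 hX3
          have f2 := (ih _ (hXY ▸ hlt) Y P0 K' (L0 ⊓ K') D2 rfl).2 (hXY ▸ hX3)
          -- combine
          have g1 : (L0 ⊓ K').relIndex K' = L0.relIndex K' := Subgroup.inf_relIndex_right _ _
          have g2 : L0.relIndex M = L0.relIndex K' := by
            have hnorm : ∀ g ∈ P0, ∀ l ∈ L0, g * l * g⁻¹ ∈ L0 := by
              intro g hg l hl
              have h1 := hcm0 l (hLK0 hl) g hg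
              have h2 : g * l * g⁻¹ = (l * g * l⁻¹ * g⁻¹)⁻¹ * l := by group
              rw [h2]
              exact mul_mem (inv_mem h1) hl
            have hn1 : (L0.subgroupOf M).Normal := by
              constructor
              intro x hx g
              exact hnorm g (hMK.trans inf_le_right g.2) x hx
            have h3 : (L0.subgroupOf M).relIndex ((K'.subgroupOf M) ⊔ (L0.subgroupOf M)) =
                (L0.subgroupOf M).relIndex (K'.subgroupOf M) := Subgroup.relIndex_sup_right _ _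
            rw [← Subgroup.subgroupOf_sup le_sup_left le_sup_right,
              Subgroup.relIndex_subgroupOf le_rfl, Subgroup.relIndex_subgroupOf le_sup_left] at h3
            exact h3
          have g3 : L0.relIndex M * M.relIndex K0 = L0.relIndex K0 :=
            Subgroup.relIndex_mul_relIndex _ _ _ le_sup_right hMK
          have g4 : L0.relIndex K0 * K0.relIndex K = L0.relIndex K :=
            Subgroup.relIndex_mul_relIndex _ _ _ hLK0 inf_le_left
          have g5 : K0.relIndex K ≤ 2 := by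
            rw [hK0, inf_comm, Subgroup.inf_relIndex_right]
            exact (Subgroup.relIndex_le_of_le_right D.KQ (rel_ne _ _)).trans hidx
          have g6 : L.relIndex K ≤ L0.relIndex K :=
            Subgroup.relIndex_le_of_le_left inf_le_left (rel_ne _ _)
          rw [g1] at f2
          have g7 : L.relIndex K ≤ (L0.relIndex K' * M.relIndex K0) * 2 := by
            rw [← g2, g3]
            refine g6.trans ?_
            rw [← g4]
            exact Nat.mul_le_mul_left _ g5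
          rw [← hn, ← hcard]
          calc 2 * L.relIndex K ≤ (2 * M.relIndex K0) * (2 * L0.relIndex K') := by
                nlinarith
            _ ≤ Nat.card X * Nat.card Y := Nat.mul_le_mul f1 f2
      · have h4 := D.le_four hA
        by_cases h8 : 8 ≤ n
        · omega
        · have hodd := D.odd
          rw [hn] at hodd
          have hne1 : n ≠ 1 := fun h => D.ne (Subgroup.card_eq_one.mp (hn.trans h))
          have h57 : n = 5 ∨ n = 7 := by
            obtain ⟨k, hk⟩ := hodd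
            omega
          have hp : (Nat.card W).Prime := by
            rw [hn]
            rcases h57 with h | h <;> rw [h] <;> norm_num
          have := D.le_two_of_prime hp
          rcases h57 with h | h <;> omega

/-- S4188 -/
theorem final (N P : Subgroup G) (hN : N.Normal) (hNab : IsMulCommutative N)
    (hNodd : Odd (Nat.card N)) (hP : IsPGroup 2 P) (hdisj : N ⊓ P = ⊥) (hprod : N ⊔ P = ⊤)
    (hmin : N ≠ ⊥ ∧ ∀ M : Subgroup G, M.Normal → M ≠ ⊥ → N ≤ M) :
    (frattini P).index ≤ Nat.card N - 1 := by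
  have hcomm : ∀ a ∈ N, ∀ b ∈ N, a * b = b * a := by
    intro a ha b hb
    exact congrArg Subtype.val (hNab.is_comm.comm ⟨a, ha⟩ ⟨b, hb⟩)
  -- a subgroup normalized by both `N` and `P` is normal
  have hnormal : ∀ U : Subgroup G, (∀ g ∈ N, ∀ u ∈ U, g * u * g⁻¹ ∈ U) →
      (∀ g ∈ P, ∀ u ∈ U, g * u * g⁻¹ ∈ U) → U.Normal := by
    intro U h1 h2
    have h3 : ∀ A : Subgroup G, (∀ g ∈ A, ∀ u ∈ U, g * u * g⁻¹ ∈ U) →
        A ≤ normalizer (U : Set G) := by
      intro A hA g hg
      rw [Subgroup.mem_normalizer_iff]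
      intro u
      refine ⟨fun hu => hA g hg u hu, fun hu => ?_⟩
      have h4 := hA g⁻¹ (inv_mem hg) _ hu
      have h5 : g⁻¹ * (g * u * g⁻¹) * g⁻¹⁻¹ = u := by group
      rwa [h5] at h4
    rw [← Subgroup.normalizer_eq_top_iff, eq_top_iff, ← hprod]
    exact sup_le (h3 N h1) (h3 P h2)
  have hker : ∀ k ∈ P, One N k → k = 1 := by
    set C := P ⊓ centralizer (N : Set G) with hC
    have hCn : C.Normal := by
      apply hnormal
      · intro g hg u hu
        have h1 := Subgroup.mem_centralizer_iff.mp (Subgroup.mem_inf.mp hu).2 g hg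
        rw [h1]
        have : u * g * g⁻¹ = u := by group
        rwa [this]
      · intro g hg u hu
        obtain ⟨h1, h2⟩ := Subgroup.mem_inf.mp hu
        refine Subgroup.mem_inf.mpr ⟨mul_mem (mul_mem hg h1) (inv_mem hg), ?_⟩
        have : (centralizer (N : Set G)).Normal := inferInstance
        exact this.conj_mem u h2 g
    have hC1 : C = ⊥ := by
      by_contra h
      have h1 := hmin.2 C hCn h
      apply hmin.1
      rw [eq_bot_iff, ← hdisj]
      exact le_inf le_rfl (h1.trans inf_le_left)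
    intro k hk h1
    have : k ∈ C := Subgroup.mem_inf.mpr ⟨hk, one_iff.mp h1⟩
    rwa [hC1, Subgroup.mem_bot] at this
  set L := (frattini P).map P.subtype with hL
  have hLP : L ≤ P := Subgroup.map_subtype_le _
  have hidx : L.relIndex P = (frattini P).index := by
    rw [Subgroup.relIndex, hL, Subgroup.subgroupOf, Subgroup.comap_map_eq_self_of_injective
      P.subtype_injective]
  have : Fact (Nat.Prime 2) := ⟨Nat.prime_two⟩
  have D : Dat N P P L :=
    { comm := hcomm
      odd := hNodd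
      ne := hmin.1
      two := hP
      norm := fun g _ w hw => hN.conj_mem w hw g
      irr := by
        intro U hU hinv
        by_cases h : U = ⊥
        · exact Or.inl h
        · right
          apply le_antisymm hU
          refine hmin.2 U (hnormal U ?_ hinv) h
          intro g hg u hu
          rw [hcomm g hg u (hU hu)]
          have : u * g * g⁻¹ = u := by group
          rwa [this]
      LK := hLP
      KQ := le_rfl
      sq := by
        intro k hk
        have h1 := H3.PBasic.pow_mem_frattini hP (⟨k, hk⟩ : P)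
        rw [pow_two] at h1
        exact ⟨_, h1, rfl⟩
      cm := by
        intro k hk g hg
        have h1 : (⟨k, hk⟩ : P) * ⟨g, hg⟩ * (⟨k, hk⟩ : P)⁻¹ * (⟨g, hg⟩ : P)⁻¹ ∈ frattini P := by
          apply H3.PBasic.commutator_le_frattini hP
          rw [← commutatorElement_def, commutator_def]
          exact Subgroup.commutator_mem_commutator trivial trivial
        exact ⟨_, h1, rfl⟩
      ker := fun k hk h => by rw [hker k hk h]; exact one_mem _ }
  have h1 := main (Nat.card N) N P P L D rfl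
  rw [hidx] at h1
  have h2 : Nat.card N ≠ 1 := fun h => hmin.1 (Subgroup.card_eq_one.mp h)
  have h3 : 0 < Nat.card N := Nat.card_pos
  by_cases h : Nat.card N = 3
  · have := h1.1 h
    omega
  · have h4 := h1.2 h
    have h5 : 0 < (frattini P).index := Nat.pos_of_ne_zero Subgroup.index_ne_zero_of_finite
    omega

end H72.FratIdx
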