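import Mathlib
import Cfsg.Agent.Lib.H70.RegH
import Cfsg.Agent.Lib.H70.Kazarin
import Cfsg.Agent.Lib.H70.SolvRad
import Cfsg.Agent.Lib.H72.TwoLargest

/-!
Groups whose `p`-regular elements have at most two class sizes are solvable; centralisers of primary
elements.
-/
set_option autoImplicit false
set_option linter.unusedSectionVars false
set_option linter.style.haveILetI false

namespace H72.ItoZ

open Subgroup H72.TwoLargest

universe u

theorem isSolvable_of_quot_prime {M : Type u} [Group M] [Finite M] {p : ℕ} (hp : p.Prime)
    (N : Subgroup M) [N.Normal] (hN : Group.IsSolvable N)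
    (h : ∀ x : M, (orderOf x).Coprime p → x ∈ N) : Group.IsSolvable M := by
  haveI : Fact p.Prime := ⟨hp⟩
  haveI h3 : Group.IsSolvable (M ⧸ N) := by
    apply H70.RegT.isSolvable_of_two_primes hp hp
    intro r hr hrd
    by_contra hcon
    push Not at hcon
    haveI : Fact r.Prime := ⟨hr⟩
    obtain ⟨R⟩ : Nonempty (Sylow r M) := inferInstance
    have h1 : (R : Subgroup M) ≤ N := by
      intro z hz
      obtain ⟨k, hk⟩ := (H70.RegT.isPGroup_iff_pow (R : Subgroup M)).mp R.2 z hz
      apply h
      apply Nat.Coprime.coprime_dvd_left (orderOf_dvd_of_pow_eq_one hk)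
      exact Nat.Coprime.pow_left k ((Nat.coprime_primes hr hp).mpr hcon.1)
    rw [← Subgroup.index_eq_card] at hrd
    exact R.not_dvd_index (hrd.trans (Subgroup.index_dvd_of_le h1))
  exact Group.isSolvable_of_ker_le_range N.subtype (QuotientGroup.mk' N) (by simp)

/-- at most two `p`-regular class sizes -/
theorem isSolvable_of_regular {M : Type u} [Group M] [Finite M] {p : ℕ} (hp : p.Prime)
    (hcard : ∀ x y : M, H70.RegT.X p x → H70.RegT.X p y →
      Nat.card (centralizer ({x} : Set M)) = Nat.card (centralizer ({y} : Set M))) :
    Group.IsSolvable M := by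
  by_cases hne : ∃ x : M, H70.RegT.X p x
  · rcases H70.RegT.dichotomy hp hcard hne with ⟨q, hq, -, h⟩ | ⟨-, h⟩
    · exact H70.RegT.isSolvable_of_central hp hq (fun r hr h1 h2 => h r hr h1 h2)
    · have hsr := H70.SolvRad.isSolvable_srad (G := M)
      apply isSolvable_of_quot_prime hp (H70.SolvRad.srad M) hsr
      intro x hx
      by_cases hxc : x ∈ center M
      · have h1 : center M ≤ H70.SolvRad.srad M := by
          apply H70.SolvRad.le_srad inferInstance
          apply Group.isSolvable_of_comm
          intro a b
          exact Subtype.ext (mem_center_iff.mp b.2 a)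
        exact h1 hxc
      · have hX : H70.RegT.X p x := ⟨hx, hxc⟩
        have h1 := h x hX
        apply H70.Kazarin.mem_srad _ M rfl x p ((centralizer ({x} : Set M)).index.factorization p) hp
        have h2 : (centralizer ({x} : Set M)).index ≠ 0 := Subgroup.index_ne_zero_of_finite
        apply Nat.eq_of_factorization_eq h2 (pow_ne_zero _ hp.ne_zero)
        intro q
        rw [Nat.Prime.factorization_pow hp, Finsupp.single_apply]
        split_ifs with hpq
        · rw [hpq]
        · by_cases hq : q.Prime
          · have h3 := h1 q hq (Ne.symm hpq)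
            have h4 := Subgroup.card_mul_index (centralizer ({x} : Set M))
            have h5 : (Nat.card M).factorization q = (Nat.card (centralizer ({x} : Set M))).factorization q +
                (centralizer ({x} : Set M)).index.factorization q := by
              rw [← h4, Nat.factorization_mul Nat.card_pos.ne' h2, Finsupp.add_apply]
            omega
          · exact Nat.factorization_eq_zero_of_not_prime _ hq
  · push Not at hne
    apply H70.RegT.isSolvable_of_central hp hp
    rintro r hr hrp - y ⟨k, hk⟩
    by_contra hyc
    refine hne y ⟨?_, hyc⟩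
    apply Nat.Coprime.coprime_dvd_left (orderOf_dvd_of_pow_eq_one hk)
    exact Nat.Coprime.pow_left k ((Nat.coprime_primes hr hp).mpr hrp)

variable {G : Type u} [Group G] [Finite G]

/-- solvable centralisers of primary elements -/
theorem solvable_cent {x : G} {r k n : ℕ} (hr : r.Prime) (hx : orderOf x = r ^ k)
    (h : ∀ w : G, x * w = w * x → (orderOf x).Coprime (orderOf w) → cs (x * w) = cs x ∨ cs (x * w) = n) :
    Group.IsSolvable (centralizer ({x} : Set G)) := by
  apply isSolvable_of_regular hr
  have key : ∀ w : centralizer ({x} : Set G), H70.RegT.X r w →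
      Nat.card (centralizer ({w} : Set (centralizer ({x} : Set G)))) * n = Nat.card G := by
    rintro w ⟨hwo, hwc⟩
    have hcop : (orderOf x).Coprime (orderOf (w : G)) := by
      rw [hx, Subgroup.orderOf_coe]
      exact Nat.Coprime.pow_left k hwo.symm
    have hxw : x * (w : G) = w * x := (mem_centralizer_singleton_iff.mp w.2).symm
    rw [H70.RegT.card_cent_sub w hcop]
    rcases h w hxw hcop with h1 | h1
    · exfalso
      apply hwc
      have h2 := cent_mul hxw hcop
      have h3 : centralizer ({x * (w : G)} : Set G) ≤ centralizer ({x} : Set G) := by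
        rw [h2]; exact inf_le_left
      have h4 := cent_eq_of_le h3 h1.le
      rw [mem_center_iff]
      intro g
      have h5 : (g : G) ∈ centralizer ({x * (w : G)} : Set G) := h4 g.2
      rw [h2] at h5
      exact Subtype.ext (mem_centralizer_singleton_iff.mp (mem_inf.mp h5).2)
    · rw [← h1]
      exact Subgroup.card_mul_index _
  intro v w hv hw
  have h1 := key v hv
  have h2 := key w hw
  have hn : 0 < n := by
    by_contra hn
    have : n = 0 := by omega
    rw [this, mul_zero] at h1
    exact Nat.card_pos.ne h1
  exact Nat.eq_of_mul_eq_mul_right hn (h1.trans h2.symm)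

/-- a solvable centraliser covering the quotient by the solvable radical -/
theorem solvable_of_cover {x : G} (hx : Group.IsSolvable (centralizer ({x} : Set G)))
    (hcop : (cs x).Coprime (H70.SolvRad.srad G).index) : Group.IsSolvable G := by
  have hsr := H70.SolvRad.isSolvable_srad (G := G)
  let f : centralizer ({x} : Set G) →* G ⧸ H70.SolvRad.srad G :=
    (QuotientGroup.mk' (H70.SolvRad.srad G)).comp (centralizer ({x} : Set G)).subtype
  have hf : Function.Surjective f := by
    intro q
    obtain ⟨g, rfl⟩ := QuotientGroup.mk_surjective q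
    obtain ⟨b, hb, a, ha, hg⟩ := H72.CoprimeIndex.exists_mul_of_coprime_index
      (H70.SolvRad.srad G) (centralizer ({x} : Set G)) hcop.symm g
    refine ⟨⟨b, hb⟩, ?_⟩
    show (QuotientGroup.mk b : G ⧸ H70.SolvRad.srad G) = QuotientGroup.mk g
    rw [QuotientGroup.eq, hg]
    simpa using ha
  have h2 : Group.IsSolvable (G ⧸ H70.SolvRad.srad G) := Group.isSolvable_of_surjective hf
  exact Group.isSolvable_of_ker_le_range (H70.SolvRad.srad G).subtype
    (QuotientGroup.mk' (H70.SolvRad.srad G)) (by simp)

end H72.ItoZ
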