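import Mathlib
import Cfsg.Agent.Lib.H72.ItoZ1
import Cfsg.Agent.Lib.H74.Ito5

/-!
Nonsolvable groups: the abelian case, and no isolated involutions modulo the solvable radical.
-/
set_option autoImplicit false
set_option linter.unusedSectionVars false
set_option linter.style.haveILetI false

namespace H72.ItoZ

open Subgroup H72.TwoLargest H28.Cj H28.RelSyl H25.Isolated H25.StrEmb H70.SolvRad

universe u

theorem srad_quot {G : Type u} [Group G] [Finite G] : srad (G ⧸ srad G) = ⊥ := by
  rw [eq_bot_iff]
  intro q hq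
  obtain ⟨x, rfl⟩ := QuotientGroup.mk_surjective q
  have h1 := comap_srad_le (srad G) (isSolvable_srad (G := G))
  have h2 : x ∈ (srad (G ⧸ srad G)).comap (QuotientGroup.mk' (srad G)) := hq
  have h3 := h1 h2
  rw [Subgroup.mem_bot]
  exact (QuotientGroup.eq_one_iff x).mpr h3

theorem solvable_of_odd {G : Type u} [Group G] [Finite G] (N : Subgroup G) (h : Odd (Nat.card N)) :
    Group.IsSolvable N := Cfsg.Agent.S0205.result h

theorem not_isolated {K : Type u} [Group K] [Finite K] (hK : srad K = ⊥) (t : K) :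
    ¬ Cfsg.IsIsolatedInvolution t := by
  intro ht
  haveI : Fact (Nat.Prime 2) := ⟨Nat.prime_two⟩
  have h1 : IsPGroup 2 (zpowers t) := by
    apply IsPGroup.of_card (n := 1)
    rw [Nat.card_zpowers, ht.1, pow_one]
  obtain ⟨P, hP⟩ := h1.exists_le_sylow
  have htP : t ∈ P := hP (mem_zpowers t)
  obtain ⟨N, hN, hNo, hNt⟩ := Cfsg.Agent.S0215.result P t ht.1 htP
    (H26.IsoInv.isolated_sylow ht P htP)
  have hNb : N = ⊥ := by
    rw [eq_bot_iff, ← hK]
    exact le_srad hN (solvable_of_odd N hNo)
  have htc : t ∈ center K := by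
    rw [mem_center_iff]
    intro g
    have h2 := hNt g
    rw [hNb, Subgroup.mem_bot] at h2
    calc g * t = (t * g * t⁻¹ * g⁻¹) * g * t := by rw [h2, one_mul]
      _ = t * g := by group
  have h3 : center K ≤ srad K := by
    apply le_srad inferInstance
    apply Group.isSolvable_of_comm
    intro a b
    exact Subtype.ext (mem_center_iff.mp b.2 a)
  have h4 := h3 htc
  rw [hK, Subgroup.mem_bot] at h4
  have h5 := ht.1
  rw [h4, orderOf_one] at h5
  omega

theorem even_card {G : Type u} [Group G] [Finite G] (hns : ¬ Group.IsSolvable G) : 2 ∣ Nat.card G := by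
  by_contra h
  exact hns (Cfsg.Agent.S0205.result (Nat.not_even_iff_odd.mp (fun h2 => h (even_iff_two_dvd.mp h2))))

/-- a nonsolvable group with an abelian subgroup of even order containing the centralisers of its
nontrivial elements -/
theorem psl_of_ab {L : Type u} [Group L] [Finite L] (hns : ¬ Group.IsSolvable L) {A : Subgroup L}
    (hA : ∀ a ∈ A, ∀ b ∈ A, a * b = b * a) (hC : ∀ a ∈ A, a ≠ 1 → ∀ x : L, x * a = a * x → x ∈ A)
    (h2 : 2 ∣ Nat.card A) :
    ∃ (F : Type) (_ : Field F) (_ : Fintype F) (n : ℕ), 2 ≤ n ∧ Fintype.card F = 2 ^ n ∧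
      Nonempty (L ≃* Matrix.ProjectiveSpecialLinearGroup (Fin 2) F) := by
  haveI : Fact (Nat.Prime 2) := ⟨Nat.prime_two⟩
  have hsA : Group.IsSolvable A := by
    apply Group.isSolvable_of_comm
    intro a b
    exact Subtype.ext (hA a a.2 b b.2)
  have hbot : A ≠ ⊥ := by
    rintro rfl
    rw [Subgroup.card_bot] at h2
    omega
  -- the subgroup is a TI subgroup
  have hnorm : ∀ g : L, ∀ u ∈ A, u ≠ 1 → g⁻¹ * u * g ∈ A →
      g ∈ normalizer (A : Set L) := by
    intro g u hu hu1 hg
    letI := Fintype.ofFinite L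
    exact H74.Ito1.Ab.norm ⟨hA, hC⟩ hu hu1 hg
  have hcop : (Nat.card A).Coprime A.index := by
    apply H18.TIFN.coprime_card_index A
    intro k hk hk1 x hx
    rw [Subgroup.mem_centralizer_singleton_iff] at hx
    exact hC k hk hk1 x hx
  have hidxodd : Odd A.index := by
    rw [← Nat.not_even_iff_odd, even_iff_two_dvd]
    intro h
    have h1 := Nat.dvd_gcd h2 h
    rw [hcop] at h1
    omega
  have hNtop : normalizer (A : Set L) ≠ ⊤ := by
    intro h
    haveI : A.Normal := Subgroup.normalizer_eq_top_iff.mp h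
    apply hns
    have h3 : Group.IsSolvable (L ⧸ A) := by
      apply Cfsg.Agent.S0205.result
      rw [← Subgroup.index_eq_card]
      exact hidxodd
    exact Group.isSolvable_of_ker_le_range A.subtype (QuotientGroup.mk' A) (by simp)
  have hAN : A ≤ normalizer (A : Set L) := Subgroup.le_normalizer
  obtain ⟨m, hm⟩ : ∃ m, Nat.card (normalizer (A : Set L)) = Nat.card A * m :=
    Subgroup.card_dvd_of_le hAN
  have hmcop : (Nat.card A).Coprime m := by
    apply Nat.Coprime.coprime_dvd_right _ hcop
    have h3 := relIndex_mul_card hAN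
    rw [hm, mul_comm] at h3
    have h4 := Nat.eq_of_mul_eq_mul_left Nat.card_pos h3
    rw [← h4]
    exact Subgroup.relIndex_dvd_index_of_le hAN
  have hm0 : m ≠ 0 := by
    rintro rfl
    rw [mul_zero] at hm
    exact (Nat.card_pos (α := normalizer (A : Set L))).ne' hm
  have hm1 : m ≠ 1 := by
    rintro rfl
    rw [mul_one] at hm
    have hNA : A = normalizer (A : Set L) := Subgroup.eq_of_le_of_card_ge hAN hm.le
    have hTI : H1.Frob.IsTIself A := by
      intro g hg
      rw [eq_bot_iff]
      intro x hx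
      obtain ⟨hx1, hx2⟩ := Subgroup.mem_inf.mp hx
      rw [H8.Zass.mem_conj_iff] at hx2
      rw [Subgroup.mem_bot]
      by_contra hne
      apply hg
      rw [hNA]
      exact hnorm g x hx1 hne hx2
    obtain ⟨N, -, hN, hc⟩ := H1.FrobThm.frobenius_kernel hTI
    apply hns
    have hNo : Odd (Nat.card N) := by
      have h3 := hc.index_eq_card
      rw [← h3]; exact hidxodd
    have h3 : Group.IsSolvable (L ⧸ N) := by
      let f : A →* L ⧸ N := (QuotientGroup.mk' N).comp A.subtype
      have hf : Function.Surjective f := by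
        intro q
        obtain ⟨g, rfl⟩ := QuotientGroup.mk_surjective q
        obtain ⟨⟨a, n⟩, han⟩ := hc.symm.2 g
        refine ⟨a, ?_⟩
        show (QuotientGroup.mk (a : L) : L ⧸ N) = QuotientGroup.mk g
        rw [QuotientGroup.eq, ← han]
        simp
      exact Group.isSolvable_of_surjective hf
    have h4 := solvable_of_odd N hNo
    exact Group.isSolvable_of_ker_le_range N.subtype (QuotientGroup.mk' N) (by simp)
  have hmodd : Odd m := by
    rw [← Nat.not_even_iff_odd, even_iff_two_dvd]
    intro h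
    have h1 := Nat.dvd_gcd h2 h
    rw [hmcop] at h1
    omega
  have hidx : (A.subgroupOf (normalizer (A : Set L))).index = m := by
    have h1 := relIndex_mul_card hAN
    rw [hm, mul_comm] at h1
    exact Nat.eq_of_mul_eq_mul_left Nat.card_pos h1
  have hpow : ∀ g ∈ normalizer (A : Set L), g ^ m ∈ A := by
    intro g hg
    haveI hN : (A.subgroupOf (normalizer (A : Set L))).Normal :=
      (Subgroup.normal_subgroupOf_iff_le_normalizer hAN).mpr le_rfl
    have := Subgroup.pow_index_mem (H := A.subgroupOf (normalizer (A : Set L))) ⟨g, hg⟩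
    rw [hidx] at this
    exact this
  have hinv : ∀ t ∈ normalizer (A : Set L), t * t = 1 → t ∈ A := by
    intro t ht htt
    have h1 := hpow t ht
    obtain ⟨r, hr⟩ := hmodd
    have h2 : t ^ m = t := by
      rw [hr, pow_succ, pow_mul, pow_two, htt, one_pow, one_mul]
    rwa [h2] at h1
  have hemb : Cfsg.IsStronglyEmbedded (normalizer (A : Set L)) := by
    refine ⟨hNtop, ?_, ?_⟩
    · rw [even_iff_two_dvd, hm]
      exact Dvd.dvd.mul_right h2 m
    · intro g hg
      rw [← Nat.not_even_iff_odd, even_iff_two_dvd]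
      intro h
      obtain ⟨t, ht⟩ := exists_prime_orderOf_dvd_card' 2 h
      rw [← Subgroup.orderOf_coe] at ht
      have htt := self_mul_self ht
      obtain ⟨ht1, ht2⟩ := Subgroup.mem_inf.mp t.2
      rw [mem_map_conj] at ht2
      apply hg
      apply hnorm g t (hinv _ ht1 htt) _ (hinv _ ht2 _)
      · intro h1; rw [h1, orderOf_one] at ht; omega
      · calc g⁻¹ * (t : L) * g * (g⁻¹ * t * g) = g⁻¹ * (t * t) * g := by group
          _ = 1 := by rw [htt]; group
  have hd : H74.ZDat.Dat A (normalizer (A : Set L)) m :=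
    { emb := hemb
      even := h2
      le := hAN
      nor := le_rfl
      cardM := hm
      cop := hmcop
      one := by omega
      cent := hC
      ti := hnorm }
  obtain ⟨F, i1, i2, n, hn, hF, -, he⟩ := H74.ZDat.main_comm hd hA
  exact ⟨F, i1, i2, n, hn, hF, he⟩

end H72.ItoZ
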