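import Mathlib
import Cfsg.Agent.Lib.H72.ItoZ2

/-!
Centreless groups with three nontrivial class sizes `a`, `b`, `c`, where `a`, `b` are coprime and `a ∣ c`.
-/
set_option autoImplicit false
set_option linter.unusedSectionVars false
set_option linter.style.haveILetI false

namespace H72.ItoZ

open Subgroup H72.TwoLargest H74.Ito3 H70.SolvRad

universe u

section gen

variable {G : Type u} [Group G] [Finite G]

/-- an element of order `p` and of class size prime to `p`, commuting with a given element of order `p` -/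
theorem exists_syl' {p : ℕ} (hp : p.Prime) {y : G} (hy : orderOf y = p) :
    ∃ z : G, orderOf z = p ∧ z ∈ C y ∧ ¬ p ∣ cs z := by
  have : Fact p.Prime := ⟨hp⟩
  have h1 : IsPGroup p (zpowers y) := by
    apply IsPGroup.of_card (n := 1)
    rw [Nat.card_zpowers, hy, pow_one]
  obtain ⟨P, hP⟩ := h1.exists_le_sylow
  have hyP : y ∈ (P : Subgroup G) := hP (mem_zpowers y)
  have hnt : Nontrivial P := ⟨⟨⟨y, hyP⟩, 1, fun h => ne_one_of_prime hp hy (congrArg Subtype.val h)⟩⟩
  have hnc := IsPGroup.center_nontrivial P.2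
  obtain ⟨z, hz⟩ := (Subgroup.nontrivial_iff_exists_ne_one _).mp hnc
  have hz1 : (z : G) ≠ 1 := fun h => hz.2 (Subtype.ext h)
  obtain ⟨k, r, hr, hk⟩ := exists_pow_prime hz1
  have hrp : r = p := by
    obtain ⟨j, hj⟩ := P.2 z
    have h2 : r ∣ p ^ j := by
      rw [← hk]
      refine (orderOf_pow_dvd k).trans ?_
      rw [Subgroup.orderOf_coe]
      exact orderOf_dvd_of_pow_eq_one hj
    exact (Nat.prime_dvd_prime_iff_eq hr hp).mp (hr.dvd_of_dvd_pow h2)
  have hcz : ∀ g ∈ (P : Subgroup G), g * (z : G) = z * g := by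
    intro g hg
    have := Subgroup.mem_center_iff.mp hz.1 ⟨g, hg⟩
    exact congrArg Subtype.val this
  refine ⟨(z : G) ^ k, hk.trans hrp, ?_, ?_⟩
  · rw [memC]
    exact ((show Commute y (z : G) from hcz y hyP).pow_right k).eq.symm
  · intro hd
    apply P.not_dvd_index
    refine (hd.trans (cs_pow_dvd (z : G) k)).trans ?_
    apply Subgroup.index_dvd_of_le
    intro g hg
    rw [mem_centralizer_singleton_iff]
    exact hcz g hg

theorem exists_ord {p : ℕ} (hp : p.Prime) (hd : p ∣ Nat.card G) :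
    ∃ z : G, orderOf z = p ∧ ¬ p ∣ cs z := by
  obtain ⟨y, -, hy⟩ := exists_order hp (H := (⊤ : Subgroup G)) (by rw [Subgroup.card_top]; exact hd)
  obtain ⟨z, hz, -, h⟩ := exists_syl' hp hy
  exact ⟨z, hz, h⟩

/-- if `p` does not divide `cs w`, an element of order `p`, class size prime to `p`, commuting with `w` and
such that the class size of the pair is prime to `p` -/
theorem exists_syl_cent {p : ℕ} (hp : p.Prime) {w : G} (hw : ¬ p ∣ cs w) (hd : p ∣ Nat.card G) :
    ∃ z : G, orderOf z = p ∧ z ∈ C w ∧ ¬ p ∣ cs z ∧ ¬ p ∣ (C w ⊓ C z).index := by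
  have : Fact p.Prime := ⟨hp⟩
  obtain ⟨P⟩ : Nonempty (Sylow p (C w)) := inferInstance
  have hpc : p ∣ Nat.card (C w) := by
    rw [← card_C w] at hd
    exact (hp.dvd_mul.mp hd).resolve_right hw
  have hPne : Nontrivial P := by
    have h1 := P.not_dvd_index
    by_contra hcon
    rw [not_nontrivial_iff_subsingleton] at hcon
    have h2 : Nat.card P = 1 := Nat.card_eq_one_iff_unique.mpr ⟨hcon, ⟨1⟩⟩
    have h3 := Subgroup.card_mul_index (P : Subgroup (C w))
    have h4 : Nat.card (P : Subgroup (C w)) = 1 := h2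
    rw [h4, one_mul] at h3
    exact h1 (h3 ▸ hpc)
  have hnc := IsPGroup.center_nontrivial P.2
  obtain ⟨z, hz⟩ := (Subgroup.nontrivial_iff_exists_ne_one _).mp hnc
  have hz1 : ((z : C w) : G) ≠ 1 := fun h => hz.2 (Subtype.ext (Subtype.ext h))
  obtain ⟨k, r, hr, hk⟩ := exists_pow_prime hz1
  have hrp : r = p := by
    obtain ⟨j, hj⟩ := P.2 z
    have h2 : r ∣ p ^ j := by
      rw [← hk]
      refine (orderOf_pow_dvd k).trans ?_
      rw [Subgroup.orderOf_coe, Subgroup.orderOf_coe]
      exact orderOf_dvd_of_pow_eq_one hj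
    exact (Nat.prime_dvd_prime_iff_eq hr hp).mp (hr.dvd_of_dvd_pow h2)
  have hcz : ∀ g ∈ (P : Subgroup (C w)), g * (z : C w) = z * g := by
    intro g hg
    have := Subgroup.mem_center_iff.mp hz.1 ⟨g, hg⟩
    exact congrArg Subtype.val this
  have hle : (P : Subgroup (C w)).map (C w).subtype ≤ C w ⊓ C (((z : C w) : G) ^ k) := by
    rintro _ ⟨g, hg, rfl⟩
    refine Subgroup.mem_inf.mpr ⟨g.2, ?_⟩
    rw [memC]
    have h1 : Commute (g : G) ((z : C w) : G) := congrArg Subtype.val (hcz g hg)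
    exact (h1.pow_right k).eq
  have hidx : ¬ p ∣ ((P : Subgroup (C w)).map (C w).subtype).index := by
    rw [Subgroup.index_map_subtype]
    intro h
    rcases hp.dvd_mul.mp h with h | h
    · exact P.not_dvd_index h
    · exact hw h
  refine ⟨((z : C w) : G) ^ k, hk.trans hrp, (C w).pow_mem (z : C w).2 k, ?_, ?_⟩
  · intro h
    apply hidx
    refine h.trans (Subgroup.index_dvd_of_le (hle.trans inf_le_right))
  · intro h
    exact hidx (h.trans (Subgroup.index_dvd_of_le hle))

/-- conjugates commute: the normal closure is abelian -/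
theorem mem_srad_of_comm {x : G} (h : ∀ g : G, x * (g * x * g⁻¹) = (g * x * g⁻¹) * x) : x ∈ srad G := by
  set N := normalClosure ({x} : Set G) with hN
  have hxN : x ∈ N := subset_normalClosure rfl
  have hconj : ∀ z ∈ Group.conjugatesOfSet ({x} : Set G), ∃ g : G, g * x * g⁻¹ = z := by
    intro z hz
    rw [Group.mem_conjugatesOfSet_iff] at hz
    obtain ⟨a, ha, hc⟩ := hz
    rw [Set.mem_singleton_iff] at ha
    rw [ha] at hc
    exact isConj_iff.mp hc
  have h1 : N ≤ centralizer (Group.conjugatesOfSet ({x} : Set G)) := by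
    rw [hN, normalClosure, closure_le]
    intro z hz
    obtain ⟨g, rfl⟩ := hconj z hz
    rw [SetLike.mem_coe, mem_centralizer_iff]
    intro w hw
    obtain ⟨k, rfl⟩ := hconj w hw
    have h2 := h (g⁻¹ * k)
    calc k * x * k⁻¹ * (g * x * g⁻¹) = g * ((g⁻¹ * k) * x * (g⁻¹ * k)⁻¹ * x) * g⁻¹ := by group
      _ = g * (x * ((g⁻¹ * k) * x * (g⁻¹ * k)⁻¹)) * g⁻¹ := by rw [h2]
      _ = g * x * g⁻¹ * (k * x * k⁻¹) := by group
  have h2 : N ≤ centralizer (N : Set G) := by
    conv_lhs => rw [hN, normalClosure]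
    rw [closure_le]
    intro z hz
    rw [SetLike.mem_coe, mem_centralizer_iff]
    intro w hw
    exact (mem_centralizer_iff.mp (h1 hw) z hz).symm
  have h3 : Group.IsSolvable N := by
    apply Group.isSolvable_of_comm
    intro a b
    exact Subtype.ext (mem_centralizer_iff.mp (h2 b.2) a a.2)
  exact le_srad inferInstance h3 hxN

end gen

/-- the situation -/
structure Hy (G : Type u) [Group G] [Finite G] (a b c : ℕ) : Prop where
  typ : ∀ x : G, x ≠ 1 → cs x = a ∨ cs x = b ∨ cs x = c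
  exa : ∃ x : G, cs x = a
  exb : ∃ x : G, cs x = b
  exc : ∃ x : G, cs x = c
  cop : a.Coprime b
  adc : a ∣ c
  a1 : 1 < a
  b1 : 1 < b
  anc : a ≠ c
  hZ : center G = ⊥
  ns : ¬ Group.IsSolvable G

namespace Hy

variable {G : Type u} [Group G] [Finite G] {a b c : ℕ}

theorem nab (H : Hy G a b c) : ¬ a ∣ b := fun h => by
  have h1 := H.cop.eq_one_of_dvd h
  have := H.a1
  omega

theorem nba (H : Hy G a b c) : ¬ b ∣ a := fun h => by
  have h1 := H.cop.symm.eq_one_of_dvd h
  have := H.b1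
  omega

theorem c1 (H : Hy G a b c) : 1 < c := by
  obtain ⟨x, hx⟩ := H.exc
  have h0 : 0 < c := by rw [← hx]; exact cs_pos x
  have := Nat.le_of_dvd h0 H.adc
  have := H.a1
  omega

theorem bnc (H : Hy G a b c) : b ≠ c := fun h => H.nab (h ▸ H.adc)

theorem ncb (H : Hy G a b c) : ¬ c ∣ b := fun h => H.nab (H.adc.trans h)

theorem nca (H : Hy G a b c) : ¬ c ∣ a := fun h => H.anc (Nat.dvd_antisymm H.adc h)

theorem anb (H : Hy G a b c) : a ≠ b := fun h => H.nab (h ▸ dvd_rfl)

theorem symm (H : Hy G a b c) (h : b ∣ c) : Hy G b a c :=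
  { typ := fun x hx => by rcases H.typ x hx with h1 | h1 | h1 <;> simp [h1]
    exa := H.exb, exb := H.exa, exc := H.exc, cop := H.cop.symm, adc := h, a1 := H.b1, b1 := H.a1
    anc := H.bnc, hZ := H.hZ, ns := H.ns }

variable (H : Hy G a b c)
include H

theorem eq_one {x : G} (h : cs x = 1) : x = 1 := by
  rw [cs_eq_one, H.hZ, Subgroup.mem_bot] at h
  exact h

theorem typ' (x : G) : cs x = 1 ∨ cs x = a ∨ cs x = b ∨ cs x = c := by
  by_cases hx : x = 1
  · left; rw [hx, cs_one]
  · right; exact H.typ x hx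

theorem ne1a {x : G} (h : cs x = a) : x ≠ 1 := by
  rintro rfl; rw [cs_one] at h; have := H.a1; omega

theorem ne1b {x : G} (h : cs x = b) : x ≠ 1 := by
  rintro rfl; rw [cs_one] at h; have := H.b1; omega

theorem ne1c {x : G} (h : cs x = c) : x ≠ 1 := by
  rintro rfl; rw [cs_one] at h; have := H.c1; omega

theorem pra {x y : G} (hx : cs x = a) (hy : y ≠ 1) (h : C x ≤ C y) : cs y = a := by
  have h1 : cs y ∣ a := by rw [← hx]; exact cs_dvd_of_le h
  rcases H.typ y hy with h2 | h2 | h2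
  · exact h2
  · exact (H.nba (h2 ▸ h1)).elim
  · exact (H.nca (h2 ▸ h1)).elim

theorem prb {x y : G} (hx : cs x = b) (hy : y ≠ 1) (h : C x ≤ C y) : cs y = b := by
  have h1 : cs y ∣ b := by rw [← hx]; exact cs_dvd_of_le h
  rcases H.typ y hy with h2 | h2 | h2
  · exact (H.nab (h2 ▸ h1)).elim
  · exact h2
  · exact (H.ncb (h2 ▸ h1)).elim

theorem mula {x : G} (h : a ∣ cs x) : cs x = a ∨ cs x = c := by
  rcases H.typ' x with h1 | h1 | h1 | h1
  · rw [h1] at h; have := Nat.dvd_one.mp h; have := H.a1; omega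
  · exact Or.inl h1
  · rw [h1] at h; exact (H.nab h).elim
  · exact Or.inr h1

theorem mulb {x : G} (h : b ∣ cs x) : cs x = b ∨ cs x = c := by
  rcases H.typ' x with h1 | h1 | h1 | h1
  · rw [h1] at h; have := Nat.dvd_one.mp h; have := H.b1; omega
  · rw [h1] at h; exact (H.nba h).elim
  · exact Or.inl h1
  · exact Or.inr h1

theorem mulc {x : G} (h : c ∣ cs x) : cs x = c := by
  rcases H.typ' x with h1 | h1 | h1 | h1
  · rw [h1] at h; have := Nat.dvd_one.mp h; have := H.c1; omega
  · rw [h1] at h; exact (H.nca h).elim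
  · rw [h1] at h; exact (H.ncb h).elim
  · exact h1

theorem M3 {v w : G} (hvw : v * w = w * v) (ho : (orderOf v).Coprime (orderOf w))
    (hw : cs w = c) : C w ≤ C v := by
  have h1 := C_mul hvw ho
  have h2 : C (v * w) ≤ C w := by rw [h1]; exact inf_le_right
  have h3 : cs w ∣ cs (v * w) := cs_dvd_of_le h2
  have h4 : cs (v * w) = c := H.mulc (hw ▸ h3)
  have h5 := cent_eq_of_le h2 (by rw [h4, hw])
  refine h5.trans ?_
  change C (v * w) ≤ C v
  rw [h1]; exact inf_le_left

theorem type_b {p : ℕ} (hpa : p ∣ a) {z : G} (hz : z ≠ 1) (h : ¬ p ∣ cs z) : cs z = b := by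
  rcases H.typ z hz with h1 | h1 | h1
  · exact absurd (h1 ▸ hpa) h
  · exact h1
  · exact absurd (h1 ▸ (hpa.trans H.adc)) h

theorem index_inf {x y : G} (hx : cs x = a) (hy : cs y = b) : (C x ⊓ C y).index = a * b := by
  rw [H72.CoprimeIndex.index_inf_of_coprime]
  · change cs x * cs y = _
    rw [hx, hy]
  · change (cs x).Coprime (cs y)
    rw [hx, hy]; exact H.cop

theorem a_dvd : a ∣ Nat.card G := by
  obtain ⟨x, hx⟩ := H.exa
  rw [← hx]; exact Subgroup.index_dvd_card _

theorem b_dvd : b ∣ Nat.card G := by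
  obtain ⟨x, hx⟩ := H.exb
  rw [← hx]; exact Subgroup.index_dvd_card _

theorem c_dvd : c ∣ Nat.card G := by
  obtain ⟨x, hx⟩ := H.exc
  rw [← hx]; exact Subgroup.index_dvd_card _

/-- centralisers of elements of prime power order are solvable -/
theorem solv {x : G} (hx1 : x ≠ 1) {r k : ℕ} (hr : r.Prime) (hx : orderOf x = r ^ k) :
    Group.IsSolvable (C x) := by
  have hdvd : ∀ w : G, x * w = w * x → (orderOf x).Coprime (orderOf w) → cs x ∣ cs (x * w) := by
    intro w hw ho
    apply cs_dvd_of_le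
    change C (x * w) ≤ C x
    rw [C_mul hw ho]; exact inf_le_left
  apply solvable_cent hr hx (n := c)
  intro w hw ho
  have h1 := hdvd w hw ho
  rcases H.typ x hx1 with h | h | h
  · rw [h] at h1 ⊢; exact H.mula h1
  · rw [h] at h1 ⊢; exact H.mulb h1
  · rw [h] at h1 ⊢; exact Or.inr (H.mulc h1)

theorem exists_a_prime : ∃ x : G, ∃ r : ℕ, r.Prime ∧ orderOf x = r ∧ cs x = a := by
  obtain ⟨x, hx⟩ := H.exa
  obtain ⟨k, r, hr, hk⟩ := exists_pow_prime (H.ne1a hx)
  exact ⟨x ^ k, r, hr, hk, H.pra hx (ne_one_of_prime hr hk) (C_pow x k)⟩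

end Hy

end H72.ItoZ
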