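import Mathlib
import Cfsg.Agent.Lib.H72.ItoZ3

/-!
Class sizes `1, a, b, ab` with `a`, `b` coprime: `a` and `b` are prime powers.
-/
set_option autoImplicit false
set_option linter.unusedSectionVars false
set_option linter.style.haveILetI false

namespace H72.ItoZ

open Subgroup H72.TwoLargest H74.Ito3 H70.SolvRad

universe u

section gen

variable {G : Type u} [Group G] [Finite G]

/-- all `s`-elements of `K` lie in `Z`: the relative index is prime to `s` -/
theorem not_dvd_relIndex {s : ℕ} (hs : s.Prime) {Z K : Subgroup G}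
    (h : ∀ u ∈ K, (∃ k : ℕ, orderOf u = s ^ k) → u ∈ Z) : ¬ s ∣ Z.relIndex K := by
  haveI : Fact s.Prime := ⟨hs⟩
  obtain ⟨S⟩ : Nonempty (Sylow s K) := inferInstance
  intro hd
  apply S.not_dvd_index
  refine hd.trans ?_
  apply Subgroup.index_dvd_of_le
  intro u hu
  rw [Subgroup.mem_subgroupOf]
  apply h u u.2
  obtain ⟨k, hk⟩ := (H70.RegT.isPGroup_iff_pow (S : Subgroup K)).mp S.2 u hu
  obtain ⟨j, -, hj⟩ := (Nat.dvd_prime_pow hs).mp (orderOf_dvd_of_pow_eq_one hk)
  exact ⟨j, by rw [Subgroup.orderOf_coe]; exact hj⟩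

/-- a noncentral `s`-element of `K` -/
theorem dvd_relIndex {s k : ℕ} (hs : s.Prime) {K : Subgroup G} {u : G} (hu : u ∈ K)
    (huk : orderOf u = s ^ k) (hc : u ∉ center G) : s ∣ (center G).relIndex K := by
  by_contra hd
  apply hc
  have h1 := Subgroup.pow_index_mem ((center G).subgroupOf K) ⟨u, hu⟩
  have h2 : u ^ ((center G).relIndex K) ∈ center G := by
    rw [mem_subgroupOf] at h1
    exact h1
  have h3 : u ^ (s ^ k) ∈ center G := by rw [← huk, pow_orderOf_eq_one]; exact one_mem _
  refine H3.LocalNPC.mem_of_pow_mem_of_coprime ?_ h2 h3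
  exact Nat.Coprime.pow_right k ((Nat.Prime.coprime_iff_not_dvd hs).mpr hd).symm

theorem center_le_C (x : G) : center G ≤ C x := by
  intro z hz
  exact memC.mpr (mem_center_iff.mp hz x).symm

theorem rel_mul (x : G) : (center G).relIndex (C x) * cs x = (center G).index :=
  Subgroup.relIndex_mul_index (center_le_C x)

/-- an element of a subgroup, all of whose primary powers are central in a subgroup -/
theorem comm_of_primary {K : Subgroup G}
    (h : ∀ u ∈ K, (∃ q k : ℕ, q.Prime ∧ orderOf u = q ^ k) → K ≤ C u) {u : G} (hu : u ∈ K) : K ≤ C u := by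
  intro g hg
  by_contra hgb
  have h5 : u ∉ C g := fun h => hgb (memC_comm.mp h)
  obtain ⟨j, s, k, hs, hk, hj⟩ := exists_primary_pow h5
  exact hj (memC_comm.mp (h (u ^ j) (K.pow_mem hu j) ⟨s, k, hs, hk⟩ hg))

end gen

/-- class sizes `1, a, b, ab` -/
structure PP (G : Type u) [Group G] [Finite G] (a b : ℕ) : Prop where
  typ : ∀ x : G, cs x = 1 ∨ cs x = a ∨ cs x = b ∨ cs x = a * b
  exa : ∃ x : G, cs x = a
  exb : ∃ x : G, cs x = b
  exc : ∃ x : G, cs x = a * b
  cop : a.Coprime b
  a1 : 1 < a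
  b1 : 1 < b

namespace PP

variable {G : Type u} [Group G] [Finite G] {a b : ℕ}

theorem symm (H : PP G a b) : PP G b a :=
  { typ := fun x => by rcases H.typ x with h | h | h | h <;> simp [h, mul_comm]
    exa := H.exb, exb := H.exa, exc := by rw [mul_comm]; exact H.exc, cop := H.cop.symm
    a1 := H.b1, b1 := H.a1 }

variable (H : PP G a b)
include H

theorem nab : ¬ a ∣ b := fun h => by
  have h1 := H.cop.eq_one_of_dvd h
  have := H.a1
  omega

theorem nba : ¬ b ∣ a := H.symm.nab

theorem lta : a < a * b := by have := H.a1; have := H.b1; nlinarith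

theorem ltb : b < a * b := by have := H.a1; have := H.b1; nlinarith

theorem mula {x : G} (h : a ∣ cs x) : cs x = a ∨ cs x = a * b := by
  rcases H.typ x with h1 | h1 | h1 | h1
  · rw [h1] at h; have := Nat.dvd_one.mp h; have := H.a1; omega
  · exact Or.inl h1
  · rw [h1] at h; exact (H.nab h).elim
  · exact Or.inr h1

theorem mulb {x : G} (h : b ∣ cs x) : cs x = b ∨ cs x = a * b := by
  rcases H.typ x with h1 | h1 | h1 | h1
  · rw [h1] at h; have := Nat.dvd_one.mp h; have := H.b1; omega
  · rw [h1] at h; exact (H.nba h).elim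
  · exact Or.inl h1
  · exact Or.inr h1

theorem dva {x : G} (hx : x ∉ center G) (h : cs x ∣ a) : cs x = a := by
  rcases H.typ x with h1 | h1 | h1 | h1
  · exact (hx ((cs_eq_one x).mp h1)).elim
  · exact h1
  · rw [h1] at h; exact (H.nba h).elim
  · rw [h1] at h
    have := Nat.le_of_dvd (by have := H.a1; omega) h
    have := H.lta
    omega

theorem le (x : G) : cs x ≤ a * b := by
  have := H.lta
  have := H.ltb
  have := H.a1
  rcases H.typ x with h1 | h1 | h1 | h1 <;> omega

theorem nc_a {x : G} (hx : cs x = a) : x ∉ center G := by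
  intro h
  rw [(cs_eq_one x).mpr h] at hx
  have := H.a1
  omega

theorem nc_c {x : G} (hx : cs x = a * b) : x ∉ center G := by
  intro h
  rw [(cs_eq_one x).mpr h] at hx
  have := H.a1
  have := H.lta
  omega

/-- no abelian centraliser of an element of type `a` -/
theorem AB {x : G} (hx : cs x = a) (hab : ∀ u ∈ C x, C x ≤ C u) : False := by
  obtain ⟨y, hy⟩ := H.exb
  obtain ⟨v, hv⟩ := H.exc
  have h1 : C x ⊓ C y ≤ center G := by
    intro w hw
    obtain ⟨hw1, hw2⟩ := Subgroup.mem_inf.mp hw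
    by_contra hwc
    have h2 := hab w hw1
    have h3 := H.dva hwc (hx ▸ cs_dvd_of_le h2)
    have h4 : C w ≤ C x := cent_eq_of_le h2 (by rw [hx, h3])
    have h5 : y ∈ C x := h4 (memC_comm.mp hw2)
    have h6 := cs_dvd_of_le (hab y h5)
    rw [hx, hy] at h6
    exact H.nba h6
  have h2 : (C x ⊓ C y).index = a * b := by
    rw [H72.CoprimeIndex.index_inf_of_coprime]
    · change cs x * cs y = _
      rw [hx, hy]
    · change (cs x).Coprime (cs y)
      rw [hx, hy]; exact H.cop
  have h3 : C x ⊓ C y = center G := le_antisymm h1 (le_inf (center_le_C x) (center_le_C y))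
  rw [h3] at h2
  have h4 := rel_mul v
  rw [h2, hv] at h4
  have h5 : (center G).relIndex (C v) = 1 := by
    have h6 : 0 < a * b := by have := H.lta; omega
    exact Nat.eq_of_mul_eq_mul_right h6 (by rw [h4, one_mul])
  rw [Subgroup.relIndex_eq_one] at h5
  exact H.nc_c hv (h5 (self_memC v))

/-- a noncentral `l`-element in a centraliser, `l` dividing `b` -/
theorem exists_nc_elem {x : G} (hx : cs x = a) {l : ℕ} (hl : l.Prime) (hlb : l ∣ b) :
    ∃ u ∈ C x, (∃ k : ℕ, orderOf u = l ^ k) ∧ u ∉ center G := by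
  by_contra hcon
  push Not at hcon
  have h1 : ¬ l ∣ (center G).relIndex (C x) := not_dvd_relIndex hl hcon
  obtain ⟨y, hy⟩ := H.exb
  have h2 := rel_mul x
  have h3 := rel_mul y
  rw [hx, ← h3, hy] at h2
  have h4 : l ∣ (center G).relIndex (C x) * a := by rw [h2]; exact Dvd.dvd.mul_left hlb _
  rcases (hl.dvd_mul.mp h4) with h5 | h5
  · exact h1 h5
  · have h6 := Nat.dvd_gcd h5 hlb
    rw [H.cop] at h6
    exact hl.one_lt.ne' (Nat.dvd_one.mp h6)

theorem C_mul_a {x w : G} (hx : cs x = a) (hxw : x * w = w * x)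
    (ho : (orderOf x).Coprime (orderOf w)) (hw : ¬ C x ≤ C w) : cs (x * w) = a * b := by
  have h1 := C_mul hxw ho
  have h2 : C (x * w) ≤ C x := by rw [h1]; exact inf_le_left
  rcases H.mula (x := x * w) (hx ▸ cs_dvd_of_le h2) with h3 | h3
  · exfalso
    apply hw
    have h4 : C x ≤ C (x * w) := cent_eq_of_le h2 (by rw [h3, hx])
    refine h4.trans ?_
    change C (x * w) ≤ C w
    rw [h1]; exact inf_le_right
  · exact h3

/-- the relative index is `b` -/
theorem rel_b {x w : G} (hx : cs x = a) (hxw : x * w = w * x)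
    (ho : (orderOf x).Coprime (orderOf w)) (hw : ¬ C x ≤ C w) : (C w).relIndex (C x) = b := by
  have h1 := H.C_mul_a hx hxw ho hw
  have h2 := C_mul hxw ho
  have h3 : (C x ⊓ C w).relIndex (C x) * (C x).index = (C x ⊓ C w).index :=
    Subgroup.relIndex_mul_index inf_le_left
  rw [Subgroup.inf_relIndex_left, ← h2] at h3
  change (C w).relIndex (C x) * cs x = cs (x * w) at h3
  rw [h1, hx, mul_comm] at h3
  exact Nat.eq_of_mul_eq_mul_left (by have := H.a1; omega) h3

/-- main step -/
theorem stepA (hb : ¬ IsPrimePow b) {x : G} {r k : ℕ} (hr : r.Prime) (hxk : orderOf x = r ^ k)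
    (hx : cs x = a) : r ∣ b ∧ ∀ s : ℕ, s.Prime → ¬ s ∣ b → ∀ u ∈ C x, (∃ j : ℕ, orderOf u = s ^ j) →
      C x ≤ C u := by
  have hb0 : b ≠ 0 := by have := H.b1; omega
  have hnotpow : ∀ q : ℕ, q.Prime → (∀ s : ℕ, s.Prime → s ≠ q → ¬ s ∣ b) → False := by
    intro q hq h
    apply hb
    have h1 := Nat.eq_prime_pow_of_unique_prime_dvd hb0 (p := q) (fun {d} hd hdd => by
      by_contra hne
      exact h d hd hne hdd)
    rw [isPrimePow_nat_iff]
    refine ⟨q, _, hq, ?_, h1.symm⟩
    by_contra h2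
    have h3 : b.primeFactorsList.length = 0 := by omega
    rw [h3, pow_zero] at h1
    have := H.b1
    omega
  -- the first possibility
  have h1 : ∃ w ∈ C x, (orderOf w).Coprime r ∧ ¬ C x ≤ C w := by
    by_contra hcon
    push Not at hcon
    obtain ⟨l, hl, hlr, hlb⟩ : ∃ l : ℕ, l.Prime ∧ l ≠ r ∧ l ∣ b := by
      by_contra hcon2
      push Not at hcon2
      exact hnotpow r hr (fun s hs hsr => hcon2 s hs hsr)
    obtain ⟨u, hux, ⟨j, hj⟩, huc⟩ := H.exists_nc_elem hx hl hlb
    have hcopu : (orderOf u).Coprime r := by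
      rw [hj]; exact Nat.Coprime.pow_left j ((Nat.coprime_primes hl hr).mpr hlr)
    have h2 := hcon u hux hcopu
    have h3 := H.dva huc (hx ▸ cs_dvd_of_le h2)
    have h4 : C u ≤ C x := cent_eq_of_le h2 (by rw [hx, h3])
    apply H.AB hx
    intro v hv
    apply comm_of_primary _ hv
    rintro w hw ⟨s, i, hs, hi⟩
    by_contra hwn
    have hsr : s = r := by
      by_contra hsr
      apply hwn
      apply hcon w hw
      rw [hi]; exact Nat.Coprime.pow_left i ((Nat.coprime_primes hs hr).mpr hsr)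
    subst hsr
    have hcopuw : (orderOf u).Coprime (orderOf w) := by
      rw [hj, hi]
      exact Nat.Coprime.pow j i ((Nat.coprime_primes hl hs).mpr hlr)
    have h5 : u * w = w * u := (memC.mp (h2 hw)).symm
    have h6 := H.rel_b h3 h5 hcopuw (fun h => hwn (h2.trans h))
    apply hnotpow s hs
    intro t ht hts htb
    rw [← h6] at htb
    apply not_dvd_relIndex ht _ htb
    rintro g hg ⟨m, hm⟩
    have h7 : C x ≤ C g := by
      apply hcon g (h4 hg)
      rw [hm]; exact Nat.Coprime.pow_left m ((Nat.coprime_primes ht hs).mpr hts)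
    exact memC_comm.mp (h7 hw)
  obtain ⟨w0, hw0, hw0o, hw0n⟩ := h1
  -- dichotomy
  have key : ∀ w : C x, H70.RegT.X r w →
      Nat.card (centralizer ({w} : Set (C x))) * (a * b) = Nat.card G := by
    rintro w ⟨hwo, hwc⟩
    have hcop : (orderOf x).Coprime (orderOf (w : G)) := by
      rw [hxk, Subgroup.orderOf_coe]
      exact Nat.Coprime.pow_left k hwo.symm
    have hxw : x * (w : G) = w * x := (mem_centralizer_singleton_iff.mp w.2).symm
    rw [H70.RegT.card_cent_sub w hcop, ← H.C_mul_a hx hxw hcop]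
    · exact Subgroup.card_mul_index _
    · intro h
      apply hwc
      rw [mem_center_iff]
      intro g
      exact Subtype.ext (memC.mp (h g.2))
  have hX0 : H70.RegT.X r (⟨w0, hw0⟩ : C x) := by
    refine ⟨by rw [← Subgroup.orderOf_coe]; exact hw0o, ?_⟩
    intro h
    apply hw0n
    intro g hg
    exact memC.mpr (congrArg Subtype.val (mem_center_iff.mp h ⟨g, hg⟩))
  have hab0 : 0 < a * b := by have := H.lta; omega
  have hcopx : (orderOf x).Coprime (orderOf w0) := by
    rw [hxk]; exact Nat.Coprime.pow_left k hw0o.symm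
  have hrelb := H.rel_b hx (memC.mp hw0).symm hcopx hw0n
  rcases H70.RegT.dichotomy hr (fun v w hv hw =>
    Nat.eq_of_mul_eq_mul_right hab0 ((key v hv).trans (key w hw).symm)) ⟨_, hX0⟩ with
    ⟨q, hq, hqr, h⟩ | ⟨-, h⟩
  · have hcen : ∀ s : ℕ, s.Prime → s ≠ r → s ≠ q → ∀ u ∈ C x, (∃ j : ℕ, orderOf u = s ^ j) → C x ≤ C u := by
      rintro s hs hsr hsq u hu ⟨j, hj⟩ g hg
      have h2 := h s hs hsr hsq ⟨u, hu⟩ ⟨j, Subtype.ext (by
        rw [Subgroup.coe_pow, Subgroup.coe_one]
        exact (by rw [← hj]; exact pow_orderOf_eq_one u))⟩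
      exact memC.mpr (congrArg Subtype.val (mem_center_iff.mp h2 ⟨g, hg⟩))
    have hprimes : ∀ s : ℕ, s.Prime → s ∣ b → s = r ∨ s = q := by
      intro s hs hsb
      by_contra hcon
      push Not at hcon
      rw [← hrelb] at hsb
      apply not_dvd_relIndex hs _ hsb
      rintro g hg ⟨m, hm⟩
      exact memC_comm.mp (hcen s hs hcon.1 hcon.2 g hg ⟨m, hm⟩ hw0)
    have hrb : r ∣ b := by
      by_contra hrb
      apply hnotpow q hq
      intro s hs hsq hsb
      rcases hprimes s hs hsb with h1 | h1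
      · rw [h1] at hsb; exact hrb hsb
      · exact hsq h1
    have hqb : q ∣ b := by
      by_contra hqb
      apply hnotpow r hr
      intro s hs hsr hsb
      rcases hprimes s hs hsb with h1 | h1
      · exact hsr h1
      · rw [h1] at hsb; exact hqb hsb
    refine ⟨hrb, ?_⟩
    intro s hs hsb
    apply hcen s hs
    · rintro rfl; exact hsb hrb
    · rintro rfl; exact hsb hqb
  · exfalso
    apply hnotpow r hr
    intro s hs hsr hsb
    have h2 := h _ hX0 s hs hsr
    have h3 := Subgroup.card_mul_index (centralizer ({(⟨w0, hw0⟩ : C x)} : Set (C x)))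
    have h4 : (centralizer ({(⟨w0, hw0⟩ : C x)} : Set (C x))).index = b := by
      have h5 := key _ hX0
      have h6 := card_C x
      rw [hx, ← h3, ← h5] at h6
      have h7 : 0 < Nat.card (centralizer ({(⟨w0, hw0⟩ : C x)} : Set (C x))) := Nat.card_pos
      have h8 : 0 < a := by have := H.a1; omega
      apply Nat.eq_of_mul_eq_mul_left h7
      apply Nat.eq_of_mul_eq_mul_right h8
      rw [h6]; ring
    rw [h4] at h3
    rw [← h3, Nat.factorization_mul Nat.card_pos.ne' hb0, Finsupp.add_apply] at h2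
    have h5 : 0 < b.factorization s := hs.factorization_pos_of_dvd hb0 hsb
    omega

theorem isPrimePow_b : IsPrimePow b := by
  by_contra hb
  have ha0 : 0 < a := by have := H.a1; omega
  have hb0 : 0 < b := by have := H.b1; omega
  -- a primary element of type `a`
  obtain ⟨x, r, k, hr, hxk, hx⟩ : ∃ x : G, ∃ r k : ℕ, r.Prime ∧ orderOf x = r ^ k ∧ cs x = a := by
    obtain ⟨x, hx⟩ := H.exa
    obtain ⟨j, q, k, hq, hk, hj⟩ := exists_primary_pow (H.nc_a hx)
    exact ⟨x ^ j, q, k, hq, hk, H.dva hj (hx ▸ cs_pow_dvd x j)⟩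
  obtain ⟨-, hcen⟩ := H.stepA hb hr hxk hx
  -- elements of order prime to `b` in the centraliser are central
  have hZ : ∀ s : ℕ, s.Prime → ¬ s ∣ b → ∀ u ∈ C x, (∃ j : ℕ, orderOf u = s ^ j) → u ∈ center G := by
    rintro s hs hsb u hu ⟨j, hj⟩
    by_contra huc
    have h1 := hcen s hs hsb u hu ⟨j, hj⟩
    have h2 := H.dva huc (hx ▸ cs_dvd_of_le h1)
    exact hsb (H.stepA hb hs hj h2).1
  have hrel : ∀ s : ℕ, s.Prime → ¬ s ∣ b → ¬ s ∣ (center G).relIndex (C x) := fun s hs hsb =>
    not_dvd_relIndex hs (fun u hu h => hZ s hs hsb u hu h)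
  have hrelx := rel_mul x
  rw [hx] at hrelx
  have hrelc : ∀ v : G, cs v = a * b → (center G).relIndex (C v) * b = (center G).relIndex (C x) := by
    intro v hv
    have h1 := rel_mul v
    rw [hv, ← hrelx] at h1
    apply Nat.eq_of_mul_eq_mul_right ha0
    rw [← h1]; ring
  have hc : ∀ v : G, cs v = a * b → ∀ s : ℕ, s.Prime → ¬ s ∣ b → ∀ u ∈ C v, (∃ j : ℕ, orderOf u = s ^ j) →
      u ∈ center G := by
    rintro v hv s hs hsb u hu ⟨j, hj⟩
    by_contra huc
    have h1 := dvd_relIndex hs hu hj huc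
    apply hrel s hs hsb
    rw [← hrelc v hv]
    exact Dvd.dvd.mul_right h1 _
  -- a `p`-element of type `b`
  obtain ⟨p, hp, hpa⟩ := Nat.exists_prime_and_dvd H.a1.ne'
  have hpb : ¬ p ∣ b := by
    intro h
    have h1 := Nat.dvd_gcd hpa h
    rw [H.cop] at h1
    exact hp.one_lt.ne' (Nat.dvd_one.mp h1)
  have htype : ∀ u : G, (∃ j : ℕ, orderOf u = p ^ j) → u ∉ center G → cs u = b := by
    rintro u ⟨j, hj⟩ huc
    rcases H.typ u with h | h | h | h
    · exact (huc ((cs_eq_one u).mp h)).elim
    · exact (hpb (H.stepA hb hp hj h).1).elim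
    · exact h
    · exact (huc (hc u h p hp hpb u (self_memC u) ⟨j, hj⟩)).elim
  obtain ⟨y, ⟨j, hj⟩, hyc⟩ : ∃ y : G, (∃ j : ℕ, orderOf y = p ^ j) ∧ y ∉ center G := by
    by_contra hcon
    push Not at hcon
    have h1 : ¬ p ∣ (center G).relIndex ⊤ := not_dvd_relIndex hp (fun u _ h => hcon u h)
    rw [Subgroup.relIndex_top_right] at h1
    apply h1
    rw [← hrelx]
    exact Dvd.dvd.mul_left hpa _
  have hyb := htype y ⟨j, hj⟩ hyc
  -- `p`-regular elements
  have hreg : ∀ w ∈ C y, (orderOf w).Coprime p → C y ≤ C w := by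
    intro w hw hwo
    have hcop : (orderOf y).Coprime (orderOf w) := by
      rw [hj]; exact Nat.Coprime.pow_left j hwo.symm
    by_contra hn
    have h1 := H.symm.C_mul_a hyb (memC.mp hw).symm hcop hn
    rw [mul_comm b a] at h1
    apply hyc
    refine hc _ h1 p hp hpb y ?_ ⟨j, hj⟩
    rw [memC]
    have h2 : Commute y (y * w) := (Commute.refl y).mul_right (show Commute y w from (memC.mp hw).symm)
    exact h2.eq
  have hregZ : ∀ w ∈ C y, (orderOf w).Coprime p → w ∈ center G := by
    intro w hw hwo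
    by_contra hwc
    have h1 := hreg w hw hwo
    have h2 := H.symm.dva hwc (hyb ▸ cs_dvd_of_le h1)
    have h3 : C w ≤ C y := cent_eq_of_le h1 (by rw [hyb, h2])
    apply H.symm.AB hyb
    intro v hv
    apply comm_of_primary _ hv
    rintro e he ⟨s, i, hs, hi⟩
    by_cases hsp : s = p
    · subst hsp
      by_cases hec : e ∈ center G
      · intro g _
        exact memC.mpr (mem_center_iff.mp hec g)
      · have hcop : (orderOf w).Coprime (orderOf e) := by
          rw [hi]; exact Nat.Coprime.pow_right i hwo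
        have hwe : w * e = e * w := (memC.mp (h1 he)).symm
        by_contra hn
        have h4 := H.symm.C_mul_a h2 hwe hcop (fun h => hn (h1.trans h))
        rw [mul_comm b a] at h4
        apply hec
        refine hc _ h4 s hs hpb e ?_ ⟨i, hi⟩
        rw [memC]
        have h5 : Commute e (w * e) := (show Commute e w from hwe.symm).mul_right (Commute.refl e)
        exact h5.eq
    · exact hreg e he (by rw [hi]; exact Nat.Coprime.pow_left i ((Nat.coprime_primes hs hp).mpr hsp))
  -- the index of the centre in `C y` is a power of `p`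
  have hrely : ∀ s : ℕ, s.Prime → s ≠ p → ¬ s ∣ (center G).relIndex (C y) := by
    intro s hs hsp
    apply not_dvd_relIndex hs
    rintro u hu ⟨i, hi⟩
    exact hregZ u hu (by rw [hi]; exact Nat.Coprime.pow_left i ((Nat.coprime_primes hs hp).mpr hsp))
  obtain ⟨v, hv⟩ := H.exc
  have h1 := rel_mul y
  have h2 := rel_mul v
  rw [hyb] at h1
  rw [hv] at h2
  have h3 : (center G).relIndex (C y) = (center G).relIndex (C v) * a := by
    apply Nat.eq_of_mul_eq_mul_right hb0
    rw [h1, ← h2]; ring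
  have h4 : (center G).relIndex (C v) = 1 := by
    by_contra hne
    obtain ⟨s, hs, hsd⟩ := Nat.exists_prime_and_dvd hne
    by_cases hsp : s = p
    · rw [hsp] at hsd
      apply hrel p hp hpb
      rw [← hrelc v hv]
      exact Dvd.dvd.mul_right hsd _
    · apply hrely s hs hsp
      rw [h3]
      exact Dvd.dvd.mul_right hsd _
  rw [Subgroup.relIndex_eq_one] at h4
  exact H.nc_c hv (h4 (self_memC v))

theorem isPrimePow_a : IsPrimePow a := H.symm.isPrimePow_b

/-- all primary elements for other primes are central -/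
theorem central_other {r : ℕ} (hr : r.Prime) (hra : ¬ r ∣ a) (hrb : ¬ r ∣ b) {z : G}
    (hz : ∃ k : ℕ, z ^ (r ^ k) = 1) : z ∈ center G := by
  apply H70.RegT.central_of_index hr _ hz
  intro g
  have h1 := card_C g
  rw [← h1, Nat.factorization_mul Nat.card_pos.ne' (cs_pos g).ne', Finsupp.add_apply]
  have h2 : ¬ r ∣ cs g := by
    rcases H.typ g with h | h | h | h
    · rw [h]; intro h3; exact hr.one_lt.ne' (Nat.dvd_one.mp h3)
    · rw [h]; exact hra
    · rw [h]; exact hrb
    · rw [h]; intro h3; rcases hr.dvd_mul.mp h3 with h4 | h4; exacts [hra h4, hrb h4]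
  rw [Nat.factorization_eq_zero_of_not_dvd h2]
  rfl

theorem solvable : Group.IsSolvable G := by
  obtain ⟨p, m, hp, -, hm⟩ := (isPrimePow_nat_iff a).mp H.isPrimePow_a
  obtain ⟨q, n, hq, -, hn⟩ := (isPrimePow_nat_iff b).mp H.isPrimePow_b
  apply H70.RegT.isSolvable_of_central hp hq
  intro r hr hrp hrq y hy
  apply H.central_other hr _ _ hy
  · rw [← hm]; intro h; exact hrp ((Nat.prime_dvd_prime_iff_eq hr hp).mp (hr.dvd_of_dvd_pow h))
  · rw [← hn]; intro h; exact hrq ((Nat.prime_dvd_prime_iff_eq hr hq).mp (hr.dvd_of_dvd_pow h))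

end PP

end H72.ItoZ
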