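import Mathlib
import Cfsg.Agent.Lib.H72.ItoZ3
import Cfsg.Agent.Lib.H38.Pron7
import Cfsg.Agent.Lib.H29.PGrp
import Cfsg.Agent.Lib.H13.Cores
import Cfsg.Agent.S0028
import Cfsg.Agent.S0041

/-!
The case where `b` does not divide `c`: reduction to an abelian centraliser.
-/
set_option autoImplicit false
set_option linter.unusedSectionVars false
set_option linter.style.haveILetI false

namespace H72.ItoZ

open Subgroup H72.TwoLargest H74.Ito3 H70.SolvRad

universe u

section gen

variable {G : Type u} [Group G] [Finite G]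

/-- the `P × Q` lemma for elements -/
theorem pq_elem {p : ℕ} [hp : Fact p.Prime] {U : Subgroup G} [U.Normal] (hU : IsPGroup p U) {s u : G}
    (hs : ∃ k : ℕ, orderOf s = p ^ k) (hu : (orderOf u).Coprime p) (hsu : s * u = u * s)
    (h : ∀ v ∈ U, v * s = s * v → v * u = u * v) : ∀ v ∈ U, v * u = u * v := by
  have h1 : zpowers u ≤ centralizer (U : Set G) := by
    apply Cfsg.Agent.S0028.result p (zpowers s) (zpowers u) U
    · obtain ⟨k, hk⟩ := hs
      exact IsPGroup.of_card (n := k) (by rw [Nat.card_zpowers, hk])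
    · rw [Nat.card_zpowers]; exact hu
    · exact hU
    · rw [zpowers_le, mem_centralizer_iff]
      rintro _ ⟨k, rfl⟩
      exact ((show Commute s u from hsu).symm.zpow_left k).eq
    · rw [normalizer_eq_top]; exact le_top
    · rw [normalizer_eq_top]; exact le_top
    · intro v hv
      obtain ⟨hv1, hv2⟩ := Subgroup.mem_inf.mp hv
      rw [mem_centralizer_iff] at hv2 ⊢
      have h2 := h v hv1 (hv2 s (mem_zpowers s)).symm
      rintro _ ⟨k, rfl⟩
      exact ((show Commute v u from h2).symm.zpow_left k).eq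
  intro v hv
  have h2 := h1 (mem_zpowers u)
  rw [mem_centralizer_iff] at h2
  exact h2 v hv

/-- no nontrivial `p`-regular elements -/
theorem isPGroup_of {p : ℕ} (hp : p.Prime) {K : Subgroup G}
    (h : ∀ w ∈ K, (orderOf w).Coprime p → w = 1) : IsPGroup p K := by
  have : Fact p.Prime := ⟨hp⟩
  rw [H70.RegT.isPGroup_iff_pow]
  intro y hy
  have ho : orderOf y ≠ 0 := (orderOf_pos y).ne'
  obtain ⟨k, m, hm, hkm⟩ := Nat.exists_eq_pow_mul_and_not_dvd ho p hp.ne_one
  refine ⟨k, ?_⟩
  apply h _ (K.pow_mem hy _)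
  have h1 : orderOf (y ^ (p ^ k)) ∣ m := by
    apply orderOf_dvd_of_pow_eq_one
    rw [← pow_mul, ← hkm, pow_orderOf_eq_one]
  exact Nat.Coprime.coprime_dvd_left h1 ((Nat.Prime.coprime_iff_not_dvd hp).mpr hm).symm

/-- elements of a Sylow subgroup's primes are conjugate into a subgroup of index prime to `r` -/
theorem exists_conj_mem {r : ℕ} (hr : r.Prime) {K P : Subgroup G} (hP : IsPGroup r P) (h : ¬ r ∣ K.index) :
    ∃ g : G, ∀ v ∈ P, g * v * g⁻¹ ∈ K := by
  have : Fact r.Prime := ⟨hr⟩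
  have h1 := hP.nonempty_fixed_point_of_prime_not_dvd_card (α := G ⧸ K)
    (by rw [← Subgroup.index_eq_card]; exact h)
  obtain ⟨q, hq⟩ := h1
  obtain ⟨g, rfl⟩ := QuotientGroup.mk_surjective q
  refine ⟨g⁻¹, ?_⟩
  intro v hv
  have h2 := hq ⟨v, hv⟩
  have h3 : (QuotientGroup.mk (v * g) : G ⧸ K) = QuotientGroup.mk g := h2
  rw [QuotientGroup.eq] at h3
  have h4 := K.inv_mem h3
  have h5 : ((v * g)⁻¹ * g)⁻¹ = g⁻¹ * v * g⁻¹⁻¹ := by group
  rwa [h5] at h4

theorem orderOf_pow_of_dvd_pow {p m : ℕ} (hp : p.Prime) {w : G} (h : w ^ (p ^ m) = 1) :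
    ∃ k : ℕ, orderOf w = p ^ k := by
  obtain ⟨j, -, hj⟩ := (Nat.dvd_prime_pow hp).mp (orderOf_dvd_of_pow_eq_one h)
  exact ⟨j, hj⟩

/-- index of the solvable radical prime to `p` -/
theorem not_dvd_index_srad {p : ℕ} (hp : p.Prime)
    (h : ∀ w : G, w ≠ 1 → (∃ k : ℕ, orderOf w = p ^ k) → w ∈ srad G) : ¬ p ∣ (srad G).index := by
  intro hd
  have : Fact p.Prime := ⟨hp⟩
  obtain ⟨Q⟩ : Nonempty (Sylow p G) := inferInstance
  have h3 : (Q : Subgroup G) ≤ srad G := by
    intro w hw
    by_cases hw1 : w = 1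
    · rw [hw1]; exact one_mem _
    obtain ⟨k, hk⟩ := (H70.RegT.isPGroup_iff_pow (Q : Subgroup G)).mp Q.2 w hw
    exact h w hw1 (orderOf_pow_of_dvd_pow hp hk)
  exact Q.not_dvd_index (hd.trans (Subgroup.index_dvd_of_le h3))

/-- in a cyclic subgroup, elements of the same order generate the same subgroup -/
theorem mem_zpowers_of_cyclic {B : Subgroup G} (hB : IsCyclic B) {x y : G} (hx : x ∈ B) (hy : y ∈ B)
    (h : orderOf x = orderOf y) : y ∈ zpowers x := by
  classical
  letI := Fintype.ofFinite B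
  have hcard : orderOf (⟨x, hx⟩ : B) = orderOf (⟨y, hy⟩ : B) := by
    rw [Subgroup.orderOf_mk, Subgroup.orderOf_mk, h]
  have h1 := IsCyclic.card_pow_eq_one_le (α := B) (orderOf_pos (⟨x, hx⟩ : B))
  have h2 : (Finset.univ.filter (fun z : B => z ∈ zpowers (⟨x, hx⟩ : B))) ⊆
      Finset.univ.filter (fun z : B => z ^ orderOf (⟨x, hx⟩ : B) = 1) := by
    intro z hz
    simp only [Finset.mem_filter, Finset.mem_univ, true_and] at hz ⊢
    rw [← orderOf_dvd_iff_pow_eq_one]
    exact orderOf_dvd_of_mem_zpowers hz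
  have h3 : (Finset.univ.filter (fun z : B => z ∈ zpowers (⟨x, hx⟩ : B))).card =
      orderOf (⟨x, hx⟩ : B) := by
    rw [← Nat.card_zpowers, Nat.card_eq_fintype_card, Fintype.card_subtype]
  have h4 := Finset.eq_of_subset_of_card_le h2 (by rw [h3]; exact h1)
  have h5 : (⟨y, hy⟩ : B) ∈ Finset.univ.filter (fun z : B => z ∈ zpowers (⟨x, hx⟩ : B)) := by
    rw [h4]
    simp only [Finset.mem_filter, Finset.mem_univ, true_and]
    rw [hcard]
    exact pow_orderOf_eq_one _
  simp only [Finset.mem_filter, Finset.mem_univ, true_and] at h5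
  obtain ⟨k, hk⟩ := h5
  exact ⟨k, congrArg Subtype.val hk⟩

end gen

namespace Hy

variable {G : Type u} [Group G] [Finite G] {a b c : ℕ} (H : Hy G a b c)
include H

theorem regb (hnb : ¬ b ∣ c) {y w : G} (hy : cs y = b) (hyw : y * w = w * y)
    (ho : (orderOf y).Coprime (orderOf w)) : C y ≤ C w := by
  have h1 := C_mul hyw ho
  have h2 : C (y * w) ≤ C y := by rw [h1]; exact inf_le_left
  have h3 : cs y ∣ cs (y * w) := cs_dvd_of_le h2
  rw [hy] at h3
  have h4 : cs (y * w) = b := by
    rcases H.mulb h3 with h | h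
    · exact h
    · rw [h] at h3; exact (hnb h3).elim
  have h5 : C y ≤ C (y * w) := cent_eq_of_le h2 (by rw [h4, hy])
  refine h5.trans ?_
  rw [h1]; exact inf_le_right

theorem ab_of (hnb : ¬ b ∣ c) {p : ℕ} (hp : p.Prime) {y : G} (hy : orderOf y = p) (hyb : cs y = b)
    (h : ∃ w ∈ C y, w ≠ 1 ∧ (orderOf w).Coprime p) : ∀ u ∈ C y, C y ≤ C u := by
  obtain ⟨w, hw, hw1, hwo⟩ := h
  have h1 : C y ≤ C w := H.regb hnb hyb (memC.mp hw).symm (by rw [hy]; exact hwo.symm)
  have h2 := H.prb hyb hw1 h1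
  intro u hu
  apply comm_of_primary' _ hu
  rintro v hv ⟨s, k, hs, hk⟩
  by_cases hsp : s = p
  · subst hsp
    refine h1.trans ?_
    apply H.regb hnb h2 (memC.mp (h1 hv)).symm
    rw [hk]; exact Nat.Coprime.pow_right k hwo
  · apply H.regb hnb hyb (memC.mp hv).symm
    rw [hy, hk]
    exact Nat.Coprime.pow_right k ((Nat.coprime_primes hp hs).mpr (Ne.symm hsp))
where
  comm_of_primary' {K : Subgroup G}
    (h : ∀ u ∈ K, (∃ q k : ℕ, q.Prime ∧ orderOf u = q ^ k) → K ≤ C u) {u : G} (hu : u ∈ K) : K ≤ C u := by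
    intro g hg
    by_contra hgb
    have h5 : u ∉ C g := fun h => hgb (memC_comm.mp h)
    obtain ⟨j, s, k, hs, hk, hj⟩ := exists_primary_pow h5
    exact hj (memC_comm.mp (h (u ^ j) (K.pow_mem hu j) ⟨s, k, hs, hk⟩ hg))

/-- the case where the centralisers are `p`-groups -/
theorem caseI1 (hnb : ¬ b ∣ c) {p : ℕ} (hp : p.Prime) (hpa : p ∣ a)
    (hall : ∀ y : G, orderOf y = p → ¬ p ∣ cs y → ∀ w ∈ C y, (orderOf w).Coprime p → w = 1) :
    ∃ y : G, orderOf y = p ∧ cs y = b ∧ ∀ u ∈ C y, C y ≤ C u := by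
  haveI : Fact p.Prime := ⟨hp⟩
  obtain ⟨y0, hy0, hy0p⟩ := exists_ord hp (hpa.trans H.a_dvd)
  have hy0b := H.type_b hpa (ne_one_of_prime hp hy0) hy0p
  have hpb : ¬ p ∣ b := by rw [← hy0b]; exact hy0p
  have hb0 : 0 < b := by have := H.b1; omega
  have hPy := isPGroup_of hp (hall y0 hy0 hy0p)
  obtain ⟨m, hm⟩ := IsPGroup.iff_card.mp hPy
  have hG : p ^ m * b = Nat.card G := by rw [← hm, ← hy0b]; exact card_C y0
  have hcardb : ∀ v : G, cs v = b → Nat.card (C v) = p ^ m := fun v hv =>
    (card_C_eq (hv.trans hy0b.symm)).trans hm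
  have hregb : ∀ v : G, cs v = b → ∀ w ∈ C v, (orderOf w).Coprime p → w = 1 := by
    intro v hv w hw hwo
    have h1 : orderOf w ∣ p ^ m := by rw [← hcardb v hv]; exact Subgroup.orderOf_dvd_natCard _ hw
    have h2 := (Nat.Coprime.pow_right m hwo).eq_one_of_dvd h1
    exact orderOf_eq_one_iff.mp h2
  obtain ⟨i, -, hi⟩ : ∃ i ≤ m, a = p ^ i := by
    apply (Nat.dvd_prime_pow hp).mp
    have h1 : a ∣ p ^ m * b := by rw [hG]; exact H.a_dvd
    exact H.cop.dvd_of_dvd_mul_right h1
  have hKaz : ∀ x : G, cs x = a → x ∈ srad G := by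
    intro x hx
    exact H70.Kazarin.mem_srad _ G rfl x p i hp (by
      change cs x = _
      rw [hx, hi])
  obtain ⟨x0, r, hr, hx0r, hx0⟩ := H.exists_a_prime
  have hx01 := H.ne1a hx0
  by_cases hU : Cfsg.pCore p G = ⊥
  swap
  · exfalso
    set U := Cfsg.pCore p G with hUdef
    have hUp : IsPGroup p U := H13.Cores.isPGroup_pCore
    haveI hUn : U.Normal := by rw [hUdef]; infer_instance
    -- an element in the centre of a Sylow subgroup
    obtain ⟨y, hyU, hy, hyp⟩ : ∃ y ∈ U, orderOf y = p ∧ ¬ p ∣ cs y := by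
      obtain ⟨P⟩ : Nonempty (Sylow p G) := inferInstance
      have hUP : U ≤ (P : Subgroup G) := H13.Cores.pCore_le_sylow P
      have h1 := H29.PGrp.inf_center_ne_bot P.2 hUP (by rw [normalizer_eq_top]; exact le_top) hU
      obtain ⟨⟨z, hz⟩, hz1⟩ := Subgroup.ne_bot_iff_exists_ne_one.mp h1
      have hz1' : z ≠ 1 := fun h => hz1 (Subtype.ext h)
      obtain ⟨hzU, hzP⟩ := Subgroup.mem_inf.mp hz
      obtain ⟨k, s, hs, hk⟩ := exists_pow_prime hz1'
      have hsp : s = p := by
        obtain ⟨j, hj⟩ := (H70.RegT.isPGroup_iff_pow U).mp hUp z hzU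
        have h2 : s ∣ p ^ j := by
          rw [← hk]
          exact (orderOf_pow_dvd k).trans (orderOf_dvd_of_pow_eq_one hj)
        exact (Nat.prime_dvd_prime_iff_eq hs hp).mp (hs.dvd_of_dvd_pow h2)
      refine ⟨z ^ k, U.pow_mem hzU k, hk.trans hsp, ?_⟩
      intro hd
      apply P.not_dvd_index
      refine (hd.trans (cs_pow_dvd z k)).trans ?_
      apply Subgroup.index_dvd_of_le
      intro g hg
      rw [mem_centralizer_singleton_iff]
      exact mem_centralizer_iff.mp hzP g hg
    have hCU : ∀ u : G, (orderOf u).Coprime p → (∀ v ∈ U, v * u = u * v) → u = 1 := by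
      intro u huo hu
      exact hall y hy hyp u (memC.mpr (hu y hyU).symm) huo
    -- the centraliser of `U` is solvable
    have hCUR : centralizer (U : Set G) ≤ srad G := by
      apply le_srad inferInstance
      have h1 : centralizer (U : Set G) ≤ C y := by
        intro g hg
        exact memC.mpr (mem_centralizer_iff.mp hg y hyU).symm
      haveI := H.solv (ne_one_of_prime hp hy) hp (by rw [hy, pow_one] : orderOf y = p ^ 1)
      exact Group.isSolvable_of_isSolvable_injective (Subgroup.inclusion_injective h1)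
    have hall' : ∀ w : G, w ≠ 1 → (∃ k : ℕ, orderOf w = p ^ k) → w ∈ srad G := by
      intro w hw1 hwk
      rcases H.typ w hw1 with h | h | h
      · exact hKaz w h
      · apply hCUR
        -- the centraliser is a Sylow subgroup
        have h1 : IsPGroup p (C w) := IsPGroup.of_card (hcardb w h)
        obtain ⟨S, hS⟩ := h1.exists_le_sylow
        have h2 : C w = (S : Subgroup G) := by
          apply Subgroup.eq_of_le_of_card_ge hS
          rw [hcardb w h]
          obtain ⟨j, hj⟩ := IsPGroup.iff_card.mp S.2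
          rw [hj]
          apply Nat.le_of_dvd (pow_pos hp.pos _)
          have h3 : p ^ j ∣ p ^ m * b := by rw [← hj, hG]; exact Subgroup.card_subgroup_dvd_card _
          exact (Nat.Coprime.pow_left j ((Nat.Prime.coprime_iff_not_dvd hp).mpr hpb)).dvd_of_dvd_mul_right h3
        have h3 : U ≤ C w := by rw [h2]; exact H13.Cores.pCore_le_sylow S
        rw [mem_centralizer_iff]
        intro v hv
        exact memC.mp (h3 hv)
      · exfalso
        have h1 : IsPGroup p (C w) := by
          apply isPGroup_of hp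
          intro u hu huo
          have hcop : (orderOf u).Coprime (orderOf w) := by
            obtain ⟨k, hk⟩ := hwk
            rw [hk]; exact Nat.Coprime.pow_right k huo
          have h2 : C w ≤ C u := H.M3 (memC.mp hu) hcop h
          apply hCU u huo
          apply pq_elem hUp hwk huo (memC.mp hu).symm
          intro v _ hvw
          exact memC.mp (h2 (memC.mpr hvw))
        obtain ⟨j, hj⟩ := IsPGroup.iff_card.mp h1
        have h2 := card_C w
        rw [hj, h, ← hG] at h2
        apply hnb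
        have h3 : b ∣ p ^ j * c := by rw [h2]; exact dvd_mul_left b _
        exact (Nat.Coprime.pow_right j ((Nat.Prime.coprime_iff_not_dvd hp).mpr hpb).symm).dvd_of_dvd_mul_left h3
    apply H.ns
    apply solvable_of_cover (x := x0) (H.solv hx01 hr (by rw [hx0r, pow_one] : orderOf x0 = r ^ 1))
    rw [hx0, hi]
    apply Nat.Coprime.pow_left
    exact (Nat.Prime.coprime_iff_not_dvd hp).mpr (not_dvd_index_srad hp hall')
  -- `O_p(G) = 1`
  have hcore : ∀ N : Subgroup G, N.Normal → IsPGroup p N → N = ⊥ := by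
    intro N hN hNp
    rw [eq_bot_iff, ← hU]
    exact H13.Cores.le_pCore hN hNp
  have hna : ∀ x : G, (∃ k : ℕ, orderOf x = p ^ k) → cs x ≠ a := by
    rintro x ⟨k, hk⟩ hx
    have h1 : IsPGroup p (zpowers x) := IsPGroup.of_card (n := k) (by rw [Nat.card_zpowers, hk])
    obtain ⟨P, hP⟩ := h1.exists_le_sylow
    have hxP : x ∈ (P : Subgroup G) := hP (mem_zpowers x)
    have h2 : normalClosure ({x} : Set G) ≤ P := by
      rw [normalClosure, closure_le]
      intro z hz
      rw [Group.mem_conjugatesOfSet_iff] at hz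
      obtain ⟨w, hw, hc⟩ := hz
      rw [Set.mem_singleton_iff] at hw
      rw [hw] at hc
      obtain ⟨g, rfl⟩ := isConj_iff.mp hc
      have hcop : (C x).index.Coprime (P : Subgroup G).index := by
        change (cs x).Coprime _
        rw [hx, hi]
        exact Nat.Coprime.pow_left i ((Nat.Prime.coprime_iff_not_dvd hp).mpr P.not_dvd_index)
      obtain ⟨u, hu, v, hv, hg⟩ := H72.CoprimeIndex.exists_mul_of_coprime_index (C x) (P : Subgroup G) hcop g
      have h3 : g * x * g⁻¹ = u * x * u⁻¹ := by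
        have h4 : v * x * v⁻¹ = x := by rw [memC.mp hv]; group
        calc g * x * g⁻¹ = u * (v * x * v⁻¹) * u⁻¹ := by rw [hg]; group
          _ = _ := by rw [h4]
      rw [h3]
      exact mul_mem (mul_mem hu hxP) (inv_mem hu)
    have h3 := hcore _ inferInstance (P.2.to_le h2)
    have h4 : x ∈ normalClosure ({x} : Set G) := subset_normalClosure rfl
    rw [h3, Subgroup.mem_bot] at h4
    exact H.ne1a hx h4
  have hrp : r ≠ p := by
    rintro rfl
    exact hna x0 ⟨1, by rw [hx0r, pow_one]⟩ hx0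
  have hx0o : (orderOf x0).Coprime p := by rw [hx0r]; exact (Nat.coprime_primes hr hp).mpr hrp
  have hpx0 : ¬ p ∣ Nat.card (C x0) := by
    intro hd
    obtain ⟨u, hu, huo⟩ := exists_order hp hd
    rcases H.typ u (ne_one_of_prime hp huo) with h | h | h
    · exact hna u ⟨1, by rw [huo, pow_one]⟩ h
    · exact hx01 (hregb u h x0 (memC_comm.mp hu) hx0o)
    · have h1 : C u ≤ C x0 := H.M3 (memC.mp hu).symm (by rw [huo]; exact hx0o) h
      obtain ⟨y, hy, hyu, hyp⟩ := exists_syl' hp huo
      exact hx01 (hall y hy hyp x0 (memC_comm.mp (h1 hyu)) hx0o)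
  have ham : a = p ^ m := by
    have h1 := card_C x0
    rw [hx0, ← hG] at h1
    have h2 : p ^ m ∣ Nat.card (C x0) * a := by rw [h1]; exact dvd_mul_right _ _
    have h3 : p ^ m ∣ a :=
      (Nat.Coprime.pow_left m ((Nat.Prime.coprime_iff_not_dvd hp).mpr hpx0)).dvd_of_dvd_mul_left h2
    apply Nat.dvd_antisymm _ h3
    have h4 : a ∣ p ^ m * b := by rw [hG]; exact H.a_dvd
    exact H.cop.dvd_of_dvd_mul_right h4
  have hpb' : ∀ w : G, w ≠ 1 → (∃ k : ℕ, orderOf w = p ^ k) → cs w = b := by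
    intro w hw1 hwk
    rcases H.typ w hw1 with h | h | h
    · exact (hna w hwk h).elim
    · exact h
    · exfalso
      obtain ⟨k, hk⟩ := H.adc
      have h1 := card_C w
      rw [h, ← hG, ← ham, hk] at h1
      have h2 : Nat.card (C w) * k = b := by
        apply Nat.eq_of_mul_eq_mul_left (show 0 < a by have := H.a1; omega)
        rw [← h1]; ring
      apply hpb
      rw [← h2]
      apply Dvd.dvd.mul_right
      obtain ⟨j, hj⟩ := hwk
      have h3 : p ∣ orderOf w := by
        rw [hj]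
        apply dvd_pow_self
        rintro rfl
        rw [pow_zero, orderOf_eq_one_iff] at hj
        exact hw1 hj
      exact h3.trans (Subgroup.orderOf_dvd_natCard _ (self_memC w))
  -- an abelian normal subgroup
  have hRne : srad G ≠ ⊥ := by
    intro h
    have h1 := hKaz x0 hx0
    rw [h, Subgroup.mem_bot] at h1
    exact hx01 h1
  obtain ⟨A, hAn, -, hA1, hAc⟩ := H38.Pron.exists_abelian_normal _ (srad G) rfl hRne isSolvable_srad
  have hAp : ∀ v ∈ A, (∃ k : ℕ, orderOf v = p ^ k) → v = 1 := by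
    intro v hv hvk
    by_contra hv1
    have h1 := hpb' v hv1 hvk
    apply hA1
    apply hcore A hAn
    have h2 : IsPGroup p (C v) := IsPGroup.of_card (hcardb v h1)
    exact h2.to_le (fun w hw => memC.mpr (hAc w hw v hv))
  have hfpf : ∀ v : G, v ≠ 1 → (∃ k : ℕ, orderOf v = p ^ k) → A ⊓ centralizer {v} = ⊥ := by
    intro v hv1 hvk
    have h1 := hpb' v hv1 hvk
    rw [eq_bot_iff]
    intro w hw
    obtain ⟨hwA, hwv⟩ := Subgroup.mem_inf.mp hw
    rw [Subgroup.mem_bot]
    apply hAp w hwA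
    apply orderOf_pow_of_dvd_pow hp (m := m)
    rw [← orderOf_dvd_iff_pow_eq_one, ← hcardb v h1]
    exact Subgroup.orderOf_dvd_natCard _ hwv
  haveI hAm : IsMulCommutative A := ⟨⟨fun x y => Subtype.ext (hAc x x.2 y y.2)⟩⟩
  have huniq : ∀ v ∈ C y0, orderOf v = p → v ∈ zpowers y0 := by
    intro v hv hvo
    set B := zpowers y0 ⊔ zpowers v with hB
    have hBp : IsPGroup p B := by
      apply hPy.to_le
      rw [hB]
      apply sup_le
      · rw [zpowers_le]; exact self_memC y0
      · rw [zpowers_le]; exact hv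
    have hyB : y0 ∈ B := le_sup_left (a := zpowers y0) (mem_zpowers y0)
    have hvB : v ∈ B := le_sup_right (b := zpowers v) (mem_zpowers v)
    have hBc : IsMulCommutative B := by
      have h1 : B ≤ centralizer ({y0, v} : Set G) := by
        rw [hB]
        apply sup_le
        · rw [zpowers_le, mem_centralizer_iff]
          rintro w (rfl | hw)
          · rfl
          · rw [Set.mem_singleton_iff] at hw; rw [hw]; exact memC.mp hv
        · rw [zpowers_le, mem_centralizer_iff]
          rintro w (rfl | hw)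
          · exact (memC.mp hv).symm
          · rw [Set.mem_singleton_iff] at hw; rw [hw]
      refine ⟨⟨fun x y => Subtype.ext ?_⟩⟩
      have h2 : B ≤ centralizer ({(x : G)} : Set G) := by
        refine (le_of_eq hB).trans ?_
        apply sup_le
        · rw [zpowers_le, mem_centralizer_singleton_iff]
          exact mem_centralizer_iff.mp (h1 x.2) y0 (by simp)
        · rw [zpowers_le, mem_centralizer_singleton_iff]
          exact mem_centralizer_iff.mp (h1 x.2) v (by simp)
      exact (mem_centralizer_singleton_iff.mp (h2 y.2)).symm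
    have hcyc := Cfsg.Agent.S0041.result B A hA1 (by rw [normalizer_eq_top]; exact le_top)
      (by
        intro w hw hw1
        apply hfpf w hw1
        obtain ⟨k, hk⟩ := (H70.RegT.isPGroup_iff_pow B).mp hBp w hw
        exact orderOf_pow_of_dvd_pow hp hk) (Or.inl hBc)
    exact mem_zpowers_of_cyclic hcyc hyB hvB (hy0.trans hvo.symm)
  refine ⟨y0, hy0, hy0b, ?_⟩
  intro u hu
  by_cases hu1 : u = 1
  · rw [hu1]; intro g _; rw [memC]; simp
  have huk : ∃ k : ℕ, orderOf u = p ^ k := by
    obtain ⟨k, hk⟩ := (H70.RegT.isPGroup_iff_pow (C y0)).mp hPy u hu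
    exact orderOf_pow_of_dvd_pow hp hk
  obtain ⟨k, s, hs, hk⟩ := exists_pow_prime hu1
  have hsp : s = p := by
    obtain ⟨j, hj⟩ := huk
    have h2 : s ∣ p ^ j := by
      rw [← hk, ← hj]
      exact orderOf_pow_dvd k
    exact (Nat.prime_dvd_prime_iff_eq hs hp).mp (hs.dvd_of_dvd_pow h2)
  rw [hsp] at hk
  have h1 := huniq (u ^ k) ((C y0).pow_mem hu k) hk
  have h2 : y0 ∈ zpowers (u ^ k) := by
    have h3 : zpowers (u ^ k) = zpowers y0 := by
      apply Subgroup.eq_of_le_of_card_ge
      · rw [zpowers_le]; exact h1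
      · rw [Nat.card_zpowers, Nat.card_zpowers, hk, hy0]
    rw [h3]; exact mem_zpowers y0
  have h3 : C u ≤ C y0 := by
    intro g hg
    obtain ⟨j, hj⟩ := h2
    have h4 : Commute g u := memC.mp hg
    have h5 := (h4.pow_right k).zpow_right j
    have hj' : (u ^ k) ^ j = y0 := hj
    rw [hj'] at h5
    exact memC.mpr h5.eq
  exact C_le_of h3 ((hpb' u hu1 huk).trans hy0b.symm)

/-- the abelian centraliser -/
theorem caseI (hnb : ¬ b ∣ c) :
    ∃ y : G, cs y = b ∧ (∃ p : ℕ, p.Prime ∧ orderOf y = p) ∧ ∀ u ∈ C y, C y ≤ C u := by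
  obtain ⟨p, hp, hpa⟩ := Nat.exists_prime_and_dvd H.a1.ne'
  by_cases h : ∀ y : G, orderOf y = p → ¬ p ∣ cs y → ∀ w ∈ C y, (orderOf w).Coprime p → w = 1
  · obtain ⟨y, hy, hyb, h1⟩ := H.caseI1 hnb hp hpa h
    exact ⟨y, hyb, ⟨p, hp, hy⟩, h1⟩
  · push Not at h
    obtain ⟨y, hy, hyp, w, hw, hwo, hw1⟩ := h
    have hyb := H.type_b hpa (ne_one_of_prime hp hy) hyp
    exact ⟨y, hyb, ⟨p, hp, hy⟩, H.ab_of hnb hp hy hyb ⟨w, hw, hw1, hwo⟩⟩

end Hy

end H72.ItoZ
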