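import Mathlib
import Cfsg.Agent.Lib.H72.ItoZ5
import Cfsg.Agent.Lib.H72.ItoZ6
import Cfsg.Agent.Lib.H70.Cover
import Cfsg.Agent.Lib.H13.Cores

/-!
Nilpotency of groups with class sizes `1, a, b, ab`: generalities.
-/
set_option autoImplicit false
set_option linter.unusedSectionVars false
set_option linter.style.haveILetI false

namespace H72.ItoN

open Subgroup H72.TwoLargest H74.Ito3 H72.ItoZ
open scoped Pointwise

universe u

/-- `r`-elements -/
def El {G : Type u} [Group G] (r : ℕ) (u : G) : Prop := ∃ k : ℕ, orderOf u = r ^ k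

section gen

variable {G : Type u} [Group G] [Finite G]

theorem El.conj {r : ℕ} {u : G} (h : El r u) (g : G) : El r (g * u * g⁻¹) := by
  obtain ⟨k, hk⟩ := h
  exact ⟨k, by rw [H70.RegT.orderOf_conj', hk]⟩

theorem El.cop {r s : ℕ} {u v : G} (hr : r.Prime) (hs : s.Prime) (hrs : r ≠ s) (hu : El r u) (hv : El s v) :
    (orderOf u).Coprime (orderOf v) := by
  obtain ⟨k, hk⟩ := hu
  obtain ⟨l, hl⟩ := hv
  rw [hk, hl]
  exact Nat.Coprime.pow k l ((Nat.coprime_primes hr hs).mpr hrs)

theorem El.cop' {r s : ℕ} {u : G} (hr : r.Prime) (hs : s.Prime) (hrs : r ≠ s) (hu : El r u) :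
    (orderOf u).Coprime s := by
  obtain ⟨k, hk⟩ := hu
  rw [hk]
  exact Nat.Coprime.pow_left k ((Nat.coprime_primes hr hs).mpr hrs)

theorem El.eq_one {r s : ℕ} {u : G} (hr : r.Prime) (hs : s.Prime) (hrs : r ≠ s) (hu : El r u) (hv : El s u) :
    u = 1 := by
  have h1 := El.cop hr hs hrs hu hv
  rw [Nat.coprime_self] at h1
  exact orderOf_eq_one_iff.mp h1

theorem El.of_pow {r m : ℕ} {u : G} (hr : r.Prime) (h : u ^ (r ^ m) = 1) : El r u :=
  orderOf_pow_of_dvd_pow hr h

theorem El.of_mem {r : ℕ} (hr : r.Prime) {P : Subgroup G} (hP : IsPGroup r P) {u : G} (hu : u ∈ P) : El r u := by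
  obtain ⟨k, hk⟩ := (H70.RegT.isPGroup_iff_pow P).mp hP u hu
  exact El.of_pow hr hk

theorem isPGroup_of_El {r : ℕ} {P : Subgroup G} (h : ∀ u ∈ P, El r u) : IsPGroup r P := by
  rw [H70.RegT.isPGroup_iff_pow]
  intro y hy
  obtain ⟨k, hk⟩ := h y hy
  exact ⟨k, by rw [← hk]; exact pow_orderOf_eq_one y⟩

theorem isPGroup_zpowers {r : ℕ} {u : G} (h : El r u) : IsPGroup r (zpowers u) := by
  obtain ⟨k, hk⟩ := h
  exact IsPGroup.of_card (n := k) (by rw [Nat.card_zpowers, hk])

/-- coprime orders: `u^m = 1` and `u^n = 1` -/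
theorem eq_one_of_cop {u : G} {m n : ℕ} (hm : u ^ m = 1) (hn : u ^ n = 1) (h : m.Coprime n) : u = 1 := by
  have h1 := orderOf_dvd_of_pow_eq_one hm
  have h2 := orderOf_dvd_of_pow_eq_one hn
  exact orderOf_eq_one_iff.mp (Nat.eq_one_of_dvd_coprimes h h1 h2)

/-- Sylow subgroup of a subgroup -/
structure Syl (r : ℕ) (R K : Subgroup G) : Prop where
  le : R ≤ K
  pg : IsPGroup r R
  nd : ¬ r ∣ R.relIndex K

theorem exists_Syl {r : ℕ} (hr : r.Prime) (K : Subgroup G) : ∃ R : Subgroup G, Syl r R K := by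
  haveI : Fact r.Prime := ⟨hr⟩
  obtain ⟨S⟩ : Nonempty (Sylow r K) := inferInstance
  refine ⟨(S : Subgroup K).map K.subtype, Subgroup.map_subtype_le _, S.2.map _, ?_⟩
  have h1 : ((S : Subgroup K).map K.subtype).relIndex K = (S : Subgroup K).index := by
    rw [Subgroup.relIndex]
    congr 1
    exact Subgroup.comap_map_eq_self_of_injective K.subtype_injective _
  rw [h1]
  exact S.not_dvd_index

theorem Syl.eq {r : ℕ} (hr : r.Prime) {R K T : Subgroup G} (h : Syl r R K) (h1 : R ≤ T) (h2 : T ≤ K)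
    (h3 : IsPGroup r T) : T ≤ R := by
  have h4 := Subgroup.relIndex_mul_relIndex R T K h1 h2
  haveI : Fact r.Prime := ⟨hr⟩
  rw [← Subgroup.relIndex_eq_one]
  obtain ⟨n, hn⟩ := IsPGroup.iff_card.mp h3
  have h5 : R.relIndex T ∣ r ^ n := by rw [← hn]; exact Subgroup.relIndex_dvd_card _ _
  obtain ⟨m, -, hm⟩ := (Nat.dvd_prime_pow hr).mp h5
  rcases Nat.eq_zero_or_pos m with h6 | h6
  · rw [hm, h6, pow_zero]
  · exfalso
    apply h.nd
    rw [← h4, hm]
    exact Dvd.dvd.mul_right (dvd_pow_self r h6.ne') _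

/-- an `r`-element of `K` normalising the Sylow subgroup is contained in it -/
theorem Syl.mem {r : ℕ} (hr : r.Prime) {R K : Subgroup G} (h : Syl r R K) {u : G} (hu : u ∈ K) (hur : El r u)
    (hn : u ∈ normalizer (R : Set G)) : u ∈ R := by
  haveI : Fact r.Prime := ⟨hr⟩
  have h1 : IsPGroup r (R ⊔ zpowers u : Subgroup G) := by
    apply IsPGroup.to_sup_of_normal_left' h.pg (isPGroup_zpowers hur)
    rw [zpowers_le]
    exact hn
  exact h.eq hr le_sup_left (sup_le h.le (by rw [zpowers_le]; exact hu)) h1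
    (Subgroup.mem_sup_right (mem_zpowers u))

/-- normal `r`-subgroups contained in `K` -/
theorem Syl.normal_le {r : ℕ} (hr : r.Prime) {R K U : Subgroup G} [U.Normal] (h : Syl r R K) (hU : U ≤ K)
    (hUr : IsPGroup r U) : U ≤ R := by
  haveI : Fact r.Prime := ⟨hr⟩
  have h1 : IsPGroup r (R ⊔ U : Subgroup G) := IsPGroup.to_sup_of_normal_right h.pg hUr
  exact le_sup_right.trans (h.eq hr le_sup_left (sup_le h.le hU) h1)

/-- conjugation into a Sylow subgroup -/
theorem Syl.conj {r : ℕ} (hr : r.Prime) {R K : Subgroup G} (h : Syl r R K) {u : G} (hu : u ∈ K) (hur : El r u) :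
    ∃ g ∈ K, g * u * g⁻¹ ∈ R := by
  have h1 : IsPGroup r (zpowers (⟨u, hu⟩ : K)) := by
    apply isPGroup_zpowers
    obtain ⟨k, hk⟩ := hur
    exact ⟨k, by rw [Subgroup.orderOf_mk]; exact hk⟩
  obtain ⟨g, hg⟩ := exists_conj_mem hr (K := R.subgroupOf K) h1 h.nd
  refine ⟨g, g.2, ?_⟩
  have h2 := hg _ (mem_zpowers _)
  rw [mem_subgroupOf] at h2
  exact h2

/-- transfer of the Sylow property -/
theorem Syl.transfer {r : ℕ} (hr : r.Prime) {R K1 K2 : Subgroup G} (h : Syl r R K1) (h2 : R ≤ K2)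
    (hi : K1.index.factorization r = K2.index.factorization r) : Syl r R K2 := by
  refine ⟨h2, h.pg, ?_⟩
  have e1 := Subgroup.relIndex_mul_index h.le
  have e2 := Subgroup.relIndex_mul_index h2
  have p1 : K1.index ≠ 0 := Subgroup.index_ne_zero_of_finite
  have p2 : K2.index ≠ 0 := Subgroup.index_ne_zero_of_finite
  have p3 : R.relIndex K1 ≠ 0 := Subgroup.index_ne_zero_of_finite
  have p4 : R.relIndex K2 ≠ 0 := Subgroup.index_ne_zero_of_finite
  have e3 := congrArg (fun n => n.factorization r) (e1.trans e2.symm)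
  simp only [Nat.factorization_mul p3 p1, Nat.factorization_mul p4 p2, Finsupp.add_apply] at e3
  rw [Nat.factorization_eq_zero_of_not_dvd h.nd] at e3
  have e4 : (R.relIndex K2).factorization r = 0 := by omega
  intro hd
  have := hr.factorization_pos_of_dvd p4 hd
  omega

/-- the `p`-part and the `p'`-part -/
theorem exists_parts {p : ℕ} (hp : p.Prime) (x : G) : ∃ i j : ℕ, x = x ^ i * x ^ j ∧ El p (x ^ i) ∧
    (orderOf (x ^ j)).Coprime p := by
  have ho : orderOf x ≠ 0 := (orderOf_pos x).ne'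
  obtain ⟨k, m, hm, hkm⟩ := Nat.exists_eq_pow_mul_and_not_dvd ho p hp.ne_one
  have hc : (p ^ k).Coprime m := Nat.Coprime.pow_left k ((Nat.Prime.coprime_iff_not_dvd hp).mpr hm)
  obtain ⟨e, he1, he2⟩ := Nat.chineseRemainder hc 1 0
  obtain ⟨f, hf1, hf2⟩ := Nat.chineseRemainder hc 0 1
  refine ⟨e, f, ?_, ?_, ?_⟩
  · rw [← pow_add]
    conv_lhs => rw [← pow_one x]
    rw [pow_eq_pow_iff_modEq, hkm]
    rw [← Nat.modEq_and_modEq_iff_modEq_mul hc]
    constructor
    · have := he1.add hf1
      exact this.symm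
    · have := he2.add hf2
      exact this.symm
  · apply El.of_pow hp (m := k)
    rw [← pow_mul]
    apply orderOf_dvd_iff_pow_eq_one.mp
    rw [hkm]
    apply Nat.Coprime.mul_dvd_of_dvd_of_dvd hc
    · exact Dvd.intro_left _ rfl
    · exact Dvd.dvd.mul_right ((Nat.modEq_zero_iff_dvd).mp he2) _
  · have h1 : (x ^ f) ^ m = 1 := by
      rw [← pow_mul]
      apply orderOf_dvd_iff_pow_eq_one.mp
      rw [hkm]
      apply Nat.Coprime.mul_dvd_of_dvd_of_dvd hc
      · exact Dvd.dvd.mul_right ((Nat.modEq_zero_iff_dvd).mp hf1) _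
      · exact Dvd.intro_left _ rfl
    exact Nat.Coprime.coprime_dvd_left (orderOf_dvd_of_pow_eq_one h1)
      ((Nat.Prime.coprime_iff_not_dvd hp).mpr hm).symm

/-- if all class sizes of `p'`-elements are prime to `p`, then `p`-elements commute with `p'`-elements -/
theorem N1 {p : ℕ} (hp : p.Prime) (h : ∀ w : G, (orderOf w).Coprime p → ¬ p ∣ cs w) {u w : G}
    (hu : El p u) (hw : (orderOf w).Coprime p) : u * w = w * u := by
  haveI : Fact p.Prime := ⟨hp⟩
  obtain ⟨S⟩ : Nonempty (Sylow p G) := inferInstance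
  have hcov : (S : Subgroup G) ⊔ centralizer ((S : Subgroup G) : Set G) = ⊤ := by
    apply H70.Cover.eq_top_of_cover
    intro d
    obtain ⟨i, j, hd, hi, hj⟩ := exists_parts hp d
    obtain ⟨R, hR1, hR2⟩ := H70.Cover.exists_sylow_between (C (d ^ j)) (h _ hj) (zpowers (d ^ i))
      (by rw [zpowers_le, memC, ← pow_add, ← pow_add, add_comm]) (isPGroup_zpowers hi)
    obtain ⟨g, hg⟩ := MulAction.exists_smul_eq G S R
    refine ⟨g, ?_⟩
    have hmem : ∀ y ∈ (R : Subgroup G), g⁻¹ * y * g ∈ (S : Subgroup G) := by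
      intro y hy
      rw [← hg] at hy
      rw [Sylow.smul_def] at hy
      have := Subgroup.mem_pointwise_smul_iff_inv_smul_mem.mp hy
      simpa [MulAut.smul_def] using this
    have hmem' : ∀ y ∈ (S : Subgroup G), g * y * g⁻¹ ∈ (R : Subgroup G) := by
      intro y hy
      rw [← hg, Sylow.smul_def]
      have : g * y * g⁻¹ ∈ MulAut.conj g • (S : Subgroup G) := by
        rw [Subgroup.mem_pointwise_smul_iff_inv_smul_mem]
        simpa [MulAut.smul_def, mul_assoc] using hy
      exact this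
    have e : g⁻¹ * d * g = (g⁻¹ * d ^ i * g) * (g⁻¹ * d ^ j * g) := by
      conv_lhs => rw [hd]
      group
    rw [e]
    apply Subgroup.mul_mem_sup
    · exact hmem _ (hR1 (mem_zpowers _))
    · rw [mem_centralizer_iff]
      intro y hy
      have h1 := memC.mp (hR2 (hmem' y hy))
      calc y * (g⁻¹ * d ^ j * g) = g⁻¹ * ((g * y * g⁻¹) * d ^ j) * g := by group
        _ = g⁻¹ * (d ^ j * (g * y * g⁻¹)) * g := by rw [h1]
        _ = (g⁻¹ * d ^ j * g) * y := by group
  have hSn : (S : Subgroup G).Normal := by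
    rw [← Subgroup.normalizer_eq_top_iff, eq_top_iff, ← hcov]
    exact sup_le le_normalizer (Subgroup.centralizer_le_normalizer _)
  have huS : u ∈ (S : Subgroup G) := by
    have h1 : zpowers u ≤ (S : Subgroup G) := by
      obtain ⟨T, hT⟩ := (isPGroup_zpowers hu).exists_le_sylow
      obtain ⟨g, hg⟩ := MulAction.exists_smul_eq G S T
      have h2 : T = S := by
        rw [← hg]
        exact Sylow.smul_eq_of_normal
      rw [h2] at hT
      exact hT
    exact h1 (mem_zpowers u)
  have hwC : w ∈ centralizer ((S : Subgroup G) : Set G) := by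
    have h1 : w ∈ (S : Subgroup G) ⊔ centralizer ((S : Subgroup G) : Set G) := by rw [hcov]; trivial
    obtain ⟨s, hs, c, hc, hsc⟩ := Subgroup.mem_sup_of_normal_left.mp h1
    have h2 : s ∈ centralizer ((S : Subgroup G) : Set G) := by
      obtain ⟨k, hk⟩ := El.of_mem hp S.2 hs
      have h3 : Commute s c := by
        rw [mem_centralizer_iff] at hc
        exact hc s hs
      have h4 : s ^ orderOf w * c ^ orderOf w = 1 := by
        rw [← h3.mul_pow, hsc, pow_orderOf_eq_one]
      have h5 : s ^ orderOf w ∈ centralizer ((S : Subgroup G) : Set G) := by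
        rw [mul_eq_one_iff_eq_inv] at h4
        rw [h4]
        exact Subgroup.inv_mem _ (Subgroup.pow_mem _ hc _)
      refine H3.LocalNPC.mem_of_pow_mem_of_coprime (a := orderOf w) (b := p ^ k) ?_ h5 ?_
      · exact Nat.Coprime.pow_right k hw
      · rw [← hk, pow_orderOf_eq_one]; exact one_mem _
    rw [← hsc]
    exact mul_mem h2 hc
  rw [mem_centralizer_iff] at hwC
  exact hwC u huS

/-- nilpotency criterion -/
theorem nilpotent_of {p q : ℕ} (hp : p.Prime) (hq : q.Prime) (hpq : p ≠ q)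
    (hz : ∀ r : ℕ, r.Prime → r ≠ p → r ≠ q → ∀ u : G, El r u → u ∈ center G)
    (h : ∀ u v : G, El p u → El q v → u * v = v * u) : Group.IsNilpotent G := by
  have hcomm : ∀ r s : ℕ, r.Prime → s.Prime → r ≠ s → ∀ u v : G, El r u → El s v → u * v = v * u := by
    intro r s hr hs hrs u v hu hv
    by_cases hrp : r = p
    · subst hrp
      by_cases hsq : s = q
      · subst hsq; exact h u v hu hv
      · exact mem_center_iff.mp (hz s hs hrs.symm hsq v hv) u
    · by_cases hrq : r = q
      · subst hrq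
        by_cases hsp : s = p
        · subst hsp; exact (h v u hv hu).symm
        · exact mem_center_iff.mp (hz s hs hsp hrs.symm v hv) u
      · exact (mem_center_iff.mp (hz r hr hrp hrq u hu) v).symm
  have h1 : ∀ (r : ℕ) (_ : Fact r.Prime) (P : Sylow r G), (P : Subgroup G).Normal := by
    intro r hr P
    rw [← Subgroup.normalizer_eq_top_iff, ← Subgroup.index_eq_one]
    by_contra hne
    obtain ⟨s, hs, hsd⟩ := Nat.exists_prime_and_dvd hne
    haveI : Fact s.Prime := ⟨hs⟩
    by_cases hrs : r = s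
    · subst hrs
      exact P.not_dvd_index (hsd.trans (Subgroup.index_dvd_of_le le_normalizer))
    · obtain ⟨T⟩ : Nonempty (Sylow s G) := inferInstance
      apply T.not_dvd_index
      refine hsd.trans (Subgroup.index_dvd_of_le ?_)
      refine le_trans ?_ (Subgroup.centralizer_le_normalizer _)
      intro t ht
      rw [mem_centralizer_iff]
      intro y hy
      exact hcomm r s hr.out hs hrs y t (El.of_mem hr.out P.2 hy) (El.of_mem hs T.2 ht)
  exact ((Group.isNilpotent_of_finite_tfae (G := G)).out 0 3).mpr h1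

end gen

end H72.ItoN
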