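import Mathlib
import Cfsg.Agent.Lib.H72.ItoN1
import Cfsg.Agent.Lib.H70.RegH

/-!
Nilpotency of groups with class sizes `1, a, b, ab`: the case of good elements.
-/
set_option autoImplicit false
set_option linter.unusedSectionVars false
set_option linter.style.haveILetI false

namespace H72.ItoN

open Subgroup H72.TwoLargest H74.Ito3 H72.ItoZ Cfsg

universe u

section gen

variable {G : Type u} [Group G] [Finite G]

/-- normalizers grow -/
theorem exists_norm {r : ℕ} (hr : r.Prime) {U S : Subgroup G} (hU : IsPGroup r U) (hSU : S ≤ U) (h : ¬ U ≤ S) :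
    ∃ n ∈ U, n ∉ S ∧ n ∈ normalizer (S : Set G) := by
  haveI : Fact r.Prime := ⟨hr⟩
  haveI : Group.IsNilpotent U := hU.isNilpotent
  have h1 : S.subgroupOf U < ⊤ := by
    rw [lt_top_iff_ne_top]
    intro h2
    exact h (Subgroup.subgroupOf_eq_top.mp h2)
  have h2 := Group.normalizerCondition_of_isNilpotent (G := U) _ h1
  obtain ⟨n, hn, hnS⟩ := SetLike.exists_of_lt h2
  refine ⟨n, n.2, fun h3 => hnS (mem_subgroupOf.mpr h3), ?_⟩
  rw [Subgroup.mem_normalizer_iff] at hn ⊢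
  intro s
  constructor
  · intro hs
    have := (hn ⟨s, hSU hs⟩).mp (mem_subgroupOf.mpr hs)
    exact mem_subgroupOf.mp this
  · intro hs
    have h4 : s ∈ U := by
      have h5 := hSU hs
      have h6 : (n : G)⁻¹ * (n * s * (n : G)⁻¹) * n ∈ U := U.mul_mem (U.mul_mem (U.inv_mem n.2) h5) n.2
      have h7 : (n : G)⁻¹ * (n * s * (n : G)⁻¹) * n = s := by group
      rwa [h7] at h6
    have := (hn ⟨s, h4⟩).mpr (mem_subgroupOf.mpr hs)
    exact mem_subgroupOf.mp this

/-- a `p`-element with class size a power of `p` lies in `O_p(G)` -/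
theorem mem_pCore_of_cs {p : ℕ} (hp : p.Prime) {u : G} (hu : El p u) (h : ∃ k : ℕ, cs u = p ^ k) :
    u ∈ pCore p G := by
  haveI : Fact p.Prime := ⟨hp⟩
  obtain ⟨P, hP⟩ := (isPGroup_zpowers hu).exists_le_sylow
  obtain ⟨k, hk⟩ := h
  have hcop : (C u).index.Coprime (P : Subgroup G).index := by
    change (cs u).Coprime _
    rw [hk]
    exact Nat.Coprime.pow_left k ((Nat.Prime.coprime_iff_not_dvd hp).mpr P.not_dvd_index)
  have hc : Subgroup.normalClosure ({u} : Set G) ≤ (P : Subgroup G) := by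
    rw [Subgroup.normalClosure, Subgroup.closure_le]
    intro y hy
    rw [Group.mem_conjugatesOfSet_iff] at hy
    obtain ⟨c, hc, hcy⟩ := hy
    rw [Set.mem_singleton_iff] at hc
    subst hc
    obtain ⟨g, hg⟩ := isConj_iff.mp hcy
    obtain ⟨b, hb, a, ha, rfl⟩ := H72.CoprimeIndex.exists_mul_of_coprime_index (C c) (P : Subgroup G) hcop g
    have h1 : b * a * c * (b * a)⁻¹ = b * c * b⁻¹ := by
      calc b * a * c * (b * a)⁻¹ = b * (a * c) * a⁻¹ * b⁻¹ := by group
        _ = b * (c * a) * a⁻¹ * b⁻¹ := by rw [memC.mp ha]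
        _ = b * c * b⁻¹ := by group
    rw [← hg, h1]
    exact (P : Subgroup G).mul_mem ((P : Subgroup G).mul_mem hb (hP (mem_zpowers c))) ((P : Subgroup G).inv_mem hb)
  have h2 : Subgroup.normalClosure ({u} : Set G) ≤ pCore p G :=
    H1.Cores.le_pCore inferInstance (P.2.to_le hc)
  exact h2 (Subgroup.subset_normalClosure rfl)

end gen

structure PB (G : Type u) [Group G] [Finite G] (p q a b : ℕ) : Prop where
  pp : PP G a b
  hp : p.Prime
  hq : q.Prime
  hpq : p ≠ q
  ia : ∃ i : ℕ, a = p ^ i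
  ib : ∃ j : ℕ, b = q ^ j

namespace PB

variable {G : Type u} [Group G] [Finite G] {p q a b : ℕ} (H : PB G p q a b)
include H

theorem symm : PB G q p b a := ⟨H.pp.symm, H.hq, H.hp, H.hpq.symm, H.ib, H.ia⟩

theorem p_dvd_a : p ∣ a := by
  obtain ⟨i, hi⟩ := H.ia
  have h1 := H.pp.a1
  rw [hi] at h1 ⊢
  apply dvd_pow_self
  rintro rfl
  simp at h1

theorem q_ndvd_a : ¬ q ∣ a := by
  obtain ⟨i, hi⟩ := H.ia
  rw [hi]
  intro h
  exact H.hpq ((Nat.prime_dvd_prime_iff_eq H.hq H.hp).mp (H.hq.dvd_of_dvd_pow h)).symm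

theorem other {r : ℕ} (hr : r.Prime) (hrp : r ≠ p) (hrq : r ≠ q) {u : G} (hu : El r u) : u ∈ center G := by
  have h1 : ¬ r ∣ a := by
    obtain ⟨i, hi⟩ := H.ia
    rw [hi]
    intro h
    exact hrp ((Nat.prime_dvd_prime_iff_eq hr H.hp).mp (hr.dvd_of_dvd_pow h))
  have h2 : ¬ r ∣ b := by
    obtain ⟨i, hi⟩ := H.ib
    rw [hi]
    intro h
    exact hrq ((Nat.prime_dvd_prime_iff_eq hr H.hq).mp (hr.dvd_of_dvd_pow h))
  apply H.pp.central_other hr h1 h2
  obtain ⟨k, hk⟩ := hu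
  exact ⟨k, by rw [← hk]; exact pow_orderOf_eq_one u⟩

theorem K1 {w u : G} (hw : cs w = a * b) (hwu : w * u = u * w) (ho : (orderOf w).Coprime (orderOf u)) :
    C w ≤ C u := by
  have h1 := C_mul hwu ho
  have h2 : C (w * u) ≤ C w := by rw [h1]; exact inf_le_left
  have h3 : C w ≤ C (w * u) := cent_eq_of_le h2 ((H.pp.le _).trans hw.ge)
  refine h3.trans ?_
  rw [h1]; exact inf_le_right

theorem F1 {x y : G} (hx : cs x = a) (hy : cs y = b) (hxy : x * y = y * x) (g : G) :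
    y * (g * x * g⁻¹) = (g * x * g⁻¹) * y := by
  have hcop : (C x).index.Coprime (C y).index := by
    change (cs x).Coprime (cs y)
    rw [hx, hy]; exact H.pp.cop
  obtain ⟨d, hd, c, hc, rfl⟩ := H72.CoprimeIndex.exists_mul_of_coprime_index (C x) (C y) hcop g
  have h1 : d * c * x * (d * c)⁻¹ = d * x * d⁻¹ := by
    calc d * c * x * (d * c)⁻¹ = d * (c * x) * c⁻¹ * d⁻¹ := by group
      _ = d * (x * c) * c⁻¹ * d⁻¹ := by rw [memC.mp hc]
      _ = d * x * d⁻¹ := by group
  rw [h1]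
  have h2 : Commute y d := (memC.mp hd).symm
  have h3 : Commute y x := hxy.symm
  exact ((h2.mul_right h3).mul_right h2.inv_right).eq

theorem fp {g : G} (h : a ∣ cs g) : (cs g).factorization p = a.factorization p := by
  have ha : a ≠ 0 := by have := H.pp.a1; omega
  have hb : b ≠ 0 := by have := H.pp.b1; omega
  rcases H.pp.mula h with h1 | h1
  · rw [h1]
  · rw [h1, Nat.factorization_mul ha hb, Finsupp.add_apply,
      Nat.factorization_eq_zero_of_not_dvd H.symm.q_ndvd_a, add_zero]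

/-- Sylow `p`-subgroups of centralisers -/
theorem trp {R : Subgroup G} {g h : G} (hR : Syl p R (C g)) (hRh : R ≤ C h) (hg : a ∣ cs g) (hh : a ∣ cs h) :
    Syl p R (C h) := by
  apply hR.transfer H.hp hRh
  exact (H.fp hg).trans (H.fp hh).symm

theorem trq {R : Subgroup G} {g h : G} (hR : Syl q R (C g)) (hRh : R ≤ C h) (hg : b ∣ cs g) (hh : b ∣ cs h) :
    Syl q R (C h) := H.symm.trp hR hRh hg hh

theorem conj_into {y u : G} (hy : cs y = b) (hu : El p u) : ∃ g : G, g * u * g⁻¹ ∈ C y := by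
  obtain ⟨g, hg⟩ := exists_conj_mem H.hp (K := C y) (isPGroup_zpowers hu)
    (by change ¬ p ∣ cs y; rw [hy]; exact H.symm.q_ndvd_a)
  exact ⟨g, hg u (mem_zpowers u)⟩

/-- elements of order prime to `p` and `q` are central -/
theorem central_of_cop {w : G} (h1 : (orderOf w).Coprime p) (h2 : (orderOf w).Coprime q) : w ∈ center G := by
  by_contra hw
  obtain ⟨j, r, k, hr, hk, hj⟩ := exists_primary_pow hw
  have h3 : orderOf (w ^ j) ∣ orderOf w := orderOf_pow_dvd j
  have h4 : ∀ s : ℕ, (orderOf w).Coprime s → r ≠ s := by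
    rintro s hs rfl
    have h5 := Nat.Coprime.coprime_dvd_left h3 hs
    rw [hk] at h5
    have h6 : (r ^ k).Coprime (r ^ k) := Nat.Coprime.pow_right k h5
    rw [Nat.coprime_self] at h6
    rw [h6] at hk
    apply hj
    rw [orderOf_eq_one_iff.mp hk]
    exact one_mem _
  exact hj (H.other hr (h4 p h1) (h4 q h2) ⟨k, hk⟩)

/-- class sizes of `p'`-elements -/
theorem cs_cop {w : G} (hw : (orderOf w).Coprime p) : ∃ i : ℕ, El q (w ^ i) ∧ cs w = cs (w ^ i) := by
  obtain ⟨i, j, hij, hi, hj⟩ := exists_parts H.hq w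
  refine ⟨i, hi, ?_⟩
  have h1 : w ^ j ∈ center G := H.central_of_cop (Nat.Coprime.coprime_dvd_left (orderOf_pow_dvd j) hw) hj
  conv_lhs => rw [hij]
  rw [cs, cent_mul_center h1]
  rfl

/-- primary elements of type `a` -/
theorem exists_prim : ∃ x : G, cs x = a ∧ (El p x ∨ El q x) := by
  obtain ⟨x, hx⟩ := H.pp.exa
  obtain ⟨j, r, k, hr, hk, hj⟩ := exists_primary_pow (H.pp.nc_a hx)
  refine ⟨x ^ j, H.pp.dva hj (hx ▸ cs_pow_dvd x j), ?_⟩
  by_cases hrp : r = p
  · left; exact ⟨k, hrp ▸ hk⟩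
  · by_cases hrq : r = q
    · right; exact ⟨k, hrq ▸ hk⟩
    · exact (hj (H.other hr hrp hrq ⟨k, hk⟩)).elim

/-! ### good elements -/

theorem G1 {x : G} (hx : cs x = a) (hxp : El p x) {u w : G} (hu : u ∈ C x) (hw : w ∈ C x) (hup : El p u)
    (hwp : (orderOf w).Coprime p) : u * w = w * u := by
  have key : ∀ v : C x, (orderOf v).Coprime p → ¬ p ∣ cs v := by
    intro v hv
    have hcop : (orderOf x).Coprime (orderOf (v : G)) := by
      obtain ⟨k, hk⟩ := hxp
      rw [hk, Subgroup.orderOf_coe]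
      exact Nat.Coprime.pow_left k hv.symm
    have hxv : x * (v : G) = v * x := (memC.mp v.2).symm
    have h1 := H70.RegT.card_cent_sub v hcop
    have h2 : Nat.card (centralizer ({v} : Set (C x))) * cs v = Nat.card (C x) := Subgroup.card_mul_index _
    have h3 := card_C x
    have h4 := card_C (x * (v : G))
    rw [hx, ← h2, h1] at h3
    have h5 : cs v * a = cs (x * (v : G)) := by
      have h6 : 0 < Nat.card (C (x * (v : G))) := Nat.card_pos
      apply Nat.eq_of_mul_eq_mul_left h6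
      rw [h4, ← h3]
      ring
    have h6 : a ∣ cs (x * (v : G)) := ⟨cs v, by rw [← h5, mul_comm]⟩
    have ha : 0 < a := by have := H.pp.a1; omega
    rcases H.pp.mula h6 with h7 | h7
    · rw [h7] at h5
      have h8 : cs v = 1 := Nat.eq_of_mul_eq_mul_right ha (by rw [h5, one_mul])
      rw [h8]
      intro h9
      exact H.hp.one_lt.ne' (Nat.dvd_one.mp h9)
    · rw [h7] at h5
      have h8 : cs v = b := Nat.eq_of_mul_eq_mul_right ha (by rw [h5, mul_comm])
      rw [h8]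
      exact H.symm.q_ndvd_a
  have h1 := N1 (G := C x) H.hp key (u := ⟨u, hu⟩) (w := ⟨w, hw⟩)
    (by obtain ⟨k, hk⟩ := hup; exact ⟨k, by rw [Subgroup.orderOf_mk]; exact hk⟩)
    (by rw [Subgroup.orderOf_mk]; exact hwp)
  exact congrArg Subtype.val h1

theorem G2 {x y : G} (hx : cs x = a) (hxp : El p x) (hy : cs y = b) (hyp : El p y) : False := by
  obtain ⟨g, hg⟩ := H.conj_into hy hxp
  have hx' : cs (g * x * g⁻¹) = a := by rw [cs_conj]; exact hx
  obtain ⟨T, hT⟩ := exists_Syl H.hq (C (g * x * g⁻¹))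
  have h1 : T ≤ C y := by
    intro v hv
    apply memC.mpr
    exact (H.G1 hx' (hxp.conj g) (memC_comm.mp hg) (hT.le hv) hyp
      (El.cop' H.hq H.hp H.hpq.symm (El.of_mem H.hq hT.pg hv))).symm
  have h2 := Subgroup.relIndex_mul_index hT.le
  have h3 : cs y ∣ T.index := Subgroup.index_dvd_of_le h1
  rw [← h2] at h3
  have h4 : q ∣ T.relIndex (C (g * x * g⁻¹)) * cs (g * x * g⁻¹) := by
    refine (H.symm.p_dvd_a.trans ?_).trans h3
    rw [hy]
  rw [hx'] at h4
  rcases H.hq.dvd_mul.mp h4 with h5 | h5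
  · exact hT.nd h5
  · exact H.q_ndvd_a h5

theorem G3 {x w : G} (hx : cs x = a) (hxp : El p x) (hwx : w ∈ C x) (hw : cs w = a * b) (hwq : El q w) :
    ∀ v : G, El q v → v ∈ pCore q G := by
  have hcopw : ∀ u : G, El p u → (orderOf w).Coprime (orderOf u) := fun u hu =>
    (El.cop H.hp H.hq H.hpq hu hwq).symm
  -- `p`-elements of `C x` are central there
  have h1 : ∀ u ∈ C x, El p u → C x ≤ C u := by
    intro u hu hup g hg
    have hwp : (orderOf w).Coprime p := El.cop' H.hq H.hp H.hpq.symm hwq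
    have h2 : C w ≤ C u := H.K1 hw (H.G1 hx hxp hu hwx hup hwp).symm (hcopw u hup)
    by_contra hgu
    obtain ⟨j, r, k, hr, hk, hj⟩ := exists_primary_pow hgu
    have hgj : g ^ j ∈ C x := Subgroup.pow_mem _ hg j
    by_cases hrp : r = p
    · subst hrp
      apply hj
      apply h2
      exact memC.mpr (H.G1 hx hxp hgj hwx ⟨k, hk⟩ hwp)
    · apply hj
      apply memC.mpr
      exact (H.G1 hx hxp hu hgj hup (El.cop' hr H.hp hrp ⟨k, hk⟩)).symm
  have h2 : ∀ u ∈ C x, El p u → u ∈ pCore p G := by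
    intro u hu hup
    apply mem_pCore_of_cs H.hp hup
    have h3 := cs_dvd_of_le (h1 u hu hup)
    obtain ⟨i, hi⟩ := H.ia
    rw [hx, hi] at h3
    obtain ⟨k, -, hk⟩ := (Nat.dvd_prime_pow H.hp).mp h3
    exact ⟨k, hk⟩
  have hxU : x ∈ pCore p G := h2 x (self_memC x) hxp
  have hUp : IsPGroup p (pCore p G) := H1.Cores.isPGroup_pCore p
  have hU : pCore p G ≤ C x := by
    by_contra hcon
    obtain ⟨n, hn, hnS, hnn⟩ := exists_norm H.hp hUp (S := pCore p G ⊓ C x) inf_le_left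
      (fun h => hcon (h.trans inf_le_right))
    have hkU : n⁻¹ * (w * n * w⁻¹) ∈ pCore p G :=
      Subgroup.mul_mem _ (Subgroup.inv_mem _ hn) ((H1.Cores.pCore_normal p).conj_mem n hn w)
    have hwp : (orderOf w).Coprime p := El.cop' H.hq H.hp H.hpq.symm hwq
    have hws : ∀ s ∈ pCore p G ⊓ C x, w * s = s * w := by
      intro s hs
      obtain ⟨hs1, hs2⟩ := Subgroup.mem_inf.mp hs
      exact (H.G1 hx hxp hs2 hwx (El.of_mem H.hp hUp hs1) hwp).symm
    have hks : ∀ s ∈ pCore p G ⊓ C x, (n⁻¹ * (w * n * w⁻¹)) * s = s * (n⁻¹ * (w * n * w⁻¹)) := by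
      intro s hs
      have e1 : w⁻¹ * s = s * w⁻¹ := ((show Commute w s from hws s hs).inv_left).eq
      have e2 : n * s * n⁻¹ ∈ pCore p G ⊓ C x := (Subgroup.mem_normalizer_iff.mp hnn s).mp hs
      have e3 := hws _ e2
      calc (n⁻¹ * (w * n * w⁻¹)) * s = n⁻¹ * w * n * (w⁻¹ * s) := by group
        _ = n⁻¹ * (w * (n * s * n⁻¹)) * n * w⁻¹ := by rw [e1]; group
        _ = s * (n⁻¹ * (w * n * w⁻¹)) := by rw [e3]; group
    have hkx : n⁻¹ * (w * n * w⁻¹) ∈ C x := memC.mpr (hks x (Subgroup.mem_inf.mpr ⟨hxU, self_memC x⟩))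
    have hkS : n⁻¹ * (w * n * w⁻¹) ∈ pCore p G ⊓ C x := Subgroup.mem_inf.mpr ⟨hkU, hkx⟩
    have h3 := conj_pow_eq (a := n) (v := w) (k := n⁻¹ * (w * n * w⁻¹)) (by group) (hws _ hkS) (orderOf w)
    rw [pow_orderOf_eq_one, one_mul, inv_one, mul_one] at h3
    have h4 : (n⁻¹ * (w * n * w⁻¹)) ^ orderOf w = 1 := by
      have : n * 1 = n * (n⁻¹ * (w * n * w⁻¹)) ^ orderOf w := by rw [mul_one]; exact h3
      exact (mul_left_cancel this).symm
    obtain ⟨k, hk⟩ := El.of_mem H.hp hUp hkU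
    have h5 : n⁻¹ * (w * n * w⁻¹) = 1 := by
      apply eq_one_of_cop h4 (n := p ^ k)
      · rw [← hk]; exact pow_orderOf_eq_one _
      · exact Nat.Coprime.pow_right k hwp
    have h6 : w * n = n * w := by
      have h7 : w * n * w⁻¹ = n := by
        calc w * n * w⁻¹ = n * (n⁻¹ * (w * n * w⁻¹)) := by group
          _ = n := by rw [h5, mul_one]
      calc w * n = w * n * w⁻¹ * w := by group
        _ = n * w := by rw [h7]
    have h7 : C w ≤ C n := H.K1 hw h6 (hcopw n (El.of_mem H.hp hUp hn))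
    apply hnS
    exact Subgroup.mem_inf.mpr ⟨hn, memC_comm.mp (h7 (memC_comm.mp hwx))⟩
  have hCU : C x = centralizer ((pCore p G : Subgroup G) : Set G) := by
    apply le_antisymm
    · intro g hg
      rw [mem_centralizer_iff]
      intro u hu
      exact (memC.mp (h1 u (hU hu) (El.of_mem H.hp hUp hu) hg)).symm
    · intro g hg
      rw [mem_centralizer_iff] at hg
      exact memC.mpr (hg x hxU).symm
  have hqC : ∀ v : G, El q v → v ∈ C x := by
    rintro v ⟨k, hk⟩
    haveI : (C x).Normal := by rw [hCU]; infer_instance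
    have h3 := Subgroup.pow_index_mem (C x) v
    refine H3.LocalNPC.mem_of_pow_mem_of_coprime (a := (C x).index) (b := q ^ k) ?_ h3 ?_
    · change (cs x).Coprime _
      obtain ⟨i, hi⟩ := H.ia
      rw [hx, hi]
      exact Nat.Coprime.pow i k ((Nat.coprime_primes H.hp H.hq).mpr H.hpq)
    · rw [← hk, pow_orderOf_eq_one]; exact one_mem _
  obtain ⟨R, hR⟩ := exists_Syl H.hq (C x)
  have hN : C x ≤ normalizer (R : Set G) := by
    rw [← Subgroup.relIndex_eq_one]
    by_contra hne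
    obtain ⟨r, hr, hrd⟩ := Nat.exists_prime_and_dvd hne
    by_cases hrq : r = q
    · subst hrq
      apply hR.nd
      refine hrd.trans ?_
      exact Subgroup.relIndex_dvd_of_le_left (C x) le_normalizer
    · apply not_dvd_relIndex hr _ hrd
      rintro u hu ⟨k, hk⟩
      by_cases hrp : r = p
      · subst hrp
        apply Subgroup.centralizer_le_normalizer
        rw [mem_centralizer_iff]
        intro y hy
        exact memC.mp (h1 u hu ⟨k, hk⟩ (hR.le hy))
      · apply Subgroup.centralizer_le_normalizer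
        rw [mem_centralizer_iff]
        intro y hy
        exact mem_center_iff.mp (H.other hr hrp hrq ⟨k, hk⟩) y
  have hmem : ∀ v : G, El q v → v ∈ R := fun v hv => hR.mem H.hq (hqC v hv) hv (hN (hqC v hv))
  have hRn : R.Normal := ⟨fun n hn g => hmem _ ((El.of_mem H.hq hR.pg hn).conj g)⟩
  intro v hv
  exact H1.Cores.le_pCore hRn hR.pg (hmem v hv)

/-- no `q`-elements of type `ab` -/
theorem G4 {y : G} (hy : cs y = b) (hyq : El q y) (h : ∀ w : G, El q w → cs w ≠ a * b) : Group.IsNilpotent G := by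
  have key : ∀ w : G, (orderOf w).Coprime p → ¬ p ∣ cs w := by
    intro w hw
    obtain ⟨i, hi, hiw⟩ := H.cs_cop hw
    rw [hiw]
    rcases H.pp.typ (w ^ i) with h1 | h1 | h1 | h1
    · rw [h1]; intro h2; exact H.hp.one_lt.ne' (Nat.dvd_one.mp h2)
    · exact (H.symm.G2 hy hyq h1 hi).elim
    · rw [h1]; exact H.symm.q_ndvd_a
    · exact (h _ hi h1).elim
  apply nilpotent_of H.hp H.hq H.hpq (fun r hr hrp hrq u hu => H.other hr hrp hrq hu)
  intro u v hu hv
  exact N1 H.hp key hu (El.cop' H.hq H.hp H.hpq.symm hv)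

theorem caseG {x : G} (hx : cs x = a) (hxp : El p x) : Group.IsNilpotent G := by
  obtain ⟨y, hy, hyq⟩ : ∃ y : G, cs y = b ∧ El q y := by
    obtain ⟨y, hy, h | h⟩ := H.symm.exists_prim
    · exact ⟨y, hy, h⟩
    · exact (H.G2 hx hxp hy h).elim
  by_cases h1 : ∀ w : G, El q w → cs w ≠ a * b
  · exact H.G4 hy hyq h1
  by_cases h2 : ∀ w : G, El p w → cs w ≠ b * a
  · exact H.symm.G4 hx hxp h2
  push Not at h1 h2
  obtain ⟨w, hwq, hw⟩ := h1
  obtain ⟨v, hvp, hv⟩ := h2
  obtain ⟨g, hg⟩ := H.symm.conj_into hx hwq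
  obtain ⟨k, hk⟩ := H.conj_into hy hvp
  have h3 := H.G3 hx hxp hg ((cs_conj _ _).trans hw) (hwq.conj g)
  have h4 := H.symm.G3 hy hyq hk ((cs_conj _ _).trans hv) (hvp.conj k)
  apply nilpotent_of H.hp H.hq H.hpq (fun r hr hrp hrq u hu => H.other hr hrp hrq hu)
  intro s t hs ht
  have h5 : s * t * s⁻¹ * t⁻¹ ∈ pCore q G :=
    Subgroup.mul_mem _ ((H1.Cores.pCore_normal q).conj_mem t (h3 t ht) s) (Subgroup.inv_mem _ (h3 t ht))
  have h6 : s * t * s⁻¹ * t⁻¹ ∈ pCore p G := by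
    have h7 : s * t * s⁻¹ * t⁻¹ = s * (t * s⁻¹ * t⁻¹) := by group
    rw [h7]
    exact Subgroup.mul_mem _ (h4 s hs) ((H1.Cores.pCore_normal p).conj_mem _ (Subgroup.inv_mem _ (h4 s hs)) t)
  have h7 := El.eq_one H.hp H.hq H.hpq (El.of_mem H.hp (H1.Cores.isPGroup_pCore p) h6)
    (El.of_mem H.hq (H1.Cores.isPGroup_pCore q) h5)
  calc s * t = s * t * s⁻¹ * t⁻¹ * (t * s) := by group
    _ = t * s := by rw [h7, one_mul]

end PB

end H72.ItoN
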