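import Mathlib
import Cfsg.Agent.Lib.H72.ItoN2
import Cfsg.Agent.Lib.H29.PGrp

/-!
Nilpotency of groups with class sizes `1, a, b, ab`: no good elements, a noncommuting pair.
-/
set_option autoImplicit false
set_option linter.unusedSectionVars false
set_option linter.style.haveILetI false

namespace H72.ItoN

open Subgroup H72.TwoLargest H74.Ito3 H72.ItoZ Cfsg

universe u

section gen

variable {G : Type u} [Group G] [Finite G]

theorem El.mul {r : ℕ} (hr : r.Prime) {u v : G} (hu : El r u) (hv : El r v) (h : u * v = v * u) : El r (u * v) := by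
  obtain ⟨k, hk⟩ := hu
  obtain ⟨l, hl⟩ := hv
  apply El.of_pow hr (m := k + l)
  rw [(show Commute u v from h).mul_pow, pow_add, pow_mul, ← hk, pow_orderOf_eq_one, one_pow, one_mul,
    mul_comm, pow_mul, ← hl, pow_orderOf_eq_one, one_pow]

/-- an `r`-element has nontrivial fixed points on a normal `r`-subgroup -/
theorem exists_fixed {r : ℕ} (hr : r.Prime) {K : Subgroup G} [K.Normal] (hK : IsPGroup r K) (hK1 : K ≠ ⊥)
    {v : G} (hv : El r v) : ∃ k ∈ K, k ≠ 1 ∧ k * v = v * k := by
  haveI : Fact r.Prime := ⟨hr⟩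
  have h1 : IsPGroup r (K ⊔ zpowers v : Subgroup G) :=
    IsPGroup.to_sup_of_normal_left hK (isPGroup_zpowers hv)
  have h2 := H29.PGrp.inf_center_ne_bot h1 (le_sup_left : K ≤ K ⊔ zpowers v)
    (by rw [normalizer_eq_top]; exact le_top) hK1
  rw [Subgroup.ne_bot_iff_exists_ne_one] at h2
  obtain ⟨⟨k, hk⟩, hk1⟩ := h2
  obtain ⟨hk2, hk3⟩ := Subgroup.mem_inf.mp hk
  refine ⟨k, hk2, fun h => hk1 (Subtype.ext h), ?_⟩
  rw [mem_centralizer_iff] at hk3
  exact (hk3 v (Subgroup.mem_sup_right (mem_zpowers v))).symm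

/-- the commutator subgroup `[x, G]` -/
def KK (x : G) : Subgroup G := closure (Set.range fun g : G => x⁻¹ * (g * x * g⁻¹))

theorem mem_KK (x g : G) : x⁻¹ * (g * x * g⁻¹) ∈ KK x := subset_closure ⟨g, rfl⟩

theorem KK_le {x : G} {K : Subgroup G} (h : ∀ g : G, x⁻¹ * (g * x * g⁻¹) ∈ K) : KK x ≤ K := by
  rw [KK, closure_le]
  rintro _ ⟨g, rfl⟩
  exact h g

instance KK_normal (x : G) : (KK x).Normal := by
  constructor
  intro n hn g
  have h1 : KK x ≤ (KK x).comap (MulAut.conj g).toMonoidHom := by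
    apply KK_le
    intro h
    rw [Subgroup.mem_comap]
    change g * (x⁻¹ * (h * x * h⁻¹)) * g⁻¹ ∈ KK x
    have e : g * (x⁻¹ * (h * x * h⁻¹)) * g⁻¹ = (x⁻¹ * (g * x * g⁻¹))⁻¹ * (x⁻¹ * ((g * h) * x * (g * h)⁻¹)) := by
      group
    rw [e]
    exact Subgroup.mul_mem _ (Subgroup.inv_mem _ (mem_KK x g)) (mem_KK x (g * h))
  exact h1 hn

theorem KK_ne_bot {x : G} (hx : x ∉ center G) : KK x ≠ ⊥ := by
  intro h
  apply hx
  rw [mem_center_iff]
  intro g
  have h1 := mem_KK x g
  rw [h, Subgroup.mem_bot] at h1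
  have h2 : g * x * g⁻¹ = x := by
    calc g * x * g⁻¹ = x * (x⁻¹ * (g * x * g⁻¹)) := by group
      _ = x := by rw [h1, mul_one]
  calc g * x = g * x * g⁻¹ * g := by group
    _ = x * g := by rw [h2]

theorem mem_pCore_of_KK {r : ℕ} (hr : r.Prime) {x : G} (hx : El r x) (h : IsPGroup r (KK x)) :
    x ∈ pCore r G := by
  haveI : Fact r.Prime := ⟨hr⟩
  have h1 : IsPGroup r (KK x ⊔ zpowers x : Subgroup G) :=
    IsPGroup.to_sup_of_normal_left h (isPGroup_zpowers hx)
  have hc : Subgroup.normalClosure ({x} : Set G) ≤ KK x ⊔ zpowers x := by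
    rw [Subgroup.normalClosure, Subgroup.closure_le]
    intro y hy
    rw [Group.mem_conjugatesOfSet_iff] at hy
    obtain ⟨c, hc, hcy⟩ := hy
    rw [Set.mem_singleton_iff] at hc
    subst hc
    obtain ⟨g, hg⟩ := isConj_iff.mp hcy
    have h2 : y = c * (c⁻¹ * (g * c * g⁻¹)) := by rw [← hg]; group
    rw [h2]
    exact Subgroup.mul_mem _ (Subgroup.mem_sup_right (mem_zpowers c)) (Subgroup.mem_sup_left (mem_KK c g))
  have h2 : Subgroup.normalClosure ({x} : Set G) ≤ pCore r G :=
    H1.Cores.le_pCore inferInstance (h1.to_le hc)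
  exact h2 (Subgroup.subset_normalClosure rfl)

end gen

/-- no good elements -/
structure PBB (G : Type u) [Group G] [Finite G] (p q a b : ℕ) : Prop where
  H : PB G p q a b
  na : ∀ x : G, cs x = a → El p x → False
  nb : ∀ y : G, cs y = b → El q y → False

namespace PBB

variable {G : Type u} [Group G] [Finite G] {p q a b : ℕ} (D : PBB G p q a b)
include D

theorem symm : PBB G q p b a := ⟨D.H.symm, D.nb, D.na⟩

theorem exA : ∃ x : G, cs x = a ∧ El q x := by
  obtain ⟨x, hx, h | h⟩ := D.H.exists_prim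
  · exact (D.na x hx h).elim
  · exact ⟨x, hx, h⟩

theorem exB : ∃ y : G, cs y = b ∧ El p y := D.symm.exA

/-- noncentral `q`-elements -/
theorem typq {v : G} (hv : El q v) (hc : v ∉ center G) : cs v = a ∨ cs v = a * b := by
  rcases D.H.pp.typ v with h | h | h | h
  · exact (hc ((cs_eq_one v).mp h)).elim
  · exact Or.inl h
  · exact (D.nb v h hv).elim
  · exact Or.inr h

theorem typp {v : G} (hv : El p v) (hc : v ∉ center G) : cs v = b ∨ cs v = a * b := by
  rw [mul_comm a b]
  exact D.symm.typq hv hc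

theorem dvdq {v : G} (hv : El q v) (hc : v ∉ center G) : a ∣ cs v := by
  rcases D.typq hv hc with h | h
  · rw [h]
  · rw [h]; exact Dvd.intro _ rfl

theorem F1c {x y : G} (hx : cs x = a) (hy : cs y = b) (g : G) (h : x * (g * y * g⁻¹) = (g * y * g⁻¹) * x) :
    x * y = y * x := by
  have h1 := D.H.symm.F1 (x := g * y * g⁻¹) (y := x) (by rw [cs_conj]; exact hy) hx h.symm g⁻¹
  have h2 : g⁻¹ * (g * y * g⁻¹) * g⁻¹⁻¹ = y := by group
  rw [h2] at h1
  exact h1

/-- noncommuting elements of types `a` and `b` -/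
theorem cs_mul_le {x y : G} (hx : cs x = a) (hy : cs y = b) (hn : x * y ≠ y * x) (hlt : a < b) :
    cs (x * y) ≤ cs y := by
  rw [hy]
  rcases D.H.pp.typ (x * y) with h | h | h | h
  · rw [h]; exact D.H.pp.b1.le
  · rw [h]; exact hlt.le
  · rw [h]
  · exfalso
    have hcop : (C x).index.Coprime (C y).index := by
      change (cs x).Coprime (cs y)
      rw [hx, hy]; exact D.H.pp.cop
    have h1 : (C x ⊓ C y).index = a * b := by
      rw [H72.CoprimeIndex.index_inf_of_coprime _ _ hcop]
      change cs x * cs y = _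
      rw [hx, hy]
    have h2 : C x ⊓ C y ≤ C (x * y) := by
      intro g hg
      obtain ⟨h3, h4⟩ := Subgroup.mem_inf.mp hg
      exact memC.mpr ((show Commute g x from memC.mp h3).mul_right (show Commute g y from memC.mp h4)).eq
    have h3 := Subgroup.relIndex_mul_index h2
    change _ * cs (x * y) = _ at h3
    rw [h1, h] at h3
    have h4 : (C x ⊓ C y).relIndex (C (x * y)) = 1 := by
      have h6 : 0 < a * b := by have := D.H.pp.lta; omega
      exact Nat.eq_of_mul_eq_mul_right h6 (by rw [h3, one_mul])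
    rw [Subgroup.relIndex_eq_one] at h4
    have h5 := (Subgroup.mem_inf.mp (h4 (self_memC (x * y)))).1
    have h6 : x * y * x = x * (x * y) := memC.mp h5
    apply hn
    have h7 : x * (y * x) = x * (x * y) := by rw [← mul_assoc]; exact h6
    exact (mul_left_cancel h7).symm

theorem KK_le_L {x y : G} (hx : cs x = a) (hy : cs y = b) (hn : x * y ≠ y * x) (hlt : a < b) :
    KK x ≤ L y := by
  apply KK_le
  intro g
  apply comm_mem_L _ (D.cs_mul_le hx hy hn hlt)
  rw [hx, hy]; exact D.H.pp.cop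

theorem KK_pg {x y : G} (hx : cs x = a) (hy : cs y = b) (hn : x * y ≠ y * x) (hlt : a < b) :
    IsPGroup q (KK x) := by
  have h1 := card_L_dvd y
  obtain ⟨j, hj⟩ := D.H.ib
  rw [hy, hj] at h1
  obtain ⟨k, -, hk⟩ := (Nat.dvd_prime_pow D.H.hq).mp h1
  have h2 : IsPGroup q (L y) := IsPGroup.of_card (n := k) hk
  exact h2.to_le (D.KK_le_L hx hy hn hlt)

/-- `q`-elements of `KK x` commuting with a noncommuting `y` -/
theorem KK_eq_one {x y k : G} (hx : cs x = a) (hy : cs y = b) (hyp : El p y) (hn : x * y ≠ y * x) (hlt : a < b)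
    (hk : k ∈ KK x) (hky : k * y = y * k) : k = 1 := by
  have h1 := (mem_L.mp (D.KK_le_L hx hy hn hlt hk) y).mp (IsConj.refl y)
  obtain ⟨g, hg⟩ := isConj_iff.mp h1
  have h2 : orderOf (k * y) = orderOf y := by rw [← hg, H70.RegT.orderOf_conj']
  have h3 : (orderOf k).Coprime (orderOf y) :=
    El.cop D.H.hq D.H.hp D.H.hpq.symm (El.of_mem D.H.hq (D.KK_pg hx hy hn hlt) hk) hyp
  have h4 := (show Commute k y from hky).orderOf_mul_eq_mul_orderOf_of_coprime h3
  rw [h2] at h4
  have h5 : orderOf k = 1 := by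
    have h6 : 0 < orderOf y := orderOf_pos y
    exact (Nat.eq_of_mul_eq_mul_right h6 (by rw [one_mul]; exact h4)).symm
  exact orderOf_eq_one_iff.mp h5

/-- the normal `q`-subgroups centralise elements of type `a` -/
theorem core_le {v : G} (hv : cs v = a) : pCore q G ≤ C v := by
  have : (pCore q G).Normal := H1.Cores.pCore_normal q
  haveI : Fact q.Prime := ⟨D.H.hq⟩
  apply normal_le_cent
  obtain ⟨n, hn⟩ := IsPGroup.iff_card.mp (H1.Cores.isPGroup_pCore (G := G) q)
  obtain ⟨i, hi⟩ := D.H.ia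
  rw [hn, hv, hi]
  exact Nat.Coprime.pow n i ((Nat.coprime_primes D.H.hq D.H.hp).mpr D.H.hpq.symm)

/-- relative indices of the centre -/
theorem relq {y g : G} (hy : cs y = b) (hny : ¬ q ∣ (center G).relIndex (C y)) (hg : b ∣ cs g)
    {v : G} (hv : v ∈ C g) (hvq : El q v) : v ∈ center G := by
  by_contra hc
  obtain ⟨k, hk⟩ := hvq
  have h1 := dvd_relIndex D.H.hq hv hk hc
  have h2 := rel_mul y
  have h3 := rel_mul g
  rw [← h2, hy] at h3
  apply hny
  have h4 : q * b ∣ (center G).relIndex (C y) * b := by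
    rw [← h3]
    exact Nat.mul_dvd_mul h1 hg
  have hb : 0 < b := by have := D.H.pp.b1; omega
  exact Nat.dvd_of_mul_dvd_mul_right hb h4

theorem B2 (hlt : a < b) {x y : G} (hx : cs x = a) (hxq : El q x) (hy : cs y = b) (hyp : El p y)
    (hn : x * y ≠ y * x) : False := by
  have hxc := D.H.pp.nc_a hx
  have hxV : x ∈ pCore q G := mem_pCore_of_KK D.H.hq hxq (D.KK_pg hx hy hn hlt)
  -- elements of type `a` commuting with `y`
  have hda : ∀ v : G, El q v → cs v = a → v * y ≠ y * v := by
    intro v hvq hv hvy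
    have hxv : x * v = v * x := memC.mp (D.core_le hv hxV)
    have hxvq : El q (x * v) := El.mul D.H.hq hxq hvq hxv
    have hxvc : x * v ∉ center G := by
      intro h
      apply hn
      have h1 : y * (x * v) = x * v * y := mem_center_iff.mp h y
      have h2 : y * x * v = x * y * v := by
        calc y * x * v = y * (x * v) := by group
          _ = x * (v * y) := by rw [h1]; group
          _ = x * y * v := by rw [hvy]; group
      exact (mul_right_cancel h2).symm
    have hCx : C (x * v) ≤ C x := by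
      intro z hz
      have h1 : z * (x * v) = x * v * z := memC.mp hz
      have h2 : x⁻¹ * (z * x * z⁻¹) = v * (z * v * z⁻¹)⁻¹ := by
        calc x⁻¹ * (z * x * z⁻¹) = x⁻¹ * (z * (x * v)) * z⁻¹ * (z * v * z⁻¹)⁻¹ := by group
          _ = v * (z * v * z⁻¹)⁻¹ := by rw [h1]; group
      have h3 : y * (z * v * z⁻¹) = (z * v * z⁻¹) * y := D.H.F1 hv hy hvy z
      have h4 : Commute y (v * (z * v * z⁻¹)⁻¹) :=
        (show Commute y v from hvy.symm).mul_right (show Commute y (z * v * z⁻¹) from h3).inv_right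
      have h5 : x⁻¹ * (z * x * z⁻¹) = 1 := by
        apply D.KK_eq_one hx hy hyp hn hlt (mem_KK x z)
        rw [h2]
        exact h4.symm.eq
      apply memC.mpr
      have h6 : z * x * z⁻¹ = x := by
        calc z * x * z⁻¹ = x * (x⁻¹ * (z * x * z⁻¹)) := by group
          _ = x := by rw [h5, mul_one]
      calc z * x = z * x * z⁻¹ * z := by group
        _ = x * z := by rw [h6]
    have hCv : C (x * v) ≤ C v := by
      intro z hz
      have h1 : z * (x * v) = x * v * z := memC.mp hz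
      have h2 : z * x = x * z := memC.mp (hCx hz)
      apply memC.mpr
      have h3 : x * (z * v) = x * (v * z) := by
        calc x * (z * v) = x * z * v := by group
          _ = z * (x * v) := by rw [← h2]; group
          _ = x * (v * z) := by rw [h1]; group
      exact mul_left_cancel h3
    obtain ⟨R, hR⟩ := exists_Syl D.H.hp (C (x * v))
    have hRv : Syl p R (C v) := D.H.trp hR (hR.le.trans hCv) (D.dvdq hxvq hxvc) (by rw [hv])
    obtain ⟨g, -, hg⟩ := hRv.conj D.H.hp (memC.mpr hvy.symm) hyp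
    apply hn
    apply D.F1c hx hy g
    exact (memC.mp (hCx (hR.le hg))).symm
  have hdc : ∀ v : G, El q v → cs v = a * b → v * y ≠ y * v := by
    intro v hvq hv hvy
    have h1 : C v ≤ C y := D.H.K1 hv hvy (El.cop D.H.hq D.H.hp D.H.hpq.symm hvq hyp)
    obtain ⟨k, hk, hk1, hkv⟩ := exists_fixed D.H.hq (D.KK_pg hx hy hn hlt) (KK_ne_bot hxc) hvq
    apply hk1
    exact D.KK_eq_one hx hy hyp hn hlt hk (memC.mp (h1 (memC.mpr hkv)))
  have hny : ¬ q ∣ (center G).relIndex (C y) := by
    apply not_dvd_relIndex D.H.hq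
    intro v hv hvq
    by_contra hvc
    rcases D.typq hvq hvc with h | h
    · exact hda v hvq h (memC.mp hv)
    · exact hdc v hvq h (memC.mp hv)
  have hq1 : ∀ g : G, b ∣ cs g → ∀ v ∈ C g, El q v → v ∈ center G := fun g hg v hv hvq =>
    D.relq hy hny hg hv hvq
  have hpx : ∀ u ∈ C x, El p u → u ∈ center G := by
    intro u hu hup
    by_contra huc
    have h1 : b ∣ cs u := by
      rcases D.typp hup huc with h | h
      · rw [h]
      · rw [h]; exact Dvd.intro_left _ rfl
    exact hxc (hq1 u h1 x (memC_comm.mp hu) hxq)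
  have hnx : ¬ p ∣ (center G).relIndex (C x) := not_dvd_relIndex D.H.hp hpx
  have hp1 : ∀ g : G, a ∣ cs g → ∀ v ∈ C g, El p v → v ∈ center G := fun g hg v hv hvp =>
    D.symm.relq hx hnx hg hv hvp
  obtain ⟨w, hw⟩ := D.H.pp.exc
  obtain ⟨j, r, k, hr, hk, hj⟩ := exists_primary_pow (D.H.pp.nc_c hw)
  have hwj : w ^ j ∈ C w := Subgroup.pow_mem _ (self_memC w) j
  by_cases hrp : r = p
  · exact hj (hp1 w (by rw [hw]; exact Dvd.intro _ rfl) _ hwj ⟨k, hrp ▸ hk⟩)
  · by_cases hrq : r = q
    · exact hj (hq1 w (by rw [hw]; exact Dvd.intro_left _ rfl) _ hwj ⟨k, hrq ▸ hk⟩)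
    · exact hj (D.H.other hr hrp hrq ⟨k, hk⟩)

/-- elements of types `a` and `b` commute -/
theorem comm {x y : G} (hx : cs x = a) (hxq : El q x) (hy : cs y = b) (hyp : El p y) : x * y = y * x := by
  by_contra hn
  rcases lt_trichotomy a b with h | h | h
  · exact D.B2 h hx hxq hy hyp hn
  · have h1 := D.H.pp.cop
    rw [h, Nat.coprime_self] at h1
    have := D.H.pp.b1
    omega
  · exact D.symm.B2 h hy hyp hx hxq (fun h => hn h.symm)

end PBB

end H72.ItoN
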