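import Mathlib
import Cfsg.Agent.Lib.H72.ItoN3
import Cfsg.Agent.Lib.H1.Solv

/-!
Nilpotency of groups with class sizes `1, a, b, ab`: no good elements, all pairs commute.
-/
set_option autoImplicit false
set_option linter.unusedSectionVars false
set_option linter.style.haveILetI false

namespace H72.ItoN

open Subgroup H72.TwoLargest H74.Ito3 H72.ItoZ Cfsg

universe u

section gen

variable {G : Type u} [Group G] [Finite G]

theorem Syl.card {r : ℕ} (hr : r.Prime) {R K : Subgroup G} (h : Syl r R K) :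
    Nat.card R = r ^ (Nat.card K).factorization r := by
  haveI : Fact r.Prime := ⟨hr⟩
  obtain ⟨n, hn⟩ := IsPGroup.iff_card.mp h.pg
  have h1 := Subgroup.relIndex_mul_relIndex ⊥ R K bot_le h.le
  rw [Subgroup.relIndex_bot_left, Subgroup.relIndex_bot_left] at h1
  have h2 : R.relIndex K ≠ 0 := Subgroup.index_ne_zero_of_finite
  rw [← h1, Nat.factorization_mul Nat.card_pos.ne' h2, Finsupp.add_apply,
    Nat.factorization_eq_zero_of_not_dvd h.nd, add_zero, hn, hr.factorization_pow, Finsupp.single_eq_same]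

theorem exists_Sylow_ge {r : ℕ} (hr : r.Prime) {u : G} (hu : El r u) :
    ∃ P : Subgroup G, Syl r P ⊤ ∧ u ∈ P := by
  haveI : Fact r.Prime := ⟨hr⟩
  obtain ⟨P, hP⟩ := (isPGroup_zpowers hu).exists_le_sylow
  refine ⟨P, ⟨le_top, P.2, ?_⟩, hP (mem_zpowers u)⟩
  rw [Subgroup.relIndex_top_right]
  exact P.not_dvd_index

/-- `r`-elements of the Fitting subgroup -/
theorem mem_pCore_of_fitting {r : ℕ} (hr : r.Prime) {u : G} (hu : El r u) (h : u ∈ fittingSubgroup G) :
    u ∈ pCore r G := by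
  haveI : Fact r.Prime := ⟨hr⟩
  have h1 : Syl r (pCore r G) (fittingSubgroup G) := by
    refine ⟨H1.Cores.pCore_le_fittingSubgroup r, H1.Cores.isPGroup_pCore r, ?_⟩
    rw [H1.Cores.fittingSubgroup_eq_iSup_pCore]
    exact H1.Cores.not_dvd_index_pCore_iSup r
  apply h1.mem hr h hu
  have : (pCore r G).Normal := H1.Cores.pCore_normal r
  rw [normalizer_eq_top]
  trivial

end gen

namespace PB

variable {G : Type u} [Group G] [Finite G] {p q a b : ℕ} (H : PB G p q a b)
include H

theorem fit {s : G} (hs : El p s) (h1 : pCore p G ≤ C s) (h2 : pCore q G ≤ C s) : s ∈ pCore p G := by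
  apply mem_pCore_of_fitting H.hp hs
  apply H1.Solv.centralizer_fitting_le H.pp.solvable
  have h3 : fittingSubgroup G ≤ C s := by
    rw [H1.Cores.fittingSubgroup_eq_iSup_pCore]
    refine iSup_le fun r => ?_
    by_cases hrp : (r : ℕ) = p
    · rw [hrp]; exact h1
    by_cases hrq : (r : ℕ) = q
    · rw [hrq]; exact h2
    intro u hu
    have h4 := H.other r.2 hrp hrq (El.of_mem r.2 (H1.Cores.isPGroup_pCore (r : ℕ)) hu)
    exact memC.mpr (mem_center_iff.mp h4 s).symm
  rw [mem_centralizer_iff]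
  intro u hu
  exact memC.mp (h3 hu)

end PB

namespace PBB

variable {G : Type u} [Group G] [Finite G] {p q a b : ℕ} (D : PBB G p q a b)
include D

theorem star1 {y : G} (hy : cs y = b) (hyp : El p y) : pCore q G ≤ C y := by
  have hVn : (pCore q G).Normal := H1.Cores.pCore_normal q
  have hVq : IsPGroup q (pCore q G) := H1.Cores.isPGroup_pCore q
  haveI : Fact q.Prime := ⟨D.H.hq⟩
  obtain ⟨T, hT⟩ := exists_Syl D.H.hq (C y)
  have hVT : pCore q G ≤ T := by
    by_contra hcon
    obtain ⟨n0, hn0, hn0T, hn0N⟩ := exists_norm D.H.hq (U := T ⊔ pCore q G) (S := T)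
      (IsPGroup.to_sup_of_normal_right hT.pg hVq) le_sup_left (fun h => hcon (le_sup_right.trans h))
    obtain ⟨t, ht, n, hn, rfl⟩ := Subgroup.mem_sup_of_normal_right.mp hn0
    have hnT : n ∉ T := fun h => hn0T (mul_mem ht h)
    have hnN : n ∈ normalizer (T : Set G) := by
      have h1 : t ∈ normalizer (T : Set G) := le_normalizer ht
      have h2 := Subgroup.mul_mem _ (Subgroup.inv_mem _ h1) hn0N
      rwa [inv_mul_cancel_left] at h2
    have hcV : y⁻¹ * (n * y * n⁻¹) ∈ pCore q G := by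
      have e : y⁻¹ * (n * y * n⁻¹) = (y⁻¹ * n * y⁻¹⁻¹) * n⁻¹ := by group
      rw [e]
      exact Subgroup.mul_mem _ (hVn.conj_mem n hn y⁻¹) (Subgroup.inv_mem _ hn)
    have hcq : El q (y⁻¹ * (n * y * n⁻¹)) := El.of_mem D.H.hq hVq hcV
    have hcT : ∀ s ∈ T, (y⁻¹ * (n * y * n⁻¹)) * s = s * (y⁻¹ * (n * y * n⁻¹)) := by
      intro s hs
      have h1 : Commute s y := memC.mp (hT.le hs)
      have h2 : n⁻¹ * s * n⁻¹⁻¹ ∈ T := (Subgroup.mem_normalizer_iff.mp (Subgroup.inv_mem _ hnN) s).mp hs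
      have h3 : Commute (n⁻¹ * s * n⁻¹⁻¹) y := memC.mp (hT.le h2)
      have h4 : Commute s (n * y * n⁻¹) := by
        change s * (n * y * n⁻¹) = n * y * n⁻¹ * s
        calc s * (n * y * n⁻¹) = n * ((n⁻¹ * s * n⁻¹⁻¹) * y) * n⁻¹ := by group
          _ = n * (y * (n⁻¹ * s * n⁻¹⁻¹)) * n⁻¹ := by rw [h3.eq]
          _ = n * y * n⁻¹ * s := by group
      exact (h1.inv_right.mul_right h4).symm.eq
    have hcN : y⁻¹ * (n * y * n⁻¹) ∈ normalizer (T : Set G) := by
      apply Subgroup.centralizer_le_normalizer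
      rw [mem_centralizer_iff]
      intro s hs
      exact (hcT s hs).symm
    have hcase : ¬ y⁻¹ * (n * y * n⁻¹) ∈ T := by
      intro hc
      have h1 : (y⁻¹ * (n * y * n⁻¹)) * y = y * (y⁻¹ * (n * y * n⁻¹)) := memC.mp (hT.le hc)
      have h2 := comm_pow_eq_one h1.symm
      obtain ⟨k, hk⟩ := hcq
      have h3 : y⁻¹ * (n * y * n⁻¹) = 1 := by
        apply eq_one_of_cop h2 (n := q ^ k)
        · rw [← hk]; exact pow_orderOf_eq_one _
        · exact Nat.Coprime.pow_right k (El.cop' D.H.hp D.H.hq D.H.hpq hyp)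
      have h4 : n * y = y * n := by
        have h5 : n * y * n⁻¹ = y := by
          calc n * y * n⁻¹ = y * (y⁻¹ * (n * y * n⁻¹)) := by group
            _ = y := by rw [h3, mul_one]
        calc n * y = n * y * n⁻¹ * n := by group
          _ = y * n := by rw [h5]
      exact hnT (hT.mem D.H.hq (memC.mpr h4) (El.of_mem D.H.hq hVq hn) hnN)
    by_cases hcc : y⁻¹ * (n * y * n⁻¹) ∈ center G
    · exact hcase (hT.mem D.H.hq (center_le_C y hcc) hcq hcN)
    rcases D.typq hcq hcc with h | h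
    · exact hcase (hT.mem D.H.hq (memC.mpr (D.comm h hcq hy hyp)) hcq hcN)
    · have h1 : Syl q T (C (y⁻¹ * (n * y * n⁻¹))) := by
        refine D.H.trq hT ?_ (by rw [hy]) (by rw [h]; exact Dvd.intro_left _ rfl)
        intro s hs
        exact memC.mpr (hcT s hs).symm
      exact hcase (h1.mem D.H.hq (self_memC _) hcq hcN)
  exact hVT.trans hT.le

theorem star2 {x : G} (hx : cs x = a) (hxq : El q x) : pCore p G ≤ C x := D.symm.star1 hx hxq

theorem memU {y : G} (hy : cs y = b) (hyp : El p y) : y ∈ pCore p G :=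
  D.H.fit hyp (D.symm.core_le hy) (D.star1 hy hyp)

theorem memV {x : G} (hx : cs x = a) (hxq : El q x) : x ∈ pCore q G := D.symm.memU hx hxq

/-- `p`-elements not in the core -/
theorem typ_out {s : G} (hs : El p s) (hsU : s ∉ pCore p G) : cs s = a * b := by
  have hsc : s ∉ center G := by
    intro h
    apply hsU
    apply D.H.fit hs
    · intro u _; exact memC.mpr (mem_center_iff.mp h u)
    · intro u _; exact memC.mpr (mem_center_iff.mp h u)
  rcases D.typp hs hsc with h | h
  · exact (hsU (D.memU h hs)).elim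
  · exact h

theorem h' {s y : G} (hs : El p s) (hsc : cs s = a * b) (hy : cs y = b) (hyp : El p y) (hsy : s * y = y * s) :
    pCore q G ≤ C s := by
  obtain ⟨T, hT⟩ := exists_Syl D.H.hq (C s)
  have h1 : T ≤ C y := by
    intro v hv
    have hvs : v * s = s * v := memC.mp (hT.le hv)
    have h2 : C s ≤ C v := D.H.K1 hsc hvs.symm
      (El.cop D.H.hp D.H.hq D.H.hpq hs (El.of_mem D.H.hq hT.pg hv))
    exact memC_comm.mp (h2 (memC.mpr hsy.symm))
  have h2 : Syl q T (C y) := D.H.trq hT h1 (by rw [hsc]; exact Dvd.intro_left _ rfl) (by rw [hy])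
  have hVn : (pCore q G).Normal := H1.Cores.pCore_normal q
  exact (h2.normal_le D.H.hq (D.star1 hy hyp) (H1.Cores.isPGroup_pCore q)).trans hT.le

theorem hh {x s : G} (hx : cs x = a) (hxq : El q x) (hsx : s ∈ C x) (hs : El p s) : s ∈ pCore p G := by
  by_contra hsU
  have hsc := D.typ_out hs hsU
  have hxs : s * x = x * s := memC.mp hsx
  have hcop := El.cop D.H.hp D.H.hq D.H.hpq hs hxq
  have h1 := C_mul hxs hcop
  have h2 : C (s * x) ≤ C s := by rw [h1]; exact inf_le_left
  have h3 : C (s * x) ≤ C x := by rw [h1]; exact inf_le_right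
  have h4 : a ∣ cs (s * x) := (Dvd.intro _ hsc.symm).trans (cs_dvd_of_le h2)
  obtain ⟨R, hR⟩ := exists_Syl D.H.hp (C (s * x))
  have h5 : Syl p R (C x) := D.H.trp hR (hR.le.trans h3) h4 (by rw [hx])
  have hUn : (pCore p G).Normal := H1.Cores.pCore_normal p
  have h6 : pCore p G ≤ C s :=
    (h5.normal_le D.H.hp (D.star2 hx hxq) (H1.Cores.isPGroup_pCore p)).trans (hR.le.trans h2)
  obtain ⟨y, hy, hyp⟩ := D.exB
  have h7 : y ∈ C s := h6 (D.memU hy hyp)
  exact hsU (D.H.fit hs h6 (D.h' hs hsc hy hyp (memC.mp h7).symm))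

/-- the core is a Sylow subgroup of the centraliser -/
theorem sylU {x : G} (hx : cs x = a) (hxq : El q x) : Syl p (pCore p G) (C x) := by
  refine ⟨D.star2 hx hxq, H1.Cores.isPGroup_pCore p, ?_⟩
  apply not_dvd_relIndex D.H.hp
  intro u hu hup
  exact D.hh hx hxq hu hup

theorem kk {v s : G} (hv : v ∈ pCore q G) (hvc : v ∉ center G) (hsv : s ∈ C v) (hs : El p s) : s ∈ pCore p G := by
  have hvq := El.of_mem D.H.hq (H1.Cores.isPGroup_pCore q) hv
  rcases D.typq hvq hvc with h | h
  · exact D.hh h hvq hsv hs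
  · by_contra hsU
    have hsc := D.typ_out hs hsU
    have h1 : C v ≤ C s := D.H.K1 h (memC.mp hsv).symm (El.cop D.H.hq D.H.hp D.H.hpq.symm hvq hs)
    obtain ⟨y, hy, hyp⟩ := D.exB
    have h2 : y ∈ C s := h1 (memC_comm.mp (D.star1 hy hyp hv))
    have h3 := D.h' hs hsc hy hyp (memC.mp h2).symm
    obtain ⟨x, hx, hxq⟩ := D.exA
    exact hsU (D.hh hx hxq (memC_comm.mp (h3 (D.memV hx hxq))) hs)

/-- the index of the core in a Sylow subgroup -/
theorem relU {P : Subgroup G} (hP : Syl p P ⊤) : (pCore p G).relIndex P = a := by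
  obtain ⟨x, hx, hxq⟩ := D.exA
  have hU := D.sylU hx hxq
  haveI : Fact p.Prime := ⟨D.H.hp⟩
  have hUn : (pCore p G).Normal := H1.Cores.pCore_normal p
  have hUP : pCore p G ≤ P := hP.normal_le D.H.hp le_top (H1.Cores.isPGroup_pCore p)
  have h1 := Subgroup.relIndex_mul_index hUP
  have h2 := Subgroup.relIndex_mul_index hU.le
  change _ * cs x = _ at h2
  rw [hx, ← h1] at h2
  have h3 : ¬ p ∣ P.index := by rw [← Subgroup.relIndex_top_right]; exact hP.nd
  obtain ⟨n, hn⟩ := IsPGroup.iff_card.mp hP.pg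
  have h4 : (pCore p G).relIndex P ∣ p ^ n := by rw [← hn]; exact Subgroup.relIndex_dvd_card _ _
  obtain ⟨m, -, hm⟩ := (Nat.dvd_prime_pow D.H.hp).mp h4
  obtain ⟨i, hi⟩ := D.H.ia
  rw [hm, hi] at h2
  rw [hm, hi]
  apply Nat.dvd_antisymm
  · have h5 : p ^ m ∣ (pCore p G).relIndex (C x) * p ^ i := by rw [h2]; exact Dvd.intro _ rfl
    exact Nat.Coprime.dvd_of_dvd_mul_left
      (Nat.Coprime.pow_left m ((Nat.Prime.coprime_iff_not_dvd D.H.hp).mpr hU.nd)) h5
  · have h5 : p ^ i ∣ p ^ m * P.index := by rw [← h2]; exact Dvd.intro_left _ rfl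
    exact Nat.Coprime.dvd_of_dvd_mul_right
      (Nat.Coprime.pow_left i ((Nat.Prime.coprime_iff_not_dvd D.H.hp).mpr h3)) h5

/-- first inequality -/
theorem lt1 : a < (center G).relIndex (pCore q G) := by
  obtain ⟨x, hx, hxq⟩ := D.exA
  obtain ⟨P, hP⟩ := exists_Syl D.H.hp (⊤ : Subgroup G)
  rw [← D.relU hP]
  have hVn : (pCore q G).Normal := H1.Cores.pCore_normal q
  have hVq : IsPGroup q (pCore q G) := H1.Cores.isPGroup_pCore q
  have hUx := D.star2 hx hxq
  have hxV := D.memV hx hxq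
  have hxc := D.H.pp.nc_a hx
  let f0 : P → pCore q G := fun t => ⟨(t : G) * x * (t : G)⁻¹, hVn.conj_mem x hxV t⟩
  let f1 : P → pCore q G ⧸ (center G).subgroupOf (pCore q G) := fun t => QuotientGroup.mk (f0 t)
  have hwd : ∀ s t : P, (QuotientGroup.leftRel ((pCore p G).subgroupOf P)) s t → f1 s = f1 t := by
    intro s t hst
    rw [QuotientGroup.leftRel_apply, mem_subgroupOf] at hst
    have h1 : ((s⁻¹ * t : P) : G) * x = x * ((s⁻¹ * t : P) : G) := memC.mp (hUx hst)
    have h2 : (s : G) * x * (s : G)⁻¹ = t * x * (t : G)⁻¹ := by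
      have h3 : (s : G)⁻¹ * t * x = x * ((s : G)⁻¹ * t) := by
        simpa using h1
      calc (s : G) * x * (s : G)⁻¹ = s * (x * ((s : G)⁻¹ * t)) * (t : G)⁻¹ := by group
        _ = t * x * (t : G)⁻¹ := by rw [← h3]; group
    change QuotientGroup.mk (f0 s) = QuotientGroup.mk (f0 t)
    congr 1
    exact Subtype.ext h2
  let f : P ⧸ (pCore p G).subgroupOf P → pCore q G ⧸ (center G).subgroupOf (pCore q G) :=
    Quotient.lift f1 hwd
  have hinj : Function.Injective f := by
    intro s t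
    induction s using Quotient.inductionOn with | _ s =>
    induction t using Quotient.inductionOn with | _ t =>
    intro h
    have h1 : (QuotientGroup.mk (f0 s) : pCore q G ⧸ (center G).subgroupOf (pCore q G)) =
      QuotientGroup.mk (f0 t) := h
    rw [QuotientGroup.eq, mem_subgroupOf] at h1
    have h2 : ((s : G) * x * (s : G)⁻¹)⁻¹ * (t * x * (t : G)⁻¹) ∈ center G := h1
    apply Quotient.sound
    change (QuotientGroup.leftRel ((pCore p G).subgroupOf P)) s t
    rw [QuotientGroup.leftRel_apply, mem_subgroupOf]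
    set r : G := (s : G)⁻¹ * t with hr
    have hrp : El p r := El.of_mem D.H.hp hP.pg (P.mul_mem (P.inv_mem s.2) t.2)
    have h3 : x⁻¹ * (r * x * r⁻¹) ∈ center G := by
      have h4 := (inferInstance : (center G).Normal).conj_mem _ h2 (s : G)⁻¹
      have e : (s : G)⁻¹ * (((s : G) * x * (s : G)⁻¹)⁻¹ * (t * x * (t : G)⁻¹)) * (s : G)⁻¹⁻¹ =
          x⁻¹ * (r * x * r⁻¹) := by rw [hr]; group
      rwa [e] at h4
    have h4 := conj_pow_eq (a := x) (v := r) (k := x⁻¹ * (r * x * r⁻¹)) (by group)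
      (mem_center_iff.mp h3 r) (orderOf r)
    rw [pow_orderOf_eq_one, one_mul, inv_one, mul_one] at h4
    have h5 : (x⁻¹ * (r * x * r⁻¹)) ^ orderOf r = 1 := by
      have : x * 1 = x * (x⁻¹ * (r * x * r⁻¹)) ^ orderOf r := by rw [mul_one]; exact h4
      exact (mul_left_cancel this).symm
    have h6 : x⁻¹ * (r * x * r⁻¹) ∈ pCore q G :=
      Subgroup.mul_mem _ (Subgroup.inv_mem _ hxV) (hVn.conj_mem x hxV r)
    obtain ⟨k, hk⟩ := El.of_mem D.H.hq hVq h6
    have h7 : x⁻¹ * (r * x * r⁻¹) = 1 := by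
      apply eq_one_of_cop h5 (n := q ^ k)
      · rw [← hk]; exact pow_orderOf_eq_one _
      · exact Nat.Coprime.pow_right k (El.cop' D.H.hp D.H.hq D.H.hpq hrp)
    have h8 : r ∈ C x := by
      have h9 : r * x * r⁻¹ = x := by
        calc r * x * r⁻¹ = x * (x⁻¹ * (r * x * r⁻¹)) := by group
          _ = x := by rw [h7, mul_one]
      apply memC.mpr
      calc r * x = r * x * r⁻¹ * r := by group
        _ = x * r := by rw [h9]
    exact D.hh hx hxq h8 hrp
  have hne : ∀ s, f s ≠ QuotientGroup.mk 1 := by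
    intro s
    induction s using Quotient.inductionOn with | _ s =>
    intro h
    have h1 : (QuotientGroup.mk (f0 s) : pCore q G ⧸ (center G).subgroupOf (pCore q G)) =
      QuotientGroup.mk 1 := h
    rw [QuotientGroup.eq, mem_subgroupOf] at h1
    have h2 : ((s : G) * x * (s : G)⁻¹)⁻¹ * 1 ∈ center G := h1
    rw [mul_one] at h2
    have h3 := Subgroup.inv_mem _ h2
    rw [inv_inv] at h3
    have h4 := (inferInstance : (center G).Normal).conj_mem _ h3 (s : G)⁻¹
    apply hxc
    have e : (s : G)⁻¹ * ((s : G) * x * (s : G)⁻¹) * (s : G)⁻¹⁻¹ = x := by group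
    rwa [e] at h4
  have hcard : Nat.card (P ⧸ (pCore p G).subgroupOf P) <
      Nat.card (pCore q G ⧸ (center G).subgroupOf (pCore q G)) := by
    apply lt_of_le_of_ne (Nat.card_le_card_of_injective f hinj)
    intro heq
    have hb := (Nat.bijective_iff_injective_and_card f).mpr ⟨hinj, heq⟩
    obtain ⟨s, hs⟩ := hb.2 (QuotientGroup.mk 1)
    exact hne s hs
  exact hcard

/-- second inequality -/
theorem le2 : (center G).relIndex (pCore q G) ≤ b := by
  obtain ⟨x, hx, hxq⟩ := D.exA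
  obtain ⟨y, hy, hyp⟩ := D.exB
  have hVn : (pCore q G).Normal := H1.Cores.pCore_normal q
  have hVq : IsPGroup q (pCore q G) := H1.Cores.isPGroup_pCore q
  have hV : Syl q (pCore q G) (C y) := D.symm.sylU hy hyp
  haveI : Fact q.Prime := ⟨D.H.hq⟩
  -- a `p`-element outside the core
  obtain ⟨σ, hσ, hσU⟩ : ∃ σ : G, El p σ ∧ σ ∉ pCore p G := by
    by_contra hcon
    push Not at hcon
    obtain ⟨P, hP⟩ := exists_Syl D.H.hp (⊤ : Subgroup G)
    have h1 : P ≤ pCore p G := fun u hu => hcon u (El.of_mem D.H.hp hP.pg hu)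
    have h2 := D.relU hP
    rw [Subgroup.relIndex_eq_one.mpr h1] at h2
    have := D.H.pp.a1
    omega
  have hσc := D.typ_out hσ hσU
  obtain ⟨R, hR⟩ := exists_Syl D.H.hq (C σ)
  have hRV : pCore q G ⊓ R ≤ center G := by
    intro v hv
    obtain ⟨h1, h2⟩ := Subgroup.mem_inf.mp hv
    by_contra hvc
    exact hσU (D.kk h1 hvc (memC_comm.mp (hR.le h2)) hσ)
  -- orders
  have hcards : Nat.card R = Nat.card (pCore q G) := by
    rw [hR.card D.H.hq, hV.card D.H.hq]
    congr 1
    have h1 := card_C σ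
    have h2 := card_C y
    rw [← h2] at h1
    have h3 := congrArg (fun n => n.factorization q) h1
    simp only [Nat.factorization_mul Nat.card_pos.ne' (cs_pos _).ne', Finsupp.add_apply] at h3
    rw [D.H.symm.fp (g := σ) (by rw [hσc]; exact Dvd.intro_left _ rfl), D.H.symm.fp (g := y) (by rw [hy])] at h3
    omega
  have hW : IsPGroup q (R ⊔ pCore q G : Subgroup G) := IsPGroup.to_sup_of_normal_right hR.pg hVq
  have hd : (pCore q G).relIndex R ∣ b := by
    have h1 : (pCore q G).relIndex (R ⊔ pCore q G) = (pCore q G).relIndex R := Subgroup.relIndex_sup_right _ _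
    rw [← h1]
    obtain ⟨n, hn⟩ := IsPGroup.iff_card.mp hW
    have h4 : (pCore q G).relIndex (R ⊔ pCore q G) ∣ q ^ n := by rw [← hn]; exact Subgroup.relIndex_dvd_card _ _
    obtain ⟨m, -, hm⟩ := (Nat.dvd_prime_pow D.H.hq).mp h4
    have h5 := Subgroup.relIndex_mul_index (le_sup_right : pCore q G ≤ R ⊔ pCore q G)
    have h6 := Subgroup.relIndex_mul_index hV.le
    change _ * cs y = _ at h6
    rw [← h6, hy, hm] at h5
    rw [hm]
    have h7 : q ^ m ∣ (pCore q G).relIndex (C y) * b := by rw [← h5]; exact Dvd.intro _ rfl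
    exact Nat.Coprime.dvd_of_dvd_mul_left
      (Nat.Coprime.pow_left m ((Nat.Prime.coprime_iff_not_dvd D.H.hq).mpr hV.nd)) h7
  have hle : (pCore q G).relIndex R ≤ b := Nat.le_of_dvd (by have := D.H.pp.b1; omega) hd
  have e1 : Nat.card (pCore q G ⊓ R : Subgroup G) * (pCore q G).relIndex R = Nat.card R := by
    rw [← Subgroup.inf_relIndex_right, ← Subgroup.relIndex_bot_left, ← Subgroup.relIndex_bot_left]
    exact Subgroup.relIndex_mul_relIndex ⊥ _ R bot_le inf_le_right
  have e2 : Nat.card (center G ⊓ pCore q G : Subgroup G) * (center G).relIndex (pCore q G) =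
      Nat.card (pCore q G) := by
    rw [← Subgroup.inf_relIndex_right (center G), ← Subgroup.relIndex_bot_left,
      ← Subgroup.relIndex_bot_left (pCore q G)]
    exact Subgroup.relIndex_mul_relIndex ⊥ _ _ bot_le inf_le_right
  have e3 : Nat.card (pCore q G ⊓ R : Subgroup G) ≤ Nat.card (center G ⊓ pCore q G : Subgroup G) :=
    Nat.card_le_card_of_injective _ (Subgroup.inclusion_injective (le_inf hRV inf_le_left))
  rw [hcards, ← e2] at e1
  have e4 : 0 < Nat.card (center G ⊓ pCore q G : Subgroup G) := Nat.card_pos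
  by_contra hcon
  push Not at hcon
  have e5 : Nat.card (pCore q G ⊓ R : Subgroup G) * (pCore q G).relIndex R ≤
      Nat.card (center G ⊓ pCore q G : Subgroup G) * b := Nat.mul_le_mul e3 hle
  have e6 : Nat.card (center G ⊓ pCore q G : Subgroup G) * b <
      Nat.card (center G ⊓ pCore q G : Subgroup G) * (center G).relIndex (pCore q G) :=
    Nat.mul_lt_mul_of_pos_left hcon e4
  omega

theorem false : False := by
  have h1 : a < b := lt_of_lt_of_le D.lt1 D.le2
  have h2 : b < a := lt_of_lt_of_le D.symm.lt1 D.symm.le2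
  omega

end PBB

/-- main theorem -/
theorem main {G : Type u} [Group G] [Finite G] {a b : ℕ} (H : PP G a b) : Group.IsNilpotent G := by
  obtain ⟨p, i, hp, -, hi⟩ := (isPrimePow_nat_iff a).mp H.isPrimePow_a
  obtain ⟨q, j, hq, -, hj⟩ := (isPrimePow_nat_iff b).mp H.isPrimePow_b
  have hpq : p ≠ q := by
    rintro rfl
    have h1 := H.cop
    have ha := H.a1
    have hb := H.b1
    have hp1 : p ∣ a := by
      rw [← hi]
      apply dvd_pow_self
      rintro rfl
      rw [pow_zero] at hi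
      omega
    have hp2 : p ∣ b := by
      rw [← hj]
      apply dvd_pow_self
      rintro rfl
      rw [pow_zero] at hj
      omega
    have h2 := Nat.dvd_gcd hp1 hp2
    rw [h1] at h2
    exact hp.one_lt.ne' (Nat.dvd_one.mp h2)
  have D : PB G p q a b := ⟨H, hp, hq, hpq, ⟨i, hi.symm⟩, ⟨j, hj.symm⟩⟩
  by_cases h1 : ∃ x : G, cs x = a ∧ El p x
  · obtain ⟨x, hx, hxp⟩ := h1
    exact D.caseG hx hxp
  by_cases h2 : ∃ y : G, cs y = b ∧ El q y
  · obtain ⟨y, hy, hyq⟩ := h2
    exact D.symm.caseG hy hyq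
  exact (PBB.false (p := p) (q := q) (a := a) (b := b)
    ⟨D, fun x hx hxp => h1 ⟨x, hx, hxp⟩, fun y hy hyq => h2 ⟨y, hy, hyq⟩⟩).elim

end H72.ItoN
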