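import Mathlib
import Cfsg.Agent.Lib.H72.ItoZ3

/-!
The case where both coprime class sizes divide the third one, which is not their product.
-/
set_option autoImplicit false
set_option linter.unusedSectionVars false
set_option linter.style.haveILetI false

namespace H72.ItoZ

open Subgroup H72.TwoLargest H74.Ito3 H70.SolvRad

universe u

namespace Hy

variable {G : Type u} [Group G] [Finite G] {a b c : ℕ} (H : Hy G a b c)
include H

theorem nocomm (hne : c ≠ a * b) {x y : G} (hx : cs x = a) (hy : cs y = b)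
    (hxy : x * y = y * x) (ho : (orderOf x).Coprime (orderOf y)) : False := by
  have h1 : cs (x * y) = a * b := by
    rw [← H.index_inf hx hy, ← C_mul hxy ho]
    rfl
  have ha := H.a1
  have hb := H.b1
  rcases H.typ' (x * y) with h | h | h | h
  · rw [h1] at h; nlinarith
  · rw [h1] at h; nlinarith
  · rw [h1] at h; nlinarith
  · exact hne (h ▸ h1)

theorem prime_ne {p q : ℕ} (hp : p.Prime) (hpa : p ∣ a) (hqb : q ∣ b) : p ≠ q := by
  rintro rfl
  have h1 := Nat.dvd_gcd hpa hqb
  rw [H.cop] at h1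
  exact hp.one_lt.ne' (Nat.dvd_one.mp h1)

theorem noq (hbc : b ∣ c) (hne : c ≠ a * b) {p q : ℕ} (hp : p.Prime) (hq : q.Prime) (hpa : p ∣ a)
    (hqb : q ∣ b) {y w : G} (hy : orderOf y = p) (hyb : cs y = b) (hw : orderOf w = q)
    (hwy : w ∈ C y) : False := by
  have hpq := H.prime_ne hp hpa hqb
  have hcop : q.Coprime p := (Nat.coprime_primes hq hp).mpr (Ne.symm hpq)
  obtain ⟨z, hz, hzw, hzq⟩ := exists_syl' hq hw
  have hza : cs z = a := (H.symm hbc).type_b hqb (ne_one_of_prime hq hz) hzq
  have hw1 := ne_one_of_prime hq hw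
  rcases H.typ w hw1 with h | h | h
  · exact H.nocomm hne h hyb (memC.mp hwy) (by rw [hw, hy]; exact hcop)
  · have h1 : ¬ p ∣ cs w := by
      rw [h]
      intro h2
      exact H.prime_ne hp hpa h2 rfl
    obtain ⟨y1, hy1, hy1w, hy1p, hidx⟩ := exists_syl_cent hp h1 (hpa.trans H.a_dvd)
    have hy1b := H.type_b hpa (ne_one_of_prime hp hy1) hy1p
    have hwy1 : w * y1 = y1 * w := (memC.mp hy1w).symm
    have h2 := C_mul hwy1 (by rw [hw, hy1]; exact hcop)
    have h3 : C (w * y1) ≤ C w := by rw [h2]; exact inf_le_left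
    have h4 : cs (w * y1) = b := by
      rcases H.mulb (x := w * y1) (h ▸ cs_dvd_of_le h3) with h5 | h5
      · exact h5
      · exfalso
        apply hidx
        rw [← h2]
        change p ∣ cs (w * y1)
        rw [h5]
        exact hpa.trans H.adc
    have h5 : C w ≤ C (w * y1) := cent_eq_of_le h3 (by rw [h4, h])
    have h6 : z ∈ C y1 := by
      have h7 := h5 hzw
      rw [h2] at h7
      exact (Subgroup.mem_inf.mp h7).2
    exact H.nocomm hne hza hy1b (memC.mp h6) (by rw [hz, hy1]; exact hcop)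
  · have h1 : C w ≤ C y := H.M3 (memC.mp hwy).symm (by rw [hw, hy]; exact hcop.symm) h
    exact H.nocomm hne hza hyb (memC.mp (h1 hzw)) (by rw [hz, hy]; exact hcop)

theorem caseII_lt (hbc : b ∣ c) (hne : c ≠ a * b) (hlt : a < b) : False := by
  obtain ⟨p, hp, hpa⟩ := Nat.exists_prime_and_dvd H.a1.ne'
  obtain ⟨y, hy, hyp⟩ := exists_ord hp (hpa.trans H.a_dvd)
  have hyb := H.type_b hpa (ne_one_of_prime hp hy) hyp
  have hb0 : 0 < b := by have := H.b1; omega
  have h0 : ∀ q : ℕ, q.Prime → q ∣ b → ¬ q ∣ Nat.card (C y) := by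
    intro q hq hqb hd
    obtain ⟨w, hwy, hw⟩ := exists_order hq hd
    exact H.noq hbc hne hp hq hpa hqb hy hyb hw hwy
  have h1 : ∀ w : G, cs w = b ∨ cs w = c → ∀ q : ℕ, q.Prime → q ∣ b → ¬ q ∣ Nat.card (C w) := by
    rintro w (hw | hw) q hq hqb hd
    · rw [card_C_eq (hw.trans hyb.symm)] at hd
      exact h0 q hq hqb hd
    · apply h0 q hq hqb
      refine hd.trans ?_
      have h2 := card_C w
      have h3 := card_C y
      rw [hw] at h2
      rw [hyb] at h3
      obtain ⟨k, rfl⟩ := hbc
      refine ⟨k, ?_⟩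
      apply Nat.eq_of_mul_eq_mul_right hb0
      rw [h3, ← h2]; ring
  have h2 : ∀ w : G, cs w = a → w ∈ srad G := by
    intro w hw
    apply mem_srad_of_comm
    intro g
    have hcop : (cs w).Coprime (cs y) := by rw [hw, hyb]; exact H.cop
    have h3 : cs (w * y) ∣ a * b := by
      rw [← H.index_inf hw hyb]
      apply Subgroup.index_dvd_of_le
      intro g hg
      obtain ⟨h4, h5⟩ := Subgroup.mem_inf.mp hg
      have h6 : Commute g (w * y) := (show Commute g w from memC.mp h4).mul_right (memC.mp h5)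
      exact memC.mpr h6.eq
    have h4 : cs (w * y) ≤ cs y := by
      rw [hyb]
      rcases H.typ' (w * y) with h | h | h | h
      · rw [h]; omega
      · rw [h]; omega
      · rw [h]
      · exfalso
        rw [h] at h3
        exact hne (Nat.dvd_antisymm h3 (H.cop.mul_dvd_of_dvd_of_dvd H.adc hbc))
    have h5 := comm_mem_L hcop h4 g
    have h6 : L y ≤ C w := by
      apply normal_le_cent
      apply Nat.Coprime.coprime_dvd_left (card_L_dvd y)
      exact hcop.symm
    have h7 : Commute (w⁻¹ * (g * w * g⁻¹)) w := memC.mp (h6 h5)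
    have h8 : Commute (w * (w⁻¹ * (g * w * g⁻¹))) w := (Commute.refl w).mul_left h7
    rw [mul_inv_cancel_left] at h8
    exact h8.eq.symm
  apply H.ns
  have hy1 : orderOf y = p ^ 1 := by rw [hy, pow_one]
  apply solvable_of_cover (H.solv (ne_one_of_prime hp hy) hp hy1)
  rw [hyb]
  apply Nat.coprime_of_dvd
  intro q hq hqb hqi
  haveI : Fact q.Prime := ⟨hq⟩
  obtain ⟨Q⟩ : Nonempty (Sylow q G) := inferInstance
  have h3 : (Q : Subgroup G) ≤ srad G := by
    intro w hw
    by_cases hw1 : w = 1
    · rw [hw1]; exact one_mem _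
    apply h2
    have hqw : q ∣ Nat.card (C w) := by
      obtain ⟨k, hk⟩ := (H70.RegT.isPGroup_iff_pow (Q : Subgroup G)).mp Q.2 w hw
      have h4 : q ∣ orderOf w := by
        obtain ⟨j, -, hj⟩ := (Nat.dvd_prime_pow hq).mp (orderOf_dvd_of_pow_eq_one hk)
        rw [hj]
        apply dvd_pow_self
        rintro rfl
        rw [pow_zero, orderOf_eq_one_iff] at hj
        exact hw1 hj
      exact h4.trans (Subgroup.orderOf_dvd_natCard _ (self_memC w))
    rcases H.typ w hw1 with h | h | h
    · exact h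
    · exact (h1 w (Or.inl h) q hq hqb hqw).elim
    · exact (h1 w (Or.inr h) q hq hqb hqw).elim
  exact Q.not_dvd_index (hqi.trans (Subgroup.index_dvd_of_le h3))

theorem caseII (hbc : b ∣ c) (hne : c ≠ a * b) : False := by
  rcases lt_trichotomy a b with h | h | h
  · exact H.caseII_lt hbc hne h
  · exact H.anb h
  · exact (H.symm hbc).caseII_lt H.adc (by rw [mul_comm]; exact hne) h

end Hy

end H72.ItoZ
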