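import Mathlib
import Cfsg.Agent.Lib.H72.ItoZ6
import Cfsg.Agent.Lib.H72.ItoZ4
import Cfsg.Agent.Lib.H1.FpfNilp
import Cfsg.Agent.Lib.H30.Nil

/-!
The case of an abelian centraliser of order `a`.
-/
set_option autoImplicit false
set_option linter.unusedSectionVars false
set_option linter.style.haveILetI false

namespace H72.ItoZ

open Subgroup H72.TwoLargest H74.Ito3 H70.SolvRad
open scoped commutatorElement

universe u

section gen

variable {G : Type u} [Group G] [Finite G]

/-- an element of odd class size is not inverted, unless it is an involution -/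
theorem not_real {v g : G} (hodd : ¬ 2 ∣ cs v) (hv : v ≠ v⁻¹) (hg : g * v * g⁻¹ = v⁻¹) : False := by
  have hinv : ∀ h : G, h * v * h⁻¹ = v⁻¹ → h * v⁻¹ * h⁻¹ = v := by
    intro h hh
    have := congrArg (fun z => z⁻¹) hh
    simp only [mul_inv_rev, inv_inv] at this
    rw [← mul_assoc] at this
    exact this
  have hinv2 : ∀ h : G, h * v * h⁻¹ = v → h * v⁻¹ * h⁻¹ = v⁻¹ := by
    intro h hh
    have := congrArg (fun z => z⁻¹) hh
    simp only [mul_inv_rev, inv_inv] at this
    rw [← mul_assoc] at this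
    exact this
  let N : Subgroup G :=
    { carrier := {h | h * v * h⁻¹ = v ∨ h * v * h⁻¹ = v⁻¹}
      one_mem' := Or.inl (by simp)
      mul_mem' := by
        rintro h k hh hk
        have e : h * k * v * (h * k)⁻¹ = h * (k * v * k⁻¹) * h⁻¹ := by group
        change h * k * v * (h * k)⁻¹ = v ∨ h * k * v * (h * k)⁻¹ = v⁻¹
        rw [e]
        rcases hk with hk | hk <;> rw [hk]
        · exact hh
        · rcases hh with hh | hh
          · right; exact hinv2 h hh
          · left; exact hinv h hh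
      inv_mem' := by
        rintro h hh
        change h⁻¹ * v * h⁻¹⁻¹ = v ∨ h⁻¹ * v * h⁻¹⁻¹ = v⁻¹
        rcases hh with hh | hh
        · left
          calc h⁻¹ * v * h⁻¹⁻¹ = h⁻¹ * (h * v * h⁻¹) * h⁻¹⁻¹ := by rw [hh]
            _ = v := by group
        · right
          have h2 := hinv h hh
          calc h⁻¹ * v * h⁻¹⁻¹ = h⁻¹ * (h * v⁻¹ * h⁻¹) * h⁻¹⁻¹ := by rw [h2]
            _ = v⁻¹ := by group }
  have hCN : C v ≤ N := by
    intro h hh
    left
    rw [memC.mp hh]; group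
  have h2 : (C v).relIndex N = 2 := by
    rw [Subgroup.relIndex, Subgroup.index_eq_two_iff]
    refine ⟨⟨g, Or.inr hg⟩, ?_⟩
    rintro ⟨h, hh⟩
    rw [mem_subgroupOf, mem_subgroupOf]
    change Xor (h * g ∈ C v) (h ∈ C v)
    rcases hh with hh | hh
    · right
      refine ⟨memC.mpr (by nth_rewrite 2 [← hh]; group), ?_⟩
      intro h3
      apply hv
      have h4 : h * g * v * (h * g)⁻¹ = v := by rw [memC.mp h3]; group
      have h5 : h * g * v * (h * g)⁻¹ = h * (g * v * g⁻¹) * h⁻¹ := by group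
      rw [h5, hg, hinv2 h hh] at h4
      exact h4.symm
    · left
      constructor
      · rw [memC]
        have h5 : h * g * v * (h * g)⁻¹ = h * (g * v * g⁻¹) * h⁻¹ := by group
        rw [hg, hinv h hh] at h5
        exact mul_inv_eq_iff_eq_mul.mp h5
      · intro h3
        apply hv
        have h4 : h * v * h⁻¹ = v := by rw [memC.mp h3]; group
        rw [← hh, h4]
  apply hodd
  rw [← h2]
  exact Subgroup.relIndex_dvd_index_of_le hCN

/-- the normaliser of a cyclic subgroup with abelian centraliser of its generator is solvable -/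
theorem solvable_norm_zpowers {w : G} (h : ∀ u ∈ C w, ∀ v ∈ C w, u * v = v * u) :
    Group.IsSolvable (normalizer (zpowers w : Set G)) := by
  set N := normalizer (zpowers w : Set G) with hN
  have hpow : ∀ g ∈ N, ∃ k : ℤ, g * w * g⁻¹ = w ^ k := by
    intro g hg
    have h1 := (Subgroup.mem_normalizer_iff.mp hg w).mp (mem_zpowers w)
    obtain ⟨k, hk⟩ := h1
    exact ⟨k, hk.symm⟩
  have hcomm : ∀ g ∈ N, ∀ k ∈ N, g * k * g⁻¹ * k⁻¹ ∈ C w := by
    intro g hg k hk
    obtain ⟨i, hi⟩ := hpow g hg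
    obtain ⟨j, hj⟩ := hpow k hk
    have h1 : (g * k) * w * (g * k)⁻¹ = w ^ (i * j) := by
      calc (g * k) * w * (g * k)⁻¹ = g * (k * w * k⁻¹) * g⁻¹ := by group
        _ = (g * w * g⁻¹) ^ j := by rw [hj, conj_zpow]
        _ = w ^ (i * j) := by rw [hi, zpow_mul]
    have h2 : (k * g) * w * (k * g)⁻¹ = w ^ (i * j) := by
      calc (k * g) * w * (k * g)⁻¹ = k * (g * w * g⁻¹) * k⁻¹ := by group
        _ = (k * w * k⁻¹) ^ i := by rw [hi, conj_zpow]
        _ = w ^ (i * j) := by rw [hj, ← zpow_mul, mul_comm]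
    rw [memC]
    have h3 : (g * k * g⁻¹ * k⁻¹) * ((k * g) * w * (k * g)⁻¹) * (g * k * g⁻¹ * k⁻¹)⁻¹ = (k * g) * w * (k * g)⁻¹ := by
      calc (g * k * g⁻¹ * k⁻¹) * ((k * g) * w * (k * g)⁻¹) * (g * k * g⁻¹ * k⁻¹)⁻¹
          = (g * k) * w * (g * k)⁻¹ := by group
        _ = _ := by rw [h1, h2]
    have h4 : Commute (g * k * g⁻¹ * k⁻¹) ((k * g) * w * (k * g)⁻¹) := mul_inv_eq_iff_eq_mul.mp h3
    -- `w` is a power of its conjugate
    have hkg : k * g ∈ N := mul_mem hk hg
    have h5 : w ∈ zpowers ((k * g) * w * (k * g)⁻¹) := by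
      have h6 : zpowers ((k * g) * w * (k * g)⁻¹) = zpowers w := by
        apply Subgroup.eq_of_le_of_card_ge
        · rw [zpowers_le, h2]; exact zpow_mem (mem_zpowers w) _
        · rw [Nat.card_zpowers, Nat.card_zpowers]
          have h7 : orderOf ((k * g) * w * (k * g)⁻¹) = orderOf w := by
            have := MulEquiv.orderOf_eq (MulAut.conj (k * g)) w
            rwa [MulAut.conj_apply] at this
          rw [h7]
      rw [h6]; exact mem_zpowers w
    obtain ⟨n, hn⟩ := h5
    have h6 := h4.zpow_right n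
    have hn' : ((k * g) * w * (k * g)⁻¹) ^ n = w := hn
    rw [hn'] at h6
    exact h6.eq
  have hder : commutator N ≤ (C w).subgroupOf N := by
    rw [commutator_eq_closure, closure_le]
    rintro _ ⟨g, k, rfl⟩
    exact hcomm g g.2 k k.2
  have h1 : Group.IsSolvable (commutator N) := by
    apply Group.isSolvable_of_comm
    intro x y
    apply Subtype.ext
    apply Subtype.ext
    exact h _ (hder x.2) _ (hder y.2)
  have h2 : Group.IsSolvable (N ⧸ commutator N) := by
    apply Group.isSolvable_of_comm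
    intro x y
    obtain ⟨x, rfl⟩ := QuotientGroup.mk_surjective x
    obtain ⟨y, rfl⟩ := QuotientGroup.mk_surjective y
    change (QuotientGroup.mk (x * y) : N ⧸ commutator N) = QuotientGroup.mk (y * x)
    rw [QuotientGroup.eq]
    have h3 : (x * y)⁻¹ * (y * x) = ⁅y⁻¹, x⁻¹⁆ := by rw [commutatorElement_def]; group
    rw [h3]
    exact commutator_mem_commutator (mem_top _) (mem_top _)
  exact Group.isSolvable_of_ker_le_range (commutator N).subtype (QuotientGroup.mk' (commutator N)) (by simp)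

end gen

/-- the situation -/
structure HB (G : Type u) [Group G] [Finite G] (a b c : ℕ) (y : G) : Prop where
  H : Hy G a b c
  hnb : ¬ b ∣ c
  yb : cs y = b
  cen : ∀ u ∈ C y, C y ≤ C u

namespace HB

variable {G : Type u} [Group G] [Finite G] {a b c : ℕ} {y : G} (D : HB G a b c y)
include D

theorem typeB {u : G} (hu : u ∈ C y) (hu1 : u ≠ 1) : cs u = b := D.H.prb D.yb hu1 (D.cen u hu)

theorem eqB {u : G} (hu : u ∈ C y) (hu1 : u ≠ 1) : C u = C y :=
  le_antisymm (C_le_of (D.cen u hu) (D.yb.trans (D.typeB hu hu1).symm)) (D.cen u hu)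

theorem comm : ∀ u ∈ C y, ∀ v ∈ C y, u * v = v * u := fun u hu v hv => memC.mp (D.cen v hv hu)

theorem y1 : y ≠ 1 := D.H.ne1b D.yb

theorem disj {x : G} (hx : cs x = a) : C x ⊓ C y = ⊥ := by
  rw [eq_bot_iff]
  intro w hw
  obtain ⟨hw1, hw2⟩ := Subgroup.mem_inf.mp hw
  rw [Subgroup.mem_bot]
  by_contra hne
  have h1 := D.eqB hw2 hne
  have h2 : x ∈ C y := by rw [← h1]; exact memC_comm.mp hw1
  have h3 := D.typeB h2 (D.H.ne1a hx)
  exact D.H.anb (hx.symm.trans h3)

theorem cardG : Nat.card G = a * b := by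
  obtain ⟨x, hx⟩ := D.H.exa
  have h1 := D.H.index_inf hx D.yb
  rw [D.disj hx, Subgroup.index_bot] at h1
  exact h1

theorem cardB : Nat.card (C y) = a := by
  have h1 := card_C y
  rw [D.yb, D.cardG] at h1
  exact Nat.eq_of_mul_eq_mul_right (by have := D.H.b1; omega) h1

theorem card_b {v : G} (hv : cs v = b) : Nat.card (C v) = a := (card_C_eq (hv.trans D.yb.symm)).trans D.cardB

theorem card_a {x : G} (hx : cs x = a) : Nat.card (C x) = b := by
  have h1 := card_C x
  rw [hx, D.cardG, mul_comm a b] at h1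
  exact Nat.eq_of_mul_eq_mul_right (by have := D.H.a1; omega) h1

theorem conj_prime {r : ℕ} (hr : r.Prime) (hra : r ∣ a) {P : Subgroup G} (hP : IsPGroup r P) :
    ∃ g : G, ∀ v ∈ P, g * v * g⁻¹ ∈ C y := by
  apply exists_conj_mem hr hP
  change ¬ r ∣ cs y
  rw [D.yb]
  intro h
  exact D.H.prime_ne hr hra h rfl

theorem conj_elem {r : ℕ} (hr : r.Prime) (hra : r ∣ a) {v : G} (hv : ∃ k : ℕ, orderOf v = r ^ k) :
    ∃ g : G, g * v * g⁻¹ ∈ C y := by
  obtain ⟨k, hk⟩ := hv
  obtain ⟨g, hg⟩ := D.conj_prime hr hra (P := zpowers v)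
    (IsPGroup.of_card (n := k) (by rw [Nat.card_zpowers, hk]))
  exact ⟨g, hg v (mem_zpowers v)⟩

theorem conj_ne {g v : G} (hv : v ≠ 1) : g * v * g⁻¹ ≠ 1 := by
  intro h
  apply hv
  have h1 : g * v = g := by rw [mul_inv_eq_one] at h; exact h
  simpa using h1

theorem conj_b {v : G} (hv : cs v = b) : ∃ g : G, g * v * g⁻¹ ∈ C y := by
  have hv1 := D.H.ne1b hv
  obtain ⟨k, r, hr, hk⟩ := exists_pow_prime hv1
  have hra : r ∣ a := by
    rw [← D.card_b hv, ← hk]
    exact Subgroup.orderOf_dvd_natCard _ ((C v).pow_mem (self_memC v) k)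
  obtain ⟨g, hg⟩ := D.conj_elem hr hra (v := v ^ k) ⟨1, by rw [hk, pow_one]⟩
  refine ⟨g, ?_⟩
  have h1 := D.eqB hg (D.conj_ne (ne_one_of_prime hr hk))
  rw [← h1, memC]
  have h2 : Commute (g * v * g⁻¹) (g * v * g⁻¹) := Commute.refl _
  have h3 := h2.pow_right k
  rw [conj_pow] at h3
  exact h3.eq

theorem nc {x v : G} (hx : cs x = a) (hv : cs v = b) (h : x ∈ C v) : False := by
  obtain ⟨g, hg⟩ := D.conj_b hv
  have hv1 := D.H.ne1b hv
  have h1 := D.eqB hg (D.conj_ne hv1)
  have h2 : g * x * g⁻¹ ∈ C (g * v * g⁻¹) := by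
    rw [memC] at h ⊢
    calc g * x * g⁻¹ * (g * v * g⁻¹) = g * (x * v) * g⁻¹ := by group
      _ = g * (v * x) * g⁻¹ := by rw [h]
      _ = _ := by group
  rw [h1] at h2
  have h3 := D.typeB h2 (D.conj_ne (D.H.ne1a hx))
  rw [cs_conj, hx] at h3
  exact D.H.anb h3

theorem ab : H74.Ito1.Ab (C y) :=
  ⟨D.comm, fun b hb hb1 x hx => by
    have h1 := D.eqB hb hb1
    rw [← h1]; exact memC.mpr hx⟩

theorem iso {x : G} (hx : cs x = a) :
    (∀ g : G, x * (g * x * g⁻¹) = (g * x * g⁻¹) * x) ∨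
    (∀ g : G, x * (g * x * g⁻¹) = (g * x * g⁻¹) * x → g * x * g⁻¹ = x) := by
  letI := Fintype.ofFinite G
  apply H74.Ito1.iso D.ab ⟨y, self_memC y, D.y1⟩
  · intro g hmem
    have h2 : cs (g * x * g⁻¹) = a := by rw [cs_conj, hx]
    have h3 := D.typeB hmem (D.H.ne1a h2)
    exact D.H.anb (h2.symm.trans h3)
  · change _ = Nat.card (C y) * Nat.card (C x)
    rw [D.cardB, D.card_a hx, D.cardG]

theorem iso' {x : G} (hx : cs x = a) (hxR : x ∉ srad G) {g : G}
    (h : x * (g * x * g⁻¹) = (g * x * g⁻¹) * x) : g * x * g⁻¹ = x := by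
  rcases D.iso hx with h1 | h1
  · exact (hxR (mem_srad_of_comm h1)).elim
  · exact h1 g h

/-- the centraliser is not normal -/
theorem not_normal (hn : (C y).Normal) : False := by
  have h1 : C y ≤ srad G := by
    apply le_srad hn
    apply Group.isSolvable_of_comm
    intro u v
    exact Subtype.ext (D.comm u u.2 v v.2)
  obtain ⟨x, r, hr, hxr, hx⟩ := D.H.exists_a_prime
  apply D.H.ns
  apply solvable_of_cover (x := x) (D.H.solv (D.H.ne1a hx) hr (by rw [hxr, pow_one] : orderOf x = r ^ 1))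
  rw [hx]
  apply Nat.Coprime.coprime_dvd_right (Subgroup.index_dvd_of_le h1)
  change a.Coprime (cs y)
  rw [D.yb]; exact D.H.cop

theorem norm {g u : G} (hu : u ∈ C y) (hu1 : u ≠ 1) (hg : g⁻¹ * u * g ∈ C y) :
    g ∈ normalizer (C y : Set G) := by
  letI := Fintype.ofFinite G
  exact D.ab.norm hu hu1 hg

theorem abn {A : Subgroup G} (hn : A.Normal) (hA : ∀ x ∈ A, ∀ y ∈ A, x * y = y * x) : A ⊓ C y = ⊥ := by
  rw [eq_bot_iff]
  intro u hu
  obtain ⟨hu1, hu2⟩ := Subgroup.mem_inf.mp hu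
  rw [Subgroup.mem_bot]
  by_contra hne
  have h1 : A ≤ C y := by
    rw [← D.eqB hu2 hne]
    intro v hv
    exact memC.mpr (hA v hv u hu1)
  apply D.not_normal
  rw [← normalizer_eq_top_iff, eq_top_iff]
  intro g _
  apply D.norm hu2 hne
  apply h1
  have := hn.conj_mem u hu1 g⁻¹
  rwa [inv_inv] at this

theorem cyc (hR : srad G ≠ ⊥) : IsCyclic (C y) := by
  obtain ⟨A, hAn, -, hA1, hAc⟩ := H38.Pron.exists_abelian_normal _ (srad G) rfl hR isSolvable_srad
  haveI hAm : IsMulCommutative A := ⟨⟨fun x y => Subtype.ext (hAc x x.2 y y.2)⟩⟩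
  apply Cfsg.Agent.S0041.result (C y) A hA1 (by rw [normalizer_eq_top]; exact le_top)
  · intro w hw hw1
    change A ⊓ C w = ⊥
    rw [D.eqB hw hw1]
    exact D.abn hAn hAc
  · left
    exact ⟨⟨fun u v => Subtype.ext (D.comm u u.2 v v.2)⟩⟩

theorem Rdisj : srad G ⊓ C y = ⊥ := by
  by_cases hR : srad G = ⊥
  · rw [hR, bot_inf_eq]
  rw [eq_bot_iff]
  intro u hu
  obtain ⟨hu1, hu2⟩ := Subgroup.mem_inf.mp hu
  rw [Subgroup.mem_bot]
  by_contra hne
  obtain ⟨k, r, hr, hk⟩ := exists_pow_prime hne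
  haveI : Fact r.Prime := ⟨hr⟩
  have huk2 := (C y).pow_mem hu2 k
  have huk1 := (srad G).pow_mem hu1 k
  have hra : r ∣ a := by
    rw [← D.cardB, ← hk]
    exact Subgroup.orderOf_dvd_natCard _ huk2
  have hrR : r ∣ Nat.card (srad G) := by
    rw [← hk]; exact Subgroup.orderOf_dvd_natCard _ huk1
  obtain ⟨P⟩ : Nonempty (Sylow r (srad G)) := inferInstance
  set P0 := (P : Subgroup (srad G)).map (srad G).subtype with hP0
  have hP0p : IsPGroup r P0 := P.2.map _
  obtain ⟨g, hg⟩ := D.conj_prime hr hra hP0p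
  -- the Sylow subgroup is cyclic
  have hcyc := D.cyc hR
  have hPcyc : IsCyclic P0 := by
    let f : P0 →* C y :=
      { toFun := fun v => ⟨g * v * g⁻¹, hg v v.2⟩
        map_one' := Subtype.ext (by simp)
        map_mul' := fun v w => Subtype.ext (by
          show g * ((v : G) * w) * g⁻¹ = (g * v * g⁻¹) * (g * w * g⁻¹)
          group) }
    have hf : Function.Injective f := by
      intro v w hvw
      have h1 : g * (v : G) * g⁻¹ = g * w * g⁻¹ := congrArg Subtype.val hvw
      exact Subtype.ext (mul_left_cancel (mul_right_cancel h1))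
    exact isCyclic_of_injective f hf
  have hP1 : P0 ≠ ⊥ := by
    intro h
    have h1 : Nat.card P0 = Nat.card (P : Subgroup (srad G)) :=
      Subgroup.card_map_of_injective (srad G).subtype_injective
    rw [h, Subgroup.card_bot] at h1
    have h2 := Subgroup.card_mul_index (P : Subgroup (srad G))
    rw [← h1, one_mul] at h2
    exact P.not_dvd_index (h2 ▸ hrR)
  obtain ⟨w, hw⟩ := hPcyc.exists_generator
  have hPw : P0 = zpowers (w : G) := by
    apply le_antisymm
    · intro v hv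
      obtain ⟨n, hn⟩ := hw ⟨v, hv⟩
      exact ⟨n, congrArg Subtype.val hn⟩
    · rw [zpowers_le]; exact w.2
  have hw1 : (w : G) ≠ 1 := by
    intro h
    apply hP1
    rw [hPw, h, zpowers_one_eq_bot]
  -- its centraliser is abelian
  have hCw : ∀ u ∈ C (w : G), ∀ v ∈ C (w : G), u * v = v * u := by
    have h1 := D.eqB (hg w w.2) (D.conj_ne hw1)
    have h2 : ∀ u ∈ C (w : G), g * u * g⁻¹ ∈ C y := by
      intro u hu
      rw [← h1]
      rw [memC] at hu ⊢
      calc g * u * g⁻¹ * (g * w * g⁻¹) = g * (u * w) * g⁻¹ := by group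
        _ = g * (w * u) * g⁻¹ := by rw [hu]
        _ = _ := by group
    intro u hu v hv
    have h3 := D.comm _ (h2 u hu) _ (h2 v hv)
    have h4 : g * (u * v) * g⁻¹ = g * (v * u) * g⁻¹ := by
      calc g * (u * v) * g⁻¹ = g * u * g⁻¹ * (g * v * g⁻¹) := by group
        _ = g * v * g⁻¹ * (g * u * g⁻¹) := h3
        _ = _ := by group
    exact mul_left_cancel (mul_right_cancel h4)
  have hNs := solvable_norm_zpowers hCw
  rw [← hPw] at hNs
  -- Frattini
  have hF : normalizer (P0 : Set G) ⊔ srad G = ⊤ := P.normalizer_sup_eq_top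
  apply D.H.ns
  have hsr := isSolvable_srad (G := G)
  let f : normalizer (P0 : Set G) →* G ⧸ srad G :=
    (QuotientGroup.mk' (srad G)).comp (normalizer (P0 : Set G)).subtype
  have hf : Function.Surjective f := by
    intro q
    obtain ⟨h, rfl⟩ := QuotientGroup.mk_surjective q
    have h1 : h ∈ normalizer (P0 : Set G) ⊔ srad G := by rw [hF]; trivial
    obtain ⟨n, hn, s, hs, rfl⟩ := Subgroup.mem_sup_of_normal_right.mp h1
    refine ⟨⟨n, hn⟩, ?_⟩
    show (QuotientGroup.mk n : G ⧸ srad G) = QuotientGroup.mk (n * s)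
    rw [QuotientGroup.eq]
    simpa using hs
  have h2 : Group.IsSolvable (G ⧸ srad G) := Group.isSolvable_of_surjective hf
  exact Group.isSolvable_of_ker_le_range (srad G).subtype (QuotientGroup.mk' (srad G)) (by simp)

/-- elements of the radical are not of type `b` -/
theorem Rtype {v : G} (hv : v ∈ srad G) : cs v ≠ b := by
  intro h
  obtain ⟨g, hg⟩ := D.conj_b h
  have h1 : g * v * g⁻¹ ∈ srad G ⊓ C y := Subgroup.mem_inf.mpr ⟨srad_normal.conj_mem v hv g, hg⟩
  rw [D.Rdisj, Subgroup.mem_bot] at h1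
  exact D.conj_ne (D.H.ne1b h) h1

theorem Rcop {r : ℕ} (hr : r.Prime) (hra : r ∣ a) : ¬ r ∣ Nat.card (srad G) := by
  intro hd
  obtain ⟨v, hv, hvo⟩ := exists_order hr hd
  obtain ⟨g, hg⟩ := D.conj_elem hr hra (v := v) ⟨1, by rw [hvo, pow_one]⟩
  have h1 : g * v * g⁻¹ ∈ srad G ⊓ C y := Subgroup.mem_inf.mpr ⟨srad_normal.conj_mem v hv g, hg⟩
  rw [D.Rdisj, Subgroup.mem_bot] at h1
  exact D.conj_ne (ne_one_of_prime hr hvo) h1

theorem Rnil : Group.IsNilpotent (srad G) := by
  obtain ⟨k, r, hr, hk⟩ := exists_pow_prime D.y1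
  have hyk := (C y).pow_mem (self_memC y) k
  apply H1.FpfNilp.isNilpotent_of_conj (g := y ^ k) (r := r)
  · rw [normalizer_eq_top]; trivial
  · change srad G ⊓ C (y ^ k) = ⊥
    rw [D.eqB hyk (ne_one_of_prime hr hk)]
    exact D.Rdisj
  · exact hr
  · rw [← hk, pow_orderOf_eq_one]; exact one_mem _

/-- the centraliser of a nontrivial normal subgroup -/
theorem cent_le {V : Subgroup G} (hV : V.Normal) (hV1 : V ≠ ⊥) : centralizer (V : Set G) ≤ srad G := by
  obtain ⟨⟨v, hv⟩, hv1⟩ := Subgroup.ne_bot_iff_exists_ne_one.mp hV1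
  have hv1' : v ≠ 1 := fun h => hv1 (Subtype.ext h)
  obtain ⟨k, r, hr, hk⟩ := exists_pow_prime hv1'
  have hvk := V.pow_mem hv k
  haveI := D.H.solv (ne_one_of_prime hr hk) hr (by rw [hk, pow_one] : orderOf (v ^ k) = r ^ 1)
  apply le_srad inferInstance
  have h1 : centralizer (V : Set G) ≤ C (v ^ k) := by
    intro g hg
    exact memC.mpr (mem_centralizer_iff.mp hg _ hvk).symm
  exact Group.isSolvable_of_isSolvable_injective (Subgroup.inclusion_injective h1)

end HB

end H72.ItoZ
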