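import Mathlib
import Cfsg.Agent.Lib.H72.ItoZ7

/-!
The case of an abelian centraliser of odd order `a`: contradiction, when the solvable radical is nontrivial.
-/
set_option autoImplicit false
set_option linter.unusedSectionVars false
set_option linter.style.haveILetI false

namespace H72.ItoZ

open Subgroup H72.TwoLargest H74.Ito3 H70.SolvRad
open scoped commutatorElement

universe u

section gen

variable {G : Type u} [Group G] [Finite G]

/-- the odd part: a `2`-element generating the same coset -/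
theorem exists_two_part {R : Subgroup G} {g : G} (hg : g ∉ R) (hg2 : g * g ∈ R) :
    ∃ m : ℕ, (∃ k : ℕ, orderOf (g ^ m) = 2 ^ k) ∧ g ^ m ∉ R := by
  have ho : orderOf g ≠ 0 := (orderOf_pos g).ne'
  obtain ⟨k, m, hm, hkm⟩ := Nat.exists_eq_pow_mul_and_not_dvd ho 2 (by norm_num)
  refine ⟨m, ?_, ?_⟩
  · apply orderOf_pow_of_dvd_pow Nat.prime_two (m := k)
    rw [← pow_mul, mul_comm, ← hkm, pow_orderOf_eq_one]
  · intro h
    apply hg
    have hmo : Odd m := Nat.not_even_iff_odd.mp (fun h2 => hm (even_iff_two_dvd.mp h2))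
    obtain ⟨j, hj⟩ := hmo
    rw [hj, pow_succ, pow_mul, pow_two] at h
    have h1 : (g * g) ^ j ∈ R := R.pow_mem hg2 j
    exact (Subgroup.mul_mem_cancel_left R h1).mp h

/-- a noncommuting-with-isolation involution in the quotient by the solvable radical -/
theorem exists_pair (hns : ¬ Group.IsSolvable G) : ∃ s g : G, s ∉ srad G ∧ s * s ∈ srad G ∧
    s * (g * s * g⁻¹) * s⁻¹ * (g * s * g⁻¹)⁻¹ ∈ srad G ∧ s * (g * s * g⁻¹) ∉ srad G := by
  have h1 : ¬ Group.IsSolvable (G ⧸ srad G) := by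
    intro h
    apply hns
    have hsr := isSolvable_srad (G := G)
    exact Group.isSolvable_of_ker_le_range (srad G).subtype (QuotientGroup.mk' (srad G)) (by simp)
  have h2 := even_card h1
  haveI : Fact (Nat.Prime 2) := ⟨Nat.prime_two⟩
  obtain ⟨t, ht⟩ := exists_prime_orderOf_dvd_card' 2 h2
  have h3 := not_isolated (srad_quot (G := G)) t
  have h4 : ∃ g, Commute t (g * t * g⁻¹) ∧ g * t * g⁻¹ ≠ t := by
    by_contra hcon
    push Not at hcon
    exact h3 ⟨ht, hcon⟩
  obtain ⟨g, hg, hne⟩ := h4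
  obtain ⟨s, rfl⟩ := QuotientGroup.mk_surjective t
  obtain ⟨g, rfl⟩ := QuotientGroup.mk_surjective g
  have hss : s * s ∈ srad G := by
    rw [← QuotientGroup.eq_one_iff]
    have := pow_orderOf_eq_one (QuotientGroup.mk s : G ⧸ srad G)
    rw [ht, pow_two] at this
    exact this
  refine ⟨s, g, ?_, hss, ?_, ?_⟩
  · intro h
    rw [← QuotientGroup.eq_one_iff] at h
    rw [h, orderOf_one] at ht
    omega
  · rw [← QuotientGroup.eq_one_iff]
    have h5 : (QuotientGroup.mk s : G ⧸ srad G) * (QuotientGroup.mk g * QuotientGroup.mk s * (QuotientGroup.mk g)⁻¹) *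
      (QuotientGroup.mk s)⁻¹ * (QuotientGroup.mk g * QuotientGroup.mk s * (QuotientGroup.mk g)⁻¹)⁻¹ = 1 := by
      rw [hg.eq]; group
    exact h5
  · intro h
    rw [← QuotientGroup.eq_one_iff] at h
    have h5 : (QuotientGroup.mk s : G ⧸ srad G) * (QuotientGroup.mk g * QuotientGroup.mk s * (QuotientGroup.mk g)⁻¹) = 1 := h
    have h6 : (QuotientGroup.mk s : G ⧸ srad G) * QuotientGroup.mk s = 1 := by
      have := pow_orderOf_eq_one (QuotientGroup.mk s : G ⧸ srad G)
      rwa [ht, pow_two] at this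
    apply hne
    have h7 := mul_left_cancel (h5.trans h6.symm)
    exact h7

end gen

namespace HB

variable {G : Type u} [Group G] [Finite G] {a b c : ℕ} {y : G} (D : HB G a b c y)
include D

/-- types of the elements of `V` fixed by an involution modulo the radical -/
theorem typeV {V : Subgroup G} (hV : V.Normal) (hVR : V ≤ srad G) (hVo : ∀ v ∈ V, (orderOf v).Coprime 2)
    (hVc : ∀ v ∈ V, ∀ w ∈ V, v * w = w * v) {g v : G} (hg : g ∉ srad G) (hg2 : g * g ∈ srad G)
    (hv : v ∈ V) (hv1 : v ≠ 1) (hvg : v * g = g * v) : cs v = a := by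
  obtain ⟨m, ⟨k, hk⟩, hm⟩ := exists_two_part hg hg2
  rcases D.H.typ v hv1 with h | h | h
  · exact h
  · exact (D.Rtype (hVR hv) h).elim
  · exfalso
    have h1 : C v ≤ C (g ^ m) := by
      apply D.H.M3
      · exact ((show Commute v g from hvg).pow_right m).eq.symm
      · rw [hk]; exact Nat.Coprime.pow_left k (hVo v hv).symm
      · exact h
    apply hm
    have hV1 : V ≠ ⊥ := by
      rintro rfl
      exact hv1 (Subgroup.mem_bot.mp hv)
    apply D.cent_le hV hV1
    rw [mem_centralizer_iff]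
    intro w hw
    have h2 : w ∈ C v := memC.mpr (hVc w hw v hv)
    exact memC.mp (h1 h2)

theorem odd_false (hodd : ¬ 2 ∣ a) {V : Subgroup G} (hV : V.Normal) (hV1 : V ≠ ⊥) (hVR : V ≤ srad G)
    (hVo : ∀ v ∈ V, (orderOf v).Coprime 2) (hRV : ∀ r ∈ srad G, ∀ v ∈ V, r * v = v * r) : False := by
  have hVc : ∀ v ∈ V, ∀ w ∈ V, v * w = w * v := fun v hv w hw => hRV v (hVR hv) w hw
  obtain ⟨s, g, hs, hs2, hcom, hne⟩ := exists_pair D.H.ns
  set t := g * s * g⁻¹ with ht
  have ht' : t ∉ srad G := by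
    intro h
    apply hs
    have := srad_normal.conj_mem t h g⁻¹
    rw [ht] at this
    have e : g⁻¹ * (g * s * g⁻¹) * g⁻¹⁻¹ = s := by group
    rwa [e] at this
  have ht2 : t * t ∈ srad G := by
    have e : t * t = g * (s * s) * g⁻¹ := by rw [ht]; group
    rw [e]; exact srad_normal.conj_mem _ hs2 g
  -- commuting modulo the radical
  have hcoms : ∀ {x z : G}, x * z * x⁻¹ * z⁻¹ ∈ srad G → z * x * z⁻¹ * x⁻¹ ∈ srad G := by
    intro x z h
    have := (srad G).inv_mem h
    have e : (x * z * x⁻¹ * z⁻¹)⁻¹ = z * x * z⁻¹ * x⁻¹ := by group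
    rwa [e] at this
  -- the key property
  have key : ∀ g1 g2 : G, g1 ∉ srad G → g1 * g1 ∈ srad G → g2 * g2 ∈ srad G →
      g1 * g2 * g1⁻¹ * g2⁻¹ ∈ srad G → ∀ v ∈ V, v * g1 = g1 * v → v * g2 = g2 * v := by
    intro g1 g2 h1 h11 h22 h12 v hv hvg
    set w := g2 * v * g2⁻¹ with hw
    have hwV : w ∈ V := hV.conj_mem v hv g2
    have hg1w : g1 * w = w * g1 := by
      have e1 := hRV _ h12 w hwV
      have e2 : g1 * w * g1⁻¹ = (g1 * g2 * g1⁻¹ * g2⁻¹) * (g2 * (g1 * v * g1⁻¹) * g2⁻¹) * (g1 * g2 * g1⁻¹ * g2⁻¹)⁻¹ := by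
        rw [hw]; group
      have e3 : g1 * v * g1⁻¹ = v := by rw [← hvg]; group
      rw [e3, ← hw, e1, mul_inv_cancel_right] at e2
      exact mul_inv_eq_iff_eq_mul.mp e2
    by_contra hne2
    have hwv : w ≠ v := by
      intro h
      apply hne2
      rw [hw] at h
      exact (mul_inv_eq_iff_eq_mul.mp h).symm
    set z := w * v⁻¹ with hz
    have hzV : z ∈ V := V.mul_mem hwV (V.inv_mem hv)
    have hz1 : z ≠ 1 := fun h => hwv (mul_inv_eq_one.mp h)
    have hzg1 : z * g1 = g1 * z := by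
      have e1 : Commute w g1 := hg1w.symm
      have e2 : Commute v g1 := hvg
      exact (e1.mul_left e2.inv_left).eq
    have hza := D.typeV hV hVR hVo hVc h1 h11 hzV hz1 hzg1
    have hinv : g2 * z * g2⁻¹ = z⁻¹ := by
      have e1 : g2 * w * g2⁻¹ = v := by
        have e2 : g2 * w * g2⁻¹ = (g2 * g2) * v * (g2 * g2)⁻¹ := by rw [hw]; group
        rw [e2, hRV _ h22 v hv, mul_inv_cancel_right]
      calc g2 * z * g2⁻¹ = (g2 * w * g2⁻¹) * (g2 * v * g2⁻¹)⁻¹ := by rw [hz]; group
        _ = v * w⁻¹ := by rw [e1, ← hw]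
        _ = z⁻¹ := by rw [hz]; group
    apply not_real (v := z) (g := g2) (by rw [hza]; exact hodd) _ hinv
    intro h
    have e1 : z ^ 2 = 1 := by rw [pow_two]; nth_rewrite 1 [h]; group
    have e2 := (hVo z hzV).eq_one_of_dvd (orderOf_dvd_of_pow_eq_one e1)
    exact hz1 (orderOf_eq_one_iff.mp e2)
  have hst2 : (s * t) * (s * t) ∈ srad G := by
    have e : (s * t) * (s * t) = (s * t * s⁻¹ * t⁻¹) * (t * (s * s) * t⁻¹) * (t * t) := by group
    rw [e]
    exact mul_mem (mul_mem hcom (srad_normal.conj_mem _ hs2 t)) ht2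
  have hcom2 : (s * t) * s * (s * t)⁻¹ * s⁻¹ ∈ srad G := by
    have e : (s * t) * s * (s * t)⁻¹ * s⁻¹ = s * (t * s * t⁻¹ * s⁻¹) * s⁻¹ := by group
    rw [e]
    exact srad_normal.conj_mem _ (hcoms hcom) s
  -- everything commutes with `s`
  have hall : ∀ v ∈ V, v * s = s * v := by
    intro v hv
    have hvs : s * v * s⁻¹ ∈ V := hV.conj_mem v hv s
    have hvt : t * v * t⁻¹ ∈ V := hV.conj_mem v hv t
    have hvst : (s * t) * v * (s * t)⁻¹ ∈ V := hV.conj_mem v hv (s * t)
    have fix : ∀ g : G, g * g ∈ srad G → (v * (g * v * g⁻¹)) * g = g * (v * (g * v * g⁻¹)) := by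
      intro g hg
      have hvg : g * v * g⁻¹ ∈ V := hV.conj_mem v hv g
      have e1 : g * (v * (g * v * g⁻¹)) * g⁻¹ = (g * v * g⁻¹) * ((g * g) * v * (g * g)⁻¹) := by group
      have e2 : (g * g) * v * (g * g)⁻¹ = v := by rw [hRV _ hg v hv, mul_inv_cancel_right]
      rw [e2, hVc _ hvg v hv] at e1
      exact (mul_inv_eq_iff_eq_mul.mp e1).symm
    obtain ⟨c1, hc1⟩ : ∃ c1, c1 = v * (s * v * s⁻¹) := ⟨_, rfl⟩
    obtain ⟨c2, hc2⟩ : ∃ c2, c2 = v * (t * v * t⁻¹) := ⟨_, rfl⟩
    obtain ⟨c3, hc3⟩ : ∃ c3, c3 = v * ((s * t) * v * (s * t)⁻¹) := ⟨_, rfl⟩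
    have hc1V : c1 ∈ V := by rw [hc1]; exact V.mul_mem hv hvs
    have hc2V : c2 ∈ V := by rw [hc2]; exact V.mul_mem hv hvt
    have hc3V : c3 ∈ V := by rw [hc3]; exact V.mul_mem hv hvst
    have h1 : c1 * s = s * c1 := by rw [hc1]; exact fix s hs2
    have h2 : c2 * s = s * c2 := by
      apply key t s ht' ht2 hs2 (hcoms hcom) c2 hc2V
      rw [hc2]; exact fix t ht2
    have h3 : c3 * s = s * c3 := by
      apply key (s * t) s hne hst2 hs2 hcom2 c3 hc3V
      rw [hc3]; exact fix (s * t) hst2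
    -- the relation
    have e1 : s * v * s⁻¹ = v⁻¹ * c1 := by rw [hc1]; group
    have e2 : t * v * t⁻¹ = v⁻¹ * c2 := by rw [hc2]; group
    have e3 : (s * t) * v * (s * t)⁻¹ = c1⁻¹ * v * c2 := by
      have e4 : s * c2 * s⁻¹ = c2 := by rw [← h2]; group
      calc (s * t) * v * (s * t)⁻¹ = s * (t * v * t⁻¹) * s⁻¹ := by group
        _ = (s * v * s⁻¹)⁻¹ * (s * c2 * s⁻¹) := by rw [e2]; group
        _ = c1⁻¹ * v * c2 := by rw [e1, e4]; group
    have e5 : c3 = v * v * (c1⁻¹ * c2) := by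
      have e6 := hVc _ (V.inv_mem hc1V) v hv
      rw [hc3, e3, e6]; group
    have e7 : v * v = c3 * (c1⁻¹ * c2)⁻¹ := by rw [e5]; group
    have h4 : Commute (v * v) s := by
      rw [e7]
      have i1 : Commute c1 s := h1
      have i2 : Commute c2 s := h2
      have i3 : Commute c3 s := h3
      exact i3.mul_left (i1.inv_left.mul_left i2).inv_left
    -- `v` is a power of `v * v`
    have hvo := hVo v hv
    obtain ⟨j, hj⟩ : ∃ j : ℕ, (v * v) ^ j = v := by
      have ho : Odd (orderOf v) := by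
        rw [← Nat.not_even_iff_odd, even_iff_two_dvd]
        intro h
        exact (Nat.Prime.coprime_iff_not_dvd Nat.prime_two).mp hvo.symm h
      obtain ⟨j, hj⟩ := ho
      refine ⟨j + 1, ?_⟩
      rw [← pow_two, ← pow_mul, show 2 * (j + 1) = (2 * j + 1) + 1 by ring, pow_succ, ← hj,
        pow_orderOf_eq_one, one_mul]
    have h5 := h4.pow_left j
    rw [hj] at h5
    exact h5.eq
  apply hs
  apply D.cent_le hV hV1
  rw [mem_centralizer_iff]
  exact hall

/-- the radical is a `2`-group -/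
theorem R_two (hodd : ¬ 2 ∣ a) : IsPGroup 2 (srad G) := by
  haveI := D.Rnil
  apply isPGroup_of Nat.prime_two
  intro w hw hwo
  by_contra hw1
  obtain ⟨k, l, hl, hk⟩ := exists_pow_prime hw1
  haveI : Fact l.Prime := ⟨hl⟩
  have hl2 : l ≠ 2 := by
    rintro rfl
    have h1 : 2 ∣ orderOf w := by rw [← hk]; exact orderOf_pow_dvd k
    exact (Nat.Prime.coprime_iff_not_dvd Nat.prime_two).mp hwo.symm h1
  have hlR : l ∣ Nat.card (srad G) := by
    rw [← hk]; exact Subgroup.orderOf_dvd_natCard _ ((srad G).pow_mem hw k)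
  obtain ⟨L⟩ : Nonempty (Sylow l (srad G)) := inferInstance
  haveI hLn : (L : Subgroup (srad G)).Normal := inferInstance
  haveI hLc : (L : Subgroup (srad G)).Characteristic := Sylow.characteristic_of_normal L hLn
  have hL1 : (L : Subgroup (srad G)) ≠ ⊥ := by
    intro h
    apply L.not_dvd_index
    rw [h, Subgroup.index_bot]; exact hlR
  have h1 := H30.Nil.inf_center_ne_bot (L : Subgroup (srad G)) hL1
  set V := ((L : Subgroup (srad G)) ⊓ center (srad G)).map (srad G).subtype with hV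
  have hVn : V.Normal := by rw [hV]; infer_instance
  apply D.odd_false hodd hVn
  · intro h
    apply h1
    rw [hV] at h
    exact (Subgroup.map_eq_bot_iff_of_injective _ (srad G).subtype_injective).mp h
  · rw [hV]; exact Subgroup.map_subtype_le _
  · rintro _ ⟨v, hv, rfl⟩
    obtain ⟨hvL, -⟩ := Subgroup.mem_inf.mp hv
    obtain ⟨j, hj⟩ := (H70.RegT.isPGroup_iff_pow (L : Subgroup (srad G))).mp L.2 v hvL
    change (orderOf (v : G)).Coprime 2
    rw [Subgroup.orderOf_coe]
    apply Nat.Coprime.coprime_dvd_left (orderOf_dvd_of_pow_eq_one hj)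
    exact Nat.Coprime.pow_left j ((Nat.coprime_primes hl Nat.prime_two).mpr hl2)
  · rintro r hr _ ⟨v, hv, rfl⟩
    obtain ⟨-, hvc⟩ := Subgroup.mem_inf.mp hv
    exact congrArg Subtype.val (mem_center_iff.mp hvc ⟨r, hr⟩)

theorem even_b (hodd : ¬ 2 ∣ a) : 2 ∣ b := by
  have h1 := even_card D.H.ns
  rw [D.cardG] at h1
  exact (Nat.prime_two.dvd_mul.mp h1).resolve_left hodd

/-- `2`-elements outside the radical are of type `c` -/
theorem two_type (hodd : ¬ 2 ∣ a) {s : G} (hs : s ∉ srad G) (hsk : ∃ k : ℕ, orderOf s = 2 ^ k) : cs s = c := by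
  have hR2 := D.R_two hodd
  have hs1 : s ≠ 1 := fun h => hs (h ▸ one_mem _)
  rcases D.H.typ s hs1 with h | h | h
  · exfalso
    -- a minimal power outside
    obtain ⟨k, hk⟩ := hsk
    have hex : ∃ j : ℕ, s ^ (2 ^ j) ∈ srad G := ⟨k, by rw [← hk, pow_orderOf_eq_one]; exact one_mem _⟩
    classical
    set j := Nat.find hex with hj
    have hjs := Nat.find_spec hex
    rw [← hj] at hjs
    have hj0 : j ≠ 0 := by
      intro h0
      rw [h0, pow_zero, pow_one] at hjs
      exact hs hjs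
    obtain ⟨i, hi⟩ := Nat.exists_eq_succ_of_ne_zero hj0
    have hi1 : s ^ (2 ^ i) ∉ srad G := Nat.find_min hex (by omega)
    obtain ⟨t, ht⟩ : ∃ t, t = s ^ (2 ^ i) := ⟨_, rfl⟩
    rw [← ht] at hi1
    have ht2 : t * t ∈ srad G := by
      rw [ht, ← pow_two, ← pow_mul, ← pow_succ]
      rw [hi] at hjs
      exact hjs
    have ht1 : t ≠ 1 := fun h => hi1 (h ▸ one_mem _)
    have hta : cs t = a := D.H.pra h ht1 (by rw [ht]; exact C_pow s _)
    have hRt : srad G ≤ C t := by
      apply normal_le_cent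
      rw [hta]
      obtain ⟨m, hm⟩ := IsPGroup.iff_card.mp hR2
      rw [hm]
      exact Nat.Coprime.pow_left m ((Nat.Prime.coprime_iff_not_dvd Nat.prime_two).mpr hodd)
    have hiso : ∀ g : G, t * (g * t * g⁻¹) = (g * t * g⁻¹) * t → g * t * g⁻¹ = t := fun g hg =>
      D.iso' hta hi1 hg
    -- the image is isolated
    apply not_isolated (srad_quot (G := G)) (QuotientGroup.mk t)
    refine ⟨?_, ?_⟩
    · apply orderOf_eq_prime
      · rw [pow_two]
        exact (QuotientGroup.eq_one_iff (t * t)).mpr ht2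
      · intro h1
        exact hi1 ((QuotientGroup.eq_one_iff t).mp h1)
    · intro g hg
      obtain ⟨g, rfl⟩ := QuotientGroup.mk_surjective g
      have h1 : (QuotientGroup.mk ((g * t * g⁻¹) * t * (g * t * g⁻¹)⁻¹ * t⁻¹) : G ⧸ srad G) = 1 := by
        have h2 : (QuotientGroup.mk g * QuotientGroup.mk t * (QuotientGroup.mk g)⁻¹ : G ⧸ srad G) *
          QuotientGroup.mk t * (QuotientGroup.mk g * QuotientGroup.mk t * (QuotientGroup.mk g)⁻¹)⁻¹ *
          (QuotientGroup.mk t)⁻¹ = 1 := by rw [← hg.eq]; group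
        exact h2
      rw [QuotientGroup.eq_one_iff] at h1
      obtain ⟨u, hu⟩ : ∃ u, u = g * t * g⁻¹ := ⟨_, rfl⟩
      rw [← hu] at h1
      have h2 : Commute (u * t * u⁻¹ * t⁻¹) t := memC.mp (hRt h1)
      have h3 : Commute (u * t * u⁻¹) t := by
        have h4 := h2.mul_left (Commute.refl t)
        rwa [inv_mul_cancel_right] at h4
      have h4 := hiso u h3.eq.symm
      have h5 : t * u = u * t := (mul_inv_eq_iff_eq_mul.mp h4).symm
      rw [hu] at h5
      have h6 := hiso g h5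
      exact congrArg QuotientGroup.mk h6
  · exfalso
    apply hodd
    rw [← D.card_b h]
    obtain ⟨k, hk⟩ := hsk
    have h3 : 2 ∣ orderOf s := by
      rw [hk]
      apply dvd_pow_self
      rintro rfl
      rw [pow_zero, orderOf_eq_one_iff] at hk
      exact hs1 hk
    exact h3.trans (Subgroup.orderOf_dvd_natCard _ (self_memC s))
  · exact h

theorem exists_two : ∃ s : G, s ∉ srad G ∧ ∃ k : ℕ, orderOf s = 2 ^ k := by
  obtain ⟨s, -, hs, hs2, -, -⟩ := exists_pair D.H.ns
  obtain ⟨m, hm, hm2⟩ := exists_two_part hs hs2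
  exact ⟨s ^ m, hm2, hm⟩

/-- the radical is trivial -/
theorem R_bot (hodd : ¬ 2 ∣ a) : srad G = ⊥ := by
  by_contra hR
  have hR2 := D.R_two hodd
  haveI : Fact (Nat.Prime 2) := ⟨Nat.prime_two⟩
  -- centralisers of 2-elements outside the radical
  have hC : ∀ s : G, s ∉ srad G → (∃ k : ℕ, orderOf s = 2 ^ k) → ∀ u ∈ C s, (orderOf u).Coprime 2 → u = 1 := by
    intro s hs hsk u hu huo
    have hsc := D.two_type hodd hs hsk
    have h1 : C s ≤ C u := by
      apply D.H.M3 (memC.mp hu) _ hsc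
      obtain ⟨k, hk⟩ := hsk
      rw [hk]; exact Nat.Coprime.pow_right k huo
    have h2 : ∀ v ∈ srad G, v * u = u * v := by
      apply pq_elem hR2 hsk huo (memC.mp hu).symm
      intro v _ hvs
      exact memC.mp (h1 (memC.mpr hvs))
    have h3 : u ∈ srad G := by
      apply D.cent_le srad_normal hR
      rw [mem_centralizer_iff]
      exact h2
    obtain ⟨k, hk⟩ := (H70.RegT.isPGroup_iff_pow (srad G)).mp hR2 u h3
    have h4 := (Nat.Coprime.pow_right k huo).eq_one_of_dvd (orderOf_dvd_of_pow_eq_one hk)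
    exact orderOf_eq_one_iff.mp h4
  obtain ⟨s, hs, hsk⟩ := D.exists_two
  have hsc := D.two_type hodd hs hsk
  have hCs : IsPGroup 2 (C s) := isPGroup_of Nat.prime_two (hC s hs hsk)
  -- an odd prime divisor of `b`
  obtain ⟨q, hq, hqb, hq2⟩ : ∃ q : ℕ, q.Prime ∧ q ∣ b ∧ q ≠ 2 := by
    by_contra hcon
    push Not at hcon
    have hb0 : b ≠ 0 := by have := D.H.b1; omega
    have h1 := Nat.eq_prime_pow_of_unique_prime_dvd hb0 (p := 2) (fun {d} hd hdd => hcon d hd hdd)
    have h2 : y ∈ srad G := by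
      apply H70.Kazarin.mem_srad _ G rfl y 2 b.primeFactorsList.length Nat.prime_two
      change cs y = _
      rw [D.yb]; exact h1
    exact D.Rtype h2 D.yb
  obtain ⟨x, -, hx⟩ := exists_order hq (H := (⊤ : Subgroup G)) (by
    rw [Subgroup.card_top]; exact hqb.trans D.H.b_dvd)
  have hx1 := ne_one_of_prime hq hx
  have hxo : (orderOf x).Coprime 2 := by rw [hx]; exact (Nat.coprime_primes hq Nat.prime_two).mpr hq2
  have hqx : q ∣ Nat.card (C x) := by
    rw [← hx]; exact Subgroup.orderOf_dvd_natCard _ (self_memC x)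
  have hxa : cs x = a := by
    rcases D.H.typ x hx1 with h | h | h
    · exact h
    · exfalso
      rw [D.card_b h] at hqx
      exact D.H.prime_ne hq hqx hqb rfl
    · exfalso
      rw [card_C_eq (h.trans hsc.symm)] at hqx
      obtain ⟨m, hm⟩ := IsPGroup.iff_card.mp hCs
      rw [hm] at hqx
      exact hq2 ((Nat.prime_dvd_prime_iff_eq hq Nat.prime_two).mp (hq.dvd_of_dvd_pow hqx))
  obtain ⟨k, hk⟩ := hsk
  obtain ⟨g, hg⟩ := exists_conj_mem Nat.prime_two (K := C x) (P := zpowers s)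
    (IsPGroup.of_card (n := k) (by rw [Nat.card_zpowers, hk])) (by
      change ¬ 2 ∣ cs x
      rw [hxa]; exact hodd)
  have h1 := hg s (mem_zpowers s)
  apply hx1
  apply hC (g * s * g⁻¹) _ _ x (memC_comm.mp h1) hxo
  · intro h
    apply hs
    have := srad_normal.conj_mem _ h g⁻¹
    have e : g⁻¹ * (g * s * g⁻¹) * g⁻¹⁻¹ = s := by group
    rwa [e] at this
  · refine ⟨k, ?_⟩
    have := MulEquiv.orderOf_eq (MulAut.conj g) s
    rw [MulAut.conj_apply] at this
    rw [this, hk]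

end HB

end H72.ItoZ
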