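import Mathlib
import Cfsg.Agent.Lib.H72.ItoZ8
import Cfsg.Agent.Lib.H72.ItoZ5

/-!
Assembly: centreless groups with at most three nontrivial class sizes.
-/
set_option autoImplicit false
set_option linter.unusedSectionVars false
set_option linter.style.haveILetI false

namespace H72.ItoZ

open Subgroup H72.TwoLargest H74.Ito3 H70.SolvRad H25.StrEmb H25.Isolated H28.Cj H28.RelSyl
open scoped commutatorElement

universe u

namespace HB

variable {G : Type u} [Group G] [Finite G] {a b c : ℕ} {y : G} (D : HB G a b c y)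
include D

theorem odd_final (hodd : ¬ 2 ∣ a) : False := by
  have hR := D.R_bot hodd
  have H := D.H
  obtain ⟨x, hx⟩ := H.exa
  have hcx := D.card_a hx
  have hiso : ∀ x : G, cs x = a → ∀ g : G, x * (g * x * g⁻¹) = (g * x * g⁻¹) * x →
      g * x * g⁻¹ = x := by
    intro x hx g hg
    refine D.iso' hx ?_ hg
    rw [hR, Subgroup.mem_bot]
    exact H.ne1a hx
  have hno : ∀ t : G, orderOf t = 2 → cs t ≠ a := by
    intro t ht h
    exact not_isolated hR t ⟨ht, fun g hg => hiso t h g hg.eq⟩
  have hinv : ∀ t : G, orderOf t = 2 → cs t = c := by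
    intro t ht
    rcases H.typ t (ne_one_of_prime Nat.prime_two ht) with h | h | h
    · exact (hno t ht h).elim
    · exfalso
      apply hodd
      rw [← D.card_b h]
      exact dvd_card_C ht (self_memC t)
    · exact h
  have hGe := even_card H.ns
  have hn2 : 2 ∣ b := D.even_b hodd
  obtain ⟨t0, -, ht0⟩ := exists_order Nat.prime_two (H := (⊤ : Subgroup G))
    (by rw [Subgroup.card_top]; exact hGe)
  have heven3 : ∀ d : G, cs d = c → 2 ∣ Nat.card (C d) := by
    intro d hd
    rw [card_C_eq (hd.trans (hinv t0 ht0).symm)]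
    exact dvd_card_C ht0 (self_memC t0)
  have hxodd : ∀ t : G, orderOf t = 2 → (orderOf x).Coprime (orderOf t) := by
    intro t ht
    rw [ht, Nat.coprime_comm, Nat.prime_two.coprime_iff_not_dvd]
    intro h
    have h2 : orderOf (x ^ (orderOf x / 2)) = 2 := by
      rw [orderOf_pow' _ (by
        intro h3
        have := Nat.div_mul_cancel h
        have := orderOf_pos x
        rw [h3] at *
        omega)]
      rw [Nat.gcd_eq_right (Nat.div_dvd_of_dvd h)]
      exact Nat.div_div_self h (orderOf_pos x).ne'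
    exact hno _ h2 (H.pra hx (ne_one_of_prime Nat.prime_two h2) (C_pow x _))
  have hM : ∀ t : G, orderOf t = 2 → t ∈ C x → C t ≤ C x := by
    intro t ht htx
    exact H.M3 (memC.mp (memC_comm.mp htx)) (hxodd t ht) (hinv t ht)
  have hM' : ∀ g t : G, orderOf t = 2 → t ∈ C (g * x * g⁻¹) → C t ≤ C (g * x * g⁻¹) := by
    intro g t ht htx
    refine H.M3 (memC.mp (memC_comm.mp htx)) ?_ (hinv t ht)
    have h1 : orderOf (g * x * g⁻¹) = orderOf x := by
      have := MulEquiv.orderOf_eq (MulAut.conj g) x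
      simpa [MulAut.conj_apply] using this
    rw [h1]; exact hxodd t ht
  have hemb : Cfsg.IsStronglyEmbedded (C x) := by
    refine ⟨?_, ?_, ?_⟩
    · intro h
      have h1 : cs x = 1 := by rw [cs]; rw [show centralizer ({x} : Set G) = ⊤ from h]; simp
      rw [hx] at h1
      have := H.a1
      omega
    · rw [even_iff_two_dvd, hcx]; exact hn2
    · intro g hg
      rw [← Nat.not_even_iff_odd, even_iff_two_dvd]
      intro h
      obtain ⟨t, htm, ht⟩ := exists_order Nat.prime_two h
      obtain ⟨ht1, ht2⟩ := Subgroup.mem_inf.mp htm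
      rw [mem_map_conj] at ht2
      apply hg
      have h1 : t ∈ C (g * x * g⁻¹) := by
        rw [memC] at ht2 ⊢
        calc t * (g * x * g⁻¹) = g * (g⁻¹ * t * g * x) * g⁻¹ := by group
          _ = g * (x * (g⁻¹ * t * g)) * g⁻¹ := by rw [ht2]
          _ = g * x * g⁻¹ * t := by group
      have h2 := hM' g t ht h1 (memC_comm.mp ht1)
      have h3 := hiso x hx g (memC.mp h2)
      rw [memC]
      calc g * x = (g * x * g⁻¹) * g := by group
        _ = x * g := by rw [h3]
  -- a second point
  obtain ⟨e, he⟩ : ∃ e : G, e ∉ C x := by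
    by_contra hcon
    push Not at hcon
    exact hemb.1 (eq_top_iff.mpr fun e _ => hcon e)
  have hx0 : ∀ g : G, g • (QuotientGroup.mk 1 : G ⧸ C x) = QuotientGroup.mk 1 ↔ g ∈ C x := by
    intro g
    rw [smul_mk_eq_iff]; simp
  have hxy : (QuotientGroup.mk 1 : G ⧸ C x) ≠ QuotientGroup.mk e := by
    intro h
    rw [QuotientGroup.eq] at h
    exact he (by simpa using h)
  have hsw := card_swap hemb _ _ hxy
  obtain ⟨t1, ht1M, ht1⟩ := exists_involution hemb
  by_cases huniq : ∀ t : G, orderOf t = 2 → t ∈ C x → t = t1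
  · -- central involution
    have h1 : C x ≤ C t1 := by
      intro g hg
      have h2 : orderOf (g * t1 * g⁻¹) = 2 := by
        have := MulEquiv.orderOf_eq (MulAut.conj g) t1
        rw [MulAut.conj_apply] at this
        rw [this, ht1]
      have h3 := huniq _ h2 (mul_mem (mul_mem hg ht1M) (inv_mem hg))
      rw [memC]
      calc g * t1 = (g * t1 * g⁻¹) * g := by group
        _ = t1 * g := by rw [h3]
    exact hno t1 ht1 (H.pra hx (ne_one_of_prime Nat.prime_two ht1) h1)
  · push Not at huniq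
    obtain ⟨t2, ht2, ht2M, ht21⟩ := huniq
    have h1 : 1 < Nat.card {t : G // orderOf t = 2 ∧ t ∈ C x} := by
      haveI : Nontrivial {t : G // orderOf t = 2 ∧ t ∈ C x} :=
        ⟨⟨⟨t2, ht2, ht2M⟩, ⟨t1, ht1, ht1M⟩, fun h => ht21 (congrArg Subtype.val h)⟩⟩
      exact Finite.one_lt_card
    rw [← hsw] at h1
    haveI := Finite.one_lt_card_iff_nontrivial.mp h1
    obtain ⟨⟨s, hs, hsy⟩, ⟨i, hi, hiy⟩, hsi⟩ := exists_pair_ne
      {i : G // orderOf i = 2 ∧ i • (QuotientGroup.mk 1 : G ⧸ C x) = QuotientGroup.mk e}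
    have hsi' : s ≠ i := fun h => hsi (Subtype.ext h)
    have hss := self_mul_self hs
    have hii := self_mul_self hi
    have hs1 : s⁻¹ = s := inv_eq_self_of_sq hss
    have hi1 : i⁻¹ = i := inv_eq_self_of_sq hii
    have hsy' : s • (QuotientGroup.mk e : G ⧸ C x) = QuotientGroup.mk 1 := by
      rw [← hsy, ← mul_smul, hss, one_smul]
    have hiy' : i • (QuotientGroup.mk e : G ⧸ C x) = QuotientGroup.mk 1 := by
      rw [← hiy, ← mul_smul, hii, one_smul]
    have hsM : s ∉ C x := by
      intro h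
      rw [← hx0, hsy] at h
      exact hxy h.symm
    have hd1 : s * i ∈ C x := by
      rw [← hx0, mul_smul, hiy, hsy']
    have hd2 : (s * i) • (QuotientGroup.mk e : G ⧸ C x) = QuotientGroup.mk e := by
      rw [mul_smul, hiy', hsy]
    have hdodd : Odd (orderOf (s * i)) := by
      have h2 := hemb.2.2 e he
      apply Odd.of_dvd_nat h2
      apply Subgroup.orderOf_dvd_natCard
      refine Subgroup.mem_inf.mpr ⟨hd1, ?_⟩
      rw [mem_map_conj, ← smul_mk_eq_iff]
      exact hd2
    have hdne : s * i ≠ 1 := by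
      intro h
      exact hsi' (by rw [← hi1]; exact eq_inv_of_mul_eq_one_left h)
    have hdinv : s * (s * i) * s⁻¹ = (s * i)⁻¹ := by
      rw [mul_inv_rev, hi1, hs1, ← mul_assoc, hss, one_mul]
    obtain ⟨d, hd⟩ : ∃ d, d = s * i := ⟨_, rfl⟩
    rw [← hd] at hd1 hd2 hdodd hdne hdinv
    rcases H.typ d hdne with h | h | h
    · have h2 := hiso d h s (by rw [hdinv]; group)
      rw [hdinv] at h2
      have h3 : d * d = 1 := by
        nth_rewrite 1 [← h2]; group
      apply hdne
      obtain ⟨r, hr⟩ := hdodd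
      have h4 : d ^ (2 * r + 1) = 1 := by rw [← hr]; exact pow_orderOf_eq_one d
      rw [pow_succ, pow_mul, pow_two, h3, one_pow, one_mul] at h4
      exact h4
    · exact D.nc hx h (memC_comm.mp hd1)
    · obtain ⟨t, htd, ht⟩ := exists_order Nat.prime_two (heven3 d h)
      have hcop : (orderOf t).Coprime (orderOf d) := by
        rw [ht, Nat.prime_two.coprime_iff_not_dvd]
        intro h2
        exact (Nat.not_even_iff_odd.mpr hdodd) (even_iff_two_dvd.mpr h2)
      have h2 : C d ≤ C t := H.M3 (memC.mp htd) hcop h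
      have h3 : x ∈ C t := h2 (memC_comm.mp hd1)
      have h4 := hM t ht (memC_comm.mp h3)
      have h5 : s * x * s⁻¹ ∈ C d := by
        have h6 : Commute (s * x * s⁻¹) (s * d * s⁻¹) := by
          have h7 : x * d = d * x := memC.mp (memC_comm.mp hd1)
          show s * x * s⁻¹ * (s * d * s⁻¹) = s * d * s⁻¹ * (s * x * s⁻¹)
          calc s * x * s⁻¹ * (s * d * s⁻¹) = s * (x * d) * s⁻¹ := by group
            _ = s * (d * x) * s⁻¹ := by rw [h7]
            _ = _ := by group
        rw [hdinv] at h6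
        have h7 := h6.inv_right
        rw [inv_inv] at h7
        exact memC.mpr h7.eq
      have h6 := h4 (h2 h5)
      have h7 := hiso x hx s (memC.mp h6).symm
      apply hsM
      rw [memC]
      calc s * x = (s * x * s⁻¹) * s := by group
        _ = x * s := by rw [h7]

end HB

/-- the conclusion -/
def Concl (G : Type u) [Group G] : Prop :=
  ∃ (F : Type) (_ : Field F) (_ : Fintype F) (n : ℕ), 2 ≤ n ∧ Fintype.card F = 2 ^ n ∧
      Nonempty (G ≃* Matrix.ProjectiveSpecialLinearGroup (Fin 2) F)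

theorem Hy.concl {G : Type u} [Group G] [Finite G] {a b c : ℕ} (H : Hy G a b c) : Concl G := by
  by_cases hbc : b ∣ c
  · exfalso
    by_cases hne : c = a * b
    · apply H.ns
      have P : PP G a b :=
        { typ := fun x => by rcases H.typ' x with h | h | h | h <;> simp [h, hne]
          exa := H.exa, exb := H.exb, exc := by rw [← hne]; exact H.exc, cop := H.cop, a1 := H.a1, b1 := H.b1 }
      exact P.solvable
    · exact H.caseII hbc hne
  · obtain ⟨y, hyb, -, hcen⟩ := H.caseI hbc
    have D : HB G a b c y := ⟨H, hbc, hyb, hcen⟩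
    by_cases h2 : 2 ∣ a
    · exact psl_of_ab H.ns D.comm (fun u hu hu1 x hx => by
        rw [← D.eqB hu hu1]; exact memC.mpr hx) (by rw [D.cardB]; exact h2)
    · exact (D.odd_final h2).elim

/-- the main theorem, with a list of the types -/
theorem main {G : Type u} [Group G] [Finite G] (hZ : center G = ⊥) (hns : ¬ Group.IsSolvable G)
    (hthird : ∀ w z : G, w ≠ 1 → z ≠ 1 → cs w ≠ cs z →
      (∀ g : G, g ≠ 1 → cs g = cs w ∨ cs g = cs z) ∨
      ∃ v : G, v ≠ 1 ∧ cs v ≠ cs w ∧ cs v ≠ cs z ∧
        ∀ g : G, g ≠ 1 → cs g = cs w ∨ cs g = cs z ∨ cs g = cs v) : Concl G := by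
  have hne1 : ∀ x : G, x ≠ 1 → 1 < cs x := by
    intro x hx
    have h0 := cs_pos x
    have h1 : cs x ≠ 1 := by
      intro h
      rw [cs_eq_one, hZ, Subgroup.mem_bot] at h
      exact hx h
    omega
  have hprime : ∀ p : ℕ, p.Prime → p ∣ Nat.card G → ∃ z : G, z ≠ 1 ∧ ¬ p ∣ cs z := by
    intro p hp hd
    obtain ⟨z, hz, h⟩ := exists_ord hp hd
    exact ⟨z, ne_one_of_prime hp hz, h⟩
  by_cases hF : ∀ w z : G, w ≠ 1 → z ≠ 1 → C w ≤ C z → C z ≤ C w
  · obtain ⟨t, -, ht⟩ := exists_order Nat.prime_two (H := (⊤ : Subgroup G))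
      (by rw [Subgroup.card_top]; exact even_card hns)
    letI := Fintype.ofFinite G
    have hA := caseA hF ht
    exact psl_of_ab hns hA.comm hA.cent (dvd_card_C ht (self_memC t))
  · push Not at hF
    obtain ⟨w, z, hw, hz, hle, hnle⟩ := hF
    have hwz : cs w ≠ cs z := fun h => hnle (C_le_of hle h)
    have hdvd : cs z ∣ cs w := cs_dvd_of_le hle
    have hzG : cs z ∣ Nat.card G := Subgroup.index_dvd_card _
    rcases hthird w z hw hz hwz with h | ⟨v, hv, hvw, hvz, h⟩
    · exfalso
      obtain ⟨p, hp, hpz⟩ := Nat.exists_prime_and_dvd (hne1 z hz).ne'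
      obtain ⟨g, hg, hgp⟩ := hprime p hp (hpz.trans hzG)
      rcases h g hg with h1 | h1 <;> rw [h1] at hgp
      · exact hgp (hpz.trans hdvd)
      · exact hgp hpz
    · have hcop : (cs z).Coprime (cs v) := by
        by_contra hcon
        obtain ⟨p, hp, hpz, hpv⟩ := Nat.Prime.not_coprime_iff_dvd.mp hcon
        obtain ⟨g, hg, hgp⟩ := hprime p hp (hpz.trans hzG)
        rcases h g hg with h1 | h1 | h1 <;> rw [h1] at hgp
        · exact hgp (hpz.trans hdvd)
        · exact hgp hpz
        · exact hgp hpv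
      have Hh : Hy G (cs z) (cs v) (cs w) :=
        { typ := fun g hg => by rcases h g hg with h1 | h1 | h1 <;> simp [h1]
          exa := ⟨z, rfl⟩, exb := ⟨v, rfl⟩, exc := ⟨w, rfl⟩, cop := hcop, adc := hdvd
          a1 := hne1 z hz, b1 := hne1 v hv, anc := Ne.symm hwz, hZ := hZ, ns := hns }
      exact Hh.concl

end H72.ItoZ
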