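import Mathlib.GroupTheory.Nilpotent
import Cfsg.Agent.Lib.H72.ClassSize

/-!
Isaacs/Mann: if `A` is an abelian normal subgroup and `x` has minimal non-central class size then
`[A, x] ≤ Z(G)`; if moreover `A` is self-centralizing then the subgroup generated by the elements with
the two smallest class sizes is nilpotent of class at most 3.
-/

set_option autoImplicit false

namespace H72.MinClass

open Subgroup H72.ClassSize

variable {G : Type*} [Group G]

theorem comm_mem_center [Finite G] (A : Subgroup G) [A.Normal] (hA : IsMulCommutative A)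
    (m : ℕ) (hmin : ∀ x : G, 1 < (centralizer ({x} : Set G)).index → m ≤ (centralizer ({x} : Set G)).index)
    (x : G) (hx : (centralizer ({x} : Set G)).index = m) (a : G) (ha : a ∈ A) :
    a * x * a⁻¹ * x⁻¹ ∈ center G := by
  classical
  have hcomm : ∀ b ∈ A, ∀ c ∈ A, b * c = c * b := by
    intro b hb c hc
    have := hA.is_comm.comm ⟨b, hb⟩ ⟨c, hc⟩
    exact congrArg Subtype.val this
  set u := a * x * a⁻¹ * x⁻¹ with hu
  have hmemA : ∀ b ∈ A, b * x * b⁻¹ * x⁻¹ ∈ A := by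
    intro b hb
    have e : b * x * b⁻¹ * x⁻¹ = b * (x * b⁻¹ * x⁻¹) := by group
    rw [e]
    exact A.mul_mem hb (Subgroup.Normal.conj_mem inferInstance _ (A.inv_mem hb) _)
  have huA : u ∈ A := hmemA a ha
  -- the homomorphism b ↦ [b,x]
  let φ : A →* A := MonoidHom.mk' (fun b => ⟨(b : G) * x * (b : G)⁻¹ * x⁻¹, hmemA b b.2⟩) (by
    intro b c
    apply Subtype.ext
    show (b : G) * c * x * ((b : G) * c)⁻¹ * x⁻¹ = (b * x * (b : G)⁻¹ * x⁻¹) * (c * x * (c : G)⁻¹ * x⁻¹)
    have h1 := hcomm (c * x * (c : G)⁻¹ * x⁻¹) (hmemA c c.2) ((x : G) * (b : G)⁻¹ * x⁻¹)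
      (Subgroup.Normal.conj_mem inferInstance _ (A.inv_mem b.2) _)
    calc (b : G) * c * x * ((b : G) * c)⁻¹ * x⁻¹
        = b * ((c * x * (c : G)⁻¹ * x⁻¹) * (x * (b : G)⁻¹ * x⁻¹)) := by group
      _ = b * ((x * (b : G)⁻¹ * x⁻¹) * (c * x * (c : G)⁻¹ * x⁻¹)) := by rw [h1]
      _ = (b * x * (b : G)⁻¹ * x⁻¹) * (c * x * (c : G)⁻¹ * x⁻¹) := by group)
  set C := centralizer ({x} : Set G) with hC
  set K := centralizer ({u} : Set G) with hK
  by_cases hu1 : u = 1
  · rw [hu1]; exact (center G).one_mem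
  by_contra hucen
  have hK1 : 1 < K.index := by
    have h1 : K.index ≠ 1 := fun h => hucen ((index_eq_one_iff u).mp h)
    have h2 := index_pos u
    rw [← hK] at h2
    omega
  have hKm := hmin u hK1
  rw [← hK, ← hx] at hKm
  -- A ≤ K
  have hAK : A ≤ K := fun b hb => mem_cent_of_comm (hcomm b hb u huA)
  have hker : C.subgroupOf A = φ.ker := by
    ext b
    rw [Subgroup.mem_subgroupOf, hC, mem_cent_iff, MonoidHom.mem_ker, Subtype.ext_iff]
    show _ ↔ (b : G) * x * (b : G)⁻¹ * x⁻¹ = 1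
    rw [mul_inv_eq_one]
  have h1 : C.relIndex A = Nat.card φ.range := by
    rw [Subgroup.relIndex, hker, Subgroup.index_ker]
  have h2 : C.relIndex A ≤ C.relIndex K :=
    Subgroup.relIndex_le_of_le_right hAK Subgroup.index_ne_zero_of_finite
  have h3 : K.relIndex C ≤ Nat.card {d : φ.range // d ≠ 1} := by
    have key : ∀ b c : C, (b⁻¹ * c ∈ K.subgroupOf C) ↔
        (b : G) * u * (b : G)⁻¹ = c * u * (c : G)⁻¹ := by
      intro b c
      rw [Subgroup.mem_subgroupOf, hK, mem_cent_iff]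
      push_cast
      constructor
      · intro e
        calc (b : G) * u * (b : G)⁻¹ = b * ((b : G)⁻¹ * c * u * ((b : G)⁻¹ * c)⁻¹) * (b : G)⁻¹ := by rw [e]
          _ = c * u * (c : G)⁻¹ := by group
      · intro e
        calc (b : G)⁻¹ * c * u * ((b : G)⁻¹ * c)⁻¹ = (b : G)⁻¹ * (c * u * (c : G)⁻¹) * b := by group
          _ = (b : G)⁻¹ * (b * u * (b : G)⁻¹) * b := by rw [e]
          _ = u := by group
    have hmemr : ∀ c : C, ∃ d : {d : φ.range // d ≠ 1}, ((d.1.1 : A) : G) = c * u * (c : G)⁻¹ := by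
      intro c
      have hcx : (c : G) * x * (c : G)⁻¹ = x := (mem_cent_iff x c).mp c.2
      have hcx' : (c : G) * x⁻¹ * (c : G)⁻¹ = x⁻¹ := by
        calc (c : G) * x⁻¹ * (c : G)⁻¹ = ((c : G) * x * (c : G)⁻¹)⁻¹ := by group
          _ = x⁻¹ := by rw [hcx]
      have e : (c : G) * u * (c : G)⁻¹ = (c * a * (c : G)⁻¹) * x * (c * a * (c : G)⁻¹)⁻¹ * x⁻¹ := by
        calc (c : G) * u * (c : G)⁻¹
            = (c * a * (c : G)⁻¹) * (c * x * (c : G)⁻¹) * (c * a * (c : G)⁻¹)⁻¹ * (c * x⁻¹ * (c : G)⁻¹) := by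
              rw [hu]; group
          _ = _ := by rw [hcx, hcx']
      refine ⟨⟨⟨φ ⟨c * a * (c : G)⁻¹, Subgroup.Normal.conj_mem inferInstance _ ha _⟩, ⟨_, rfl⟩⟩, ?_⟩, ?_⟩
      · intro h0
        apply hu1
        have h4 : (c * a * (c : G)⁻¹) * x * (c * a * (c : G)⁻¹)⁻¹ * x⁻¹ = 1 :=
          congrArg (fun z : φ.range => ((z.1 : A) : G)) h0
        rw [← e] at h4
        calc u = (c : G)⁻¹ * (c * u * (c : G)⁻¹) * c := by group
          _ = 1 := by rw [h4]; group
      · exact e.symm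
    choose ψ hψ using hmemr
    have hlift : ∀ b c : C, (QuotientGroup.leftRel (K.subgroupOf C)) b c → ψ b = ψ c := by
      intro b c hbc
      apply Subtype.ext
      apply Subtype.ext
      apply Subtype.ext
      rw [hψ, hψ]
      exact (key b c).mp (QuotientGroup.leftRel_apply.mp hbc)
    apply Nat.card_le_card_of_injective (Quotient.lift ψ hlift)
    intro b c
    refine Quotient.inductionOn₂ b c ?_
    intro b c hbc
    have h4 : ψ b = ψ c := hbc
    apply Quotient.sound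
    apply QuotientGroup.leftRel_apply.mpr
    rw [key, ← hψ, ← hψ, h4]
  have h4 : Nat.card {d : φ.range // d ≠ 1} < Nat.card φ.range := by
    apply Finite.card_subtype_lt (x := (1 : φ.range))
    simp
  have h5 : K.relIndex C < C.relIndex K := lt_of_le_of_lt h3 (lt_of_lt_of_le h4 (h1 ▸ h2))
  have h6 : K.relIndex C * C.index = C.relIndex K * K.index := by
    have e1 : K.relIndex C * C.index = (K ⊓ C).index := by
      rw [← Subgroup.inf_relIndex_right K C, Subgroup.relIndex_mul_index inf_le_right]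
    have e2 : C.relIndex K * K.index = (K ⊓ C).index := by
      rw [← Subgroup.inf_relIndex_left K C, Subgroup.relIndex_mul_index inf_le_left]
    rw [e1, e2]
  have h7 : 0 < C.relIndex K := Nat.pos_of_ne_zero Subgroup.index_ne_zero_of_finite
  have h8 : 0 < C.index := index_pos x
  nlinarith

theorem upperCentralSeries_three_eq_top [Finite G] (A : Subgroup G) [A.Normal] (hA : IsMulCommutative A)
    (hCA : centralizer (A : Set G) = A)
    (m : ℕ) (hmin : ∀ x : G, 1 < (centralizer ({x} : Set G)).index → m ≤ (centralizer ({x} : Set G)).index) :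
    Subgroup.upperCentralSeries ↥(Subgroup.closure {x : G | (centralizer ({x} : Set G)).index = 1 ∨
      (centralizer ({x} : Set G)).index = m}) 3 = ⊤ := by
  classical
  set M := Subgroup.closure {x : G | (centralizer ({x} : Set G)).index = 1 ∨
      (centralizer ({x} : Set G)).index = m} with hM
  -- every element of M acts on A modulo the centre trivially
  have hgen : ∀ g ∈ M, ∀ a ∈ A, a * g * a⁻¹ * g⁻¹ ∈ center G := by
    intro g hg
    refine Subgroup.closure_induction (p := fun g _ => ∀ a ∈ A, a * g * a⁻¹ * g⁻¹ ∈ center G)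
      ?_ ?_ ?_ ?_ hg
    · intro x hx a ha
      rcases hx with hx | hx
      · have hxc := (index_eq_one_iff x).mp hx
        have h1 := Subgroup.mem_center_iff.mp hxc a
        rw [h1]
        have : x * a * a⁻¹ * x⁻¹ = 1 := by group
        rw [this]; exact (center G).one_mem
      · exact comm_mem_center A hA m hmin x hx a ha
    · intro a _
      have : a * 1 * a⁻¹ * 1⁻¹ = 1 := by group
      rw [this]; exact (center G).one_mem
    · intro x y _ _ hx hy a ha
      have e : a * (x * y) * a⁻¹ * (x * y)⁻¹ = (a * x * a⁻¹ * x⁻¹) * (x * (a * y * a⁻¹ * y⁻¹) * x⁻¹) := by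
        group
      rw [e]
      exact (center G).mul_mem (hx a ha) (Subgroup.Normal.conj_mem inferInstance _ (hy a ha) _)
    · intro x _ hx a ha
      have e : a * x⁻¹ * a⁻¹ * x⁻¹⁻¹ = x⁻¹ * (a * x * a⁻¹ * x⁻¹)⁻¹ * x⁻¹⁻¹ := by
        group
      rw [e]
      exact Subgroup.Normal.conj_mem inferInstance _ ((center G).inv_mem (hx a ha)) _
  -- commutators of elements of M lie in A
  have hcommA : ∀ g ∈ M, ∀ h ∈ M, g * h * g⁻¹ * h⁻¹ ∈ A := by
    intro g hg h hh
    rw [← hCA, Subgroup.mem_centralizer_iff]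
    intro a ha
    have ha' : a ∈ A := ha
    -- z g := a * g * a⁻¹ * g⁻¹ central
    have hz1 := Subgroup.mem_center_iff.mp (hgen g hg a ha')
    have hz2 := Subgroup.mem_center_iff.mp (hgen h hh a ha')
    set z := a * g * a⁻¹ * g⁻¹ with hz
    set w := a * h * a⁻¹ * h⁻¹ with hw
    have e1 : a * g = z * g * a := by rw [hz]; group
    have e2 : a * h = w * h * a := by rw [hw]; group
    have e3 : a * g⁻¹ = z⁻¹ * g⁻¹ * a := by
      calc a * g⁻¹ = g⁻¹ * z⁻¹ * (z * g * a) * g⁻¹ := by group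
        _ = g⁻¹ * z⁻¹ * (a * g) * g⁻¹ := by rw [e1]
        _ = (g⁻¹ * z⁻¹) * a := by group
        _ = z⁻¹ * g⁻¹ * a := by
            have : g⁻¹ * z⁻¹ = z⁻¹ * g⁻¹ := by
              rw [← mul_inv_rev, ← mul_inv_rev, hz1 g]
            rw [this]
    have e4 : a * h⁻¹ = w⁻¹ * h⁻¹ * a := by
      calc a * h⁻¹ = h⁻¹ * w⁻¹ * (w * h * a) * h⁻¹ := by group
        _ = h⁻¹ * w⁻¹ * (a * h) * h⁻¹ := by rw [e2]
        _ = (h⁻¹ * w⁻¹) * a := by group
        _ = w⁻¹ * h⁻¹ * a := by
            have : h⁻¹ * w⁻¹ = w⁻¹ * h⁻¹ := by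
              rw [← mul_inv_rev, ← mul_inv_rev, hz2 h]
            rw [this]
    have hwc : ∀ k : G, k * w = w * k := hz2
    have hzc : ∀ k : G, k * z = z * k := hz1
    calc a * (g * h * g⁻¹ * h⁻¹) = (a * g) * h * g⁻¹ * h⁻¹ := by group
      _ = z * g * (a * h) * g⁻¹ * h⁻¹ := by rw [e1]; group
      _ = z * g * (w * h) * (a * g⁻¹) * h⁻¹ := by rw [e2]; group
      _ = z * g * (w * h) * (z⁻¹ * g⁻¹) * (a * h⁻¹) := by rw [e3]; group
      _ = z * g * (w * h) * (z⁻¹ * g⁻¹) * (w⁻¹ * h⁻¹ * a) := by rw [e4]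
      _ = z * (g * w) * h * (z⁻¹ * g⁻¹) * (w⁻¹ * h⁻¹ * a) := by group
      _ = z * (w * g) * h * (z⁻¹ * g⁻¹) * (w⁻¹ * h⁻¹ * a) := by rw [hwc g]
      _ = (z * w) * (g * h) * z⁻¹ * (g⁻¹ * w⁻¹) * (h⁻¹ * a) := by group
      _ = (z * w) * (g * h) * z⁻¹ * (w⁻¹ * g⁻¹) * (h⁻¹ * a) := by
            have : g⁻¹ * w⁻¹ = w⁻¹ * g⁻¹ := by
              rw [← mul_inv_rev, ← mul_inv_rev, hwc g]
            rw [this]
      _ = (z * w) * ((g * h) * (z⁻¹ * w⁻¹)) * (g⁻¹ * (h⁻¹ * a)) := by group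
      _ = (z * w) * ((z⁻¹ * w⁻¹) * (g * h)) * (g⁻¹ * (h⁻¹ * a)) := by
            have h9 : (g * h) * (w * z)⁻¹ = (w * z)⁻¹ * (g * h) := by
              have h10 : (g * h) * (w * z) = (w * z) * (g * h) := by
                rw [← mul_assoc, hwc (g * h), mul_assoc, hzc (g * h), ← mul_assoc]
              exact (Commute.inv_right (h10 : Commute (g * h) (w * z)))
            rw [← mul_inv_rev, h9]
      _ = (z * (w * z⁻¹)) * w⁻¹ * (g * h * g⁻¹ * h⁻¹) * a := by group
      _ = (z * (z⁻¹ * w)) * w⁻¹ * (g * h * g⁻¹ * h⁻¹) * a := by rw [← hwc z⁻¹]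
      _ = (g * h * g⁻¹ * h⁻¹) * a := by group
  rw [eq_top_iff]
  intro g _
  have hcenM : ∀ z : M, (z : G) ∈ center G → z ∈ center M := by
    intro z hz
    rw [Subgroup.mem_center_iff]
    intro k
    apply Subtype.ext
    exact Subgroup.mem_center_iff.mp hz k
  rw [Subgroup.mem_upperCentralSeries_succ_iff]
  intro h
  rw [Subgroup.mem_upperCentralSeries_succ_iff]
  intro k
  rw [Subgroup.upperCentralSeries_one]
  apply hcenM
  have h1 := hcommA g g.2 h h.2
  have h2 := hgen k k.2 _ h1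
  exact h2

end H72.MinClass
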