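import Cfsg.Agent.Lib.H88.F4

set_option autoImplicit false
set_option linter.style.haveILetI false

/-! S3814 piece PY: generalities. -/

namespace H72.PYa

open Subgroup H88.F4

variable {G : Type*} [Group G]

/-- conjugating `x` to a power by an element of prime order -/
theorem dvd_sub_one {r s : ℕ} (hr : r.Prime) (hs : s.Prime) {x y : G} (hx : orderOf x = r)
    (hy : orderOf y = s) (hn : y * x * y⁻¹ ∈ zpowers x) (hc : ¬ Commute y x) : s ∣ r - 1 := by
  haveI := Fact.mk hr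
  haveI := Fact.mk hs
  have hfo : IsOfFinOrder x := by
    rw [← orderOf_pos_iff, hx]; exact hr.pos
  obtain ⟨k, hk⟩ := (hfo.mem_powers_iff_mem_zpowers).2 hn
  replace hk : x ^ k = y * x * y⁻¹ := hk
  -- y^n x y^-n = x^(k^n)
  have hpow : ∀ n : ℕ, y ^ n * x * (y ^ n)⁻¹ = x ^ (k ^ n) := by
    intro n
    induction n with
    | zero => simp
    | succ n ih =>
      have h1 : y ^ (n + 1) * x * (y ^ (n + 1))⁻¹ = y * (y ^ n * x * (y ^ n)⁻¹) * y⁻¹ := by
        rw [pow_succ']; group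
      rw [h1, ih]
      have h2 : y * x ^ k ^ n * y⁻¹ = (y * x * y⁻¹) ^ (k ^ n) := by
        rw [conj_pow]
      rw [h2, ← hk, ← pow_mul, pow_succ']
  have h3 : x ^ (k ^ s) = x ^ 1 := by
    rw [← hpow s, ← hy, pow_orderOf_eq_one]; simp
  have h4 : (k ^ s) ≡ 1 [MOD r] := by
    rw [← hx]
    exact (pow_eq_pow_iff_modEq).1 h3
  have h5 : ((k : ZMod r)) ^ s = 1 := by
    have := (ZMod.natCast_eq_natCast_iff (k ^ s) 1 r).2 h4
    simpa using this
  have h6 : (k : ZMod r) ≠ 1 := by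
    intro h
    apply hc
    have h7 : k ≡ 1 [MOD r] := by
      apply (ZMod.natCast_eq_natCast_iff k 1 r).1
      simpa using h
    have h8 : x ^ k = x ^ 1 := by
      apply (pow_eq_pow_iff_modEq).2
      rw [hx]; exact h7
    rw [hk, pow_one] at h8
    show y * x = x * y
    calc y * x = (y * x * y⁻¹) * y := by group
      _ = x * y := by rw [h8]
  have h7 : orderOf (k : ZMod r) = s := orderOf_eq_prime h5 h6
  have h8 : (k : ZMod r) ≠ 0 := by
    intro h
    rw [h, zero_pow hs.ne_zero] at h5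
    exact zero_ne_one h5
  have h9 := ZMod.orderOf_dvd_card_sub_one h8
  rw [h7] at h9
  exact h9

theorem mem_of_prime_zpowers {r : ℕ} (hr : r.Prime) {x y : G} (hx : orderOf x = r)
    (hy : y ∈ zpowers x) (hy1 : y ≠ 1) : x ∈ zpowers y := by
  haveI := Fact.mk hr
  have hcx : Nat.card (zpowers x) = r := by rw [Nat.card_zpowers, hx]
  have hle : zpowers y ≤ zpowers x := by rw [zpowers_le]; exact hy
  haveI : Finite (zpowers x) := Nat.finite_of_card_ne_zero (by rw [hcx]; exact hr.ne_zero)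
  have hd : Nat.card (zpowers y) ∣ r := by
    rw [← hcx]; exact Subgroup.card_dvd_of_le hle
  rcases (Nat.dvd_prime hr).1 hd with h | h
  · exfalso
    apply hy1
    have := Subgroup.card_eq_one.1 h
    rw [Subgroup.zpowers_eq_bot] at this
    exact this
  · have : zpowers y = zpowers x := Subgroup.eq_of_le_of_card_ge hle (by rw [hcx, h])
    rw [this]; exact mem_zpowers x

theorem pgroup_dvd [Finite G] {t u : ℕ} (ht : t.Prime) (hu : u.Prime) {P : Subgroup G} (hP : IsPGroup t P)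
    (h : u ∣ Nat.card P) : u = t := by
  haveI := Fact.mk ht
  obtain ⟨n, hn⟩ := IsPGroup.iff_card.1 hP
  rw [hn] at h
  exact (Nat.prime_dvd_prime_iff_eq hu ht).1 (hu.dvd_of_dvd_pow h)

theorem exists_order [Finite G] {t : ℕ} (ht : t.Prime) {P : Subgroup G} (h : t ∣ Nat.card P) :
    ∃ x ∈ P, orderOf x = t := by
  haveI := Fact.mk ht
  obtain ⟨x, hx⟩ := exists_prime_orderOf_dvd_card' (G := P) t h
  exact ⟨x, x.2, by rw [← hx, Subgroup.orderOf_coe]⟩

theorem pgroup_exists_order [Finite G] {t : ℕ} (ht : t.Prime) {P : Subgroup G} (hP : IsPGroup t P)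
    (h1 : P ≠ ⊥) : ∃ x ∈ P, orderOf x = t := by
  haveI := Fact.mk ht
  apply exists_order ht
  obtain ⟨n, hn⟩ := IsPGroup.iff_card.1 hP
  rw [hn]
  have : n ≠ 0 := by
    rintro rfl
    apply h1
    rw [← Subgroup.card_eq_one, hn, pow_zero]
  exact dvd_pow_self t this

theorem ne_one_of_order {t : ℕ} (ht : t.Prime) {x : G} (hx : orderOf x = t) : x ≠ 1 := by
  rintro rfl
  rw [orderOf_one] at hx
  exact ht.one_lt.ne hx

theorem isPGroup_of_only [Finite G] {r : ℕ} (hr : r.Prime) {C : Subgroup G}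
    (h : ∀ t : ℕ, t.Prime → t ∣ Nat.card C → t = r) : IsPGroup r C := by
  haveI := Fact.mk hr
  rw [IsPGroup.iff_card]
  refine ⟨(Nat.card C).primeFactorsList.length, ?_⟩
  exact Nat.eq_prime_pow_of_unique_prime_dvd Nat.card_pos.ne' (fun {d} hd hd2 => h d hd hd2)

theorem zpowers_pgroup {r : ℕ} (hr : r.Prime) {x : G} (hx : orderOf x = r) :
    IsPGroup r (zpowers x) := by
  haveI := Fact.mk hr
  haveI : Finite (zpowers x) := Nat.finite_of_card_ne_zero
    (by rw [Nat.card_zpowers, hx]; exact hr.ne_zero)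
  rw [IsPGroup.iff_card]
  exact ⟨1, by rw [Nat.card_zpowers, hx, pow_one]⟩

theorem ea_pgroup {t : ℕ} {A : Subgroup G} (h : Cfsg.IsElementaryAbelian t A) : IsPGroup t A := by
  intro a
  refine ⟨1, ?_⟩
  apply Subtype.ext
  rw [pow_one]
  exact h.2 a a.2

theorem comm_pgroup_eq_one [Finite G] {r s : ℕ} (hr : r.Prime) (hs : s.Prime) (hrs : r ≠ s) {P : Subgroup G}
    (hP : IsPGroup r P) {c : G} (hc : c ∈ P) (h : c ^ s = 1) : c = 1 := by
  haveI := Fact.mk hr
  obtain ⟨n, hn⟩ := hP ⟨c, hc⟩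
  have hn' : c ^ (r ^ n) = 1 := by
    have := congrArg Subtype.val hn
    simpa using this
  have h1 : orderOf c ∣ s := orderOf_dvd_of_pow_eq_one h
  have h2 : orderOf c ∣ r ^ n := orderOf_dvd_of_pow_eq_one hn'
  have h3 : Nat.Coprime s (r ^ n) := Nat.Coprime.pow_right n ((Nat.coprime_primes hs hr).2 (Ne.symm hrs))
  have h4 : orderOf c ∣ 1 := by
    rw [← h3]; exact Nat.dvd_gcd h1 h2
  exact orderOf_eq_one_iff.1 (Nat.dvd_one.1 h4)

/-- `c = [w, y]` commutes with `y`, `y ^ s = 1`: then `c ^ s = 1`. -/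
theorem comm_pow {s : ℕ} {w y : G} (hy : y ^ s = 1) (hc : Commute (w * y * w⁻¹ * y⁻¹) y) :
    (w * y * w⁻¹ * y⁻¹) ^ s = 1 := by
  have h1 : w * y * w⁻¹ = (w * y * w⁻¹ * y⁻¹) * y := by group
  have h2 : (w * y * w⁻¹) ^ s = 1 := by rw [conj_pow, hy]; group
  rw [h1, hc.mul_pow, hy, mul_one] at h2
  exact h2

end H72.PYa
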