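import Cfsg.Agent.Lib.H88.F4d
import Cfsg.Agent.Lib.H6.FT345
import Cfsg.Agent.Lib.H52.FC1
import Cfsg.Agent.Lib.H72.PYa

set_option autoImplicit false
set_option linter.style.haveILetI false
set_option linter.unusedSectionVars false

namespace H72.PY

open Subgroup H88.F4 H72.PYa H6.FT H52.FC

universe u
variable {G : Type u} [Group G] [Finite G]

theorem mem_norm {x : G} {A : Subgroup G} (hx : x ∈ normalizer (A : Set G)) {a : G} (ha : a ∈ A) :
    x * a * x⁻¹ ∈ A := (Subgroup.mem_normalizer_iff.1 hx a).1 ha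

theorem mem_norm' {x : G} {A : Subgroup G} (hx : x ∈ normalizer (A : Set G)) {a : G} (ha : a ∈ A) :
    x⁻¹ * a * x ∈ A := by
  have := (Subgroup.mem_normalizer_iff.1 (inv_mem hx) a).1 ha
  simpa using this

theorem commute_conj {g x y : G} (h : Commute x y) : Commute (g * x * g⁻¹) (g * y * g⁻¹) := by
  show g * x * g⁻¹ * (g * y * g⁻¹) = g * y * g⁻¹ * (g * x * g⁻¹)
  have h' : x * y = y * x := h
  calc g * x * g⁻¹ * (g * y * g⁻¹) = g * (x * y) * g⁻¹ := by group
    _ = g * (y * x) * g⁻¹ := by rw [h']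
    _ = _ := by group

theorem orderOf_conj' {g x : G} : orderOf (g * x * g⁻¹) = orderOf x := by
  have : g * x * g⁻¹ = MulAut.conj g x := rfl
  rw [this, MulEquiv.orderOf_eq]

/-- the main argument -/
theorem core {p : ℕ} {τ : Finset ℕ} {V K : Subgroup G} (h : Env p τ V K) {q r s : ℕ}
    (hq : q ∈ τ) (hr : r ∈ τ) (hs : s ∈ τ) (hqr : q ≠ r) (hqs : q ≠ s) (hrs : r ≠ s)
    (hτ : ∀ t ∈ τ, t = q ∨ t = r ∨ t = s)
    (A : Subgroup G) (hA : A ≤ K) (hKA : K ≤ normalizer (A : Set G))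
    (hAe : Cfsg.IsElementaryAbelian q A) (hA2 : R2 q A)
    (L : Subgroup G) (hLK : L ≤ K) (hLc : ∀ t : ℕ, t.Prime → t ∣ Nat.card L → t = r ∨ t = s)
    (hLr : R2 r L) (hLs : R2 s L)
    (x0 : G) (hx0L : x0 ∈ L) (hx0 : orderOf x0 = r) (hx0A : ∀ n ∈ A, Commute x0 n) : False := by
  have hp := h.hp
  have hqp := (h.hτp q hq).1
  have hrp := (h.hτp r hr).1
  have hsp := (h.hτp s hs).1
  have npq : p ≠ q := fun e => (h.hτp q hq).2 e.symm
  have npr : p ≠ r := fun e => (h.hτp r hr).2 e.symm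
  have nps : p ≠ s := fun e => (h.hτp s hs).2 e.symm
  have hAq : IsPGroup q A := ea_pgroup hAe
  have hVp : IsPGroup p V := ea_pgroup h.ea
  have hAa : ∀ a ∈ A, ∀ b ∈ A, Commute a b := by
    intro a ha b hb
    have := hAe.1.is_comm.comm (⟨a, ha⟩ : A) ⟨b, hb⟩
    exact congrArg Subtype.val this
  have hA1 : A ≠ ⊥ := by
    rintro rfl
    obtain ⟨x, hx, y, hy, ho, -⟩ := hA2
    exact ne_one_of_order hqp ho (Subgroup.mem_bot.1 hx)
  obtain ⟨a0, ha0, ha0q⟩ := pgroup_exists_order hqp hAq hA1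
  have hLA : L ≤ normalizer (A : Set G) := hLK.trans hKA
  have hLV : L ≤ normalizer (V : Set G) := hLK.trans h.nrm
  have hLsol : Group.IsSolvable L := by
    haveI := h.solv
    exact Group.isSolvable_of_isSolvable_injective (Subgroup.inclusion_injective hLK)
  have ndV : ∀ t : ℕ, t.Prime → t ≠ p → ¬ t ∣ Nat.card V := fun t ht hne hd =>
    hne (pgroup_dvd hp ht hVp hd)
  have ndA : ∀ t : ℕ, t.Prime → t ≠ q → ¬ t ∣ Nat.card A := fun t ht hne hd =>
    hne (pgroup_dvd hqp ht hAq hd)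
  -- step 2
  have s2 : ∀ x ∈ K, (∀ a ∈ A, Commute x a) → (orderOf x = r ∨ orderOf x = s) → Fpf x V := by
    intro x hx hxa hxo v hv hxv
    by_contra hv1
    have hW1 : V ⊓ centralizer {x} ≠ ⊥ := by
      intro hb
      apply hv1
      have : v ∈ V ⊓ centralizer {x} :=
        Subgroup.mem_inf.2 ⟨hv, Subgroup.mem_centralizer_singleton_iff.2 hxv.symm.eq⟩
      rw [hb] at this
      exact Subgroup.mem_bot.1 this
    have hAW : A ≤ normalizer ((V ⊓ centralizer {x} : Subgroup G) : Set G) := by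
      intro a ha
      rw [Subgroup.mem_normalizer_iff]
      have hax : a * x = x * a := ((hxa a ha).symm).eq
      have haV := hA.trans h.nrm ha
      intro w
      constructor
      · rintro ⟨hw1, hw2⟩
        refine Subgroup.mem_inf.2 ⟨mem_norm haV hw1, ?_⟩
        have hw2' : w * x = x * w := Subgroup.mem_centralizer_singleton_iff.1 hw2
        have hxa' : x * a⁻¹ = a⁻¹ * x := by
          rw [eq_inv_mul_iff_mul_eq, ← mul_assoc, hax, mul_assoc, mul_inv_cancel, mul_one]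
        rw [Subgroup.mem_centralizer_singleton_iff]
        calc a * w * a⁻¹ * x = a * w * (a⁻¹ * x) := by group
          _ = a * (w * x) * a⁻¹ := by rw [← hxa']; group
          _ = a * (x * w) * a⁻¹ := by rw [hw2']
          _ = (a * x) * w * a⁻¹ := by group
          _ = x * (a * w * a⁻¹) := by rw [hax]; group
      · rintro ⟨hw1, hw2⟩
        have hw2' : a * w * a⁻¹ * x = x * (a * w * a⁻¹) := Subgroup.mem_centralizer_singleton_iff.1 hw2
        have hxa' : x * a⁻¹ = a⁻¹ * x := by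
          rw [eq_inv_mul_iff_mul_eq, ← mul_assoc, hax, mul_assoc, mul_inv_cancel, mul_one]
        refine Subgroup.mem_inf.2 ⟨(Subgroup.mem_normalizer_iff.1 haV w).2 hw1, ?_⟩
        rw [Subgroup.mem_centralizer_singleton_iff]
        have e1 : a * (w * x) * a⁻¹ = a * (x * w) * a⁻¹ := by
          calc a * (w * x) * a⁻¹ = a * w * (x * a⁻¹) := by group
            _ = a * w * a⁻¹ * x := by rw [hxa']; group
            _ = x * (a * w * a⁻¹) := hw2'
            _ = (x * a) * w * a⁻¹ := by group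
            _ = a * (x * w) * a⁻¹ := by rw [← hax]; group
        exact mul_left_cancel (mul_right_cancel e1)
    have hqW : ¬ q ∣ Nat.card (V ⊓ centralizer {x} : Subgroup G) := fun hd =>
      ndV q hqp npq.symm (hd.trans (Subgroup.card_dvd_of_le inf_le_left))
    obtain ⟨z, hz, hzo, w, hw, hw1, hzw⟩ := r2_fix hqp A _ hA2 hAW hqW hW1
    have hxw : Commute x w := (Subgroup.mem_centralizer_singleton_iff.1 hw.2).symm
    rcases hxo with hxo | hxo
    · exact hw1 (h.pair r hr q hq hqr.symm x hx z (hA hz) hxo hzo (hxa z hz) w hw.1 hxw hzw)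
    · exact hw1 (h.pair s hs q hq hqs.symm x hx z (hA hz) hxo hzo (hxa z hz) w hw.1 hxw hzw)
  -- C1
  let C1 : Subgroup G := L ⊓ centralizer (A : Set G)
  have mC1 : ∀ {x : G}, x ∈ C1 ↔ x ∈ L ∧ ∀ a ∈ A, Commute x a := by
    intro x
    constructor
    · rintro ⟨h1, h2⟩
      exact ⟨h1, fun a ha => (Subgroup.mem_centralizer_iff.1 h2 a ha).symm⟩
    · rintro ⟨h1, h2⟩
      exact ⟨h1, Subgroup.mem_centralizer_iff.2 fun a ha => (h2 a ha).symm.eq⟩
  have hC1L : C1 ≤ L := inf_le_left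
  have hC1sol : Group.IsSolvable C1 := by
    haveI := hLsol
    exact Group.isSolvable_of_isSolvable_injective (Subgroup.inclusion_injective hC1L)
  have hx0C : x0 ∈ C1 := mC1.2 ⟨hx0L, hx0A⟩
  have hC11 : C1 ≠ ⊥ := by
    intro hb
    rw [hb] at hx0C
    exact ne_one_of_order hrp hx0 (Subgroup.mem_bot.1 hx0C)
  -- step 3
  have s3 : ∀ y ∈ C1, orderOf y ≠ s := by
    intro y1 hy1 hy1s
    obtain ⟨M, hM, hM1, hMn, ⟨t, ht, hMe⟩, -⟩ := minn C1 C1 hC1sol le_rfl Subgroup.le_normalizer hC11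
    have hMp := ea_pgroup hMe
    obtain ⟨w, hw, hwo⟩ := pgroup_exists_order ht hMp hM1
    have htd : t ∣ Nat.card L := by
      rw [← hwo]
      have : zpowers w ≤ L := by rw [zpowers_le]; exact hC1L (hM hw)
      have h2 := Subgroup.card_dvd_of_le this
      rwa [Nat.card_zpowers] at h2
    have hMa : ∀ a ∈ M, ∀ b ∈ M, Commute a b := by
      intro a ha b hb
      have := hMe.1.is_comm.comm (⟨a, ha⟩ : M) ⟨b, hb⟩
      exact congrArg Subtype.val this
    have hMK : M ≤ K := (hM.trans hC1L).trans hLK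
    have hfa : ∀ y ∈ M, (∀ v ∈ V, Commute y v) → y = 1 := fun y hy hyv => h.faith y (hMK hy) hyv
    rcases hLc t ht htd with rfl | rfl
    · -- t = r, z = y1
      have hz := s2 y1 (hLK (hC1L hy1)) (mC1.1 hy1).2 (Or.inr hy1s)
      have h1 := hhp1 hp ht hsp npr nps hrs V M y1 h.ea hMp hy1s (hLV (hC1L hy1))
        (hMn hy1) (hMK.trans h.nrm) (fun _ => hMa) hz hfa w hw
      exact h.nt s hs t hr q hq hrs.symm hqr.symm hqs.symm y1 (hLK (hC1L hy1)) w (hMK hw) a0
        (hA ha0) hy1s hwo ha0q h1 ((mC1.1 (hM hw)).2 a0 ha0) ((mC1.1 hy1).2 a0 ha0)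
    · have hz := s2 x0 (hLK hx0L) hx0A (Or.inl hx0)
      have h1 := hhp1 hp ht hrp nps npr hrs.symm V M x0 h.ea hMp hx0 (hLV hx0L)
        (hMn hx0C) (hMK.trans h.nrm) (fun _ => hMa) hz hfa w hw
      exact h.nt r hr t hs q hq hrs hqs.symm hqr.symm x0 (hLK hx0L) w (hMK hw) a0
        (hA ha0) hx0 hwo ha0q h1 ((mC1.1 (hM hw)).2 a0 ha0) (hx0A a0 ha0)
  -- step 4
  have hC1p : IsPGroup r C1 := by
    apply isPGroup_of_only hrp
    intro t ht htd
    rcases hLc t ht (htd.trans (Subgroup.card_dvd_of_le hC1L)) with e | e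
    · exact e
    · exfalso
      rw [e] at htd
      obtain ⟨y, hy, hyo⟩ := exists_order hsp htd
      exact s3 y hy hyo
  have hC1K : C1 ≤ K := hC1L.trans hLK
  have hC12 : ¬ R2 r C1 := by
    intro h2
    obtain ⟨z, hz, hzo, w, hw, hw1, hzw⟩ := r2_fix hrp C1 V h2 (hC1K.trans h.nrm)
      (ndV r hrp npr.symm) h.ntriv
    exact hw1 (s2 z (hC1K hz) (mC1.1 hz).2 (Or.inl hzo) w hw hzw)
  have s4 := not_r2 hrp C1 hC1p hC12
  have hZ : ∀ l ∈ L, l * x0 * l⁻¹ ∈ zpowers x0 := by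
    intro l hl
    apply s4.1 x0 hx0C _ _ hx0 (by rw [orderOf_conj', hx0])
    refine mC1.2 ⟨mul_mem (mul_mem hl hx0L) (inv_mem hl), fun a ha => ?_⟩
    have h1 := commute_conj (g := l) (hx0A _ (mem_norm' (hLA hl) ha))
    have h2 : l * (l⁻¹ * a * l) * l⁻¹ = a := by group
    rwa [h2] at h1
  -- step 5
  have s5 : ∀ x ∈ L, ∀ y ∈ L, orderOf x = r → orderOf y = s → Commute x y →
      x ∈ zpowers x0 ∧ Fpf y A := by
    intro x hx y hy hxo hyo hxy
    have hpp := pprime hp hqp hrp hsp npq npr nps hqr hqs hrs V A x y h.ea hAq hAa hA1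
      (hA.trans h.nrm) (fun n hn hnv => h.faith n (hA hn) hnv) (hLV hx) (hLV hy) (hLA hx) (hLA hy)
      hxo hyo hxy (h.pair r hr s hs hrs x (hLK hx) y (hLK hy) hxo hyo hxy)
      (by
        intro n hn hxn hn1
        have hno : orderOf n = q := by
          haveI := Fact.mk hqp
          exact orderOf_eq_prime (hAe.2 n hn) hn1
        exact h.pair r hr q hq hqr.symm x (hLK hx) n (hA hn) hxo hno hxn)
      (by
        intro n hn hyn hn1
        have hno : orderOf n = q := by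
          haveI := Fact.mk hqp
          exact orderOf_eq_prime (hAe.2 n hn) hn1
        exact h.pair s hs q hq hqs.symm y (hLK hy) n (hA hn) hyo hno hyn)
      (by
        intro n hn hxn hyn
        by_contra hn1
        have hno : orderOf n = q := by
          haveI := Fact.mk hqp
          exact orderOf_eq_prime (hAe.2 n hn) hn1
        exact h.nt r hr s hs q hq hrs hqs.symm hqr.symm x (hLK hx) y (hLK hy) n (hA hn) hxo hyo hno
          hxy hyn hxn)
    rcases hpp with ⟨h1, h2, h3, -⟩ | ⟨h1, h2, h3, -⟩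
    · exact ⟨s4.1 x0 hx0C x (mC1.2 ⟨hx, h2⟩) hx0 hxo, h3⟩
    · exact absurd hyo (s3 y (mC1.2 ⟨hy, h2⟩))
  -- step 6
  obtain ⟨y1, hy1, hy1o, a, ha, ha1, hy1a⟩ := r2_fix hsp L A hLs hLA (ndA s hsp hqs.symm) hA1
  have hsr : s ∣ r - 1 := by
    apply dvd_sub_one hrp hsp hx0 hy1o (hZ y1 hy1)
    intro hc
    exact ha1 ((s5 x0 hx0L y1 hy1 hx0 hy1o hc.symm).2 a ha hy1a)
  have hslt : s < r := by
    have := Nat.le_of_dvd (by have := hrp.two_le; omega) hsr
    have := hrp.two_le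
    omega
  have hr2 : r ≠ 2 := by
    have := hsp.two_le
    omega
  -- step 7
  obtain ⟨x1, hx1, hx1o, hx1Z⟩ : ∃ x ∈ L, orderOf x = r ∧ x ∉ zpowers x0 := by
    obtain ⟨x, hx, y, hy, hxo, hyo, hxy, hyx⟩ := hLr
    by_cases hxZ : x ∈ zpowers x0
    · refine ⟨y, hy, hyo, fun hyZ => hyx ?_⟩
      have h1 := mem_of_prime_zpowers hrp hx0 hxZ (ne_one_of_order hrp hxo)
      exact (zpowers_le.2 h1) hyZ
    · exact ⟨x, hx, hxo, hxZ⟩
  -- step 8
  have s8 : ∀ S0 : Subgroup G, S0 ≤ L → L ≤ normalizer (S0 : Set G) → IsPGroup s S0 → S0 = ⊥ := by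
    intro S0 hS0 hS0n hS0p
    by_contra hS01
    obtain ⟨A1, hA1S, hA11, hA1n, ⟨t, ht, hA1e⟩, -⟩ := minn L S0 hLsol hS0 hS0n hS01
    have hA1p : IsPGroup s A1 := hS0p.to_le hA1S
    obtain ⟨w, hw, hwo⟩ := pgroup_exists_order hsp hA1p hA11
    have hts : s = t := by
      have h1 := pgroup_dvd ht hsp (ea_pgroup hA1e) (by
        rw [← hwo]
        have : zpowers w ≤ A1 := by rw [zpowers_le]; exact hw
        have h2 := Subgroup.card_dvd_of_le this
        rwa [Nat.card_zpowers] at h2)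
      exact h1
    subst hts
    -- commuting with x0
    have hcx : ∀ a ∈ A1, Commute x0 a := by
      intro a ha
      have h1 : x0 * a * x0⁻¹ * a⁻¹ ∈ A1 := mul_mem (mem_norm (hA1n hx0L) ha) (inv_mem ha)
      have h2 : x0 * a * x0⁻¹ * a⁻¹ ∈ zpowers x0 := by
        have h3 : a * x0⁻¹ * a⁻¹ ∈ zpowers x0 := by
          have := inv_mem (hZ a (hS0 (hA1S ha)))
          have e : (a * x0 * a⁻¹)⁻¹ = a * x0⁻¹ * a⁻¹ := by group
          rwa [e] at this
        have e : x0 * a * x0⁻¹ * a⁻¹ = x0 * (a * x0⁻¹ * a⁻¹) := by group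
        rw [e]
        exact mul_mem (mem_zpowers x0) h3
      have h4 : x0 * a * x0⁻¹ * a⁻¹ = 1 := by
        apply comm_pgroup_eq_one hrp hsp hrs (zpowers_pgroup hrp hx0) h2
        exact hA1e.2 _ h1
      show x0 * a = a * x0
      calc x0 * a = (x0 * a * x0⁻¹ * a⁻¹) * (a * x0) := by group
        _ = a * x0 := by rw [h4, one_mul]
    have hA1L : A1 ≤ L := hA1S.trans hS0
    have hA12 : ¬ R2 s A1 := by
      intro h2
      obtain ⟨z, hz, hzo, w', hw', hw'1, hzw'⟩ := r2_fix hsp A1 A h2 (hA1L.trans hLA)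
        (ndA s hsp hqs.symm) hA1
      exact hw'1 ((s5 x0 hx0L z (hA1L hz) hx0 hzo (hcx z hz)).2 w' hw' hzw')
    have h4 := not_r2 hsp A1 hA1p hA12
    have h5 : x1 * w * x1⁻¹ ∈ zpowers w := h4.1 w hw _ (mem_norm (hA1n hx1) hw) hwo
      (by rw [orderOf_conj', hwo])
    have h6 : r ∣ s - 1 := by
      apply dvd_sub_one hsp hrp hwo hx1o h5
      intro hc
      exact hx1Z (s5 x1 hx1 w (hA1L hw) hx1o hwo hc).1
    have := Nat.le_of_dvd (by have := hsp.two_le; omega) h6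
    omega
  -- step 9
  have hZn : L ≤ normalizer ((zpowers x0 : Subgroup G) : Set G) := by
    intro l hl
    have key : ∀ m ∈ L, ∀ z ∈ zpowers x0, m * z * m⁻¹ ∈ zpowers x0 := by
      intro m hm z hz
      obtain ⟨k, rfl⟩ := Subgroup.mem_zpowers_iff.1 hz
      rw [← conj_zpow]
      exact zpow_mem (hZ m hm) k
    rw [Subgroup.mem_normalizer_iff]
    intro z
    refine ⟨key l hl z, fun hz => ?_⟩
    have := key l⁻¹ (inv_mem hl) _ hz
    have e : l⁻¹ * (l * z * l⁻¹) * l⁻¹⁻¹ = z := by group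
    rwa [e] at this
  have hZ1 : zpowers x0 ≠ ⊥ := by
    rw [Ne, zpowers_eq_bot]
    exact ne_one_of_order hrp hx0
  have hsZ : ¬ s ∣ Nat.card (zpowers x0) := by
    rw [Nat.card_zpowers, hx0]
    intro hd
    exact hrs ((Nat.prime_dvd_prime_iff_eq hsp hrp).1 hd).symm
  obtain ⟨y0, hy0, hy0o, w0, hw0, hw01, hyw0⟩ := r2_fix hsp L (zpowers x0) hLs hZn hsZ hZ1
  have hy0x : Commute x0 y0 := by
    have h1 := mem_of_prime_zpowers hrp hx0 hw0 hw01
    obtain ⟨k, hk⟩ := Subgroup.mem_zpowers_iff.1 h1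
    rw [← hk]
    exact (hyw0.zpow_right k).symm
  have hy0A : Fpf y0 A := (s5 x0 hx0L y0 hy0 hx0 hy0o hy0x).2
  have hy0s : y0 ^ s = 1 := by rw [← hy0o]; exact pow_orderOf_eq_one y0
  haveI hcyc := s4.2 hr2
  have hC1a : ∀ c ∈ C1, ∀ d ∈ C1, Commute c d := by
    intro c hc d hd
    letI := IsCyclic.commGroup (α := C1)
    have := mul_comm (⟨c, hc⟩ : C1) ⟨d, hd⟩
    exact congrArg Subtype.val this
  have hy0C1n : ∀ d ∈ C1, y0 * d * y0⁻¹ ∈ C1 := by
    intro d hd
    obtain ⟨h1, h2⟩ := mC1.1 hd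
    refine mC1.2 ⟨mul_mem (mul_mem hy0 h1) (inv_mem hy0), fun a ha => ?_⟩
    have h3 := commute_conj (g := y0) (h2 _ (mem_norm' (hLA hy0) ha))
    have h4 : y0 * (y0⁻¹ * a * y0) * y0⁻¹ = a := by group
    rwa [h4] at h3
  have hy0C1 : ∀ d ∈ C1, Commute d y0 := by
    intro d hd
    by_contra hnc
    set e := y0 * d * y0⁻¹ * d⁻¹ with he
    have heC : e ∈ C1 := mul_mem (hy0C1n d hd) (inv_mem hd)
    have he1 : e ≠ 1 := by
      intro h1
      apply hnc
      show d * y0 = y0 * d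
      calc d * y0 = e * (d * y0) := by rw [h1, one_mul]
        _ = y0 * d := by rw [he]; group
    haveI := Fact.mk hrp
    obtain ⟨m, hm⟩ : ∃ m : ℕ, orderOf e = r ^ m := by
      obtain ⟨m, hm⟩ := (IsPGroup.iff_orderOf.1 hC1p) ⟨e, heC⟩
      exact ⟨m, by rw [← hm, ← Subgroup.orderOf_coe]⟩
    have hm0 : m ≠ 0 := by
      rintro rfl
      rw [pow_zero] at hm
      exact he1 (orderOf_eq_one_iff.1 hm)
    obtain ⟨m', rfl⟩ := Nat.exists_eq_succ_of_ne_zero hm0
    set k := r ^ m' with hk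
    have hek : orderOf (e ^ k) = r := by
      have hd1 : k ∣ orderOf e := by rw [hm, hk]; exact pow_dvd_pow r (Nat.le_succ m')
      rw [orderOf_pow_of_dvd (by rw [hk]; exact (pow_pos hrp.pos _).ne') hd1, hm, hk, pow_succ]
      exact Nat.mul_div_cancel_left r (pow_pos hrp.pos _)
    have hekZ : e ^ k ∈ zpowers x0 := s4.1 x0 hx0C _ (pow_mem heC k) hx0 hek
    have heky : Commute (e ^ k) y0 := by
      obtain ⟨j, hj⟩ := Subgroup.mem_zpowers_iff.1 hekZ
      rw [← hj]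
      exact hy0x.zpow_left j
    have hphi : e ^ k = y0 * d ^ k * y0⁻¹ * (d ^ k)⁻¹ := by
      have hcd : Commute (y0 * d * y0⁻¹) d⁻¹ := (hC1a _ (hy0C1n d hd) d hd).inv_right
      rw [he, hcd.mul_pow, conj_pow, inv_pow]
    -- e^k = [y0, d^k] commutes with y0 and has order r : contradiction
    have h1 : (y0 * d ^ k * y0⁻¹ * (d ^ k)⁻¹) ^ s = 1 := by
      -- consider w := d^k, c := w * y0 * w⁻¹ * y0⁻¹ = (e^k)⁻¹
      have hinv : (d ^ k) * y0 * (d ^ k)⁻¹ * y0⁻¹ = (e ^ k)⁻¹ := by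
        rw [hphi]; group
      have h2 : Commute ((d ^ k) * y0 * (d ^ k)⁻¹ * y0⁻¹) y0 := by
        rw [hinv]; exact heky.inv_left
      have h3 := comm_pow hy0s h2
      rw [hinv, inv_pow, inv_eq_one] at h3
      rw [← hphi]; exact h3
    rw [← hphi] at h1
    have h2 := comm_pgroup_eq_one hrp hsp hrs hC1p (pow_mem heC k) h1
    exact ne_one_of_order hrp hek h2
  obtain ⟨P, hP, hPn, hPp, hyP⟩ := fit L hLsol y0 hy0 (by rw [hy0o]; exact hsp) (by
    intro t ht P hP hPn hPp w hw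
    by_cases hw1 : w = 1
    · rw [hw1]; exact Commute.one_right _
    have hP1 : P ≠ ⊥ := by
      rintro rfl
      exact hw1 (Subgroup.mem_bot.1 hw)
    obtain ⟨w', hw', hw'o⟩ := pgroup_exists_order ht hPp hP1
    have htd : t ∣ Nat.card L := by
      rw [← hw'o]
      have : zpowers w' ≤ L := by rw [zpowers_le]; exact hP hw'
      have h2 := Subgroup.card_dvd_of_le this
      rwa [Nat.card_zpowers] at h2
    rcases hLc t ht htd with e | e
    · rw [e] at hPp
      have h1 := hhp hqp hrp hsp hqr hqs hrs A P y0 hAe hPp hy0o (hLA hy0) (hPn hy0)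
        (hP.trans hLA) (fun e => absurd e hr2) hy0A w hw
      have hcL : w * y0 * w⁻¹ * y0⁻¹ ∈ L :=
        mul_mem (mul_mem (mul_mem (hP hw) hy0) (inv_mem (hP hw))) (inv_mem hy0)
      have hc : w * y0 * w⁻¹ * y0⁻¹ ∈ C1 := mC1.2 ⟨hcL, h1⟩
      have h2 := comm_pow hy0s (hy0C1 _ hc)
      have h3 := comm_pgroup_eq_one hrp hsp hrs hC1p hc h2
      show y0 * w = w * y0
      calc y0 * w = (w * y0 * w⁻¹ * y0⁻¹)⁻¹ * (w * y0) := by group
        _ = w * y0 := by rw [h3, inv_one, one_mul]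
    · rw [e] at hPp
      exact absurd (s8 P hP hPn hPp) hP1)
  rw [hy0o] at hPp
  have := s8 P hP hPn hPp
  rw [this] at hyP
  exact ne_one_of_order hsp hy0o (Subgroup.mem_bot.1 hyP)

end H72.PY

namespace H72.PY

open Subgroup H88.F4 H72.PYa H6.FT H52.FC

universe u
variable {G : Type u} [Group G] [Finite G]

/-- conjugating a commuting pair of orders `r`, `s` into the Hall subgroup -/
theorem move_pair {K L : Subgroup G} {r s : ℕ} (hr : r.Prime) (hs : s.Prime) (hrs : r ≠ s)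
    (hL : ∀ P : Subgroup G, P ≤ K → (∀ t : ℕ, t.Prime → t ∣ Nat.card P → t ∈ ({r, s} : Set ℕ)) →
      ∃ g ∈ K, ∀ x ∈ P, g * x * g⁻¹ ∈ L)
    {x y : G} (hx : x ∈ K) (hy : y ∈ K) (hxo : orderOf x = r) (hyo : orderOf y = s)
    (hxy : Commute x y) : ∃ g ∈ K, g * x * g⁻¹ ∈ L ∧ g * y * g⁻¹ ∈ L := by
  have hxyo : orderOf (x * y) = r * s := by
    rw [hxy.orderOf_mul_eq_mul_orderOf_of_coprime, hxo, hyo]
    rw [hxo, hyo]; exact (Nat.coprime_primes hr hs).2 hrs
  obtain ⟨g, hg, h⟩ := hL (zpowers (x * y)) (by rw [zpowers_le]; exact mul_mem hx hy) (by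
    intro t ht htd
    rw [Nat.card_zpowers, hxyo, ht.dvd_mul] at htd
    rcases htd with h | h
    · left; exact (Nat.prime_dvd_prime_iff_eq ht hr).1 h
    · right; exact (Nat.prime_dvd_prime_iff_eq ht hs).1 h)
  have hxs : (x * y) ^ s = x ^ s := by
    rw [hxy.mul_pow, ← hyo, pow_orderOf_eq_one, mul_one]
  have hyr : (x * y) ^ r = y ^ r := by
    rw [hxy.mul_pow, ← hxo, pow_orderOf_eq_one, one_mul]
  have hx1 : x ∈ zpowers (x ^ s) := by
    apply mem_of_prime_zpowers hr hxo (pow_mem (mem_zpowers x) s)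
    intro h1
    have := orderOf_dvd_of_pow_eq_one h1
    rw [hxo] at this
    exact hrs ((Nat.prime_dvd_prime_iff_eq hr hs).1 this)
  have hy1 : y ∈ zpowers (y ^ r) := by
    apply mem_of_prime_zpowers hs hyo (pow_mem (mem_zpowers y) r)
    intro h1
    have := orderOf_dvd_of_pow_eq_one h1
    rw [hyo] at this
    exact hrs ((Nat.prime_dvd_prime_iff_eq hs hr).1 this).symm
  refine ⟨g, hg, h x ?_, h y ?_⟩
  · have : zpowers (x ^ s) ≤ zpowers (x * y) := by
      rw [zpowers_le, ← hxs]; exact pow_mem (mem_zpowers _) s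
    exact this hx1
  · have : zpowers (y ^ r) ≤ zpowers (x * y) := by
      rw [zpowers_le, ← hyr]; exact pow_mem (mem_zpowers _) r
    exact this hy1

theorem move_R2 {K L : Subgroup G} {π : Set ℕ} {t : ℕ} (ht : t.Prime) (htπ : t ∈ π)
    (hL : ∀ P : Subgroup G, P ≤ K → (∀ t : ℕ, t.Prime → t ∣ Nat.card P → t ∈ π) →
      ∃ g ∈ K, ∀ x ∈ P, g * x * g⁻¹ ∈ L) (h2 : R2 t K) : R2 t L := by
  obtain ⟨x, hx, y, hy, hxo, hyo, hxy, hyx⟩ := h2
  haveI := Fact.mk ht
  have hP : IsPGroup t (zpowers x ⊔ zpowers y : Subgroup G) := by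
    apply IsPGroup.to_sup_of_normal_right' (zpowers_pgroup ht hxo) (zpowers_pgroup ht hyo)
    rw [zpowers_le, Subgroup.mem_normalizer_iff]
    intro z
    constructor
    · intro hz
      obtain ⟨k, rfl⟩ := Subgroup.mem_zpowers_iff.1 hz
      have : x * y ^ k * x⁻¹ = y ^ k := by
        rw [(hxy.zpow_right k).eq]; group
      rw [this]; exact hz
    · intro hz
      obtain ⟨k, hk⟩ := Subgroup.mem_zpowers_iff.1 hz
      have h1 : z = x⁻¹ * y ^ k * x := by rw [hk]; group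
      have h2 : x⁻¹ * y ^ k * x = y ^ k := by
        have := (hxy.zpow_right k).eq
        rw [mul_assoc, ← this]; group
      rw [h1, h2]; exact zpow_mem (mem_zpowers y) k
  obtain ⟨g, hg, h⟩ := hL (zpowers x ⊔ zpowers y) (sup_le (by rw [zpowers_le]; exact hx)
    (by rw [zpowers_le]; exact hy)) (by
      intro u hu hud
      rw [pgroup_dvd ht hu hP hud]; exact htπ)
  refine ⟨g * x * g⁻¹, h x ((le_sup_left : zpowers x ≤ _) (mem_zpowers x)), g * y * g⁻¹,
    h y ((le_sup_right : zpowers y ≤ _) (mem_zpowers y)), by rw [orderOf_conj', hxo],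
    by rw [orderOf_conj', hyo], commute_conj hxy, ?_⟩
  intro hm
  obtain ⟨k, hk⟩ := Subgroup.mem_zpowers_iff.1 hm
  rw [conj_zpow] at hk
  apply hyx
  rw [Subgroup.mem_zpowers_iff]
  exact ⟨k, mul_left_cancel (mul_right_cancel hk)⟩

theorem py {p : ℕ} {τ : Finset ℕ} {V K : Subgroup G} (h : Env p τ V K) (q : ℕ) (hq : q ∈ τ)
    (A : Subgroup G) (hA : A ≤ K) (hKA : K ≤ normalizer (A : Set G)) (hAq : IsPGroup q A)
    (hAa : ∀ a ∈ A, ∀ b ∈ A, Commute a b) (hA2 : R2 q A) : False := by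
  -- the primes
  have hcard : (τ.erase q).card = 2 := by
    rw [Finset.card_erase_of_mem hq, h.hτ]
  obtain ⟨r, s, hrs, hE⟩ := Finset.card_eq_two.1 hcard
  have hr' : r ∈ τ.erase q := by rw [hE]; simp
  have hs' : s ∈ τ.erase q := by rw [hE]; simp
  have hr := (Finset.mem_erase.1 hr').2
  have hs := (Finset.mem_erase.1 hs').2
  have hqr : q ≠ r := fun e => (Finset.mem_erase.1 hr').1 e.symm
  have hqs : q ≠ s := fun e => (Finset.mem_erase.1 hs').1 e.symm
  have hτ : ∀ t ∈ τ, t = q ∨ t = r ∨ t = s := by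
    intro t ht
    by_cases htq : t = q
    · exact Or.inl htq
    · right
      have : t ∈ τ.erase q := Finset.mem_erase.2 ⟨htq, ht⟩
      rw [hE] at this
      simpa using this
  have hp := h.hp
  have hqp := (h.hτp q hq).1
  have hrp := (h.hτp r hr).1
  have hsp := (h.hτp s hs).1
  have npq : p ≠ q := fun e => (h.hτp q hq).2 e.symm
  have npr : p ≠ r := fun e => (h.hτp r hr).2 e.symm
  have nps : p ≠ s := fun e => (h.hτp s hs).2 e.symm
  -- Omega_1
  let B : Subgroup G :=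
    { carrier := {a | a ∈ A ∧ a ^ q = 1}
      mul_mem' := by
        rintro a b ⟨ha, ha'⟩ ⟨hb, hb'⟩
        exact ⟨mul_mem ha hb, by rw [(hAa a ha b hb).mul_pow, ha', hb', mul_one]⟩
      one_mem' := ⟨one_mem A, one_pow q⟩
      inv_mem' := by
        rintro a ⟨ha, ha'⟩
        exact ⟨inv_mem ha, by rw [inv_pow, ha', inv_one]⟩ }
  have mB : ∀ {a : G}, a ∈ B ↔ a ∈ A ∧ a ^ q = 1 := Iff.rfl
  have hBA : B ≤ A := fun a ha => (mB.1 ha).1
  have hBK : B ≤ K := hBA.trans hA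
  have hKB : K ≤ normalizer (B : Set G) := by
    have key : ∀ k ∈ K, ∀ a ∈ B, k * a * k⁻¹ ∈ B := by
      intro k hk a ha
      refine mB.2 ⟨mem_norm (hKA hk) (mB.1 ha).1, ?_⟩
      rw [conj_pow, (mB.1 ha).2]; group
    intro k hk
    rw [Subgroup.mem_normalizer_iff]
    intro a
    refine ⟨key k hk a, fun ha => ?_⟩
    have := key k⁻¹ (inv_mem hk) _ ha
    have e : k⁻¹ * (k * a * k⁻¹) * k⁻¹⁻¹ = a := by group
    rwa [e] at this
  have hBe : Cfsg.IsElementaryAbelian q B := by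
    refine ⟨⟨⟨fun a b => Subtype.ext (hAa a (hBA a.2) b (hBA b.2)).eq⟩⟩, fun a ha => (mB.1 ha).2⟩
  have hB2 : R2 q B := by
    obtain ⟨x, hx, y, hy, hxo, hyo, hxy, hyx⟩ := hA2
    exact ⟨x, mB.2 ⟨hx, by rw [← hxo]; exact pow_orderOf_eq_one x⟩, y,
      mB.2 ⟨hy, by rw [← hyo]; exact pow_orderOf_eq_one y⟩, hxo, hyo, hxy, hyx⟩
  have hBq : IsPGroup q B := ea_pgroup hBe
  have hBa : ∀ a ∈ B, ∀ b ∈ B, Commute a b := fun a ha b hb => hAa a (hBA ha) b (hBA hb)
  have hB1 : B ≠ ⊥ := by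
    intro hb
    obtain ⟨x, hx, y, hy, ho, -⟩ := hB2
    rw [hb] at hx
    exact ne_one_of_order hqp ho (Subgroup.mem_bot.1 hx)
  -- Hall subgroup
  obtain ⟨L, hLK, hLc, hL⟩ := hall K h.solv ({r, s} : Set ℕ)
  have hLc' : ∀ t : ℕ, t.Prime → t ∣ Nat.card L → t = r ∨ t = s := by
    intro t ht htd
    simpa using hLc t ht htd
  have hLr : R2 r L := move_R2 hrp (by simp) hL (h.r2 r hr)
  have hLs : R2 s L := move_R2 hsp (by simp) hL (h.r2 s hs)
  obtain ⟨x', hx', y', hy', hxo', hyo', hxy'⟩ := h.J r hr s hs hrs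
  obtain ⟨g, hg, hxL, hyL⟩ := move_pair hrp hsp hrs hL hx' hy' hxo' hyo' hxy'
  obtain ⟨x, hxdef⟩ : ∃ x, x = g * x' * g⁻¹ := ⟨_, rfl⟩
  obtain ⟨y, hydef⟩ : ∃ y, y = g * y' * g⁻¹ := ⟨_, rfl⟩
  have hxo : orderOf x = r := by rw [hxdef, orderOf_conj', hxo']
  have hyo : orderOf y = s := by rw [hydef, orderOf_conj', hyo']
  have hxy : Commute x y := by rw [hxdef, hydef]; exact commute_conj hxy'
  rw [← hxdef] at hxL
  rw [← hydef] at hyL
  have hLB : L ≤ normalizer (B : Set G) := hLK.trans hKB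
  have hLV : L ≤ normalizer (V : Set G) := hLK.trans h.nrm
  have hpp := pprime hp hqp hrp hsp npq npr nps hqr hqs hrs V B x y h.ea hBq hBa hB1
      (hBK.trans h.nrm) (fun n hn hnv => h.faith n (hBK hn) hnv) (hLV hxL) (hLV hyL) (hLB hxL)
      (hLB hyL)
      hxo hyo hxy (h.pair r hr s hs hrs x (hLK hxL) y (hLK hyL) hxo hyo hxy)
      (by
        intro n hn hxn hn1
        have hno : orderOf n = q := by
          haveI := Fact.mk hqp
          exact orderOf_eq_prime (hBe.2 n hn) hn1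
        exact h.pair r hr q hq hqr.symm x (hLK hxL) n (hBK hn) hxo hno hxn)
      (by
        intro n hn hyn hn1
        have hno : orderOf n = q := by
          haveI := Fact.mk hqp
          exact orderOf_eq_prime (hBe.2 n hn) hn1
        exact h.pair s hs q hq hqs.symm y (hLK hyL) n (hBK hn) hyo hno hyn)
      (by
        intro n hn hxn hyn
        by_contra hn1
        have hno : orderOf n = q := by
          haveI := Fact.mk hqp
          exact orderOf_eq_prime (hBe.2 n hn) hn1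
        exact h.nt r hr s hs q hq hrs hqs.symm hqr.symm x (hLK hxL) y (hLK hyL) n (hBK hn) hxo hyo
          hno hxy hyn hxn)
  rcases hpp with ⟨-, h2, -, -⟩ | ⟨-, h2, -, -⟩
  · exact core h hq hr hs hqr hqs hrs hτ B hBK hKB hBe hB2 L hLK hLc' hLr hLs x hxL hxo h2
  · exact core h hq hs hr hqs hqr hrs.symm
      (fun t ht => by rcases hτ t ht with e | e | e <;> simp [e])
      B hBK hKB hBe hB2 L hLK (fun t ht htd => (hLc' t ht htd).symm) hLs hLr y hyL hyo h2

end H72.PY
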