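import Mathlib
import Cfsg.Agent.Lib.H72.ClassSize
import Cfsg.Agent.Lib.H72.CoprimeIndex
import Cfsg.Agent.Lib.H72.TwoLargest
import Cfsg.Agent.Lib.H13.SylowN

set_option autoImplicit false
set_option linter.unusedSectionVars false

/-! Groups with the same class sizes (with multiplicities) as a nilpotent group are nilpotent
(Cossey, Hawkes, Mann). -/

namespace H72.SameSizes

open Subgroup H72.ClassSize H72.TwoLargest

section equiv

variable {G H : Type*} [Group G] [Finite G] [Group H] [Finite H]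

theorem exists_equiv (h : ∀ k : ℕ, Nat.card {C : ConjClasses G // Nat.card C.carrier = k} =
      Nat.card {C : ConjClasses H // Nat.card C.carrier = k}) :
    ∃ e : G ≃ H, ∀ x, cs (e x) = cs x := by
  classical
  have h1 : ∀ k : ℕ, Nonempty ({C : ConjClasses G // Nat.card C.carrier = k} ≃
      {C : ConjClasses H // Nat.card C.carrier = k}) := by
    intro k
    exact Finite.card_eq.mp (h k)
  let ε : ConjClasses G ≃ ConjClasses H :=
    (Equiv.sigmaFiberEquiv (fun C : ConjClasses G => Nat.card C.carrier)).symm.trans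
      ((Equiv.sigmaCongrRight (fun k => (h1 k).some)).trans
        (Equiv.sigmaFiberEquiv (fun C : ConjClasses H => Nat.card C.carrier)))
  have hε : ∀ C, Nat.card (ε C).carrier = Nat.card C.carrier := by
    intro C
    exact ((h1 _).some ⟨C, rfl⟩).2
  have h2 : ∀ C : ConjClasses G, Nonempty ({x : G // ConjClasses.mk x = C} ≃
      {y : H // ConjClasses.mk y = ε C}) := by
    intro C
    have h3 : Nat.card {x : G // ConjClasses.mk x = C} = Nat.card C.carrier := by
      apply Nat.card_congr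
      refine Equiv.subtypeEquivRight ?_
      intro y
      rw [ConjClasses.mem_carrier_iff_mk_eq]
    have h4 : Nat.card {x : H // ConjClasses.mk x = ε C} = Nat.card (ε C).carrier := by
      apply Nat.card_congr
      refine Equiv.subtypeEquivRight ?_
      intro y
      rw [ConjClasses.mem_carrier_iff_mk_eq]
    exact Finite.card_eq.mp (by rw [h3, h4, hε])
  let e : G ≃ H := (Equiv.sigmaFiberEquiv (ConjClasses.mk : G → ConjClasses G)).symm.trans
    ((Equiv.sigmaCongr ε (fun C => (h2 C).some)).trans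
      (Equiv.sigmaFiberEquiv (ConjClasses.mk : H → ConjClasses H)))
  have he : ∀ x, ConjClasses.mk (e x) = ε (ConjClasses.mk x) := by
    intro x
    exact ((h2 _).some ⟨x, rfl⟩).2
  refine ⟨e, ?_⟩
  intro x
  rw [cs, cs, index_eq_card_carrier, index_eq_card_carrier, he, hε]

theorem card_transfer {e : G ≃ H} (he : ∀ x, cs (e x) = cs x) (Q : ℕ → Prop) :
    Nat.card {x : G // Q (cs x)} = Nat.card {y : H // Q (cs y)} := by
  apply Nat.card_congr
  refine e.subtypeEquiv ?_
  intro x
  rw [he]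

end equiv

variable {G : Type*} [Group G] [Finite G] {p : ℕ}

theorem card_inf_normal [hp : Fact p.Prime] (P : Sylow p G) (N : Subgroup G) [N.Normal] :
    Nat.card ((P : Subgroup G) ⊓ N : Subgroup G) = p ^ (Nat.card N).factorization p := by
  obtain ⟨T, hT⟩ := H13.SylowN.exists_sylow_inf P N
  rw [← T.card_eq_multiplicity]
  have h1 : ((P : Subgroup G) ⊓ N : Subgroup G) = (T : Subgroup N).map N.subtype := by
    rw [hT, Subgroup.subgroupOf_map_subtype]
  rw [h1, Subgroup.card_map_of_injective N.subtype_injective]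

/-- if `g` is conjugate to `g z` with `z` a central `p`-element and `p ∤ |g^G|` then `z = 1` -/
theorem eq_one_of_isConj_mul [hp : Fact p.Prime] {g z : G} (hz : z ∈ center G) {k : ℕ}
    (hzk : z ^ p ^ k = 1) (hg : ¬ p ∣ cs g) (hc : IsConj g (g * z)) : z = 1 := by
  have hzg : ∀ c : G, c * z = z * c := fun c => Subgroup.mem_center_iff.mp hz c
  have h1 : z ∈ L g := by
    rw [mem_L]
    intro c
    have h2 : ∀ c d : G, IsConj c d → IsConj (z * c) (z * d) := by
      intro c d hcd
      obtain ⟨h, rfl⟩ := isConj_iff.mp hcd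
      refine isConj_iff.mpr ⟨h, ?_⟩
      rw [← mul_assoc h z c, hzg h]
      group
    have h3 : ∀ c d : G, IsConj (z * c) (z * d) → IsConj c d := by
      intro c d hcd
      obtain ⟨h, hh⟩ := isConj_iff.mp hcd
      refine isConj_iff.mpr ⟨h, ?_⟩
      rw [← mul_assoc h z c, hzg h] at hh
      have h4 : z * h * c * h⁻¹ = z * (h * c * h⁻¹) := by group
      rw [h4] at hh
      exact mul_left_cancel hh
    rw [hzg g] at hc
    constructor
    · intro h
      exact hc.trans (h2 _ _ h)
    · intro h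
      exact h3 _ _ (hc.symm.trans h)
  have h2 : orderOf z ∣ cs g := by
    have h3 := orderOf_dvd_natCard (⟨z, h1⟩ : L g)
    rw [Subgroup.orderOf_mk] at h3
    exact h3.trans (card_L_dvd g)
  obtain ⟨i, _, hi⟩ := (Nat.dvd_prime_pow hp.out).mp (orderOf_dvd_of_pow_eq_one hzk)
  rcases Nat.eq_zero_or_pos i with h0 | h0
  · rw [h0, pow_zero, orderOf_eq_one_iff] at hi
    exact hi
  · exfalso
    rw [hi] at h2
    exact hg ((dvd_pow_self p h0.ne').trans h2)

theorem cs_mul_center {x z : G} (hz : z ∈ center G) : cs (x * z) = cs x := by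
  rw [cs, cs, cent_mul_center hz]

theorem center_of_not_dvd [hp : Fact p.Prime] (P : Sylow p G)
    (h : ¬ p * Nat.card ((P : Subgroup G) ⊓ center G : Subgroup G) ∣ Nat.card {x : G // ¬ p ∣ cs x})
    {x : G} (hx : x ∈ P) (hxP : ∀ y ∈ P, y * x = x * y) : x ∈ center G := by
  classical
  set Z : Subgroup G := (P : Subgroup G) ⊓ center G with hZ
  have hZn : Z.Normal := by
    constructor
    intro n hn g
    have h1 : g * n = n * g := Subgroup.mem_center_iff.mp (Subgroup.mem_inf.mp hn).2 g
    rw [h1]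
    have : n * g * g⁻¹ = n := by group
    rwa [this]
  have hZc : ∀ z ∈ Z, z ∈ center G := fun z hz => (Subgroup.mem_inf.mp hz).2
  let t : Set (G ⧸ Z) := {s | ∃ g : G, ¬ p ∣ cs g ∧ (g : G ⧸ Z) = s}
  have ht : ∀ g : G, (g : G ⧸ Z) ∈ t ↔ ¬ p ∣ cs g := by
    intro g
    constructor
    · rintro ⟨g', hg', hgg⟩
      have h1 : g'⁻¹ * g ∈ Z := QuotientGroup.eq.mp hgg
      have h2 : g = g' * (g'⁻¹ * g) := by group
      rw [h2, cs_mul_center (hZc _ h1)]
      exact hg'
    · intro hg
      exact ⟨g, hg, rfl⟩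
  have hcard : Nat.card {x : G // ¬ p ∣ cs x} = Nat.card Z * Nat.card t := by
    rw [← Nat.card_prod]
    refine Nat.card_congr (Equiv.trans ?_ (QuotientGroup.preimageMkEquivSubgroupProdSet Z t))
    refine Equiv.subtypeEquivRight ?_
    intro g
    exact (ht g).symm
  have hpt : ¬ p ∣ Nat.card t := by
    intro h1
    apply h
    rw [hcard, mul_comm p]
    exact Nat.mul_dvd_mul_left _ h1
  have hact : ∀ (u : G) (s : G ⧸ Z), s ∈ t → (u : G ⧸ Z) * s * (u : G ⧸ Z)⁻¹ ∈ t := by
    rintro u s ⟨g, hg, rfl⟩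
    refine ⟨u * g * u⁻¹, ?_, rfl⟩
    rw [cs_conj]
    exact hg
  let act : MulAction P t :=
    { smul := fun u s => ⟨((u : G) : G ⧸ Z) * s.1 * ((u : G) : G ⧸ Z)⁻¹, hact u s.1 s.2⟩
      one_smul := fun s => by
        apply Subtype.ext
        change (((1 : P) : G) : G ⧸ Z) * s.1 * (((1 : P) : G) : G ⧸ Z)⁻¹ = s.1
        rw [Subgroup.coe_one, QuotientGroup.mk_one]
        group
      mul_smul := fun u v s => by
        apply Subtype.ext
        change (((u * v : P) : G) : G ⧸ Z) * s.1 * (((u * v : P) : G) : G ⧸ Z)⁻¹ =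
          ((u : G) : G ⧸ Z) * (((v : G) : G ⧸ Z) * s.1 * ((v : G) : G ⧸ Z)⁻¹) * ((u : G) : G ⧸ Z)⁻¹
        rw [Subgroup.coe_mul, QuotientGroup.mk_mul]
        group }
  have hsmul : ∀ (u : P) (s : t), (u • s).1 = ((u : G) : G ⧸ Z) * s.1 * ((u : G) : G ⧸ Z)⁻¹ :=
    fun u s => rfl
  have hmod := P.2.card_modEq_card_fixedPoints t
  set F : Subgroup (G ⧸ Z) := (centralizer ((P : Subgroup G) : Set G)).map (QuotientGroup.mk' Z) with hF
  have hfix : Nat.card (MulAction.fixedPoints P t) = Nat.card F := by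
    have h1 : ∀ s : t, s ∈ MulAction.fixedPoints P t ↔ s.1 ∈ F := by
      rintro ⟨s, hs⟩
      obtain ⟨g, hg, rfl⟩ := hs
      constructor
      · intro hfx
        refine ⟨g, ?_, rfl⟩
        rw [SetLike.mem_coe, Subgroup.mem_centralizer_iff]
        intro u hu
        have h2 := congrArg Subtype.val (hfx ⟨u, hu⟩)
        rw [hsmul] at h2
        have h3 : ((u * g * u⁻¹ : G) : G ⧸ Z) = (g : G ⧸ Z) := h2
        have h4 : g⁻¹ * (u * g * u⁻¹) ∈ Z := QuotientGroup.eq.mp h3.symm
        obtain ⟨k, hk⟩ := P.2 ⟨_, (Subgroup.mem_inf.mp h4).1⟩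
        have hk' : (g⁻¹ * (u * g * u⁻¹)) ^ p ^ k = 1 := congrArg Subtype.val hk
        have h5 := eq_one_of_isConj_mul (hZc _ h4) hk' hg (isConj_iff.mpr ⟨u, by group⟩)
        have h6 : u * g = g * (g⁻¹ * (u * g * u⁻¹)) * u := by group
        rw [h6, h5, mul_one]
      · rintro ⟨c, hc, hcg⟩ u
        apply Subtype.ext
        rw [hsmul]
        have hcg' : (c : G ⧸ Z) = (g : G ⧸ Z) := hcg
        have h2 : ((u : G) : G ⧸ Z) * (g : G ⧸ Z) * ((u : G) : G ⧸ Z)⁻¹ = (g : G ⧸ Z) := by
          rw [← hcg']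
          change ((((u : G) * c * (u : G)⁻¹ : G)) : G ⧸ Z) = (c : G ⧸ Z)
          rw [Subgroup.mem_centralizer_iff.mp hc u u.2]
          congr 1
          group
        exact h2
    apply Nat.card_congr
    refine
      { toFun := fun s => ⟨s.1.1, (h1 s.1).mp s.2⟩
        invFun := fun y => ⟨⟨y.1, ?_⟩, ?_⟩
        left_inv := fun s => rfl
        right_inv := fun y => rfl }
    · obtain ⟨c, hc, hcy⟩ := y.2
      refine ⟨c, ?_, hcy⟩
      rw [cs, not_dvd_index_iff]
      refine ⟨P, ?_⟩
      intro u hu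
      rw [mem_cent]
      exact Subgroup.mem_centralizer_iff.mp hc u hu
    · rw [h1]
      exact y.2
  have hpF : ¬ p ∣ Nat.card F := by
    rw [← hfix]
    intro h1
    apply hpt
    exact (Nat.modEq_zero_iff_dvd.mp (hmod.trans (Nat.modEq_zero_iff_dvd.mpr h1)))
  have hxF : (x : G ⧸ Z) ∈ F := by
    refine ⟨x, ?_, rfl⟩
    rw [SetLike.mem_coe, Subgroup.mem_centralizer_iff]
    intro u hu
    exact hxP u hu
  obtain ⟨k, hk⟩ := P.2 ⟨x, hx⟩
  have hk' : x ^ p ^ k = 1 := congrArg Subtype.val hk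
  have h2 : orderOf (x : G ⧸ Z) ∣ p ^ k := by
    apply orderOf_dvd_of_pow_eq_one
    rw [← QuotientGroup.mk_pow, hk', QuotientGroup.mk_one]
  have h3 : orderOf (x : G ⧸ Z) ∣ Nat.card F := by
    have := orderOf_dvd_natCard (⟨(x : G ⧸ Z), hxF⟩ : F)
    rwa [Subgroup.orderOf_mk] at this
  have h4 : orderOf (x : G ⧸ Z) = 1 :=
    Nat.Coprime.eq_one_of_dvd (Nat.Coprime.pow_left k ((Nat.Prime.coprime_iff_not_dvd hp.out).mpr hpF) |>.coprime_dvd_left h2) h3
  rw [orderOf_eq_one_iff, QuotientGroup.eq_one_iff] at h4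
  exact hZc x h4

theorem mem_normal_sylow [hp : Fact p.Prime] (P : Sylow p G) (hP : (P : Subgroup G).Normal) {y : G}
    {k : ℕ} (hy : orderOf y = p ^ k) : y ∈ (P : Subgroup G) := by
  have h2 : IsPGroup p (zpowers y) := by
    apply IsPGroup.of_card (n := k)
    rw [Nat.card_zpowers, hy]
  have h3 : IsPGroup p ((zpowers y) ⊔ (P : Subgroup G) : Subgroup G) := h2.to_sup_of_normal_right P.2
  have h4 := P.3 h3 le_sup_right
  rw [← h4]
  exact (le_sup_left : zpowers y ≤ _) (mem_zpowers y)

theorem nil_commute (hG : Group.IsNilpotent G) {p q : ℕ} (hp : p.Prime) (hq : q.Prime) (hpq : p ≠ q) {a b : G}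
    {k l : ℕ} (ha : orderOf a = p ^ k) (hb : orderOf b = q ^ l) : a * b = b * a := by
  have hpf : Fact p.Prime := ⟨hp⟩
  have hqf : Fact q.Prime := ⟨hq⟩
  have hn := ((Group.isNilpotent_of_finite_tfae (G := G)).out 0 3).mp hG
  obtain ⟨P⟩ : Nonempty (Sylow p G) := inferInstance
  obtain ⟨Q⟩ : Nonempty (Sylow q G) := inferInstance
  exact Subgroup.commute_of_normal_of_disjoint (P : Subgroup G) (Q : Subgroup G) (hn p hpf P) (hn q hqf Q)
    (IsPGroup.disjoint_of_ne p q hpq _ _ P.2 Q.2) _ _ (mem_normal_sylow P (hn p hpf P) ha)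
    (mem_normal_sylow Q (hn q hqf Q) hb)

theorem exists_orderOf [hp : Fact p.Prime] (P : Sylow p G) {x : G} (hx : x ∈ P) : ∃ k, orderOf x = p ^ k := by
  obtain ⟨k, hk⟩ := (IsPGroup.iff_orderOf.mp P.2) ⟨x, hx⟩
  rw [Subgroup.orderOf_mk] at hk
  exact ⟨k, hk⟩

theorem nil_center (hG : Group.IsNilpotent G) [hp : Fact p.Prime] (P : Sylow p G) {x : G} (hx : x ∈ P)
    (hxP : ∀ y ∈ P, y * x = x * y) : x ∈ center G := by
  have hn := ((Group.isNilpotent_of_finite_tfae (G := G)).out 0 3).mp hG
  obtain ⟨k, hk⟩ := exists_orderOf P hx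
  rw [← cs_eq_one, cs, Subgroup.index_eq_one, eq_top_iff]
  intro g _
  by_contra hcon
  obtain ⟨j, s, l, hs, hsl, hcon2⟩ := exists_primary_pow hcon
  apply hcon2
  rw [mem_cent]
  by_cases hsp : s = p
  · subst hsp
    exact hxP _ (mem_normal_sylow P (hn s hp P) hsl)
  · exact nil_commute hG hs hp.out hsp hsl hk

theorem nil_not_dvd (hG : Group.IsNilpotent G) [hp : Fact p.Prime] (P : Sylow p G) :
    ¬ p * Nat.card ((P : Subgroup G) ⊓ center G : Subgroup G) ∣ Nat.card {x : G // ¬ p ∣ cs x} := by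
  have hn' := ((Group.isNilpotent_of_finite_tfae (G := G)).out 0 3).mp hG
  have hn := hn' p hp P
  have h1 : Nat.card {x : G // ¬ p ∣ cs x} = Nat.card (centralizer ((P : Subgroup G) : Set G)) := by
    apply Nat.card_congr
    refine Equiv.subtypeEquivRight ?_
    intro x
    rw [cs, not_dvd_index_iff]
    constructor
    · rintro ⟨P', hP'⟩
      have h2 : P' = P := by
        have := P.unique_of_normal hn
        exact Subsingleton.elim _ _
      rw [Subgroup.mem_centralizer_iff]
      intro u hu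
      have h3 := hP' (h2 ▸ hu)
      rw [mem_cent] at h3
      exact h3
    · intro hx
      refine ⟨P, ?_⟩
      intro u hu
      rw [mem_cent]
      exact Subgroup.mem_centralizer_iff.mp hx u hu
  rw [h1]
  have hCn : (centralizer ((P : Subgroup G) : Set G)).Normal := by
    have := hn
    infer_instance
  obtain ⟨T, hT⟩ := H13.SylowN.exists_sylow_inf P (centralizer ((P : Subgroup G) : Set G))
  intro h
  have h2 : Nat.card T = Nat.card ((P : Subgroup G) ⊓ center G : Subgroup G) := by
    have h3 : ((P : Subgroup G) ⊓ center G : Subgroup G) =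
        (T : Subgroup (centralizer ((P : Subgroup G) : Set G))).map (Subgroup.subtype _) := by
      rw [hT, Subgroup.subgroupOf_map_subtype]
      apply le_antisymm
      · apply inf_le_inf_left
        exact Subgroup.center_le_centralizer _
      · intro x hx
        obtain ⟨hx1, hx2⟩ := Subgroup.mem_inf.mp hx
        refine Subgroup.mem_inf.mpr ⟨hx1, nil_center hG P hx1 ?_⟩
        intro y hy
        exact Subgroup.mem_centralizer_iff.mp hx2 y hy
    rw [h3, Subgroup.card_map_of_injective (Subgroup.subtype_injective _)]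
  rw [← h2, ← (T : Subgroup (centralizer ((P : Subgroup G) : Set G))).index_mul_card] at h
  have h4 : p ∣ (T : Subgroup (centralizer ((P : Subgroup G) : Set G))).index :=
    Nat.dvd_of_mul_dvd_mul_right Nat.card_pos h
  exact T.not_dvd_index h4

theorem mem_core_sup [hp : Fact p.Prime]
    (hZ : ∀ (s : ℕ) (_ : Fact s.Prime) (P : Sylow s G) (x : G), x ∈ P → (∀ y ∈ P, y * x = x * y) → x ∈ center G)
    (Q : Sylow p G) {x : G} (hx : ∃ k, cs x = p ^ k) : x ∈ (Q : Subgroup G).normalCore ⊔ center G := by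
  obtain ⟨k, hk⟩ := hx
  by_contra hcon
  obtain ⟨j, s, l, hs, hsl, hcon2⟩ := exists_primary_pow hcon
  have hsf : Fact s.Prime := ⟨hs⟩
  set y := x ^ j with hy
  have h1 : cs y ∣ p ^ k := hk ▸ cs_pow_dvd x j
  obtain ⟨i, _, hi⟩ := (Nat.dvd_prime_pow hp.out).mp h1
  apply hcon2
  by_cases hsp : s = p
  · subst hsp
    apply (le_sup_left : _ ≤ (Q : Subgroup G).normalCore ⊔ center G)
    have h2 : IsPGroup s (zpowers y) := by
      apply IsPGroup.of_card (n := l)
      rw [Nat.card_zpowers, hsl]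
    obtain ⟨Q0, hQ0⟩ := h2.exists_le_sylow
    have hcop : (centralizer ({y} : Set G)).index.Coprime (Q0 : Subgroup G).index := by
      have : (centralizer ({y} : Set G)).index = s ^ i := hi
      rw [this]
      exact Nat.Coprime.pow_left _ ((Nat.Prime.coprime_iff_not_dvd hs).mpr Q0.not_dvd_index)
    have h3 : ∀ g : G, g * y * g⁻¹ ∈ Q0 := by
      intro g
      obtain ⟨b, hb, a, ha, rfl⟩ := H72.CoprimeIndex.exists_mul_of_coprime_index _ _ hcop g
      rw [mem_cent] at ha
      have h4 : b * a * y * (b * a)⁻¹ = b * (a * y) * a⁻¹ * b⁻¹ := by group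
      have h5 : b * (y * a) * a⁻¹ * b⁻¹ = b * y * b⁻¹ := by group
      rw [h4, ha, h5]
      exact mul_mem (mul_mem hb (hQ0 (mem_zpowers _))) (inv_mem hb)
    obtain ⟨h, hh⟩ := MulAction.exists_smul_eq G Q0 Q
    intro b
    rw [← hh, Sylow.smul_def, Sylow.pointwise_smul_def, Subgroup.mem_pointwise_smul_iff_inv_smul_mem,
      ← map_inv, MulAut.smul_def, MulAut.conj_apply, inv_inv]
    have h4 := h3 (h⁻¹ * b)
    have h5 : h⁻¹ * b * y * (h⁻¹ * b)⁻¹ = h⁻¹ * (b * y * b⁻¹) * h := by group
    rwa [h5] at h4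
  · apply (le_sup_right : center G ≤ (Q : Subgroup G).normalCore ⊔ center G)
    have h2 : ¬ s ∣ cs y := by
      rw [hi]
      intro h
      exact hsp ((Nat.prime_dvd_prime_iff_eq hs hp.out).mp (hs.dvd_of_dvd_pow h))
    obtain ⟨P, hP⟩ := (not_dvd_index_iff s y).mp h2
    have h3 : y ∈ P := by
      have h4 : IsPGroup s (zpowers y) := by
        apply IsPGroup.of_card (n := l)
        rw [Nat.card_zpowers, hsl]
      have h5 := IsPGroup.inf_normalizer_sylow h4 P
      have h6 : y ∈ zpowers y ⊓ normalizer ((P : Subgroup G) : Set G) := by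
        refine Subgroup.mem_inf.mpr ⟨mem_zpowers _, Subgroup.centralizer_le_normalizer _ ?_⟩
        rw [Subgroup.mem_centralizer_iff]
        intro u hu
        exact (mem_cent.mp (hP hu))
      have h7 : y ∈ zpowers y ⊓ (P : Subgroup G) := h5.le h6
      exact (Subgroup.mem_inf.mp h7).2
    refine hZ s hsf P y h3 ?_
    intro u hu
    exact mem_cent.mp (hP hu)

theorem card_core_sup [hp : Fact p.Prime] (Q : Sylow p G) :
    Nat.card ((Q : Subgroup G).normalCore ⊔ center G : Subgroup G) *
      p ^ (Nat.card (center G)).factorization p =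
      Nat.card (Q : Subgroup G).normalCore * Nat.card (center G) := by
  have h1 := H13.Thompson.card_sup_mul_card_inf (A := (Q : Subgroup G).normalCore) (B := center G)
    (Subgroup.le_normalizer_of_normal)
  have h2 : ((Q : Subgroup G).normalCore ⊓ center G : Subgroup G) = (Q : Subgroup G) ⊓ center G := by
    apply le_antisymm
    · exact inf_le_inf_right _ (Subgroup.normalCore_le _)
    · apply le_inf _ inf_le_right
      intro x hx b
      obtain ⟨hx1, hx2⟩ := Subgroup.mem_inf.mp hx
      have h3 : b * x = x * b := Subgroup.mem_center_iff.mp hx2 b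
      have h4 : x * b * b⁻¹ = x := by group
      rw [h3, h4]
      exact hx1
  rw [h2, card_inf_normal] at h1
  exact h1

theorem nil_card_le (hG : Group.IsNilpotent G) [hp : Fact p.Prime] (Q : Sylow p G) :
    Nat.card (Q : Subgroup G) * Nat.card (center G) ≤
      Nat.card {x : G // ∃ k, cs x = p ^ k} * p ^ (Nat.card (center G)).factorization p := by
  have hn' := ((Group.isNilpotent_of_finite_tfae (G := G)).out 0 3).mp hG
  have hn := hn' p hp Q
  have h1 : (Q : Subgroup G).normalCore = (Q : Subgroup G) := Subgroup.normalCore_eq_self _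
  have h2 := card_core_sup Q
  rw [h1] at h2
  rw [← h2]
  apply Nat.mul_le_mul_right
  have h3 : ∀ x : ((Q : Subgroup G) ⊔ center G : Subgroup G), ∃ k, cs (x : G) = p ^ k := by
    rintro ⟨x, hx⟩
    obtain ⟨u, hu, z, hz, rfl⟩ := Subgroup.mem_sup_of_normal_left.mp hx
    change ∃ k, cs (u * z) = p ^ k
    rw [cs_mul_center hz]
    obtain ⟨i, hi⟩ := exists_orderOf Q hu
    refine ⟨_, Nat.eq_prime_pow_of_unique_prime_dvd (cs_pos u).ne' ?_⟩
    intro d hd hdu
    by_contra hdp
    have hdf : Fact d.Prime := ⟨hd⟩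
    obtain ⟨S⟩ : Nonempty (Sylow d G) := inferInstance
    refine (not_dvd_index_iff d u).mpr ⟨S, ?_⟩ hdu
    intro s hs
    obtain ⟨l, hl⟩ := exists_orderOf S hs
    rw [mem_cent]
    exact nil_commute hG hd hp.out hdp hl hi
  exact Nat.card_le_card_of_injective (fun x => (⟨(x : G), h3 x⟩ : {x : G // ∃ k, cs x = p ^ k}))
    (fun x y hxy => Subtype.ext (by simpa using hxy))

theorem main {H : Type*} [Group H] [Finite H] (hH : Group.IsNilpotent H)
    (h : ∀ k : ℕ, Nat.card {C : ConjClasses G // Nat.card C.carrier = k} =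
      Nat.card {C : ConjClasses H // Nat.card C.carrier = k}) : Group.IsNilpotent G := by
  obtain ⟨e, he⟩ := exists_equiv h
  have hcard : Nat.card G = Nat.card H := Nat.card_congr e
  have hcen : Nat.card (center G) = Nat.card (center H) := by
    have h1 := card_transfer he (fun k => k = 1)
    have h2 : Nat.card {x : G // cs x = 1} = Nat.card (center G) :=
      Nat.card_congr (Equiv.subtypeEquivRight fun x => cs_eq_one x)
    have h3 : Nat.card {x : H // cs x = 1} = Nat.card (center H) :=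
      Nat.card_congr (Equiv.subtypeEquivRight fun x => cs_eq_one x)
    rw [← h2, ← h3]
    exact h1
  have hZ : ∀ (s : ℕ) (_ : Fact s.Prime) (P : Sylow s G) (x : G), x ∈ P →
      (∀ y ∈ P, y * x = x * y) → x ∈ center G := by
    intro s hs P x hx hxP
    refine center_of_not_dvd P ?_ hx hxP
    obtain ⟨R⟩ : Nonempty (Sylow s H) := inferInstance
    have h1 := nil_not_dvd hH R
    rw [card_inf_normal] at h1 ⊢
    rw [hcen, card_transfer he (fun k => ¬ s ∣ k)]
    exact h1
  apply ((Group.isNilpotent_of_finite_tfae (G := G)).out 0 3).mpr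
  intro q hq Q
  obtain ⟨R⟩ : Nonempty (Sylow q H) := inferInstance
  have h1 := nil_card_le hH R
  have h2 : Nat.card {x : G // ∃ k, cs x = q ^ k} ≤
      Nat.card ((Q : Subgroup G).normalCore ⊔ center G : Subgroup G) :=
    Nat.card_le_card_of_injective
      (fun x => (⟨x.1, mem_core_sup hZ Q x.2⟩ : ((Q : Subgroup G).normalCore ⊔ center G : Subgroup G)))
      (fun x y hxy => Subtype.ext (by simpa using hxy))
  have h3 := card_core_sup Q
  rw [← card_transfer he (fun m => ∃ k, m = q ^ k), ← hcen] at h1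
  have h4 := h1.trans (Nat.mul_le_mul_right _ h2)
  rw [h3] at h4
  have h5 := Nat.le_of_mul_le_mul_right h4 Nat.card_pos
  have h6 : Nat.card (Q : Subgroup G) = Nat.card (R : Subgroup H) := by
    rw [Q.card_eq_multiplicity, R.card_eq_multiplicity, hcard]
  rw [← h6] at h5
  have h7 := Subgroup.eq_of_le_of_card_ge (Subgroup.normalCore_le (Q : Subgroup G)) h5
  rw [← h7]
  infer_instance

end H72.SameSizes
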