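import Mathlib
import Cfsg.Agent.Lib.H1.Cyc
import Cfsg.Agent.Lib.H1.Hall
import Cfsg.Agent.Lib.H3.RankTwo

set_option autoImplicit false
set_option linter.unusedSectionVars false

/-! A group `W` acting on a finite abelian group `T`, trivially on `Z ≤ T` and semiregularly on
`T ∖ Z`: if `T/Z` has elements of orders divisible by the primes `p ≠ s` then not both divide `|W|`. -/

namespace H72.SemiReg

open Subgroup

variable {W T : Type*} [Group W] [Finite W] [CommGroup T] [Finite T] [MulDistribMulAction W T]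

/-- the hypotheses -/
structure Act (W T : Type*) [Group W] [CommGroup T] [MulDistribMulAction W T]
    (Z : Subgroup T) : Prop where
  fixZ : ∀ w : W, ∀ z ∈ Z, w • z = z
  semi : ∀ w : W, w ≠ 1 → ∀ t : T, w • t = t → t ∈ Z

open scoped Classical in
/-- the norm map of a subgroup `J` of `W` -/
noncomputable def nu (J : Subgroup W) : T →* T where
  toFun t := ∏ᶠ j : J, (j : W) • t
  map_one' := by simp
  map_mul' a b := by
    simp only [smul_mul']
    exact finprod_mul_distrib (Set.toFinite _) (Set.toFinite _)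

theorem nu_apply (J : Subgroup W) (t : T) : nu J t = ∏ᶠ j : J, (j : W) • t := rfl

theorem smul_nu (J : Subgroup W) {w : W} (hw : ∀ j ∈ J, w * j * w⁻¹ ∈ J) (t : T) :
    w • nu J t = nu J (w • t) := by
  have hw' : ∀ j ∈ J, w⁻¹ * j * w ∈ J := by
    have h1 : J.map (MulAut.conj w).toMonoidHom = J := by
      apply Subgroup.eq_of_le_of_card_ge
      · rintro _ ⟨j, hj, rfl⟩
        exact hw j hj
      · rw [Subgroup.card_map_of_injective (MulAut.conj w).injective]
    intro j hj
    rw [← h1] at hj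
    obtain ⟨k, hk, rfl⟩ := hj
    have : w⁻¹ * ((MulAut.conj w).toMonoidHom k) * w = k := by
      simp [MulAut.conj_apply, mul_assoc]
    rw [this]; exact hk
  rw [nu_apply, nu_apply]
  have h1 : w • (∏ᶠ j : J, (j : W) • t) = ∏ᶠ j : J, w • ((j : W) • t) := by
    exact (MulDistribMulAction.toMonoidHom T w).map_finprod_of_preimage_one
      (fun x hx => by
        have : w • x = 1 := hx
        rw [smul_eq_iff_eq_inv_smul, smul_one] at this
        exact this) _
  rw [h1]
  let e : J ≃ J :=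
    { toFun := fun j => ⟨w * j * w⁻¹, hw j j.2⟩
      invFun := fun j => ⟨w⁻¹ * j * w, hw' j j.2⟩
      left_inv := fun j => by ext; simp [mul_assoc]
      right_inv := fun j => by ext; simp [mul_assoc] }
  rw [← finprod_comp_equiv e (f := fun j : J => (j : W) • w • t)]
  apply finprod_congr
  intro j
  show w • (j : W) • t = (w * j * w⁻¹) • w • t
  rw [smul_smul, smul_smul]
  congr 1
  group

theorem nu_fixed (J : Subgroup W) {j : W} (hj : j ∈ J) (t : T) : j • nu J t = nu J t := by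
  have h1 : j • (∏ᶠ i : J, (i : W) • t) = ∏ᶠ i : J, j • ((i : W) • t) := by
    exact (MulDistribMulAction.toMonoidHom T j).map_finprod_of_preimage_one
      (fun x hx => by
        have : j • x = 1 := hx
        rw [smul_eq_iff_eq_inv_smul, smul_one] at this
        exact this) _
  rw [nu_apply, h1]
  rw [← finprod_comp_equiv (Equiv.mulLeft (⟨j, hj⟩ : J)) (f := fun i : J => (i : W) • t)]
  apply finprod_congr
  intro i
  show j • (i : W) • t = (j * i) • t
  rw [smul_smul]

variable {Z : Subgroup T}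

theorem nu_of_mem (A : Act W T Z) (J : Subgroup W) {z : T} (hz : z ∈ Z) :
    nu J z = z ^ Nat.card J := by
  rw [nu_apply]
  have : ∀ j : J, (j : W) • z = z := fun j => A.fixZ j z hz
  simp only [this]
  have := Fintype.ofFinite J
  rw [finprod_eq_prod_of_fintype, Finset.prod_const, Finset.card_univ, Nat.card_eq_fintype_card]

theorem nu_mem (A : Act W T Z) {J : Subgroup W} (hJ : J ≠ ⊥) (t : T) : nu J t ∈ Z := by
  obtain ⟨⟨j, hj⟩, hj1⟩ := Subgroup.ne_bot_iff_exists_ne_one.mp hJ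
  exact A.semi j (fun h => hj1 (Subtype.ext h)) _ (nu_fixed J hj t)

/-- `p`-elements `t` with `ν_J t = 1` -/
noncomputable def V (T : Type*) [CommGroup T] [MulDistribMulAction W T] (J : Subgroup W) (p : ℕ) :
    Subgroup T where
  carrier := {t | (∃ k : ℕ, t ^ p ^ k = 1) ∧ nu J t = 1}
  mul_mem' := by
    rintro a b ⟨⟨k, hk⟩, ha⟩ ⟨⟨l, hl⟩, hb⟩
    refine ⟨⟨k + l, ?_⟩, by rw [map_mul, ha, hb, one_mul]⟩
    rw [mul_pow, pow_add, pow_mul, hk, one_pow, one_mul, mul_comm, pow_mul, hl, one_pow]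
  one_mem' := ⟨⟨0, by simp⟩, map_one _⟩
  inv_mem' := by
    rintro a ⟨⟨k, hk⟩, ha⟩
    exact ⟨⟨k, by rw [inv_pow, hk, inv_one]⟩, by rw [map_inv, ha, inv_one]⟩

theorem mem_V {J : Subgroup W} {p : ℕ} {t : T} :
    t ∈ V T J p ↔ (∃ k : ℕ, t ^ p ^ k = 1) ∧ nu J t = 1 := Iff.rfl

theorem isPGroup_V {J : Subgroup W} {p : ℕ} : IsPGroup p (V T J p) := by
  rw [isPGroup_iff_pow_pow_eq_one]
  rintro ⟨t, ⟨⟨k, hk⟩, ht⟩⟩
  exact ⟨k, Subtype.ext hk⟩

theorem smul_mem_V {J : Subgroup W} {p : ℕ} {w : W} (hw : ∀ j ∈ J, w * j * w⁻¹ ∈ J) {t : T}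
    (ht : t ∈ V T J p) : w • t ∈ V T J p := by
  obtain ⟨⟨k, hk⟩, ht⟩ := ht
  refine ⟨⟨k, by rw [← smul_pow', hk, smul_one]⟩, ?_⟩
  rw [← smul_nu J hw, ht, smul_one]

theorem V_inf (A : Act W T Z) {J : Subgroup W} {p : ℕ} (hp : p.Prime)
    (hJp : (Nat.card J).Coprime p) {v : T} (hv : v ∈ V T J p) (hvZ : v ∈ Z) : v = 1 := by
  obtain ⟨⟨k, hk⟩, hv⟩ := hv
  rw [nu_of_mem A J hvZ] at hv
  have h1 : orderOf v ∣ p ^ k := orderOf_dvd_of_pow_eq_one hk
  have h2 : orderOf v ∣ Nat.card J := orderOf_dvd_of_pow_eq_one hv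
  have h3 : (p ^ k).Coprime (Nat.card J) := (Nat.Coprime.pow_right k hJp).symm
  have h4 := Nat.Coprime.eq_one_of_dvd (Nat.Coprime.coprime_dvd_left h1 h3) h2
  exact orderOf_eq_one_iff.mp h4

theorem V_ne_bot (A : Act W T Z) {J : Subgroup W} (hJ : J ≠ ⊥) {p : ℕ} (hp : p.Prime)
    (hJp : (Nat.card J).Coprime p) {t : T} {k : ℕ} (ht : t ^ p ^ k = 1) (htZ : t ∉ Z) :
    V T J p ≠ ⊥ := by
  intro h
  have h1 := nu_mem A hJ t
  have h2 : (nu J t) ^ p ^ k = 1 := by rw [← map_pow, ht, map_one]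
  -- invert `|J|` modulo `p ^ k`
  have hcop : (Nat.card J).Coprime (p ^ k) := Nat.Coprime.pow_right k hJp
  obtain ⟨a, ha⟩ : ∃ a : ℤ, (nu J t) ^ (a * Nat.card J) = nu J t := by
    have hb := Nat.gcd_eq_gcd_ab (Nat.card J) (p ^ k)
    rw [hcop] at hb
    refine ⟨(Nat.card J).gcdA (p ^ k), ?_⟩
    have h3 : ((Nat.card J).gcdA (p ^ k)) * (Nat.card J : ℤ) =
        1 - ((p ^ k : ℕ) : ℤ) * (Nat.card J).gcdB (p ^ k) := by
      push_cast at hb ⊢
      linarith
    rw [h3, zpow_sub, zpow_one, zpow_mul, zpow_natCast, h2, one_zpow, inv_one, mul_one]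
  have h3 : t * ((nu J t) ^ a)⁻¹ ∈ V T J p := by
    refine ⟨⟨k, ?_⟩, ?_⟩
    · rw [mul_pow, ht, one_mul, inv_pow, ← zpow_natCast, ← zpow_mul, mul_comm, zpow_mul,
        zpow_natCast, h2, one_zpow, inv_one]
    · rw [map_mul, map_inv, map_zpow, nu_of_mem A J h1, ← zpow_natCast, ← zpow_mul, mul_comm _ a,
        ha, mul_inv_cancel]
  rw [h, Subgroup.mem_bot, mul_inv_eq_one] at h3
  exact htZ (h3 ▸ zpow_mem h1 a)

/-- The trick: a nontrivial `p`-element of `W` cannot normalize a nontrivial `p'`-subgroup. -/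
theorem trick (A : Act W T Z) {p : ℕ} (hp : p.Prime) {J : Subgroup W} (hJ : J ≠ ⊥)
    (hJp : (Nat.card J).Coprime p) {t : T} {k : ℕ} (ht : t ^ p ^ k = 1) (htZ : t ∉ Z)
    {w : W} {l : ℕ} (hw : w ≠ 1) (hwl : w ^ p ^ l = 1) (hwJ : ∀ j ∈ J, w * j * w⁻¹ ∈ J) : False := by
  have hpf : Fact p.Prime := ⟨hp⟩
  have hV := V_ne_bot A hJ hp hJp ht htZ
  let P : Subgroup W := zpowers w
  have hP : IsPGroup p P := by
    rw [isPGroup_iff_pow_pow_eq_one]
    rintro ⟨_, ⟨i, rfl⟩⟩
    refine ⟨l, Subtype.ext ?_⟩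
    show (w ^ i) ^ p ^ l = 1
    rw [← zpow_natCast, ← zpow_mul, mul_comm, zpow_mul, zpow_natCast, hwl, one_zpow]
  have hinv : ∀ x ∈ P, ∀ v ∈ V T J p, x • v ∈ V T J p := by
    rintro _ ⟨i, rfl⟩ v hv
    apply smul_mem_V _ hv
    have hn : w ∈ normalizer (J : Set W) := by
      have h1 : J.map (MulAut.conj w).toMonoidHom = J := by
        apply Subgroup.eq_of_le_of_card_ge
        · rintro _ ⟨j, hj, rfl⟩
          exact hwJ j hj
        · rw [Subgroup.card_map_of_injective (MulAut.conj w).injective]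
      rw [Subgroup.mem_normalizer_iff_map_conj_eq]
      exact h1
    intro j hj
    exact (Subgroup.mem_normalizer_iff.mp (zpow_mem hn i) j).mp hj
  let inst : MulAction P (V T J p) :=
    { smul := fun x v => ⟨(x : W) • (v : T), hinv x x.2 v v.2⟩
      one_smul := fun v => Subtype.ext (one_smul W (v : T))
      mul_smul := fun x y v => Subtype.ext (mul_smul (x : W) (y : W) (v : T)) }
  have hcard : p ∣ Nat.card (V T J p) := by
    obtain ⟨a, ha⟩ := IsPGroup.iff_card.mp (isPGroup_V (T := T) (J := J) (p := p))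
    rw [ha]
    have : a ≠ 0 := by
      rintro rfl
      rw [pow_zero] at ha
      exact hV (Subgroup.card_eq_one.mp ha)
    exact dvd_pow_self p this
  have h1 : (1 : V T J p) ∈ MulAction.fixedPoints P (V T J p) := by
    intro x
    exact Subtype.ext (smul_one (x : W))
  obtain ⟨v, hv, hv1⟩ := hP.exists_fixed_point_of_prime_dvd_card_of_fixed_point _ hcard h1
  have h2 : w • (v : T) = v := by
    have := hv ⟨w, mem_zpowers w⟩
    exact congrArg Subtype.val this
  have h3 := A.semi w hw _ h2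
  exact hv1 (Subtype.ext (V_inf A hp hJp v.2 h3).symm)

/-- abelian `p'`-subgroups of `W` are cyclic -/
theorem cyclic_of_comm (A : Act W T Z) {p : ℕ} (hp : p.Prime) {J : Subgroup W}
    (hJp : (Nat.card J).Coprime p) {t : T} {k : ℕ} (ht : t ^ p ^ k = 1) (htZ : t ∉ Z)
    (hJc : ∀ a b : J, a * b = b * a) : IsCyclic J := by
  by_cases hJ : J = ⊥
  · subst hJ; infer_instance
  have hV := V_ne_bot A hJ hp hJp ht htZ
  let inst : MulDistribMulAction J (V T J p) :=
    { smul := fun x v => ⟨(x : W) • (v : T), smul_mem_V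
        (fun j hj => mul_mem (mul_mem x.2 hj) (inv_mem x.2)) v.2⟩
      one_smul := fun v => Subtype.ext (one_smul W (v : T))
      mul_smul := fun x y v => Subtype.ext (mul_smul (x : W) (y : W) (v : T))
      smul_mul := fun x v u => Subtype.ext (smul_mul' (x : W) (v : T) u)
      smul_one := fun x => Subtype.ext (smul_one (x : W)) }
  have hnt : Nontrivial (V T J p) := (Subgroup.nontrivial_iff_ne_bot _).mpr hV
  apply H1.Cyc.isCyclic_of_comm (V := V T J p) _ hJc
  intro a ha v hv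
  have h2 : (a : W) • (v : T) = v := congrArg Subtype.val hv
  have h3 := A.semi a (fun h => ha (Subtype.ext h)) _ h2
  exact Subtype.ext (V_inf A hp hJp v.2 h3)

/-- if `W` has no nontrivial normal subgroup of prime power order then `|W|` is odd -/
theorem not_even (A : Act W T Z) {a : ℕ} (ha : a.Prime)
    {t : T} {k : ℕ} (ht : t ^ a ^ k = 1) (htZ : t ∉ Z)
    (noL : ∀ J : Subgroup W, J.Normal → ∀ q : ℕ, q.Prime → IsPGroup q J → J = ⊥) :
    ¬ 2 ∣ Nat.card W := by
  intro h2
  have haf : Fact a.Prime := ⟨ha⟩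
  have h2f : Fact (Nat.Prime 2) := ⟨Nat.prime_two⟩
  let K : Subgroup W :=
    { carrier := {w | ∀ t : T, (∃ k : ℕ, t ^ a ^ k = 1) → w • t * t⁻¹ ∈ Z}
      mul_mem' := by
        intro w v hw hv t ⟨k, hk⟩
        have h3 : (v • t) ^ a ^ k = 1 := by rw [← smul_pow', hk, smul_one]
        have h4 : (w * v) • t * t⁻¹ = (w • (v • t) * (v • t)⁻¹) * (v • t * t⁻¹) := by
          rw [mul_smul]; group
        rw [h4]
        exact mul_mem (hw _ ⟨k, h3⟩) (hv t ⟨k, hk⟩)
      one_mem' := by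
        intro t _
        rw [one_smul, mul_inv_cancel]; exact one_mem _
      inv_mem' := by
        intro w hw t ⟨k, hk⟩
        have h3 : (w⁻¹ • t) ^ a ^ k = 1 := by rw [← smul_pow', hk, smul_one]
        have h4 := hw _ ⟨k, h3⟩
        rw [smul_inv_smul] at h4
        have h5 : w⁻¹ • t * t⁻¹ = (t * (w⁻¹ • t)⁻¹)⁻¹ := by group
        rw [h5]; exact inv_mem h4 }
  have hKn : K.Normal := by
    constructor
    intro w hw g t ⟨k, hk⟩
    have h3 : (g⁻¹ • t) ^ a ^ k = 1 := by rw [← smul_pow', hk, smul_one]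
    have h4 := hw _ ⟨k, h3⟩
    have h5 : (g * w * g⁻¹) • t * t⁻¹ = g • (w • (g⁻¹ • t) * (g⁻¹ • t)⁻¹) := by
      rw [smul_mul', smul_inv', smul_inv_smul, mul_smul, mul_smul]
    rw [h5, A.fixZ g _ h4]
    exact h4
  have hKp : IsPGroup a K := by
    rw [isPGroup_iff_pow_pow_eq_one]
    rintro ⟨w, hw⟩
    refine ⟨k, Subtype.ext ?_⟩
    show w ^ a ^ k = 1
    set z := w • t * t⁻¹ with hz
    have hzZ : z ∈ Z := hw t ⟨k, ht⟩
    have hzk : z ^ a ^ k = 1 := by
      rw [hz, mul_pow, inv_pow, ht, ← smul_pow', ht, smul_one]; group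
    have h3 : ∀ n : ℕ, w ^ n • t = t * z ^ n := by
      intro n
      induction n with
      | zero => simp
      | succ n ih =>
        rw [pow_succ', mul_smul, ih, smul_mul', A.fixZ w _ (pow_mem hzZ n), pow_succ', hz]
        rw [← mul_assoc t, mul_comm t, mul_assoc (w • t)]
        simp [mul_assoc]
    by_contra h4
    apply htZ
    apply A.semi _ h4
    rw [h3, hzk, mul_one]
  have hK : K = ⊥ := noL K hKn a ha hKp
  obtain ⟨j, hj⟩ := exists_prime_orderOf_dvd_card' 2 h2
  have hj2 : j * j = 1 := by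
    rw [← pow_two, ← hj]; exact pow_orderOf_eq_one j
  have hj1 : j ≠ 1 := by
    rintro rfl
    rw [orderOf_one] at hj
    exact absurd hj (by norm_num)
  have hinv : ∀ i : W, i * i = 1 → i ≠ 1 → ∀ t : T, i • t * t ∈ Z := by
    intro i hi hi1 t
    apply A.semi i hi1
    rw [smul_mul', smul_smul, hi, one_smul, mul_comm]
  have hcen : ∀ w : W, w * j * w⁻¹ = j := by
    intro w
    have hi : (w * j * w⁻¹) * (w * j * w⁻¹) = 1 := by
      have : (w * j * w⁻¹) * (w * j * w⁻¹) = w * (j * j) * w⁻¹ := by group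
      rw [this, hj2]; group
    have hi1 : w * j * w⁻¹ ≠ 1 := by
      intro h
      apply hj1
      have : j = w⁻¹ * (w * j * w⁻¹) * w := by group
      rw [this, h]; group
    have h3 : j * (w * j * w⁻¹) ∈ K := by
      intro t _
      have h4 := hinv j hj2 hj1 t
      have h5 := hinv _ hi hi1 t
      have h6 : (w * j * w⁻¹) • t = ((w * j * w⁻¹) • t * t) * t⁻¹ := by group
      have h7 : (j * (w * j * w⁻¹)) • t * t⁻¹ = ((w * j * w⁻¹) • t * t) * (j • t * t)⁻¹ := by
        rw [mul_smul, h6, smul_mul', A.fixZ j _ h5, smul_inv']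
        rw [mul_inv, mul_assoc, mul_inv_cancel_right]
      rw [h7]
      exact mul_mem h5 (inv_mem h4)
    rw [hK, Subgroup.mem_bot] at h3
    have h4 : j⁻¹ = w * j * w⁻¹ := inv_eq_of_mul_eq_one_right h3
    rw [← h4]
    exact inv_eq_of_mul_eq_one_right hj2
  have hJ : zpowers j = ⊥ := by
    apply noL _ _ 2 Nat.prime_two
    · apply IsPGroup.of_card (n := 1)
      rw [Nat.card_zpowers, hj, pow_one]
    · constructor
      rintro _ ⟨i, rfl⟩ w
      refine ⟨i, ?_⟩
      show j ^ i = w * j ^ i * w⁻¹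
      rw [← conj_zpow, hcen w]
  rw [Subgroup.zpowers_eq_bot] at hJ
  exact hj1 hJ

/-- Main result on semiregular actions. -/
theorem main (A : Act W T Z) {p s : ℕ} (hp : p.Prime) (hs : s.Prime) (hps : p ≠ s)
    {t : T} {k : ℕ} (ht : t ^ p ^ k = 1) (htZ : t ∉ Z) {u : T} {l : ℕ} (hu : u ^ s ^ l = 1)
    (huZ : u ∉ Z) (hpW : p ∣ Nat.card W) (hsW : s ∣ Nat.card W) : False := by
  have hpf : Fact p.Prime := ⟨hp⟩
  have hsf : Fact s.Prime := ⟨hs⟩
  -- elements of order p and s
  obtain ⟨wp, hwp⟩ := exists_prime_orderOf_dvd_card' p hpW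
  obtain ⟨ws, hws⟩ := exists_prime_orderOf_dvd_card' s hsW
  have hwp1 : wp ≠ 1 := by
    rintro rfl
    rw [orderOf_one] at hwp
    exact hp.one_lt.ne hwp
  have hws1 : ws ≠ 1 := by
    rintro rfl
    rw [orderOf_one] at hws
    exact hs.one_lt.ne hws
  have hwpp : wp ^ p ^ 1 = 1 := by rw [pow_one, ← hwp]; exact pow_orderOf_eq_one wp
  have hwss : ws ^ s ^ 1 = 1 := by rw [pow_one, ← hws]; exact pow_orderOf_eq_one ws
  -- no nontrivial normal subgroup of order prime to `p` or to `s`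
  have noP : ∀ J : Subgroup W, J.Normal → (Nat.card J).Coprime p → J = ⊥ := by
    intro J hJn hJ
    by_contra hne
    exact trick A hp hne hJ ht htZ hwp1 hwpp fun j hj => hJn.conj_mem j hj wp
  have noS : ∀ J : Subgroup W, J.Normal → (Nat.card J).Coprime s → J = ⊥ := by
    intro J hJn hJ
    by_contra hne
    exact trick A hs hne hJ hu huZ hws1 hwss fun j hj => hJn.conj_mem j hj ws
  have noL : ∀ J : Subgroup W, J.Normal → ∀ q : ℕ, q.Prime → IsPGroup q J → J = ⊥ := by
    intro J hJn q hq hJq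
    have hqf : Fact q.Prime := ⟨hq⟩
    obtain ⟨a, ha⟩ := IsPGroup.iff_card.mp hJq
    by_cases h : q = p
    · apply noS J hJn
      rw [ha, h]
      exact Nat.Coprime.pow_left _ ((Nat.coprime_primes hp hs).mpr hps)
    · apply noP J hJn
      rw [ha]
      exact Nat.Coprime.pow_left _ ((Nat.coprime_primes hq hp).mpr h)
  have hodd : ¬ 2 ∣ Nat.card W := by
    by_cases hp2 : p = 2
    · have hs2 : s ≠ 2 := fun h => hps (hp2.trans h.symm)
      exact not_even A hs hu huZ noL
    · exact not_even A hp ht htZ noL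
  have hZ : IsZGroup W := by
    refine ⟨fun q hq L => ?_⟩
    have hqf : Fact q.Prime := ⟨hq⟩
    by_cases hq2 : q = 2
    · subst hq2
      have h1 : Nat.card L = 1 := by
        obtain ⟨a, ha⟩ := IsPGroup.iff_card.mp L.2
        have h2 : a = 0 := by
          by_contra h3
          apply hodd
          have h4 := Subgroup.card_subgroup_dvd_card (L : Subgroup W)
          rw [ha] at h4
          exact (dvd_pow_self 2 h3).trans h4
        rw [ha, h2, pow_zero]
      have h2 : Subsingleton L := (Nat.card_eq_one_iff_unique.mp h1).1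
      infer_instance
    by_contra hnc
    obtain ⟨E, hEn, hE, hEcard⟩ := H3.RankTwo.exists_normal_rank_two hq2 L.2 hnc
    set E' := E.map (L : Subgroup W).subtype with hE'
    have hE'card : Nat.card E' = q ^ 2 := by
      rw [hE', Subgroup.card_map_of_injective (L : Subgroup W).subtype_injective, hEcard]
    have hcomm : ∀ a b : E', a * b = b * a := by
      rintro ⟨_, ⟨a, ha, rfl⟩⟩ ⟨_, ⟨b, hb, rfl⟩⟩
      apply Subtype.ext
      have := hE.1.is_comm.comm ⟨a, ha⟩ ⟨b, hb⟩
      exact congrArg (fun x : E => ((x : L) : W)) this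
    have hcyc : IsCyclic E' := by
      by_cases h : q = p
      · apply cyclic_of_comm A hs _ hu huZ hcomm
        rw [hE'card, h]
        exact Nat.Coprime.pow_left _ ((Nat.coprime_primes hp hs).mpr hps)
      · apply cyclic_of_comm A hp _ ht htZ hcomm
        rw [hE'card]
        exact Nat.Coprime.pow_left _ ((Nat.coprime_primes hq hp).mpr h)
    obtain ⟨⟨g, hg⟩, hgen⟩ := hcyc.exists_generator
    have h1 : orderOf (⟨g, hg⟩ : E') = q ^ 2 := by
      rw [← hE'card]
      exact orderOf_eq_card_of_forall_mem_zpowers hgen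
    have h2 : (⟨g, hg⟩ : E') ^ q = 1 := by
      obtain ⟨a, ha, rfl⟩ := hg
      apply Subtype.ext
      have := hE.2 a ha
      have h3 := congrArg (fun x : L => (x : W)) this
      exact h3
    have h3 := orderOf_dvd_of_pow_eq_one h2
    rw [h1] at h3
    have h4 := Nat.le_of_dvd hq.pos h3
    have h5 := hq.one_lt
    nlinarith
  have hnt : Nontrivial W := ⟨wp, 1, hwp1⟩
  obtain ⟨q, hq, hqne⟩ := H1.Hall.exists_pCore_ne_bot (G := W) inferInstance
  exact hqne (noL _ inferInstance q hq (H1.Cores.isPGroup_pCore q))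

end H72.SemiReg
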