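import Mathlib.RepresentationTheory.Invariants
import Mathlib.LinearAlgebra.FiniteDimensional.Defs
import Mathlib.Tactic
import Cfsg.Agent.Lib.H72.CoprimeIndex

/-!
Modules spanned by the orbit of one vector, coprime characteristic.
-/

set_option autoImplicit false

namespace H72.SpanOrbit

open Subgroup

variable {k V H : Type*} [Field k] [AddCommGroup V] [Module k V] [Group H]

/-- stabilizer of a vector -/
def stab (ρ : Representation k H V) (a : V) : Subgroup H where
  carrier := {h | ρ h a = a}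
  mul_mem' := by
    intro x y hx hy
    simp only [Set.mem_ofPred_eq] at hx hy ⊢
    rw [map_mul, Module.End.mul_apply, hy, hx]
  one_mem' := by simp
  inv_mem' := by
    intro x hx
    simp only [Set.mem_ofPred_eq] at hx ⊢
    conv_lhs => rw [← hx]
    rw [← Module.End.mul_apply, ← map_mul, inv_mul_cancel, map_one, Module.End.one_apply]

theorem mem_stab (ρ : Representation k H V) (a : V) (h : H) : h ∈ stab ρ a ↔ ρ h a = a := Iff.rfl

theorem index_stab (ρ : Representation k H V) (a : V) :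
    (stab ρ a).index = Nat.card {u : V | ∃ h : H, ρ h a = u} := by
  have key : ∀ x y : H, (x⁻¹ * y ∈ stab ρ a) ↔ ρ x a = ρ y a := by
    intro x y
    rw [mem_stab, map_mul, Module.End.mul_apply]
    constructor
    · intro e
      rw [← e, ← Module.End.mul_apply, ← map_mul, mul_inv_cancel, map_one, Module.End.one_apply, e]
    · intro e
      rw [← e, ← Module.End.mul_apply, ← map_mul, inv_mul_cancel, map_one, Module.End.one_apply]
  refine Nat.card_congr (Equiv.ofBijective (Quotient.lift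
    (fun h => (⟨ρ h a, h, rfl⟩ : {u : V | ∃ h : H, ρ h a = u})) ?_) ⟨?_, ?_⟩)
  · intro x y hxy
    apply Subtype.ext
    exact (key x y).mp (QuotientGroup.leftRel_apply.mp hxy)
  · intro x y
    refine Quotient.inductionOn₂ x y ?_
    intro x y hxy
    have h1 : ρ x a = ρ y a := congrArg Subtype.val hxy
    exact Quotient.sound (QuotientGroup.leftRel_apply.mpr ((key x y).mpr h1))
  · rintro ⟨y, g, hg⟩
    exact ⟨Quotient.mk _ g, Subtype.ext hg⟩

/-- the sum over a finite subgroup -/
noncomputable def sumB (ρ : Representation k H V) (B : Subgroup H) [Fintype B] : V →ₗ[k] V :=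
  ∑ x : B, ρ (x : H)

theorem sumB_apply (ρ : Representation k H V) (B : Subgroup H) [Fintype B] (v : V) :
    sumB ρ B v = ∑ x : B, ρ (x : H) v := by
  simp [sumB, LinearMap.sum_apply]

theorem sumB_smul (ρ : Representation k H V) (B : Subgroup H) [Fintype B] (y : H) (hy : y ∈ B) (v : V) :
    sumB ρ B (ρ y v) = sumB ρ B v := by
  rw [sumB_apply, sumB_apply]
  refine Fintype.sum_equiv (Equiv.mulRight (⟨y, hy⟩ : B)) _ _ ?_
  intro x
  simp [map_mul]

theorem smul_sumB (ρ : Representation k H V) (B : Subgroup H) [Fintype B] (y : H) (hy : y ∈ B) (v : V) :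
    ρ y (sumB ρ B v) = sumB ρ B v := by
  rw [sumB_apply, map_sum]
  refine Fintype.sum_equiv (Equiv.mulLeft (⟨y, hy⟩ : B)) _ _ ?_
  intro x
  simp [map_mul]

theorem sumB_of_fixed (ρ : Representation k H V) (B : Subgroup H) [Fintype B] (v : V)
    (h : ∀ x ∈ B, ρ x v = v) : sumB ρ B v = (Fintype.card B : k) • v := by
  rw [sumB_apply, Finset.sum_congr rfl (fun (x : B) _ => h x x.2), Finset.sum_const,
    Finset.card_univ, ← Nat.cast_smul_eq_nsmul k]

/-- If the orbit of `a` spans `V` and `(|H| : k) ≠ 0`, then `V^H` is spanned by `∑ ρ h a` and every `b`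
whose stabilizer has index coprime to that of `a` is fixed. -/
theorem main [Finite H] (hchar : (Nat.card H : k) ≠ 0) (ρ : Representation k H V) (a : V)
    (hspan : Submodule.span k {u : V | ∃ h : H, ρ h a = u} = ⊤) :
    Module.finrank k ρ.invariants ≤ 1 ∧
    ∀ b : V, (stab ρ a).index.Coprime (stab ρ b).index → ∀ h : H, ρ h b = b := by
  classical
  have : Fintype H := Fintype.ofFinite H
  have hspanB : ∀ (B : Subgroup H), ∀ v : V,
      (∀ h : H, sumB ρ B (ρ h a) = sumB ρ B a) → sumB ρ B v ∈ Submodule.span k {sumB ρ B a} := by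
    intro B v hB
    have hv : v ∈ Submodule.span k {u : V | ∃ h : H, ρ h a = u} := by rw [hspan]; trivial
    have h1 : sumB ρ B v ∈ (Submodule.span k {u : V | ∃ h : H, ρ h a = u}).map (sumB ρ B) :=
      ⟨v, hv, rfl⟩
    rw [Submodule.map_span] at h1
    refine Submodule.span_mono ?_ h1
    rintro _ ⟨u, ⟨h, rfl⟩, rfl⟩
    rw [Set.mem_singleton_iff]
    exact hB h
  have hcardB : ∀ B : Subgroup H, (Fintype.card B : k) ≠ 0 := by
    intro B h0
    apply hchar
    have h1 : Nat.card B ∣ Nat.card H := Subgroup.card_subgroup_dvd_card B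
    obtain ⟨c, hc⟩ := h1
    rw [hc, Nat.cast_mul, Nat.card_eq_fintype_card, h0, zero_mul]
  have htop : ∀ h : H, sumB ρ ⊤ (ρ h a) = sumB ρ ⊤ a := fun h => sumB_smul ρ ⊤ h trivial a
  constructor
  · apply finrank_le_one (⟨sumB ρ ⊤ a, fun g => smul_sumB ρ ⊤ g trivial a⟩ : ρ.invariants)
    rintro ⟨v, hv⟩
    have h1 := hspanB ⊤ v htop
    rw [sumB_of_fixed ρ ⊤ v (fun x _ => hv x)] at h1
    obtain ⟨c, hc⟩ := Submodule.mem_span_singleton.mp h1
    refine ⟨(Fintype.card (⊤ : Subgroup H) : k)⁻¹ * c, ?_⟩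
    apply Subtype.ext
    show ((Fintype.card (⊤ : Subgroup H) : k)⁻¹ * c) • sumB ρ ⊤ a = v
    rw [mul_smul, hc, smul_smul, inv_mul_cancel₀ (hcardB ⊤), one_smul]
  · intro b hcop h
    set B := stab ρ b with hB
    have hBA : ∀ h : H, sumB ρ B (ρ h a) = sumB ρ B a := by
      intro h
      obtain ⟨y, hy, z, hz, rfl⟩ := H72.CoprimeIndex.exists_mul_of_coprime_index (stab ρ a) B hcop h
      rw [map_mul, Module.End.mul_apply, (mem_stab ρ a z).mp hz, sumB_smul ρ B y hy]
    -- S_B(a) is H-fixed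
    have hfix : ∀ g : H, ρ g (sumB ρ B a) = sumB ρ B a := by
      have h1 : sumB ρ B (sumB ρ ⊤ a) = (Fintype.card (⊤ : Subgroup H) : k) • sumB ρ B a := by
        rw [sumB_apply ρ ⊤ a, map_sum, Finset.sum_congr rfl (fun (x : (⊤ : Subgroup H)) _ => hBA x),
          Finset.sum_const, Finset.card_univ, ← Nat.cast_smul_eq_nsmul k]
      have h2 : sumB ρ B (sumB ρ ⊤ a) = (Fintype.card B : k) • sumB ρ ⊤ a :=
        sumB_of_fixed ρ B _ (fun x _ => smul_sumB ρ ⊤ x trivial a)
      have h3 : sumB ρ B a = ((Fintype.card (⊤ : Subgroup H) : k)⁻¹ * (Fintype.card B : k)) • sumB ρ ⊤ a := by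
        rw [mul_smul, ← h2, h1, smul_smul, inv_mul_cancel₀ (hcardB ⊤), one_smul]
      intro g
      rw [h3, map_smul, smul_sumB ρ ⊤ g trivial a]
    have h1 := hspanB B b hBA
    rw [sumB_of_fixed ρ B b (fun x hx => hx)] at h1
    obtain ⟨c, hc⟩ := Submodule.mem_span_singleton.mp h1
    have h2 : b = ((Fintype.card B : k)⁻¹ * c) • sumB ρ B a := by
      rw [mul_smul, hc, smul_smul, inv_mul_cancel₀ (hcardB B), one_smul]
    rw [h2, map_smul, hfix h]

end H72.SpanOrbit
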