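import Mathlib
import Cfsg.Agent.Lib.H2.Gaschutz
import Cfsg.Agent.Lib.H2.NPC
import Cfsg.Agent.S0081
import Cfsg.Agent.Lib.H3.PBasic
import Cfsg.Agent.Lib.H3.TransferCenter
import Cfsg.Agent.Lib.H13.SylowN
import Cfsg.Agent.Lib.H26.GenFitting
import Cfsg.Agent.Lib.H26.PComponents

set_option autoImplicit false

/-! Two-generated Sylow subgroups: applications of Tate's theorem. -/

namespace H72.TwoGenSyl

open Subgroup Cfsg
open scoped commutatorElement

theorem exists_sup_zpowers {P : Type*} [Group P] [Finite P] {p : ℕ} [hp : Fact p.Prime]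
    (hgen : (frattini P).index = p ^ 2) (H : Subgroup P) (hH : ¬ H ≤ frattini P) :
    ∃ x : P, H ⊔ zpowers x = ⊤ := by
  set M := H ⊔ frattini P with hM
  have hlt : frattini P < M := by
    refine lt_of_le_of_ne le_sup_right ?_
    intro h
    exact hH (h ▸ le_sup_left)
  have hd : M.index ∣ p ^ 2 := hgen ▸ Subgroup.index_dvd_of_le hlt.le
  have hne : M.index ≠ p ^ 2 := by
    intro h
    have h1 := Subgroup.relIndex_mul_index hlt.le
    rw [h, hgen] at h1
    have h2 : (frattini P).relIndex M = 1 := by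
      have := hp.out.pos
      have h3 : 0 < p ^ 2 := by positivity
      exact Nat.eq_of_mul_eq_mul_right h3 (by rw [h1, one_mul])
    rw [Subgroup.relIndex_eq_one] at h2
    exact absurd h2 (not_le_of_gt hlt)
  have hor : M.index = 1 ∨ M.index = p := by
    obtain ⟨k, hk, hk2⟩ := (Nat.dvd_prime_pow hp.out).mp hd
    interval_cases k
    · left; simpa using hk2
    · right; simpa using hk2
    · exact absurd hk2 hne
  rcases hor with h | h
  · refine ⟨1, ?_⟩
    rw [Subgroup.zpowers_one_eq_bot, sup_bot_eq]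
    exact frattini_nongenerating (Subgroup.index_eq_one.mp h)
  · have hMt : M ≠ ⊤ := by
      intro h1
      rw [h1, Subgroup.index_top] at h
      exact hp.out.one_lt.ne h
    obtain ⟨x, hx⟩ : ∃ x : P, x ∉ M := by
      by_contra hc
      push Not at hc
      exact hMt ((Subgroup.eq_top_iff' M).mpr hc)
    refine ⟨x, ?_⟩
    have hlt2 : M < M ⊔ zpowers x := by
      refine lt_of_le_of_ne le_sup_left ?_
      intro h1
      exact hx (h1 ▸ (le_sup_right : zpowers x ≤ M ⊔ zpowers x) (mem_zpowers x))
    have h2 := Subgroup.relIndex_mul_index hlt2.le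
    rw [h] at h2
    have h3 : (M ⊔ zpowers x).index = 1 := by
      rcases (Nat.dvd_prime hp.out).mp (Dvd.intro_left _ h2) with h3 | h3
      · exact h3
      · exfalso
        rw [h3] at h2
        have h4 : M.relIndex (M ⊔ zpowers x) = 1 :=
          Nat.eq_of_mul_eq_mul_right hp.out.pos (by rw [h2, one_mul])
        rw [Subgroup.relIndex_eq_one] at h4
        exact absurd h4 (not_le_of_gt hlt2)
    rw [Subgroup.index_eq_one] at h3
    apply frattini_nongenerating
    rw [sup_assoc, sup_comm (zpowers x), ← sup_assoc]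
    exact h3

theorem commutator_le {P : Type*} [Group P] [Finite P] {p : ℕ} [hp : Fact p.Prime]
    (hgen : (frattini P).index = p ^ 2) (H : Subgroup P) [H.Normal] (hH : ¬ H ≤ frattini P) :
    commutator P ≤ H := by
  obtain ⟨x, hx⟩ := exists_sup_zpowers hgen H hH
  exact Subgroup.Normal.commutator_le_of_self_sup_commutative_eq_top hx inferInstance

theorem map_frattini_equiv {P Q : Type*} [Group P] [Group Q] (e : P ≃* Q) :
    (frattini P).map e.toMonoidHom ≤ frattini Q := by
  have h := e.comapSubgroup.map_radical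
  rw [Subgroup.map_le_iff_le_comap]
  exact h.ge

section sylow

variable {G : Type*} [Group G] [Finite G] {p : ℕ} [hp : Fact p.Prime]

/-- Tate's theorem for a subgroup normalized by the Sylow subgroup. -/
theorem tate' (P : Sylow p G) (N : Subgroup G) (hN : (P : Subgroup G) ≤ normalizer (N : Set G))
    (h : N ⊓ (P : Subgroup G) ≤ (frattini P).map (P : Subgroup G).subtype) :
    HasNormalPComplement p N := by
  set H := N ⊔ (P : Subgroup G) with hH
  have hPH : (P : Subgroup G) ≤ H := le_sup_right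
  have hNH : N ≤ H := le_sup_left
  let P' : Sylow p H := P.subtype hPH
  have hnorm : (N.subgroupOf H).Normal := by
    apply Subgroup.normal_subgroupOf_of_le_normalizer
    exact sup_le Subgroup.le_normalizer hN
  have hcoe : (P' : Subgroup H) = (P : Subgroup G).subgroupOf H := P.coe_subtype hPH
  let e : (P' : Subgroup H) ≃* (P : Subgroup G) :=
    (MulEquiv.subgroupCongr hcoe).trans (Subgroup.subgroupOfEquivOfLe hPH)
  have he : ∀ x : (P' : Subgroup H), ((e x : P) : G) = ((x : H) : G) := fun x => rfl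
  have h1 : HasNormalPComplement p (N.subgroupOf H) := by
    apply Cfsg.Agent.S0081.result P'
    rintro x ⟨hxN, hxP⟩
    have hxP0 : (x : G) ∈ (P : Subgroup G) := by
      have : x ∈ (P' : Subgroup H) := hxP
      rw [hcoe] at this
      exact this
    have hx1 : (x : G) ∈ N ⊓ (P : Subgroup G) := ⟨hxN, hxP0⟩
    obtain ⟨y, hy, hyx⟩ := h hx1
    refine ⟨⟨x, hxP⟩, ?_, rfl⟩
    have h2 : e.symm y = ⟨x, hxP⟩ := by
      apply e.injective
      rw [MulEquiv.apply_symm_apply]
      apply Subtype.ext
      rw [he]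
      exact hyx
    rw [← h2]
    exact map_frattini_equiv e.symm (Subgroup.mem_map_of_mem _ hy)
  exact H2.NPC.of_mulEquiv (Subgroup.subgroupOfEquivOfLe hNH) h1

theorem not_le_iff (P H : Subgroup G) :
    ¬ (H ⊓ P ≤ (frattini P).map P.subtype) ↔ ¬ (H.subgroupOf P ≤ frattini P) := by
  apply not_congr
  constructor
  · intro h x hx
    obtain ⟨y, hy, hyx⟩ := h ⟨hx, x.2⟩
    have : y = x := Subtype.ext hyx
    exact this ▸ hy
  · rintro h x ⟨hx, hxP⟩
    exact ⟨⟨x, hxP⟩, h (show (⟨x, hxP⟩ : P) ∈ H.subgroupOf P from hx), rfl⟩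

theorem subgroupOf_normal' {P H : Subgroup G} (hH : P ≤ normalizer (H : Set G)) :
    (H.subgroupOf P).Normal := by
  constructor
  intro x hx g
  rw [Subgroup.mem_subgroupOf] at hx ⊢
  exact (Subgroup.mem_normalizer_iff.mp (hH g.2) x).mp hx

/-- `P'` lies in every subgroup `H` normalized by `P` with `H ∩ P` not in `Φ(P)`. -/
theorem derived_le (P H : Subgroup G) (hgen : (frattini P).index = p ^ 2)
    (hH : P ≤ normalizer (H : Set G)) (h : ¬ (H ⊓ P ≤ (frattini P).map P.subtype)) :
    ⁅P, P⁆ ≤ H := by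
  rw [not_le_iff] at h
  have := subgroupOf_normal' hH
  have h1 := commutator_le hgen (H.subgroupOf P) h
  have h2 := Subgroup.map_mono (f := P.subtype) h1
  rw [commutator_def, Subgroup.map_commutator, ← MonoidHom.range_eq_map, Subgroup.range_subtype,
    Subgroup.subgroupOf_map_subtype] at h2
  exact h2.trans inf_le_left

theorem exists_gen (P H : Subgroup G) (hgen : (frattini P).index = p ^ 2)
    (h : ¬ (H ⊓ P ≤ (frattini P).map P.subtype)) :
    ∃ x ∈ P, (H ⊓ P) ⊔ zpowers x = P := by
  rw [not_le_iff] at h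
  obtain ⟨x, hx⟩ := exists_sup_zpowers hgen (H.subgroupOf P) h
  refine ⟨x, x.2, ?_⟩
  have h2 := congrArg (Subgroup.map P.subtype) hx
  rw [Subgroup.map_sup, Subgroup.subgroupOf_map_subtype, MonoidHom.map_zpowers,
    ← MonoidHom.range_eq_map, Subgroup.range_subtype] at h2
  exact h2

theorem cyclic_quot (P H : Subgroup G) [H.Normal] (hgen : (frattini P).index = p ^ 2)
    (h : ¬ (H ⊓ P ≤ (frattini P).map P.subtype)) :
    IsCyclic (P.map (QuotientGroup.mk' H)) := by
  obtain ⟨x, hx, hP⟩ := exists_gen P H hgen h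
  have h1 : P.map (QuotientGroup.mk' H) = zpowers (QuotientGroup.mk' H x) := by
    conv_lhs => rw [← hP]
    rw [Subgroup.map_sup, MonoidHom.map_zpowers]
    have : (H ⊓ P).map (QuotientGroup.mk' H) = ⊥ := by
      rw [Subgroup.map_eq_bot_iff, QuotientGroup.ker_mk']
      exact inf_le_left
    rw [this, bot_sup_eq]
  rw [h1]
  infer_instance

/-- Lemma A -/
theorem not_le_frat (P : Sylow p G) (hcore : pPrimeCore p G = ⊥)
    (hfrat : ((frattini ↥(P : Subgroup G)).map (P : Subgroup G).subtype).normalCore = ⊥)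
    (N : Subgroup G) [hN : N.Normal] (hne : N ≠ ⊥) :
    ¬ (N ⊓ (P : Subgroup G) ≤ (frattini P).map (P : Subgroup G).subtype) := by
  intro h
  have h1 : HasNormalPComplement p N := Cfsg.Agent.S0081.result P N h
  rw [H2.NPC.iff_not_dvd_card_residual] at h1
  have h2 : pResidual p N = ⊥ := by
    have h3 : pResidual p N ≤ pPrimeCore p N :=
      H1.Cores.le_pPrimeCore inferInstance ((Nat.Prime.coprime_iff_not_dvd hp.out).mpr h1).symm
    have h4 := H1.Cores.map_subtype_pPrimeCore p N
    rw [hcore, inf_bot_eq, Subgroup.map_eq_bot_iff, Subgroup.ker_subtype] at h4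
    exact le_bot_iff.mp (h3.trans h4)
  obtain ⟨k, hk⟩ := H2.Residual.exists_index_residual (G := N) (p := p)
  rw [h2, Subgroup.index_bot] at hk
  have h5 : IsPGroup p N := IsPGroup.of_card hk
  have h6 : N ≤ (P : Subgroup G) := (H1.Cores.le_pCore hN h5).trans (H1.Cores.pCore_le_sylow P)
  rw [inf_eq_left.mpr h6] at h
  have h7 : N ≤ ((frattini ↥(P : Subgroup G)).map (P : Subgroup G).subtype).normalCore :=
    Subgroup.normal_le_normalCore.mpr h
  rw [hfrat, le_bot_iff] at h7
  exact hne h7

theorem derived_ne_bot (P : Subgroup G) (hna : ¬ IsMulCommutative P) : ⁅P, P⁆ ≠ ⊥ := by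
  intro h
  exact hna (Subgroup.commutator_self_eq_bot_iff.mp h)

/-- a component has no normal `p`-complement -/
theorem component_not_npc (hcore : pPrimeCore p G = ⊥) {K : Subgroup G} (hK : IsComponent K) :
    ¬ HasNormalPComplement p K := by
  intro h
  rw [H2.NPC.iff_not_dvd_card_residual] at h
  have h1 : pResidual p K = ⊤ := by
    by_contra hne
    have h2 : IsPGroup p (K ⧸ pResidual p K) := H2.Residual.isPGroup_quotient_residual
    have h3 : Nontrivial (K ⧸ pResidual p K) := by
      rw [QuotientGroup.nontrivial_iff]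
      exact hne
    have h4 : Group.IsPerfect K := hK.2.1
    have h5 : Group.IsPerfect (K ⧸ pResidual p K) := inferInstance
    exact Group.IsPerfect.not_isNilpotent _ h2.isNilpotent
  rw [h1, Subgroup.card_top] at h
  exact h (H26.PComponents.dvd_card_of_component hcore hK)

theorem normal_conj_mem {N : Subgroup G} (hN : N.Normal) {a : G} (ha : a ∈ N) (g : G) :
    g * a * g⁻¹ ∈ N := hN.conj_mem a ha g

/-- nonabelian case: `F* ≤ D` -/
theorem gFit_le_nonab (hcore : pPrimeCore p G = ⊥) (D : Subgroup G) [hDn : D.Normal]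
    (hne : D ≠ ⊥)
    (hmin : ∀ K : Subgroup G, K.Normal → K ≠ ⊥ → D ≤ K) (hnc : ¬ IsMulCommutative D) :
    generalizedFittingSubgroup G ≤ D := by
  have hcent : centralizer (D : Set G) = ⊥ := by
    by_contra h
    have h1 := hmin _ inferInstance h
    rw [Subgroup.le_centralizer_iff_isMulCommutative] at h1
    exact hnc h1
  have hpc : pCore p G = ⊥ := by
    by_contra h
    have h1 := hmin _ inferInstance h
    have h2 : IsPGroup p D := (H1.Cores.isPGroup_pCore p).to_le h1
    have : Nontrivial D := (Subgroup.nontrivial_iff_ne_bot _).mpr hne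
    have h3 : Nontrivial (center D) := h2.center_nontrivial
    have h4 := H26.GenFitting.map_center D
    rw [hcent, inf_bot_eq, Subgroup.map_eq_bot_iff, Subgroup.ker_subtype, le_bot_iff] at h4
    exact (Subgroup.nontrivial_iff_ne_bot _).mp h3 h4
  rw [H26.GenFitting.gFitting_eq_of_pPrimeCore_eq_bot hcore, hpc, sup_bot_eq]
  refine sSup_le fun K hK => ?_
  rcases H26.Components.le_or_commutator_eq_bot_of_normal (H := D) hK with h | h
  · exact h
  · exfalso
    rw [Subgroup.commutator_eq_bot_iff_le_centralizer, hcent, le_bot_iff] at h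
    exact H26.Components.ne_bot hK h

theorem layer_eq_bot_of_ab (P : Sylow p G) 
    (hgen : (frattini ↥(P : Subgroup G)).index = p ^ 2)
    (hcore : pPrimeCore p G = ⊥)
    (hfrat : ((frattini ↥(P : Subgroup G)).map (P : Subgroup G).subtype).normalCore = ⊥)
    (D : Subgroup G) [hDn : D.Normal] (hne : D ≠ ⊥)
    (hmin : ∀ K : Subgroup G, K.Normal → K ≠ ⊥ → D ≤ K) (hDc : D ≤ pCore p G) :
    layer G = ⊥ := by
  by_contra h
  have hDE : D ≤ layer G := hmin _ inferInstance h
  obtain ⟨T, hT⟩ := H2.Residual.exists_sylow_inf P (layer G)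
  have hcyc := cyclic_quot (P : Subgroup G) D hgen (not_le_frat P hcore hfrat D hne)
  have hcomm : ∀ a ∈ layer G, ∀ d ∈ D, a * d = d * a := by
    have h1 := H26.Components.commutator_layer_pCore (G := G) p
    rw [Subgroup.commutator_eq_bot_iff_le_centralizer] at h1
    intro a ha d hd
    exact (Subgroup.mem_centralizer_iff.mp (h1 ha) d (hDc hd)).symm
  have hTP : ∀ t : (T : Subgroup (layer G)), ((t : layer G) : G) ∈ (P : Subgroup G) := by
    intro t
    have : (t : layer G) ∈ (P : Subgroup G).subgroupOf (layer G) := hT ▸ t.2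
    exact this
  let f : (T : Subgroup (layer G)) →* (P : Subgroup G).map (QuotientGroup.mk' D) :=
    ((QuotientGroup.mk' D).comp ((layer G).subtype.comp (T : Subgroup (layer G)).subtype)).codRestrict _
      (fun t => Subgroup.mem_map_of_mem _ (hTP t))
  have hf : ∀ t, ((f t : (P : Subgroup G).map (QuotientGroup.mk' D)) : G ⧸ D) =
      QuotientGroup.mk' D ((t : layer G) : G) := fun t => rfl
  have hTab : ∀ a b : (T : Subgroup (layer G)), a * b = b * a := by
    apply commutative_of_cyclic_center_quotient f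
    intro a ha
    rw [MonoidHom.mem_ker] at ha
    have h1 := hf a
    rw [ha] at h1
    have h2 : ((a : layer G) : G) ∈ D := by
      rw [← QuotientGroup.eq_one_iff]
      exact h1.symm
    rw [Subgroup.mem_center_iff]
    intro b
    apply Subtype.ext
    apply Subtype.ext
    exact hcomm _ (b : layer G).2 _ h2
  apply hne
  rw [eq_bot_iff]
  intro d hd
  rw [Subgroup.mem_bot]
  have hdE : d ∈ layer G := hDE hd
  have hdT : (⟨d, hdE⟩ : layer G) ∈ (T : Subgroup (layer G)) := by
    rw [hT]
    exact H1.Cores.pCore_le_sylow P (hDc hd)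
  have h1 : (⟨d, hdE⟩ : layer G) ∈ center (layer G) := by
    rw [Subgroup.mem_center_iff]
    intro b
    apply Subtype.ext
    exact hcomm _ b.2 _ hd
  have h2 : (⟨d, hdE⟩ : layer G) ∈ commutator (layer G) := by
    have h3 : Group.IsPerfect (layer G) := H26.Components.layer_isPerfect
    rw [Group.IsPerfect.commutator_eq_top]
    trivial
  have h3 := H3.TransferCenter.mem_commutator T h1 h2 hdT
  have h4 : commutator (T : Subgroup (layer G)) = ⊥ := by
    rw [commutator_def, Subgroup.commutator_eq_bot_iff_le_centralizer]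
    intro a _
    rw [Subgroup.mem_centralizer_iff]
    intro b _
    exact hTab b a
  rw [h4, Subgroup.mem_bot] at h3
  exact congrArg (fun t : (T : Subgroup (layer G)) => ((t : layer G) : G)) h3

theorem pCore_elem (P : Sylow p G)
    (hfrat : ((frattini ↥(P : Subgroup G)).map (P : Subgroup G).subtype).normalCore = ⊥) :
    (∀ a ∈ pCore p G, a ^ p = 1) ∧ ∀ a ∈ pCore p G, ∀ b ∈ pCore p G, a * b = b * a := by
  have hOP : pCore p G ≤ (P : Subgroup G) := H1.Cores.pCore_le_sylow P
  constructor
  · intro a ha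
    have h1 : a ^ p ∈ ((frattini ↥(P : Subgroup G)).map (P : Subgroup G).subtype).normalCore := by
      intro g
      have h2 : g * a * g⁻¹ ∈ (P : Subgroup G) := hOP (normal_conj_mem inferInstance ha g)
      have h3 : g * a ^ p * g⁻¹ = (g * a * g⁻¹) ^ p := (conj_pow).symm
      rw [h3]
      exact ⟨(⟨g * a * g⁻¹, h2⟩ : (P : Subgroup G)) ^ p,
        H3.PBasic.pow_mem_frattini P.2 _, rfl⟩
    rwa [hfrat, Subgroup.mem_bot] at h1
  · intro a ha b hb
    have h1 : ⁅a, b⁆ ∈ ((frattini ↥(P : Subgroup G)).map (P : Subgroup G).subtype).normalCore := by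
      intro g
      have h2 : g * a * g⁻¹ ∈ (P : Subgroup G) := hOP (normal_conj_mem inferInstance ha g)
      have h2' : g * b * g⁻¹ ∈ (P : Subgroup G) := hOP (normal_conj_mem inferInstance hb g)
      have h3 : g * ⁅a, b⁆ * g⁻¹ = ⁅g * a * g⁻¹, g * b * g⁻¹⁆ := by
        simp only [commutatorElement_def]; group
      rw [h3]
      refine ⟨⁅(⟨g * a * g⁻¹, h2⟩ : (P : Subgroup G)), (⟨g * b * g⁻¹, h2'⟩ : (P : Subgroup G))⁆,
        H3.PBasic.commutator_le_frattini P.2 ?_, rfl⟩
      rw [commutator_def]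
      exact Subgroup.commutator_mem_commutator trivial trivial
    rw [hfrat, Subgroup.mem_bot] at h1
    exact commutatorElement_eq_one_iff_mul_comm.mp h1

theorem pCore_le_ab (P : Sylow p G) (hna : ¬ IsMulCommutative (P : Subgroup G))
    (hgen : (frattini ↥(P : Subgroup G)).index = p ^ 2)
    (hcore : pPrimeCore p G = ⊥)
    (hfrat : ((frattini ↥(P : Subgroup G)).map (P : Subgroup G).subtype).normalCore = ⊥)
    (D : Subgroup G) [hDn : D.Normal] (hne : D ≠ ⊥)
    (hmin : ∀ K : Subgroup G, K.Normal → K ≠ ⊥ → D ≤ K) (hDc : D ≤ pCore p G) :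
    pCore p G ≤ D := by
  by_contra hcon
  obtain ⟨hpow, hcomm⟩ := pCore_elem P hfrat
  have hOP : pCore p G ≤ (P : Subgroup G) := H1.Cores.pCore_le_sylow P
  have hDP : D ≤ (P : Subgroup G) := hDc.trans hOP
  obtain ⟨x, hxP, hx⟩ := exists_gen (P : Subgroup G) D hgen (not_le_frat P hcore hfrat D hne)
  rw [inf_eq_left.mpr hDP] at hx
  obtain ⟨y, hyO, hyD⟩ := SetLike.not_le_iff_exists.mp hcon
  set m := orderOf (QuotientGroup.mk' D x) with hm
  have hmem : ∀ j : ℤ, x ^ j ∈ D ↔ (m : ℤ) ∣ j := by
    intro j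
    rw [hm, orderOf_dvd_iff_zpow_eq_one, ← map_zpow]
    exact (QuotientGroup.eq_one_iff _).symm
  obtain ⟨k, hk⟩ : ∃ k, m = p ^ k := by
    obtain ⟨k, hk⟩ := (isPGroup_iff_pow_pow_eq_one.mp P.2) ⟨x, hxP⟩
    have h1 : x ^ (p ^ k) = 1 := by simpa using congrArg Subtype.val hk
    have h2 : m ∣ p ^ k := by
      rw [hm]
      apply orderOf_dvd_of_pow_eq_one
      rw [← map_pow, h1, map_one]
    obtain ⟨l, _, hl⟩ := (Nat.dvd_prime_pow hp.out).mp h2
    exact ⟨l, hl⟩
  -- `y = d x^i`
  have hyP : y ∈ D ⊔ zpowers x := hx ▸ hOP hyO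
  obtain ⟨d, hd, z, hz, hdz⟩ := Subgroup.mem_sup_of_normal_left.mp hyP
  obtain ⟨i, rfl⟩ := Subgroup.mem_zpowers_iff.mp hz
  have hxi : x ^ i ∈ pCore p G := by
    have : x ^ i = d⁻¹ * y := by rw [← hdz]; group
    rw [this]
    exact mul_mem (inv_mem (hDc hd)) hyO
  have hxiD : ¬ ((m : ℤ) ∣ i) := by
    rw [← hmem]
    intro h
    exact hyD (hdz ▸ mul_mem hd h)
  have hxm : x ^ (m : ℤ) ∈ D := (hmem m).mpr dvd_rfl
  -- gcd
  have hs : x ^ ((Int.gcd i m : ℕ) : ℤ) ∈ pCore p G := by
    rw [Int.gcd_eq_gcd_ab, zpow_add, zpow_mul, zpow_mul]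
    exact mul_mem (zpow_mem hxi _) (zpow_mem (hDc hxm) _)
  have hs1 : Int.gcd i m ∣ p ^ k := by
    have := Int.gcd_dvd_right i m
    rw [hk] at this
    rw [← hk]
    exact_mod_cast Int.natCast_dvd_natCast.mp (Int.gcd_dvd_right i m)
  obtain ⟨l, hlk, hl⟩ := (Nat.dvd_prime_pow hp.out).mp hs1
  have hlne : l ≠ k := by
    intro h
    apply hxiD
    have h2 := Int.gcd_dvd_left i m
    rw [hl, h, ← hk] at h2
    exact h2
  have hxp : x ^ m = 1 := by
    have hlt : l + 1 ≤ k := by omega
    obtain ⟨c, hc⟩ := Nat.exists_eq_add_of_le hlt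
    have h1 : (x ^ (p ^ l)) ^ p = 1 := by
      apply hpow
      rw [hl] at hs
      exact_mod_cast hs
    rw [hk, hc, pow_add, pow_succ, pow_mul, pow_mul, h1, one_pow]
  have hinf : zpowers x ⊓ D = ⊥ := by
    rw [eq_bot_iff]
    rintro w ⟨hw, hwD⟩
    obtain ⟨j, rfl⟩ := Subgroup.mem_zpowers_iff.mp hw
    obtain ⟨c, hc⟩ := (hmem j).mp hwD
    rw [Subgroup.mem_bot, hc, zpow_mul, zpow_natCast, hxp, one_zpow]
  have hDcomm : IsMulCommutative D := by
    rw [← Subgroup.le_centralizer_iff_isMulCommutative]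
    intro a ha
    rw [Subgroup.mem_centralizer_iff]
    intro b hb
    exact hcomm b (hDc hb) a (hDc ha)
  have hcop : (Nat.card D).Coprime (P : Subgroup G).index := by
    obtain ⟨n, hn⟩ := IsPGroup.iff_card.mp ((H1.Cores.isPGroup_pCore p).to_le hDc)
    rw [hn]
    exact Nat.Coprime.pow_left _ ((Nat.Prime.coprime_iff_not_dvd hp.out).mpr P.not_dvd_index)
  obtain ⟨L, hL⟩ := H2.Gaschutz.exists_complement D (P : Subgroup G) hcop (zpowers x)
    (by rw [Subgroup.zpowers_le]; exact hxP) hinf hx
  -- `W = O ∩ L` is normal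
  have hWn : (pCore p G ⊓ L).Normal := by
    rw [← Subgroup.normalizer_eq_top_iff, eq_top_iff, ← hL.sup_eq_top]
    apply sup_le
    · intro a ha
      rw [Subgroup.mem_normalizer_iff]
      intro w
      constructor
      · rintro ⟨hw1, hw2⟩
        have : a * w * a⁻¹ = w := by rw [hcomm a (hDc ha) w hw1]; group
        rw [this]
        exact ⟨hw1, hw2⟩
      · intro hw
        have hw1 : w ∈ pCore p G := by
          have h1 := normal_conj_mem (inferInstance : (pCore p G).Normal) hw.1 a⁻¹
          have h2 : a⁻¹ * (a * w * a⁻¹) * a⁻¹⁻¹ = w := by group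
          rwa [h2] at h1
        have : a * w * a⁻¹ = w := by rw [hcomm a (hDc ha) w hw1]; group
        rwa [this] at hw
    · apply le_trans _ (Subgroup.inf_normalizer_le_normalizer_inf)
      refine le_inf ?_ Subgroup.le_normalizer
      rw [Subgroup.normalizer_eq_top]
      exact le_top
  have hWne : pCore p G ⊓ L ≠ ⊥ := by
    intro h
    have hy1 : y ∈ D ⊔ L := hL.sup_eq_top ▸ trivial
    obtain ⟨d', hd', l', hl', hdl⟩ := Subgroup.mem_sup_of_normal_left.mp hy1
    have h1 : l' ∈ pCore p G ⊓ L := by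
      have h2 : l' = d'⁻¹ * y := by rw [← hdl]; group
      have h3 : d'⁻¹ * y ∈ pCore p G := mul_mem (inv_mem (hDc hd')) hyO
      exact Subgroup.mem_inf.mpr ⟨h2 ▸ h3, hl'⟩
    rw [h, Subgroup.mem_bot] at h1
    apply hyD
    rw [← hdl, h1, mul_one]
    exact hd'
  have h1 := hmin _ hWn hWne
  have h2 : D ≤ D ⊓ L := le_inf le_rfl (h1.trans inf_le_right)
  rw [hL.disjoint.eq_bot, le_bot_iff] at h2
  exact hne h2

/-- `F*(G)` is the unique minimal normal subgroup. -/
theorem gFit_le (P : Sylow p G) (hna : ¬ IsMulCommutative (P : Subgroup G))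
    (hgen : (frattini ↥(P : Subgroup G)).index = p ^ 2)
    (hcore : pPrimeCore p G = ⊥)
    (hfrat : ((frattini ↥(P : Subgroup G)).map (P : Subgroup G).subtype).normalCore = ⊥)
    (K : Subgroup G) (hKn : K.Normal) (hK : K ≠ ⊥) : generalizedFittingSubgroup G ≤ K := by
  set D := normalClosure ((⁅(P : Subgroup G), (P : Subgroup G)⁆ : Subgroup G) : Set G) with hD
  have hPD : ⁅(P : Subgroup G), (P : Subgroup G)⁆ ≤ D := Subgroup.subset_normalClosure
  have hDne : D ≠ ⊥ := by
    intro h
    rw [h, le_bot_iff] at hPD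
    exact derived_ne_bot _ hna hPD
  have hmin : ∀ K : Subgroup G, K.Normal → K ≠ ⊥ → D ≤ K := by
    intro K hKn hK
    apply Subgroup.normalClosure_le_normal
    apply derived_le (P : Subgroup G) K hgen
    · rw [Subgroup.normalizer_eq_top]
      exact le_top
    · exact not_le_frat P hcore hfrat K hK
  refine le_trans ?_ (hmin K hKn hK)
  by_cases hc : IsMulCommutative D
  · have hDc : D ≤ pCore p G := by
      rw [← H1.Cores.fittingSubgroup_eq_pCore_of p hcore]
      refine H1.Cores.le_fittingSubgroup inferInstance ?_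
      have : Group.IsNilpotent D := by
        letI : CommGroup D := { (inferInstance : Group D) with mul_comm := hc.is_comm.comm }
        exact CommGroup.isNilpotent
      exact this
    rw [H26.GenFitting.gFitting_eq_of_pPrimeCore_eq_bot hcore,
      layer_eq_bot_of_ab P hgen hcore hfrat D hDne hmin hDc, bot_sup_eq]
    exact pCore_le_ab P hna hgen hcore hfrat D hDne hmin hDc
  · exact gFit_le_nonab hcore D hDne hmin hc

/-- the join of the `P`-conjugates of `K` -/
def orb (P K : Subgroup G) : Subgroup G := ⨆ x : P, K.map (MulAut.conj (x : G)).toMonoidHom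

omit [Finite G] in
theorem le_normalizer_orb (P K : Subgroup G) : P ≤ normalizer (orb P K : Set G) := by
  intro g hg
  rw [Subgroup.mem_normalizer_iff_map_conj_eq, orb, Subgroup.map_iSup]
  apply le_antisymm
  · refine iSup_le fun x => ?_
    refine le_trans ?_ (le_iSup _ ((⟨g, hg⟩ : P) * x))
    rw [Subgroup.map_map]
    apply le_of_eq
    congr 1
    ext y
    simp [MulAut.conj_apply, mul_assoc]
  · refine iSup_le fun x => ?_
    refine le_trans ?_ (le_iSup _ ((⟨g, hg⟩ : P)⁻¹ * x))
    rw [Subgroup.map_map]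
    apply le_of_eq
    congr 1
    ext y
    simp [MulAut.conj_apply, mul_assoc]

omit [Finite G] in
theorem le_orb (P K : Subgroup G) : K ≤ orb P K := by
  refine le_trans ?_ (le_iSup _ (1 : P))
  intro x hx
  exact ⟨x, hx, by simp⟩

theorem trans (P : Sylow p G) (hna : ¬ IsMulCommutative (P : Subgroup G))
    (hgen : (frattini ↥(P : Subgroup G)).index = p ^ 2)
    (hcore : pPrimeCore p G = ⊥)
    (hmin : ∀ K : Subgroup G, K.Normal → K ≠ ⊥ → generalizedFittingSubgroup G ≤ K)
    (hnc : ¬ IsMulCommutative (generalizedFittingSubgroup G))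
    (K L : Subgroup G) (hK : IsComponent K) (hL : IsComponent L) :
    ∃ x ∈ (P : Subgroup G), L = K.map (MulAut.conj x).toMonoidHom := by
  by_contra hcon
  push Not at hcon
  have hZ : layer G ⊓ centralizer (layer G : Set G) = ⊥ := by
    by_contra h
    have h1 := hmin _ inferInstance h
    apply hnc
    rw [← Subgroup.le_centralizer_iff_isMulCommutative]
    have h2 : generalizedFittingSubgroup G ≤ centralizer (layer G : Set G) := h1.trans inf_le_right
    have h3 : generalizedFittingSubgroup G ≤ layer G := h1.trans inf_le_left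
    exact h2.trans (Subgroup.centralizer_le h3)
  have hconj : ∀ {C : Subgroup G}, IsComponent C → ∀ x : G,
      IsComponent (C.map (MulAut.conj x).toMonoidHom) :=
    fun hC x => (H26.Components.map_conj_iff x).mpr hC
  have hne : ∀ x y : (P : Subgroup G), K.map (MulAut.conj (x : G)).toMonoidHom ≠
      L.map (MulAut.conj (y : G)).toMonoidHom := by
    intro x y h
    apply hcon ((y : G)⁻¹ * x) (mul_mem (inv_mem y.2) x.2)
    have h1 := congrArg (Subgroup.map (MulAut.conj (y : G)⁻¹).toMonoidHom) h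
    rw [Subgroup.map_map, Subgroup.map_map] at h1
    have h2 : (MulAut.conj (y : G)⁻¹).toMonoidHom.comp (MulAut.conj (y : G)).toMonoidHom =
        MonoidHom.id G := by
      ext z; simp [MulAut.conj_apply, mul_assoc]
    have h3 : (MulAut.conj (y : G)⁻¹).toMonoidHom.comp (MulAut.conj (x : G)).toMonoidHom =
        (MulAut.conj ((y : G)⁻¹ * x)).toMonoidHom := by
      ext z; simp [MulAut.conj_apply, mul_assoc]
    rw [h2, h3, Subgroup.map_id] at h1
    exact h1.symm
  -- the two joins meet trivially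
  have hle : ∀ {C : Subgroup G}, IsComponent C → orb (P : Subgroup G) C ≤ layer G :=
    fun hC => iSup_le fun x => H26.Components.le_layer (hconj hC x)
  have hcomm : ∀ {C D : Subgroup G}, IsComponent C → IsComponent D →
      (∀ x : (P : Subgroup G), C.map (MulAut.conj (x : G)).toMonoidHom ≠ D) →
      ⁅orb (P : Subgroup G) C, D⁆ = ⊥ := by
    intro C D hC hD h
    rw [Subgroup.commutator_eq_bot_iff_le_centralizer]
    refine iSup_le fun x => ?_
    rw [← Subgroup.commutator_eq_bot_iff_le_centralizer]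
    exact H26.Components.commutator_eq_bot_of_ne (hconj hC x) hD (h x)
  have hinf : orb (P : Subgroup G) K ⊓ orb (P : Subgroup G) L = ⊥ := by
    rw [← le_bot_iff, ← hZ]
    refine le_inf (inf_le_left.trans (hle hK)) ?_
    rw [← Subgroup.commutator_eq_bot_iff_le_centralizer, Subgroup.commutator_comm,
      Subgroup.commutator_eq_bot_iff_le_centralizer]
    refine sSup_le fun C hC => ?_
    rw [← Subgroup.commutator_eq_bot_iff_le_centralizer]
    by_cases h : ∃ x : (P : Subgroup G), K.map (MulAut.conj (x : G)).toMonoidHom = C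
    · obtain ⟨x, rfl⟩ := h
      rw [eq_bot_iff, ← hcomm hL (hconj hK x) (fun y h => hne x y h.symm),
        Subgroup.commutator_comm]
      exact Subgroup.commutator_mono inf_le_right le_rfl
    · push Not at h
      rw [eq_bot_iff, ← hcomm hK hC h, Subgroup.commutator_comm]
      exact Subgroup.commutator_mono inf_le_left le_rfl
  have hfrat : ∀ {C : Subgroup G}, IsComponent C →
      ¬ (orb (P : Subgroup G) C ⊓ (P : Subgroup G) ≤ (frattini P).map (P : Subgroup G).subtype) := by
    intro C hC h
    have h1 := tate' P (orb (P : Subgroup G) C) (le_normalizer_orb _ _) h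
    have h2 := H2.NPC.subgroup h1 (C.subgroupOf (orb (P : Subgroup G) C))
    have h3 := H2.NPC.of_mulEquiv (Subgroup.subgroupOfEquivOfLe (le_orb (P : Subgroup G) C)) h2
    exact component_not_npc hcore hC h3
  have h1 := derived_le (P : Subgroup G) _ hgen (le_normalizer_orb _ K) (hfrat hK)
  have h2 := derived_le (P : Subgroup G) _ hgen (le_normalizer_orb _ L) (hfrat hL)
  have h3 := le_inf h1 h2
  rw [hinf, le_bot_iff] at h3
  exact derived_ne_bot _ hna h3

theorem main (P : Sylow p G) (hna : ¬ IsMulCommutative (P : Subgroup G))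
    (hgen : (frattini ↥(P : Subgroup G)).index = p ^ 2)
    (hcore : pPrimeCore p G = ⊥)
    (hfrat : ((frattini ↥(P : Subgroup G)).map (P : Subgroup G).subtype).normalCore = ⊥)
    [hFn : (generalizedFittingSubgroup G).Normal] :
    (generalizedFittingSubgroup G ≠ ⊥ ∧
      ∀ K : Subgroup G, K.Normal → K ≠ ⊥ → generalizedFittingSubgroup G ≤ K) ∧
    IsCyclic ((P : Subgroup G).map (QuotientGroup.mk' (generalizedFittingSubgroup G))) ∧
    (¬ IsMulCommutative (generalizedFittingSubgroup G) →
      ∀ K L : Subgroup G, IsComponent K → IsComponent L →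
        ∃ x ∈ (P : Subgroup G), L = K.map (MulAut.conj x).toMonoidHom) := by
  have hmin := gFit_le P hna hgen hcore hfrat
  have hne : generalizedFittingSubgroup G ≠ ⊥ := by
    intro h
    have h1 := H26.Components.centralizer_gFitting_le (G := G)
    rw [h, le_bot_iff] at h1
    have h2 : (P : Subgroup G) = ⊥ := by
      rw [eq_bot_iff, ← h1]
      intro x _
      rw [Subgroup.mem_centralizer_iff]
      rintro y hy
      rw [SetLike.mem_coe, Subgroup.mem_bot] at hy
      rw [hy, one_mul, mul_one]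
    apply derived_ne_bot _ hna
    rw [h2]
    exact Subgroup.commutator_bot_left _
  exact ⟨⟨hne, hmin⟩, cyclic_quot _ _ hgen (not_le_frat P hcore hfrat _ hne),
    fun hnc K L hK hL => trans P hna hgen hcore hmin hnc K L hK hL⟩

end sylow

end H72.TwoGenSyl
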