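import Mathlib
import Cfsg.Agent.Lib.H72.SemiReg
import Cfsg.Agent.Lib.H72.TwoLargest
import Cfsg.Agent.Lib.H70.Cover
import Cfsg.Agent.Lib.H13.SylowN
import Cfsg.Agent.Lib.H2.PGrp

set_option autoImplicit false
set_option linter.unusedSectionVars false

/-! Normal subgroups with two `G`-class sizes. -/

namespace H72.TwoIdx

open Subgroup H72.TwoLargest

universe u

variable {G : Type u} [Group G] [Finite G]

structure Hyp (N : Subgroup G) (m : ℕ) : Prop where
  nrm : N.Normal
  two : ∀ x ∈ N, cs x = 1 ∨ cs x = m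

variable {N : Subgroup G} {m : ℕ}

theorem Hyp.cs_m (H : Hyp N m) {x : G} (hx : x ∈ N) (hxZ : x ∉ center G) : cs x = m :=
  (H.two x hx).resolve_left fun h => hxZ ((cs_eq_one x).mp h)

theorem Hyp.cent_eq (H : Hyp N m) {x t : G} (hx : x ∈ N) (hxZ : x ∉ center G) (ht : t ∈ N)
    (htZ : t ∉ center G) (h : centralizer ({x} : Set G) ≤ centralizer ({t} : Set G)) :
    centralizer ({t} : Set G) = centralizer ({x} : Set G) :=
  le_antisymm (cent_eq_of_le h (by rw [H.cs_m hx hxZ, H.cs_m ht htZ])) h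

theorem mem_center_iff_cent {x : G} : x ∈ center G ↔ centralizer ({x} : Set G) = ⊤ := by
  rw [← cs_eq_one, cs, Subgroup.index_eq_one]

theorem Hyp.cent_le (H : Hyp N m) {x t : G} (hx : x ∈ N) (hxZ : x ∉ center G) (ht : t ∈ N)
    (hc : x * t = t * x) (hcop : (orderOf x).Coprime (orderOf t)) :
    centralizer ({x} : Set G) ≤ centralizer ({t} : Set G) := by
  have h1 := cent_mul hc hcop
  have h2 : centralizer ({x * t} : Set G) ≤ centralizer ({x} : Set G) := h1 ▸ inf_le_left
  have h3 : x * t ∉ center G := by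
    intro h
    apply hxZ
    rw [mem_center_iff_cent] at h ⊢
    rw [h] at h2
    exact top_le_iff.mp h2
  have h4 := cent_eq_of_le h2 (by rw [H.cs_m hx hxZ, H.cs_m (mul_mem hx ht) h3])
  rw [h1] at h4
  exact h4.trans inf_le_right

theorem exists_sylow_le {p : ℕ} [Fact p.Prime] (K : Subgroup G) (hK : ¬ p ∣ K.index) :
    ∃ S : Sylow p G, (S : Subgroup G) ≤ K := by
  obtain ⟨U⟩ : Nonempty (Sylow p K) := inferInstance
  have h1 : IsPGroup p ((U : Subgroup K).map K.subtype) := U.2.map _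
  have h2 : ¬ p ∣ ((U : Subgroup K).map K.subtype).index := by
    rw [Subgroup.index_map_subtype]
    intro h
    rcases (Nat.Prime.dvd_mul Fact.out).mp h with h | h
    · exact U.not_dvd_index h
    · exact hK h
  exact ⟨h1.toSylow h2, Subgroup.map_subtype_le _⟩

/-- Lemma U -/
theorem Hyp.comm_of_not_dvd (H : Hyp N m) {q : ℕ} (hq : q.Prime) (hqm : ¬ q ∣ m) {x : G}
    (hx : x ∈ N) (hxZ : x ∉ center G) {k : ℕ} (hxk : orderOf x = q ^ k) :
    ∀ a ∈ N, ∀ b ∈ N, a * b = b * a := by
  have hqf : Fact q.Prime := ⟨hq⟩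
  have hNn := H.nrm
  -- a Sylow subgroup of `N` containing `x`
  have hxp : IsPGroup q (zpowers (⟨x, hx⟩ : N)) := by
    apply IsPGroup.of_card (n := k)
    rw [Nat.card_zpowers, Subgroup.orderOf_mk, hxk]
  obtain ⟨T0, hT0⟩ := hxp.exists_le_sylow
  have hxT : (⟨x, hx⟩ : N) ∈ (T0 : Subgroup N) := hT0 (mem_zpowers _)
  have hcs : ∀ w ∈ N, ¬ q ∣ cs w := by
    intro w hw h
    rcases H.two w hw with h1 | h1
    · rw [h1] at h
      exact hq.one_lt.ne' (Nat.dvd_one.mp h)
    · rw [h1] at h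
      exact hqm h
  have hcen : centralizer ((T0 : Subgroup N) : Set N) = ⊤ := by
    apply H70.Cover.eq_top_of_cover
    intro w
    obtain ⟨S, hS⟩ := exists_sylow_le (centralizer ({(w : G)} : Set G)) (hcs w w.2)
    obtain ⟨T, hT⟩ := H13.SylowN.exists_sylow_inf S N
    obtain ⟨n, hn⟩ := MulAction.exists_smul_eq N T T0
    refine ⟨n⁻¹, ?_⟩
    rw [Subgroup.mem_centralizer_iff]
    intro t ht
    have h1 : t ∈ ((n • T : Sylow q N) : Subgroup N) := by rw [hn]; exact ht
    rw [Sylow.smul_def, Sylow.pointwise_smul_def, Subgroup.mem_pointwise_smul_iff_inv_smul_mem,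
      hT] at h1
    have h2 := hS h1
    rw [mem_cent] at h2
    have h3 : n⁻¹ * t * n * w = w * (n⁻¹ * t * n) := by
      apply Subtype.ext
      have h4 : (((MulAut.conj n)⁻¹ • t : N) : G) = ((n⁻¹ * t * n : N) : G) := by
        rw [← map_inv, MulAut.smul_def, MulAut.conj_apply, inv_inv]
      have h5 : (((MulAut.conj n)⁻¹ • t : N) : G) * (w : G) = (w : G) * (((MulAut.conj n)⁻¹ • t : N) : G) := h2
      rw [h4] at h5
      exact h5
    have h6 : t * (n⁻¹⁻¹ * w * n⁻¹) = n * (n⁻¹ * t * n * w) * n⁻¹ := by group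
    rw [h6, h3]
    group
  have hTc : (T0 : Subgroup N) ≤ center N := by
    intro t ht
    rw [Subgroup.mem_center_iff]
    intro g
    have h1 : g ∈ centralizer ((T0 : Subgroup N) : Set N) := hcen ▸ trivial
    exact (Subgroup.mem_centralizer_iff.mp h1 t ht).symm
  have hNx : N ≤ centralizer ({x} : Set G) := by
    intro g hg
    rw [mem_cent]
    exact congrArg Subtype.val (Subgroup.mem_center_iff.mp (hTc hxT) ⟨g, hg⟩)
  have hNN : N ≤ centralizer (N : Set G) := by
    intro a ha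
    by_contra hcon
    obtain ⟨j, s, l, hs, hsl, hcon2⟩ := exists_primary_pow hcon
    apply hcon2
    rw [Subgroup.mem_centralizer_iff]
    intro g hg
    have haj : a ^ j ∈ N := pow_mem ha j
    by_cases hsq : s = q
    · -- `a^j` lies in `T0`
      have h1 : IsPGroup q (zpowers (⟨a ^ j, haj⟩ : N)) := by
        apply IsPGroup.of_card (n := l)
        rw [Nat.card_zpowers, Subgroup.orderOf_mk, hsl, hsq]
      have hT0n : (T0 : Subgroup N).Normal := by
        rw [← Subgroup.normalizer_eq_top_iff, eq_top_iff, ← hcen]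
        exact Subgroup.centralizer_le_normalizer _
      obtain ⟨T1, hT1⟩ := h1.exists_le_sylow
      have h2 : T1 = T0 := by
        have := T0.unique_of_normal hT0n
        exact Subsingleton.elim _ _
      have h3 : (⟨a ^ j, haj⟩ : N) ∈ (T0 : Subgroup N) := h2 ▸ hT1 (mem_zpowers _)
      exact congrArg Subtype.val (Subgroup.mem_center_iff.mp (hTc h3) ⟨g, hg⟩)
    · have h1 : x * a ^ j = a ^ j * x := by
        have := hNx haj
        rw [mem_cent] at this
        exact this.symm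
      have h2 := H.cent_le hx hxZ haj h1 (by
        rw [hxk, hsl]
        exact Nat.Coprime.pow _ _ ((Nat.coprime_primes hq hs).mpr (Ne.symm hsq)))
      have h3 := h2 (hNx hg)
      rw [mem_cent] at h3
      exact h3
  intro a ha b hb
  exact (Subgroup.mem_centralizer_iff.mp (hNN ha) b hb).symm

/-- Claim 1: a noncentral element of `N` commutes with a noncentral `r`-element of `N` -/
theorem Hyp.exists_r (H : Hyp N m) {r : ℕ} [hr : Fact r.Prime] (R : Sylow r G)
    (hR : ¬ (R : Subgroup G) ≤ center G) (hRN : (R : Subgroup G) ≤ N) {x : G} (hx : x ∈ N)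
    (hxZ : x ∉ center G) : ∃ y ∈ N, y ∉ center G ∧ x * y = y * x ∧ ∃ k, orderOf y = r ^ k := by
  have hNn := H.nrm
  obtain ⟨y0, hy0R, hy0Z⟩ := SetLike.not_le_iff_exists.mp hR
  have hy0N : y0 ∈ N := hRN hy0R
  have hRall : ∀ S : Sylow r G, (S : Subgroup G) ≤ N := by
    intro S
    obtain ⟨g, hg⟩ := MulAction.exists_smul_eq G R S
    rw [← hg, Sylow.smul_def, Sylow.pointwise_smul_def]
    intro t ht
    rw [Subgroup.mem_pointwise_smul_iff_inv_smul_mem, ← map_inv, MulAut.smul_def,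
      MulAut.conj_apply, inv_inv] at ht
    have h1 := hNn.conj_mem _ (hRN ht) g
    have h2 : g * (g⁻¹ * t * g) * g⁻¹ = t := by group
    rwa [h2] at h1
  set C := centralizer ({x} : Set G) with hC
  obtain ⟨U⟩ : Nonempty (Sylow r C) := inferInstance
  set S0 := (U : Subgroup C).map C.subtype with hS0
  have hS0C : S0 ≤ C := Subgroup.map_subtype_le _
  have hS0p : IsPGroup r S0 := U.2.map _
  have hS0N : S0 ≤ N := by
    obtain ⟨S, hS⟩ := hS0p.exists_le_sylow
    exact hS.trans (hRall S)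
  by_cases hS0Z : S0 ≤ center G
  · exfalso
    -- compare with `y0`
    have hcard : Nat.card C = Nat.card (centralizer ({y0} : Set G)) := by
      have h1 := C.index_mul_card
      have h2 := (centralizer ({y0} : Set G)).index_mul_card
      have h3 : C.index = (centralizer ({y0} : Set G)).index := by
        have h4 := H.cs_m hx hxZ
        have h5 := H.cs_m hy0N hy0Z
        exact h4.trans h5.symm
      rw [h3, ← h2] at h1
      exact Nat.eq_of_mul_eq_mul_left (Nat.pos_of_ne_zero Subgroup.index_ne_zero_of_finite) h1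
    have hy0p : IsPGroup r (zpowers y0) := (R.2.to_le (by rw [Subgroup.zpowers_le]; exact hy0R))
    set E := S0 ⊔ zpowers y0 with hE
    have hS0n : S0.Normal := by
      constructor
      intro s hs g
      have h1 := Subgroup.mem_center_iff.mp (hS0Z hs) g
      rw [h1]
      have h2 : s * g * g⁻¹ = s := by group
      rwa [h2]
    have hEp : IsPGroup r E := hS0p.to_sup_of_normal_left hy0p
    have hEC : E ≤ centralizer ({y0} : Set G) := by
      apply sup_le
      · intro s hs
        rw [mem_cent]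
        exact (Subgroup.mem_center_iff.mp (hS0Z hs) y0).symm
      · rw [Subgroup.zpowers_le, mem_cent]
    have hlt : S0 < E := by
      refine lt_of_le_of_ne le_sup_left ?_
      intro h
      exact hy0Z (hS0Z (h ▸ (le_sup_right : zpowers y0 ≤ S0 ⊔ zpowers y0) (mem_zpowers y0)))
    obtain ⟨e, he⟩ := IsPGroup.iff_card.mp hEp
    have h1 : r ^ e ∣ Nat.card C := by
      rw [hcard, ← he]
      exact Subgroup.card_dvd_of_le hEC
    have h2 : r ^ e ∣ Nat.card U := by
      rw [U.card_eq_multiplicity]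
      exact (Nat.pow_dvd_pow_iff_le_right hr.out.one_lt).mpr
        ((Nat.Prime.pow_dvd_iff_le_factorization hr.out Nat.card_pos.ne').mp h1)
    have h3 : Nat.card S0 = Nat.card U := by
      rw [hS0, Subgroup.card_map_of_injective C.subtype_injective]
    have h4 : Nat.card E ≤ Nat.card S0 := by
      rw [h3, he]
      exact Nat.le_of_dvd Nat.card_pos h2
    exact absurd (Subgroup.eq_of_le_of_card_ge hlt.le h4) hlt.ne
  · obtain ⟨y, hyS, hyZ⟩ := SetLike.not_le_iff_exists.mp hS0Z
    refine ⟨y, hS0N hyS, hyZ, ?_, ?_⟩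
    · have := hS0C hyS
      rw [hC, mem_cent] at this
      exact this.symm
    · obtain ⟨k, hk⟩ := (IsPGroup.iff_orderOf.mp hS0p) ⟨y, hyS⟩
      rw [Subgroup.orderOf_mk] at hk
      exact ⟨k, hk⟩

/-- Configuration: `C = C_G(x)` with `C ∩ N ≤ Z(C)` -/
structure Conf (N : Subgroup G) (m : ℕ) (C : Subgroup G) : Prop where
  hyp : Hyp N m
  cen : C ⊓ N ≤ centralizer (C : Set G)
  eqC : ∀ t ∈ C ⊓ N, t ∉ center G → centralizer ({t} : Set G) = C

theorem Hyp.conf (H : Hyp N m) {q r : ℕ} (hq : q.Prime) (hr : r.Prime) (hqr : q ≠ r) {x y : G}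
    (hx : x ∈ N) (hy : y ∈ N) (hxZ : x ∉ center G) (hyZ : y ∉ center G) (hxy : x * y = y * x)
    {k l : ℕ} (hxk : orderOf x = q ^ k) (hyl : orderOf y = r ^ l) :
    Conf N m (centralizer ({x} : Set G)) ∧
      centralizer ({y} : Set G) = centralizer ({x} : Set G) := by
  have h1 := H.cent_le hx hxZ hy hxy (by
    rw [hxk, hyl]
    exact Nat.Coprime.pow _ _ ((Nat.coprime_primes hq hr).mpr hqr))
  have h2 := H.cent_eq hx hxZ hy hyZ h1
  have h3 : centralizer ({x} : Set G) ⊓ N ≤ centralizer ((centralizer ({x} : Set G) : Subgroup G) : Set G) := by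
    intro t ht
    by_contra hcon
    obtain ⟨j, s, l', hs, hsl, hcon2⟩ := exists_primary_pow hcon
    apply hcon2
    obtain ⟨ht1, ht2⟩ := Subgroup.mem_inf.mp ht
    have htj1 : t ^ j ∈ centralizer ({x} : Set G) := pow_mem ht1 j
    have htj2 : t ^ j ∈ N := pow_mem ht2 j
    have h4 : centralizer ({x} : Set G) ≤ centralizer ({t ^ j} : Set G) := by
      by_cases hsq : s = q
      · rw [← h2]
        apply H.cent_le hy hyZ htj2
        · rw [← h2, mem_cent] at htj1
          exact htj1.symm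
        · rw [hyl, hsl, hsq]
          exact Nat.Coprime.pow _ _ ((Nat.coprime_primes hr hq).mpr hqr.symm)
      · apply H.cent_le hx hxZ htj2
        · rw [mem_cent] at htj1
          exact htj1.symm
        · rw [hxk, hsl]
          exact Nat.Coprime.pow _ _ ((Nat.coprime_primes hq hs).mpr (Ne.symm hsq))
    rw [Subgroup.mem_centralizer_iff]
    intro c hc
    have h5 := h4 hc
    rw [mem_cent] at h5
    exact h5
  refine ⟨⟨H, h3, ?_⟩, h2⟩
  intro t ht htZ
  apply H.cent_eq hx hxZ (Subgroup.mem_inf.mp ht).2 htZ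
  intro c hc
  rw [mem_cent]
  exact Subgroup.mem_centralizer_iff.mp (h3 ht) c hc

/-- Claim 4 -/
theorem Conf.exists_elt {C : Subgroup G} (K : Conf N m C) {p : ℕ} [hp : Fact p.Prime]
    (hpC : p ∣ C.index) {t : G} (ht : t ∈ C ⊓ N) (htZ : t ∉ center G) {k : ℕ}
    (htk : orderOf t = p ^ k) :
    ∃ u : G, u ∈ normalizer (C : Set G) ∧ u ∉ C ∧ ∃ l, orderOf u = p ^ l := by
  have hNn := K.hyp.nrm
  obtain ⟨U⟩ : Nonempty (Sylow p C) := inferInstance
  set S0 := (U : Subgroup C).map C.subtype with hS0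
  have hS0C : S0 ≤ C := Subgroup.map_subtype_le _
  have hS0p : IsPGroup p S0 := U.2.map _
  obtain ⟨htC, htN⟩ := Subgroup.mem_inf.mp ht
  -- `t ∈ S0`
  have htS0 : t ∈ S0 := by
    have h1 : (zpowers (⟨t, htC⟩ : C)).Normal := by
      constructor
      intro s hs g
      have h2 : s * g = g * s := by
        obtain ⟨i, rfl⟩ := Subgroup.mem_zpowers_iff.mp hs
        apply Subtype.ext
        have h3 := Subgroup.mem_centralizer_iff.mp (zpow_mem (K.cen ht) i) (g : G) g.2
        simpa using h3.symm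
      rw [← h2]
      have h3 : s * g * g⁻¹ = s := by group
      rwa [h3]
    have h2 : IsPGroup p (zpowers (⟨t, htC⟩ : C)) := by
      apply IsPGroup.of_card (n := k)
      rw [Nat.card_zpowers, Subgroup.orderOf_mk, htk]
    have h3 := IsPGroup.le_sylow_of_normal h2 U
    exact ⟨⟨t, htC⟩, h3 (mem_zpowers _), rfl⟩
  obtain ⟨S, hS⟩ := hS0p.exists_le_sylow
  have hlt : S0 < S := by
    refine lt_of_le_of_ne hS ?_
    intro h
    have h1 : C.index ∣ (S : Subgroup G).index := Subgroup.index_dvd_of_le (h ▸ hS0C)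
    exact S.not_dvd_index (hpC.trans h1)
  obtain ⟨u, huS, huS0, hu⟩ := H2.PGrp.exists_mem_normalizer_of_nilpotent S.2.isNilpotent hlt
  have huC : u ∉ C := by
    intro huC
    apply huS0
    have h1 : IsPGroup p (zpowers (⟨u, huC⟩ : C)) := by
      obtain ⟨l, hl⟩ := (IsPGroup.iff_orderOf.mp S.2) ⟨u, huS⟩
      apply IsPGroup.of_card (n := l)
      rw [Nat.card_zpowers, Subgroup.orderOf_mk]
      rw [Subgroup.orderOf_mk] at hl
      exact hl
    have h2 : (⟨u, huC⟩ : C) ∈ normalizer ((U : Subgroup C) : Set C) := by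
      rw [Subgroup.mem_normalizer_iff]
      intro c
      have h3 := Subgroup.mem_normalizer_iff.mp hu (c : G)
      have h4 : ∀ d : C, (d : G) ∈ S0 ↔ d ∈ (U : Subgroup C) := by
        intro d
        constructor
        · rintro ⟨e, he, hed⟩
          have : e = d := Subtype.ext hed
          exact this ▸ he
        · intro hd
          exact ⟨d, hd, rfl⟩
      rw [← h4, ← h4]
      exact h3
    have h3 := IsPGroup.inf_normalizer_sylow h1 U
    have h4 : (⟨u, huC⟩ : C) ∈ zpowers (⟨u, huC⟩ : C) ⊓ normalizer ((U : Subgroup C) : Set C) :=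
      Subgroup.mem_inf.mpr ⟨mem_zpowers _, h2⟩
    have h5 : (⟨u, huC⟩ : C) ∈ zpowers (⟨u, huC⟩ : C) ⊓ (U : Subgroup C) := h3.le h4
    exact ⟨_, (Subgroup.mem_inf.mp h5).2, rfl⟩
  refine ⟨u, ?_, huC, ?_⟩
  · -- `u` normalizes `C`
    have h1 : u * t * u⁻¹ ∈ S0 := (Subgroup.mem_normalizer_iff.mp hu t).mp htS0
    have h2 : u * t * u⁻¹ ∈ C ⊓ N := Subgroup.mem_inf.mpr ⟨hS0C h1, hNn.conj_mem t htN u⟩
    have h3 : u * t * u⁻¹ ∉ center G := by
      intro h
      apply htZ
      have : (center G).Normal := inferInstance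
      have h4 := this.conj_mem _ h u⁻¹
      have h5 : u⁻¹ * (u * t * u⁻¹) * u⁻¹⁻¹ = t := by group
      rwa [h5] at h4
    have h4 := K.eqC _ h2 h3
    have h5 := K.eqC _ ht htZ
    rw [Subgroup.mem_normalizer_iff]
    intro c
    have h6 : c ∈ C ↔ c * t = t * c := by
      rw [← h5, mem_cent]
    have h7 : u * c * u⁻¹ ∈ C ↔ (u * c * u⁻¹) * (u * t * u⁻¹) = (u * t * u⁻¹) * (u * c * u⁻¹) := by
      conv_lhs => rw [← h4]
      rw [mem_cent]
    have h8 : (u * c * u⁻¹) * (u * t * u⁻¹) = u * (c * t) * u⁻¹ := by group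
    have h9 : (u * t * u⁻¹) * (u * c * u⁻¹) = u * (t * c) * u⁻¹ := by group
    rw [h6, h7, h8, h9]
    constructor
    · intro h
      rw [h]
    · intro h
      exact mul_left_cancel (mul_right_cancel h)
  · obtain ⟨l, hl⟩ := (IsPGroup.iff_orderOf.mp S.2) ⟨u, huS⟩
    rw [Subgroup.orderOf_mk] at hl
    exact ⟨l, hl⟩

theorem Conf.final {C : Subgroup G} (K : Conf N m C) {q r : ℕ} [hq : Fact q.Prime]
    [hr : Fact r.Prime] (hqr : q ≠ r) (hqC : q ∣ C.index) (hrC : r ∣ C.index) {x y : G}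
    (hx : x ∈ C ⊓ N) (hy : y ∈ C ⊓ N) (hxZ : x ∉ center G) (hyZ : y ∉ center G)
    {k l : ℕ} (hxk : orderOf x = q ^ k) (hyl : orderOf y = r ^ l) : False := by
  have hNn := K.hyp.nrm
  obtain ⟨u, huN, huC, k1, hu⟩ := K.exists_elt hqC hx hxZ hxk
  obtain ⟨v, hvN, hvC, l1, hv⟩ := K.exists_elt hrC hy hyZ hyl
  have hcomm : ∀ a b : (C ⊓ N : Subgroup G), a * b = b * a := by
    intro a b
    apply Subtype.ext
    exact (Subgroup.mem_centralizer_iff.mp (K.cen a.2) b (Subgroup.mem_inf.mp b.2).1).symm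
  let _ : CommGroup (C ⊓ N : Subgroup G) :=
    { (inferInstance : Group (C ⊓ N : Subgroup G)) with mul_comm := hcomm }
  have hle : normalizer (C : Set G) ≤ normalizer ((C ⊓ N : Subgroup G) : Set G) := by
    intro g hg
    rw [Subgroup.mem_normalizer_iff] at hg ⊢
    intro c
    rw [Subgroup.mem_inf, Subgroup.mem_inf, hg c]
    have : c ∈ N ↔ g * c * g⁻¹ ∈ N := by
      constructor
      · intro h; exact hNn.conj_mem c h g
      · intro h
        have h1 := hNn.conj_mem _ h g⁻¹
        have h2 : g⁻¹ * (g * c * g⁻¹) * g⁻¹⁻¹ = c := by group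
        rwa [h2] at h1
    rw [this]
  let φ : normalizer (C : Set G) →* MulAut (C ⊓ N : Subgroup G) :=
    (C ⊓ N : Subgroup G).normalizerMonoidHom.comp (Subgroup.inclusion hle)
  have hφ : ∀ (h : normalizer (C : Set G)) (t : (C ⊓ N : Subgroup G)),
      ((φ h t : (C ⊓ N : Subgroup G)) : G) = (h : G) * t * (h : G)⁻¹ := by
    intro h t
    rfl
  let W := φ.range
  have A : SemiReg.Act W (C ⊓ N : Subgroup G) ((center G).subgroupOf (C ⊓ N)) := by
    constructor
    · rintro ⟨_, ⟨h, rfl⟩⟩ z hz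
      rw [Subgroup.mem_subgroupOf] at hz
      apply Subtype.ext
      have h1 : (((⟨φ h, ⟨h, rfl⟩⟩ : W) • z : (C ⊓ N : Subgroup G)) : G) = (h : G) * z * (h : G)⁻¹ := rfl
      rw [h1, Subgroup.mem_center_iff.mp hz h]
      group
    · rintro ⟨_, ⟨h, rfl⟩⟩ hne t ht
      by_contra htZ
      rw [Subgroup.mem_subgroupOf] at htZ
      apply hne
      have h1 : (h : G) * t * (h : G)⁻¹ = t := congrArg Subtype.val ht
      have h2 : (h : G) ∈ C := by
        have h2' : (h : G) ∈ centralizer ({(t : G)} : Set G) := by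
          rw [mem_cent]
          exact mul_inv_eq_iff_eq_mul.mp h1
        exact (K.eqC t t.2 htZ).le h2'
      apply Subtype.ext
      apply MulEquiv.ext
      intro s
      apply Subtype.ext
      have h3 : ((φ h s : (C ⊓ N : Subgroup G)) : G) = s := by
        rw [hφ]
        have := Subgroup.mem_centralizer_iff.mp (K.cen s.2) h h2
        rw [this]
        group
      exact h3
  have key : ∀ (p : ℕ) (hp : p.Prime) (w z : G) (hw : w ∈ normalizer (C : Set G)) (hwC : w ∉ C)
      (j : ℕ) (hwj : orderOf w = p ^ j) (hz : z ∈ C ⊓ N) (hzZ : z ∉ center G), p ∣ Nat.card W := by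
    intro p hp w z hw hwC j hwj hz hzZ
    have h1 : (⟨φ ⟨w, hw⟩, ⟨⟨w, hw⟩, rfl⟩⟩ : W) ≠ 1 := by
      intro h
      apply hwC
      have h2 : φ ⟨w, hw⟩ = 1 := congrArg Subtype.val h
      have h3 := hφ ⟨w, hw⟩ ⟨z, hz⟩
      rw [h2] at h3
      have h4 : z = w * z * w⁻¹ := h3
      rw [← K.eqC z hz hzZ, mem_cent]
      exact mul_inv_eq_iff_eq_mul.mp h4.symm
    have h2 : (⟨φ ⟨w, hw⟩, ⟨⟨w, hw⟩, rfl⟩⟩ : W) ^ p ^ j = 1 := by
      apply Subtype.ext
      change (φ ⟨w, hw⟩) ^ p ^ j = 1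
      rw [← map_pow]
      have : (⟨w, hw⟩ : normalizer (C : Set G)) ^ p ^ j = 1 := by
        apply Subtype.ext
        change w ^ p ^ j = 1
        rw [← hwj, pow_orderOf_eq_one]
      rw [this, map_one]
    have h3 := orderOf_dvd_of_pow_eq_one h2
    obtain ⟨i, hi, hi2⟩ := (Nat.dvd_prime_pow hp).mp h3
    have h4 : i ≠ 0 := by
      rintro rfl
      rw [pow_zero, orderOf_eq_one_iff] at hi2
      exact h1 hi2
    have h5 := orderOf_dvd_natCard (⟨φ ⟨w, hw⟩, ⟨⟨w, hw⟩, rfl⟩⟩ : W)
    rw [hi2] at h5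
    exact (dvd_pow_self p h4).trans h5
  refine SemiReg.main A hq.out hr.out hqr (t := ⟨x, hx⟩) (k := k) (u := ⟨y, hy⟩) (l := l) ?_ ?_ ?_ ?_
    (key q hq.out u x huN huC k1 hu hx hxZ) (key r hr.out v y hvN hvC l1 hv hy hyZ)
  · apply Subtype.ext
    change x ^ q ^ k = 1
    rw [← hxk, pow_orderOf_eq_one]
  · rw [Subgroup.mem_subgroupOf]
    exact hxZ
  · apply Subtype.ext
    change y ^ r ^ l = 1
    rw [← hyl, pow_orderOf_eq_one]
  · rw [Subgroup.mem_subgroupOf]
    exact hyZ

theorem main (H : Hyp N m) {r : ℕ} [hr : Fact r.Prime] (R : Sylow r G)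
    (hR : ¬ (R : Subgroup G) ≤ center G) (hRN : (R : Subgroup G) ≤ N) : Group.IsNilpotent N := by
  by_contra hnil
  have hab : ¬ ∀ a ∈ N, ∀ b ∈ N, a * b = b * a := by
    intro hc
    apply hnil
    let _ : CommGroup N :=
      { (inferInstance : Group N) with mul_comm := fun a b => Subtype.ext (hc a a.2 b b.2) }
    exact CommGroup.isNilpotent (G := N)
  have hdiv : ∀ q : ℕ, q.Prime → ∀ x ∈ N, x ∉ center G → ∀ k, orderOf x = q ^ k → q ∣ m := by
    intro q hq x hx hxZ k hk
    by_contra h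
    exact hab (H.comm_of_not_dvd hq h hx hxZ hk)
  by_cases hall : ∃ q : ℕ, q.Prime ∧ q ≠ r ∧ ∃ x ∈ N, x ∉ center G ∧ ∃ k, orderOf x = q ^ k
  · obtain ⟨q, hq, hqr, x, hx, hxZ, k, hk⟩ := hall
    obtain ⟨y, hy, hyZ, hxy, l, hl⟩ := H.exists_r R hR hRN hx hxZ
    obtain ⟨K, hK⟩ := H.conf hq hr.out hqr hx hy hxZ hyZ hxy hk hl
    have hqf : Fact q.Prime := ⟨hq⟩
    have hidx : (centralizer ({x} : Set G)).index = m := H.cs_m hx hxZ
    refine K.final hqr (by rw [hidx]; exact hdiv q hq x hx hxZ k hk)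
      (by rw [hidx]; exact hdiv r hr.out y hy hyZ l hl) (x := x) (y := y)
      (Subgroup.mem_inf.mpr ⟨by rw [mem_cent], hx⟩)
      (Subgroup.mem_inf.mpr ⟨by rw [mem_cent]; exact hxy.symm, hy⟩) hxZ hyZ hk hl
  · push Not at hall
    apply hnil
    have h1 : IsPGroup r (N ⧸ center N) := by
      intro g
      obtain ⟨a, rfl⟩ := QuotientGroup.mk_surjective g
      obtain ⟨e, n', hn', hn⟩ := Nat.exists_eq_pow_mul_and_not_dvd
        (orderOf_pos (a : G)).ne' r hr.out.ne_one
      refine ⟨e, ?_⟩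
      rw [← QuotientGroup.mk_pow, QuotientGroup.eq_one_iff]
      have h2 : (a : G) ^ r ^ e ∈ center G := by
        by_contra hcon
        obtain ⟨j, s, l, hs, hsl, hcon2⟩ := exists_primary_pow hcon
        have h3 : s = r := by
          by_contra hsr
          exact hall s hs hsr _ (pow_mem (pow_mem a.2 _) j) hcon2 l hsl
        have h4 : (((a : G) ^ r ^ e) ^ j) ^ n' = 1 := by
          rw [← pow_mul, ← pow_mul, mul_comm j n', ← mul_assoc, ← hn, pow_mul, pow_orderOf_eq_one,
            one_pow]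
        have h5 := orderOf_dvd_of_pow_eq_one h4
        rw [hsl, h3] at h5
        have h6 : l = 0 := by
          by_contra hl
          exact hn' ((dvd_pow_self r hl).trans h5)
        rw [h6, pow_zero, orderOf_eq_one_iff] at hsl
        rw [hsl] at hcon2
        exact hcon2 (one_mem _)
      rw [Subgroup.mem_center_iff] at h2 ⊢
      intro g
      exact Subtype.ext (h2 g)
    have h2 : Group.IsNilpotent (N ⧸ center N) := h1.isNilpotent
    exact Group.of_quotient_center_nilpotent h2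

end H72.TwoIdx
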