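import Mathlib

/-!
For `m ≥ 17` there are primes `p < q` with `m < 2p`, `p + 3 ≤ q ≤ m` (Erdős' proof of Bertrand's
postulate with a little slack).
-/

set_option autoImplicit false

namespace H72.TwoPrimes

section Real
open Real

theorem real_inequality {x : ℝ} (x_large : (2048 : ℝ) ≤ x) :
    x * (2 * x) ^ 3 * (2 * x) ^ √(2 * x) * 4 ^ (2 * x / 3) ≤ 4 ^ x := by
  let f : ℝ → ℝ := fun x => 4 * log x + √(2 * x) * log (2 * x) - (log 4 / 3 * x - 3 * log 2)
  have hf' : ∀ x, 0 < x → 0 < x * (2 * x) ^ 3 * (2 * x) ^ √(2 * x) / 4 ^ (x / 3) := fun x h =>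
    div_pos (mul_pos (by positivity) (rpow_pos_of_pos (mul_pos two_pos h) _)) (rpow_pos_of_pos four_pos _)
  have hf : ∀ x, 0 < x → f x = log (x * (2 * x) ^ 3 * (2 * x) ^ √(2 * x) / 4 ^ (x / 3)) := by
    intro x h5
    have h6 := mul_pos (zero_lt_two' ℝ) h5
    have h7 := rpow_pos_of_pos h6 (√(2 * x))
    have h8 : 0 < x * (2 * x) ^ 3 := by positivity
    rw [log_div (mul_pos h8 h7).ne' (rpow_pos_of_pos four_pos _).ne', log_mul h8.ne' h7.ne',
      log_rpow h6, log_rpow zero_lt_four, log_mul h5.ne' (by positivity), log_pow,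
      log_mul two_ne_zero h5.ne']
    show 4 * log x + √(2 * x) * log (2 * x) - (log 4 / 3 * x - 3 * log 2) = _
    rw [log_mul two_ne_zero h5.ne']
    push_cast
    ring
  have h5 : 0 < x := lt_of_lt_of_le (by norm_num1) x_large
  have h4pos : (0 : ℝ) < 4 ^ x := rpow_pos_of_pos four_pos x
  have hkey : f x ≤ 0 := by
    have h : ConcaveOn ℝ (Set.Ioi 0.5) f := by
      apply ConcaveOn.sub
      · apply ConcaveOn.add
        · have h1 : ConcaveOn ℝ (Set.Ioi 0.5) (fun x : ℝ => log x) :=
            strictConcaveOn_log_Ioi.concaveOn.subset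
              (Set.Ioi_subset_Ioi (by norm_num)) (convex_Ioi 0.5)
          exact h1.smul (by norm_num : (0 : ℝ) ≤ 4)
        convert!
          ((strictConcaveOn_sqrt_mul_log_Ioi.concaveOn.comp_linearMap ((2 : ℝ) • LinearMap.id)))
          using 1
        ext x
        simp only [Set.mem_Ioi, Set.mem_preimage, LinearMap.smul_apply,
          LinearMap.id_coe, id_eq, smul_eq_mul]
        rw [← mul_lt_mul_iff_right₀ (two_pos)]
        norm_num1
        rfl
      apply ConvexOn.sub
      · apply ConvexOn.smul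
        · refine div_nonneg (log_nonneg (by norm_num1)) (by norm_num1)
        · exact convexOn_id (convex_Ioi (0.5 : ℝ))
      · exact concaveOn_const _ (convex_Ioi (0.5 : ℝ))
    suffices ∃ x1 x2, 0.5 < x1 ∧ x1 < x2 ∧ x2 ≤ x ∧ 0 ≤ f x1 ∧ f x2 ≤ 0 by
      obtain ⟨x1, x2, h1, h2, h0, h3, h4⟩ := this
      exact (h.right_le_of_le_left'' h1 ((h1.trans h2).trans_le h0) h2 h0 (h4.trans h3)).trans h4
    refine ⟨18, 2048, by norm_num1, by norm_num1, x_large, ?_, ?_⟩
    · have : √(2 * 18 : ℝ) = 6 := (sqrt_eq_iff_mul_self_eq_of_pos (by norm_num1)).mpr (by norm_num1)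
      rw [hf _ (by norm_num1), log_nonneg_iff (by positivity), this, one_le_div (by positivity)]
      norm_num1
    · have : √(2 * 2048) = 64 :=
        (sqrt_eq_iff_mul_self_eq_of_pos (by norm_num1)).mpr (by norm_num1)
      rw [hf _ (by norm_num1), log_nonpos_iff (hf' _ (by norm_num1)).le, this,
          div_le_one (by positivity)]
      have e1 : (2048 : ℝ) = 2 ^ 11 := by norm_num1
      have e2 : (2 * 2 ^ 11 : ℝ) = 2 ^ 12 := by norm_num1
      rw [e1, e2]
      have e3 : ((2 : ℝ) ^ 12) ^ (64 : ℝ) = 2 ^ 768 := by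
        rw [show (64 : ℝ) = ((64 : ℕ) : ℝ) by norm_num, rpow_natCast, ← pow_mul]
      rw [e3]
      have e4 : (2 : ℝ) ^ 11 * (2 ^ 12) ^ 3 * 2 ^ 768 = 2 ^ 815 := by
        rw [← pow_mul, ← pow_add, ← pow_add]
      rw [e4]
      have e5 : (4 : ℝ) ^ ((2 : ℝ) ^ 11 / 3) = 2 ^ ((2 : ℝ) * (2 ^ 11 / 3)) := by
        rw [rpow_mul (by norm_num)]
        norm_num
      rw [e5, ← rpow_natCast]
      apply rpow_le_rpow_of_exponent_le
      all_goals norm_num
  rw [hf x h5, log_nonpos_iff (hf' x h5).le, div_le_one (by positivity)] at hkey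
  calc x * (2 * x) ^ 3 * (2 * x) ^ √(2 * x) * 4 ^ (2 * x / 3) ≤ 4 ^ (x / 3) * 4 ^ (2 * x / 3) := by
        gcongr
    _ = 4 ^ x := by
        rw [← rpow_add four_pos]
        congr 1
        ring

end Real

section Nat
open Nat

theorem nat_inequality {n : ℕ} (n_large : 2048 ≤ n) :
    n * (2 * n) ^ 3 * (2 * n) ^ sqrt (2 * n) * 4 ^ (2 * n / 3) ≤ 4 ^ n := by
  rw [← @cast_le ℝ]
  have h := real_inequality (x := (n : ℝ)) (by exact_mod_cast n_large)
  refine _root_.trans ?_ (h.trans (by rw [Real.rpow_natCast]; push_cast; exact le_rfl))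
  push_cast
  have h0 : 1 ≤ (2 * n : ℝ) := by
    have : 1 ≤ 2 * n := by omega
    exact_mod_cast this
  have h1 : ((2 * n : ℝ)) ^ sqrt (2 * n) ≤ (2 * n : ℝ) ^ √(2 * n : ℝ) := by
    rw [← Real.rpow_natCast]
    apply Real.rpow_le_rpow_of_exponent_le h0
    have := Real.nat_sqrt_le_real_sqrt (a := 2 * n)
    push_cast at this
    exact this
  have h2 : (4 : ℝ) ^ (2 * n / 3) ≤ (4 : ℝ) ^ (2 * n / 3 : ℝ) := by
    rw [← Real.rpow_natCast]
    apply Real.rpow_le_rpow_of_exponent_le (by norm_num)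
    have := Nat.cast_div_le (α := ℝ) (m := 2 * n) (n := 3)
    push_cast at this
    exact this
  gcongr

/-- If all primes in `(n, 2n]` are within a window of length 3 the central binomial is small. -/
theorem centralBinom_le (n : ℕ) (n_large : 2 < n) (p0 : ℕ)
    (hwin : ∀ p : ℕ, p.Prime → n < p → p ≤ 2 * n → p0 ≤ p ∧ p < p0 + 3) :
    centralBinom n ≤ (2 * n) ^ 3 * ((2 * n) ^ sqrt (2 * n) * 4 ^ (2 * n / 3)) := by
  have n_pos : 0 < n := (Nat.zero_le _).trans_lt n_large
  have n2_pos : 1 ≤ 2 * n := mul_pos (zero_lt_two' ℕ) n_pos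
  let f x := x ^ n.centralBinom.factorization x
  have hfle : ∀ p, f p ≤ 2 * n := fun p => pow_factorization_choose_le (mul_pos two_pos n_pos)
  have hf1 : ∀ p, ¬ p.Prime → f p = 1 := by
    intro p hp
    show p ^ n.centralBinom.factorization p = 1
    rw [factorization_eq_zero_of_not_prime _ hp, _root_.pow_zero]
  -- the product over all
  have hprod : centralBinom n = ∏ p ∈ Finset.range (2 * n + 1), f p :=
    n.prod_pow_factorization_centralBinom.symm
  have hsub : ∏ p ∈ Finset.range (2 * n / 3 + 1) ∪ Finset.Ico p0 (p0 + 3), f p =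
      ∏ p ∈ (Finset.range (2 * n / 3 + 1) ∪ Finset.Ico p0 (p0 + 3)) ∪ Finset.range (2 * n + 1), f p := by
    apply Finset.prod_subset Finset.subset_union_left
    intro p _ hp2
    by_cases hp : p.Prime
    · rw [Finset.mem_union, not_or, Finset.mem_range, Finset.mem_Ico] at hp2
      obtain ⟨h1, h2⟩ := hp2
      have h3 : 2 * n < 3 * p := by
        have : 2 * n / 3 < p := by omega
        rw [Nat.div_lt_iff_lt_mul three_pos] at this
        omega
      show p ^ n.centralBinom.factorization p = 1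
      by_cases hpn : p ≤ n
      · rw [factorization_centralBinom_of_two_mul_self_lt_three_mul n_large hpn h3, Nat.pow_zero]
      · push Not at hpn
        by_cases hp2n : p ≤ 2 * n
        · exact absurd (hwin p hp hpn hp2n) h2
        · push Not at hp2n
          have : n.centralBinom.factorization p = 0 := by
            rw [centralBinom_eq_two_mul_choose]
            exact Nat.factorization_choose_eq_zero_of_lt hp2n
          rw [this, Nat.pow_zero]
    · exact hf1 p hp
  have hle : centralBinom n ≤ ∏ p ∈ Finset.range (2 * n / 3 + 1) ∪ Finset.Ico p0 (p0 + 3), f p := by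
    rw [hprod, hsub]
    apply Finset.prod_le_prod_of_subset_of_one_le' Finset.subset_union_right
    intro p _ _
    by_cases hp : p.Prime
    · exact Nat.one_le_pow _ _ hp.pos
    · rw [hf1 p hp]
  refine hle.trans ?_
  have hfpos : ∀ p, 1 ≤ f p := by
    intro p
    by_cases hp : p.Prime
    · exact Nat.one_le_pow _ _ hp.pos
    · rw [hf1 p hp]
  have hun : ∏ p ∈ Finset.range (2 * n / 3 + 1) ∪ Finset.Ico p0 (p0 + 3), f p ≤
      (∏ p ∈ Finset.range (2 * n / 3 + 1), f p) * ∏ p ∈ Finset.Ico p0 (p0 + 3), f p := by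
    have h1 := Finset.prod_union_inter (s₁ := Finset.range (2 * n / 3 + 1))
      (s₂ := Finset.Ico p0 (p0 + 3)) (f := f)
    rw [← h1]
    apply Nat.le_mul_of_pos_right
    exact Finset.prod_pos fun p _ => hfpos p
  refine hun.trans ?_
  rw [mul_comm]
  apply mul_le_mul'
  · refine (Finset.prod_le_prod' fun p _ => hfle p).trans ?_
    rw [Finset.prod_const, Nat.card_Ico]
    apply le_of_eq
    congr 1
    omega
  · let S := {p ∈ Finset.range (2 * n / 3 + 1) | Nat.Prime p}
    have : ∏ x ∈ S, f x = ∏ x ∈ Finset.range (2 * n / 3 + 1), f x := by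
      refine Finset.prod_filter_of_ne fun p _ h => ?_
      contrapose h
      exact hf1 p h
    rw [← this, ← Finset.prod_filter_mul_prod_filter_not S (· ≤ sqrt (2 * n))]
    apply mul_le_mul'
    · refine (Finset.prod_le_prod' fun p _ => (?_ : f p ≤ 2 * n)).trans ?_
      · exact pow_factorization_choose_le (mul_pos two_pos n_pos)
      have : (Finset.Icc 1 (sqrt (2 * n))).card = sqrt (2 * n) := by rw [card_Icc, Nat.add_sub_cancel]
      rw [Finset.prod_const]
      refine pow_right_mono₀ n2_pos ((Finset.card_le_card fun x hx => ?_).trans this.le)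
      obtain ⟨h1, h2⟩ := Finset.mem_filter.1 hx
      exact Finset.mem_Icc.mpr ⟨(Finset.mem_filter.1 h1).2.one_lt.le, h2⟩
    · refine le_trans ?_ (primorial_le_four_pow (2 * n / 3))
      refine (Finset.prod_le_prod' fun p hp => (?_ : f p ≤ p)).trans ?_
      · obtain ⟨h1, h2⟩ := Finset.mem_filter.1 hp
        refine (pow_right_mono₀ (Finset.mem_filter.1 h1).2.one_lt.le ?_).trans (pow_one p).le
        exact Nat.factorization_choose_le_one (sqrt_lt'.mp <| not_le.1 h2)
      refine Finset.prod_le_prod_of_subset_of_one_le' (Finset.filter_subset _ _) ?_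
      exact fun p hp _ => (Finset.mem_filter.1 hp).2.one_lt.le

/-- large case -/
theorem exists_two_primes_large (n : ℕ) (hn : 2048 ≤ n) :
    ∃ p q : ℕ, p.Prime ∧ q.Prime ∧ n < p ∧ p + 3 ≤ q ∧ q ≤ 2 * n := by
  by_contra hcon
  push Not at hcon
  obtain ⟨p0, hp0, hp1, hp2⟩ : ∃ p0 : ℕ, p0.Prime ∧ n < p0 ∧ p0 ≤ 2 * n ∧
      True := by
    obtain ⟨p, h1, h2, h3⟩ := Nat.exists_prime_lt_and_le_two_mul n (by omega)
    exact ⟨p, h1, h2, h3, trivial⟩
  -- least such prime
  have hex : ∃ p0 : ℕ, p0.Prime ∧ n < p0 ∧ p0 ≤ 2 * n := ⟨p0, hp0, hp1, hp2.1⟩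
  classical
  obtain ⟨h1, h2, h3⟩ := Nat.find_spec hex
  have hwin : ∀ p : ℕ, p.Prime → n < p → p ≤ 2 * n → Nat.find hex ≤ p ∧ p < Nat.find hex + 3 := by
    intro p hp hnp hp2n
    refine ⟨Nat.find_min' hex ⟨hp, hnp, hp2n⟩, ?_⟩
    by_contra h
    push Not at h
    have := hcon (Nat.find hex) p h1 hp h2 h
    omega
  have h4 := centralBinom_le n (by omega) _ hwin
  have h5 : 4 ^ n < n * n.centralBinom := Nat.four_pow_lt_mul_centralBinom n (by omega)
  have h6 := nat_inequality hn
  have h7 : n * n.centralBinom ≤ n * (2 * n) ^ 3 * (2 * n) ^ sqrt (2 * n) * 4 ^ (2 * n / 3) := by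
    calc n * n.centralBinom ≤ n * ((2 * n) ^ 3 * ((2 * n) ^ sqrt (2 * n) * 4 ^ (2 * n / 3))) :=
          Nat.mul_le_mul_left n h4
      _ = n * (2 * n) ^ 3 * (2 * n) ^ sqrt (2 * n) * 4 ^ (2 * n / 3) := by ring
  omega

/-- For `m ≥ 17` there are primes `p < q` with `m < 2p`, `p + 3 ≤ q ≤ m`. -/
theorem exists_two_primes (m : ℕ) (hm : 17 ≤ m) :
    ∃ p q : ℕ, p.Prime ∧ q.Prime ∧ m < 2 * p ∧ p + 3 ≤ q ∧ q ≤ m := by
  by_cases h : 4096 ≤ m
  · obtain ⟨p, q, hp, hq, h1, h2, h3⟩ := exists_two_primes_large (m / 2) (by omega)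
    exact ⟨p, q, hp, hq, by omega, h2, by omega⟩
  · push Not at h
    by_cases h1 : m < 26
    · exact ⟨13, 17, by norm_num, by norm_num, by omega, by omega, by omega⟩
    by_cases h2 : m < 38
    · exact ⟨19, 23, by norm_num, by norm_num, by omega, by omega, by omega⟩
    by_cases h3 : m < 62
    · exact ⟨31, 37, by norm_num, by norm_num, by omega, by omega, by omega⟩
    by_cases h4 : m < 106
    · exact ⟨53, 61, by norm_num, by norm_num, by omega, by omega, by omega⟩
    by_cases h5 : m < 194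
    · exact ⟨97, 103, by norm_num, by norm_num, by omega, by omega, by omega⟩
    by_cases h6 : m < 362
    · exact ⟨181, 193, by norm_num, by norm_num, by omega, by omega, by omega⟩
    by_cases h7 : m < 706
    · exact ⟨353, 359, by norm_num, by norm_num, by omega, by omega, by omega⟩
    by_cases h8 : m < 1382
    · exact ⟨691, 701, by norm_num, by norm_num, by omega, by omega, by omega⟩
    by_cases h9 : m < 2746
    · exact ⟨1373, 1381, by norm_num, by norm_num, by omega, by omega, by omega⟩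
    · exact ⟨2731, 2741, by norm_num, by norm_num, by omega, by omega, by omega⟩

end Nat

end H72.TwoPrimes
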